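import Mathlib
import Cfsg.Agent.Lib.Helper59.GenMULT

/-!
# Generic "multiplicity-free block" element, isometry-group form

`core`: as `GenMULT.gen`, but returns the isometry `x` with `x ^ r = 1`, `x ≠ 1` (no statement
about `Omega`, no hypothesis on squares).
-/

set_option autoImplicit false

namespace Cfsg.Agent.Lib.Helper59.GenMULT2

open Polynomial UniqueFactorizationMonoid Matrix QuadraticMap
open Cfsg.Agent.Lib.Helper40.RecipPoly Cfsg.Agent.Lib.Helper44.OCls2 Cfsg.Agent.Lib.Helper44.OCls3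
open Cfsg.Agent.Lib.Helper37.HypCyc Cfsg.Agent.Lib.Helper44.QSpace
open Cfsg.Agent.Lib.Helper59.TSMULTELT Cfsg.Agent.Lib.Helper59.GenMULT

universe u

theorem core (F : Type u) [Field F] [Fintype F] (p : ℕ) [Fact p.Prime] [CharP F p]
    {κ : Type} [Fintype κ] [DecidableEq κ] (Qf : QuadraticForm F (κ → F)) (hSQ : Sep Qf)
    (r : ℕ) [Fact r.Prime] (hr2 : r ≠ 2) (hrp : r ≠ p)
    (hev : Even (orderOf ((Fintype.card F : ℕ) : ZMod r)))
    (u : ℕ) (hu1 : 1 ≤ u) (hut : u ≤ (r - 1) / orderOf ((Fintype.card F : ℕ) : ZMod r))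
    (hlt : orderOf ((Fintype.card F : ℕ) : ZMod r) * u < Fintype.card κ) :
    ∃ x : Matrix.GeneralLinearGroup κ F, x ∈ Cfsg.isometryGroup F ⇑Qf ∧ x ^ r = 1 ∧ x ≠ 1 ∧
      Module.finrank F ↥(LinearMap.ker (Matrix.toLin' (x : Matrix κ κ F) - LinearMap.id)) =
        Fintype.card κ - orderOf ((Fintype.card F : ℕ) : ZMod r) * u ∧
      ∀ R : Submodule F (κ → F), R.map (Matrix.toLin' (x : Matrix κ κ F)) ≤ R →
        R ⊓ LinearMap.ker (Matrix.toLin' (x : Matrix κ κ F) - LinearMap.id) = ⊥ →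
        (∀ w ∈ R, Qf w = 0) → R = ⊥ := by
  classical
  have hr : r.Prime := Fact.out
  have hp : p.Prime := Fact.out
  have hrodd : Odd r := hr.odd_of_ne_two hr2
  obtain ⟨i, hi⟩ : ∃ i, i = orderOf ((Fintype.card F : ℕ) : ZMod r) := ⟨_, rfl⟩
  rw [← hi] at hev hut hlt ⊢
  obtain ⟨hipos, hidvd⟩ := Cfsg.Agent.Lib.Helper59.HypDERELT.order_facts F p r hr hrp
  rw [← hi] at hipos hidvd
  obtain ⟨t, ht'⟩ := hidvd
  have ht : t * i = r - 1 := by rw [ht', mul_comm]
  have hut' : u ≤ t := by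
    have h3 : (r - 1) / i = t := by
      rw [← ht]
      exact Nat.mul_div_cancel t hipos
    rwa [h3] at hut
  have hr0 : (r : F) ≠ 0 := by
    rw [Ne, CharP.cast_eq_zero_iff F p]
    intro h
    exact hrp ((Nat.prime_dvd_prime_iff_eq hp hr).mp h).symm
  obtain ⟨S0, hS0card, hLS0, hS0p, hS0dvd⟩ :=
    Cfsg.Agent.S2568.cyclo_facts (F := F) (p := p) r i t hr hrp hi ht
  obtain ⟨T, hTS, hTcard⟩ := Finset.exists_subset_card_eq (hS0card.symm ▸ hut' : u ≤ S0.card)
  have hXr0 : (X ^ r - C (1 : F)).coeff 0 ≠ 0 := by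
    rw [coeff_sub, coeff_X_pow, coeff_C_zero, if_neg hr.ne_zero.symm, zero_sub]
    exact neg_ne_zero.mpr one_ne_zero
  have hTprop : ∀ P ∈ T.val, P ∈ S0 := fun P hP => hTS (Finset.mem_val.mp hP)
  have hPdvd : ∀ P ∈ S0, P ∣ X ^ r - C (1 : F) := fun P hP =>
    (hS0dvd P (hS0p P hP).1 (hS0p P hP).2.1).mpr (Or.inr hP)
  have hS' : ∀ P ∈ S0, Irreducible P ∧ P.Monic ∧ P.natDegree = i ∧ P.coeff 0 ≠ 0 := by
    intro P hP
    obtain ⟨h1, h2, h3⟩ := hS0p P hP
    exact ⟨h1, h2, h3, coeff0_of_dvd (hPdvd P hP) hXr0⟩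
  have hPne : ∀ P ∈ S0, P ≠ X - C 1 := fun P hP h => hLS0 (h ▸ hP)
  have hPstar : ∀ P ∈ S0, rstar (RingHom.id F) P = P := fun P hP =>
    Cfsg.Agent.Lib.Helper5.SPSELFREC.main F p r hr hrp P (hS0p P hP).1 (hS0p P hP).2.1
      (hPdvd P hP) (hPne P hP) ((hS0p P hP).2.2 ▸ hev)
  obtain ⟨c, hc⟩ : ∃ c : F[X], c = T.val.prod := ⟨_, rfl⟩
  obtain ⟨hcm, hcdeg, hc0, hcL⟩ := prod_facts S0 i hS' hLS0 T.val hTprop
  rw [← hc] at hcm hcdeg hc0 hcL
  have hcdeg' : c.natDegree = i * u := by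
    rw [hcdeg, ← Finset.card_def, hTcard]
  have hreal : Real r c := by
    rw [hc]
    have key : ∀ v : Multiset F[X], (∀ P ∈ v, P ∈ S0) → Real r v.prod := by
      intro v
      induction v using Multiset.induction_on with
      | empty =>
        intro _
        rw [Multiset.prod_zero]
        exact real_one r
      | cons P v ih =>
        intro hv
        rw [Multiset.prod_cons]
        have hPS := hv P (Multiset.mem_cons_self P v)
        exact real_mul (real_irr p r hr hr2 hr0 P (hS0p P hPS).1 (hS0p P hPS).2.1 (hPne P hPS)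
          (hPdvd P hPS) (hPstar P hPS)) (ih (fun P' hP' => hv P' (Multiset.mem_cons_of_mem hP')))
    exact key T.val hTprop
  obtain ⟨ι, _, _, s, N, hsc, hsr, hsN, hNdet⟩ := hreal
  have hcard : Fintype.card ι = i * u := by
    have h1 := Matrix.charpoly_natDegree_eq_dim s
    rw [hsc, hcdeg'] at h1
    exact h1.symm
  have hSN : Sep (Cfsg.Agent.Lib.Helper44.OExt.qN N) :=
    Cfsg.Agent.Lib.Helper44.OExt.sep_qN hNdet
  obtain ⟨k, hk⟩ : Even (i * u) := hev.mul_right u
  obtain ⟨j, hj⟩ := Cfsg.Agent.Lib.Helper44.OEmb.exists_embedding (F := F) k (ι → F)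
    (Cfsg.Agent.Lib.Helper44.OExt.qN N) (κ → F) Qf
    (by rw [Module.finrank_fintype_fun_eq_card, hcard]; omega)
    (by rw [Module.finrank_fintype_fun_eq_card, Module.finrank_fintype_fun_eq_card, hcard];
        exact hlt) hSN hSQ
  obtain ⟨g, hgiso, hgcp, hgr⟩ := Cfsg.Agent.Lib.Helper44.OExt.exists_ext
    (Qf) N s hNdet hsN r hr.pos hsr j hj
    (by rw [hcard]; omega)
  have hgrM : (g : Matrix κ κ F) ^ r = 1 := by
    rw [← Units.val_pow_eq_pow_val, hgr]
    rfl
  have hLp : Prime (X - C (1 : F)) := (irreducible_X_sub_C 1).prime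
  have hcne : c ≠ 0 := hcm.ne_zero
  have hgcp' : (g : Matrix κ κ F).charpoly = (X - C 1) ^ (Fintype.card κ - i * u) * c := by
    rw [hgcp, hsc, hcard]
  have hfix : Module.finrank F ↥(LinearMap.ker (Matrix.toLin' (g : Matrix κ κ F) - LinearMap.id)) = Fintype.card κ - i * u := by
    rw [finrank_fix _ r hr0 hgrM, hgcp']
    have hne : (X - C (1 : F)) ^ (Fintype.card κ - i * u) * c ≠ 0 :=
      mul_ne_zero (pow_ne_zero _ (X_sub_C_ne_zero 1)) hcne
    rw [rootMultiplicity_mul hne, rootMultiplicity_X_sub_C_pow]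
    have h3 : rootMultiplicity 1 c = 0 := by
      apply rootMultiplicity_eq_zero
      intro hroot
      exact hcL (dvd_iff_isRoot.mpr hroot)
    rw [h3, add_zero]
  have hiu1 : 1 ≤ i * u := Nat.mul_pos hipos hu1
  have hg1 : g ≠ 1 := by
    intro h
    rw [h] at hfix
    have h3 : LinearMap.ker (Matrix.toLin'
        ((1 : Matrix.GeneralLinearGroup κ F) : Matrix κ κ F) - LinearMap.id) = ⊤ := by
      rw [eq_top_iff]
      intro v _
      rw [LinearMap.mem_ker]
      simp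
    rw [h3, finrank_top, Module.finrank_fintype_fun_eq_card] at hfix
    omega
  refine ⟨g, hgiso, hgr, hg1, hfix, ?_⟩
  intro R hStab hRfix hRts
  by_contra hRne
  obtain ⟨v, hvR, hv0⟩ := Submodule.exists_mem_ne_zero_of_ne_bot hRne
  obtain ⟨φ, hφ⟩ : ∃ φ : Module.End F (κ → F),
      φ = Matrix.toLin' (g : Matrix κ κ F) := ⟨_, rfl⟩
  obtain ⟨φ', hφ'⟩ : ∃ φ' : Module.End F (κ → F),
      φ' = Matrix.toLin' ((g⁻¹ : Matrix.GeneralLinearGroup κ F) : Matrix κ κ F) :=
    ⟨_, rfl⟩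
  have hi1 : φ * φ' = 1 := by
    rw [hφ, hφ', Module.End.mul_eq_comp, ← Matrix.toLin'_mul, Units.mul_inv, Matrix.toLin'_one]
    rfl
  have hi2 : φ' * φ = 1 := by
    rw [hφ, hφ', Module.End.mul_eq_comp, ← Matrix.toLin'_mul, Units.inv_mul, Matrix.toLin'_one]
    rfl
  have hφR : ∀ y ∈ R, φ y ∈ R := by
    intro y hy
    rw [hφ]
    exact hStab (Submodule.mem_map_of_mem hy)
  have hφQ : ∀ y, (Qf) (φ y)
      = (Qf) y := by
    intro y
    rw [hφ, Matrix.toLin'_apply]
    exact hgiso y y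
  have hφr : φ ^ r = 1 := by
    have h3 : φ = Matrix.toLinAlgEquiv' (g : Matrix κ κ F) := hφ
    rw [h3, ← map_pow, hgrM, map_one]
  have hφcp : φ.charpoly = (X - C 1) ^ (Fintype.card κ - i * u) * c := by
    rw [hφ, Matrix.charpoly_toLin', hgcp']
  have hfree : ∀ y ∈ R, φ y = y → y = 0 := by
    intro y hy hfy
    have h3 : y ∈ R ⊓ LinearMap.ker (Matrix.toLin' (g : Matrix κ κ F) - LinearMap.id) := by
      refine ⟨hy, LinearMap.mem_ker.mpr ?_⟩
      rw [LinearMap.sub_apply, LinearMap.id_apply, sub_eq_zero, ← hφ]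
      exact hfy
    rw [hRfix] at h3
    exact (Submodule.mem_bot F).mp h3
  have hkill : ∀ y ∈ R, aeval φ c y = 0 := by
    intro y hy
    have hCH : aeval φ φ.charpoly = 0 := LinearMap.aeval_self_charpoly φ
    have hpow : ∀ (a : ℕ) (z : κ → F), z ∈ R →
        aeval φ ((X - C (1 : F)) ^ a) z = 0 → z = 0 := by
      intro a
      induction a with
      | zero =>
        intro z _ hz
        rwa [pow_zero, map_one, Module.End.one_apply] at hz
      | succ a ih =>
        intro z hzR hz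
        rw [pow_succ, map_mul, Module.End.mul_apply] at hz
        have hz1 : aeval φ (X - C (1 : F)) z ∈ R := aeval_mem φ R hφR _ hzR
        have hz2 := ih _ hz1 hz
        rw [map_sub, aeval_X, aeval_C, map_one, LinearMap.sub_apply, Module.End.one_apply,
          sub_eq_zero] at hz2
        exact hfree z hzR hz2
    apply hpow (Fintype.card κ - i * u) _ (aeval_mem φ R hφR c hy)
    rw [← Module.End.mul_apply, ← map_mul, ← hφcp, hCH]
    rfl
  obtain ⟨P, hPT, g', hg'0, hg'P⟩ := exists_factor φ T.val v hv0 (hc ▸ hkill v hvR)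
  obtain ⟨w, hw⟩ : ∃ w, w = aeval φ g' v := ⟨_, rfl⟩
  rw [← hw] at hg'0 hg'P
  have hwR : w ∈ R := hw ▸ aeval_mem φ R hφR g' hvR
  have hPS0 := hTprop P hPT
  obtain ⟨hPirr, hPm, hPdeg⟩ := hS0p P hPS0
  have hdim : P.natDegree ≤ Module.finrank F (cyc φ w) := by
    rw [hPdeg]
    have hpos : 0 < Module.finrank F ↥(cyc φ w) :=
      Module.finrank_pos_iff_exists_ne_zero.mpr
        ⟨⟨w, self_mem_cyc φ w⟩, fun h => hg'0 (congrArg Subtype.val h)⟩
    have hdvd := Cfsg.Agent.H41.orderOf_dvd_finrank_of_fixedPointFree r φ hφr (cyc φ w)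
      (fun y hy => cyc_map φ w hy)
      (fun y hy hfy => hfree y (cyc_le φ R hφR hwR hy) hfy)
    rw [← hi] at hdvd
    exact Nat.le_of_dvd hpos hdvd
  obtain ⟨ν, hν⟩ := hPdvd P hPS0
  have hsqf : Squarefree (X ^ r - C (1 : F)) :=
    (separable_X_pow_sub_C (1 : F) hr0 one_ne_zero).squarefree
  have hcop : IsCoprime P ν := by
    rw [hPirr.coprime_iff_not_dvd]
    intro hdvd
    have h3 : P * P ∣ X ^ r - C (1 : F) := by
      rw [hν]
      exact mul_dvd_mul_left P hdvd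
    exact hPirr.not_isUnit (hsqf P h3)
  have hann : aeval φ (P * ν) = 0 := by
    rw [← hν, map_sub, map_pow, aeval_X, aeval_C, map_one, hφr, sub_self]
  have hsq : ¬ P * P ∣ φ.charpoly := by
    rw [hφcp]
    intro hdvd
    have h0 : IsCoprime P (X - C (1 : F)) := by
      rw [hPirr.coprime_iff_not_dvd]
      intro h
      exact hPne P hPS0 (eq_of_monic_of_associated hPm (monic_X_sub_C 1)
        (hPirr.associated_of_dvd (irreducible_X_sub_C 1) h))
    have hcopL : IsCoprime (P * P) ((X - C (1 : F)) ^ (Fintype.card κ - i * u)) :=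
      (h0.mul_left h0).pow_right
    have h5 : P * P ∣ c := hcopL.dvd_of_dvd_mul_left hdvd
    rw [hc, ← Multiset.cons_erase hPT, Multiset.prod_cons] at h5
    have h6 : P ∣ (T.val.erase P).prod := (mul_dvd_mul_iff_left hPirr.ne_zero).mp h5
    obtain ⟨P', hP', hPP'⟩ := hPirr.prime.exists_mem_multiset_dvd h6
    have hP'S := hTprop P' (Multiset.mem_of_mem_erase hP')
    have h7 : P = P' := eq_of_monic_of_associated hPm (hS0p P' hP'S).2.1
      (hPirr.associated_of_dvd (hS0p P' hP'S).1 hPP')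
    rw [← h7] at hP'
    exact ((Multiset.Nodup.mem_erase_iff T.nodup).mp hP').1 rfl
  have hstar' : C (P.coeff 0)⁻¹ * P.reverse = P := by
    have h3 := hPstar P hPS0
    unfold rstar at h3
    rw [Polynomial.map_id, RingHom.id_apply] at h3
    exact h3
  have ha0 : P.coeff 0 ≠ 0 := (hS' P hPS0).2.2.2
  have hrev : P.reverse = C (P.coeff 0) * P := by
    calc P.reverse = C (P.coeff 0) * (C (P.coeff 0)⁻¹ * P.reverse) := by
          rw [← mul_assoc, ← C_mul, mul_inv_cancel₀ ha0, C_1, one_mul]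
      _ = C (P.coeff 0) * P := by rw [hstar']
  exact no_ts (Qf) hSQ φ φ' hi1 hi2 hφQ P ν hPirr
    (P.coeff 0) ha0 hrev hcop hann hsq R hφR (fun y hy => hRts y hy) w hwR hg'0 hg'P hdim


end Cfsg.Agent.Lib.Helper59.GenMULT2
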