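import Mathlib
import Cfsg.Agent.Lib.Helper41.TMStmt
import Cfsg.Agent.Lib.Helper45.OmegaCenter
import Cfsg.Agent.Lib.Helper59.GenMULT2

/-!
# S5987 / MULTELT (call by helper41)

`main : OddOmega → MultElt`: the minus-form case of `GenMULT2.core`.
-/

set_option autoImplicit false

namespace Cfsg.Agent.Lib.Helper59.TMMULTELT

open Cfsg.Agent.Lib.Helper41.TMStmt
open Cfsg.Agent.Lib.Helper45.OMiStmt (M Aniso FxM NDegM StabM)
open Cfsg.Agent.Lib.Helper41.TMTwoStmt (TSubM PlusM FixTSM)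

universe u

theorem main : OddOmega.{u} → MultElt.{u} := by
  intro hOdd F _ _ a₀ b₀ hab p _ _ d hd r _ hr2 hrp hev u hu1 hut hlt
  have hr : r.Prime := Fact.out
  have hrodd : Odd r := hr.odd_of_ne_two hr2
  have hcard : Fintype.card (M d) = 2 * d := by
    simp [M]
    omega
  obtain ⟨x, hiso, hxr, -, hfix, hR⟩ := Cfsg.Agent.Lib.Helper59.GenMULT2.core F p
    (Cfsg.Agent.Lib.Helper44.NegPairs.minusQ (d - 1) F a₀ b₀)
    (Cfsg.Agent.Lib.Helper45.OmegaCenter.sep_minusQ' (d - 1) a₀ b₀ hab)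
    r hr2 hrp hev u hu1 hut (by rw [hcard]; exact hlt)
  refine ⟨x, hOdd F a₀ b₀ hab d hd r hrodd x hiso hxr, hxr, ?_, ?_⟩
  · rw [hcard] at hfix
    exact hfix
  · intro R hStab hRfix hRts
    exact hR R hStab hRfix hRts

end Cfsg.Agent.Lib.Helper59.TMMULTELT
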