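import Mathlib
import Cfsg.Prelude.Def_CaseTheorems
import Cfsg.Prelude.Def_Solvable

/-!
# S3390 (fixity 2: the Sylow 2-subgroups): statements of the pieces

`G` acts faithfully and transitively on `Ω`, every non-identity element fixes at most two points
(`F3`, in three-point form).  `S` a Sylow 2-subgroup, `T = S ∩ G_α` with `1 ≠ T`, `S ≰ G_α`.
Then `Fix(T) = {α, β}`, some `s ∈ S` swaps `α` and `β` and `S ∩ G_β = T` (`Cfg S α β s`).

* `|T| ≥ 4`: `|S : T| = 2` (`Idx`).  If some `ω ∉ {α, β}` has `S_ω ≠ 1`, then `S_ω = ⟨u⟩` with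
  `|C_S(u)| = 4` (`UCent`) and `S` is dihedral or semidihedral by S3224.  Otherwise the `S`-orbits
  are `{α, β}` and regular ones (`Orb`), `G` has a normal subgroup `N` of index 2 with
  `S ∩ N = T` (`NSign`: the even permutations, `S` not cyclic; `NCyc`: the even permutations of
  the regular representation, `S` cyclic) and `G_α ∩ G_β ∩ N` is a Frobenius complement in `N`
  (`Frob`).
* `|T| = 2`: `T = ⟨t⟩` with `|C_S(t)| = 4` (`Two`), so by S3224 `S` is dihedral, semidihedral or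
  of order 4; a cyclic `S` of order 4 has regular orbits outside `{α, β}` (`CycOrb`).
-/

set_option autoImplicit false

namespace Cfsg.Agent.Lib.Helper59.FxStmt

universe u v

/-- Fixity at most 2, in three-point form: three fixed points of a non-identity element are not
pairwise distinct. -/
def F3 (G : Type u) [Group G] (Ω : Type v) [MulAction G Ω] : Prop :=
  ∀ g : G, g ≠ 1 → ∀ a b c : Ω, g • a = a → g • b = b → g • c = c → a = b ∨ a = c ∨ b = c

/-- The configuration: `S` a 2-subgroup, `T = S ∩ G_α ≠ 1`, `s ∈ S` swaps `α ≠ β`, and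
`S ∩ G_β = T`. -/
structure Cfg {G : Type u} [Group G] {Ω : Type v} [MulAction G Ω] (S : Subgroup G) (α β : Ω)
    (s : G) : Prop where
  f3 : F3 G Ω
  p2 : IsPGroup 2 S
  ne : α ≠ β
  hs : s ∈ S
  sα : s • α = β
  sβ : s • β = α
  Tne : S ⊓ MulAction.stabilizer G α ≠ ⊥
  Tβ : S ⊓ MulAction.stabilizer G β = S ⊓ MulAction.stabilizer G α

/-- [BETA] the configuration exists. -/
def Beta : Prop :=
  ∀ {G : Type u} [Group G] [Finite G] {Ω : Type v} [MulAction G Ω], F3 G Ω →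
  ∀ (S : Subgroup G), IsPGroup 2 S → ∀ α : Ω, S ⊓ MulAction.stabilizer G α ≠ ⊥ →
    ¬ S ≤ MulAction.stabilizer G α → ∃ (β : Ω) (s : G), Cfg S α β s

/-- [IDX] `|T| ≥ 4` forces `|S : T| = 2`. -/
def Idx : Prop :=
  ∀ {G : Type u} [Group G] [Finite G] {Ω : Type v} [MulAction G Ω] (S : Subgroup G) (α β : Ω)
    (s : G), Cfg S α β s → 4 ≤ Nat.card ↥(S ⊓ MulAction.stabilizer G α) →
    (S ⊓ MulAction.stabilizer G α).relIndex S = 2

/-- [TWO] `|T| = 2`: the involution of `T` has centralizer of order 4 in `S`. -/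
def Two : Prop :=
  ∀ {G : Type u} [Group G] [Finite G] {Ω : Type v} [MulAction G Ω] (S : Subgroup G) (α β : Ω)
    (s : G), Cfg S α β s → Nat.card ↥(S ⊓ MulAction.stabilizer G α) = 2 →
    ∃ x : ↥S, orderOf x = 2 ∧ Nat.card ↥(Subgroup.centralizer ({x} : Set ↥S)) = 4

/-- [UCENT] `|S : T| = 2`, `|T| ≥ 4`, and a point `ω ∉ {α, β}` with `S_ω ≠ 1`: `S_ω = ⟨u⟩` with
`|C_S(u)| = 4`. -/
def UCent : Prop :=
  ∀ {G : Type u} [Group G] [Finite G] {Ω : Type v} [MulAction G Ω] (S : Subgroup G) (α β : Ω)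
    (s : G), Cfg S α β s → (S ⊓ MulAction.stabilizer G α).relIndex S = 2 →
    4 ≤ Nat.card ↥(S ⊓ MulAction.stabilizer G α) →
    ∀ ω : Ω, ω ≠ α → ω ≠ β → S ⊓ MulAction.stabilizer G ω ≠ ⊥ →
    ∃ x : ↥S, orderOf x = 2 ∧ Nat.card ↥(Subgroup.centralizer ({x} : Set ↥S)) = 4

/-- [ORB] the orbits of `S`: `{α, β}` and regular ones. -/
def Orb : Prop :=
  ∀ {G : Type u} [Group G] [Finite G] {Ω : Type v} [MulAction G Ω] (S : Subgroup G) (α β : Ω)
    (s : G), Cfg S α β s → (S ⊓ MulAction.stabilizer G α).relIndex S = 2 →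
    (∀ ω : Ω, ω ≠ α → ω ≠ β → S ⊓ MulAction.stabilizer G ω = ⊥) →
    Nat.card (MulAction.orbit ↥S α) = 2 ∧
      ∀ ω' : Ω, ω' ∉ MulAction.orbit ↥S α → Nat.card (MulAction.orbit ↥S ω') = Nat.card S

/-- [CYCORB] `S` cyclic: the points outside `{α, β}` have trivial stabilizer in `S`. -/
def CycOrb : Prop :=
  ∀ {G : Type u} [Group G] [Finite G] {Ω : Type v} [MulAction G Ω] (S : Subgroup G) (α β : Ω)
    (s : G), Cfg S α β s → IsCyclic ↥S →
    ∀ ω : Ω, ω ≠ α → ω ≠ β → S ⊓ MulAction.stabilizer G ω = ⊥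

/-- [FROB] a normal subgroup `N ⊇ T` with `S ∩ N ≤ T` contains the Frobenius complement
`G_α ∩ G_β ∩ N`. -/
def Frob : Prop :=
  ∀ {G : Type u} [Group G] [Finite G] {Ω : Type v} [MulAction G Ω] [FaithfulSMul G Ω],
    MulAction.IsPretransitive G Ω →
  ∀ (P : Sylow 2 G) (α β : Ω) (s : G), Cfg (P : Subgroup G) α β s →
    ((P : Subgroup G) ⊓ MulAction.stabilizer G α).relIndex (P : Subgroup G) = 2 →
    ∀ N : Subgroup G, N.Normal → (P : Subgroup G) ⊓ MulAction.stabilizer G α ≤ N →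
      (∀ x ∈ (P : Subgroup G), x ∈ N → x ∈ MulAction.stabilizer G α) →
      ∃ H : Subgroup ↥N, Cfsg.IsFrobeniusComplement H

/-- [SGN] (permutations) a permutation of order dividing the even number `m` all of whose
non-trivial cycles have length `m` has sign `(-1) ^ (number of cycles)`. -/
def Sgn : Prop :=
  ∀ {X : Type v} [Fintype X] [DecidableEq X] (ρ : Equiv.Perm X) (m : ℕ), Even m → ρ ^ m = 1 →
    (∀ x : X, ρ x ≠ x → ∀ j : ℕ, (ρ ^ j) x = x → m ∣ j) →
    Equiv.Perm.sign ρ = (-1) ^ (ρ.support.card / m)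

/-- [NSIGN] `S` not cyclic, orbits `{α, β}` and regular ones: the even permutations form a
normal subgroup `N` of index 2 with `S ∩ N = T`. -/
def NSign : Prop :=
  ∀ {G : Type u} [Group G] [Finite G] {Ω : Type v} [Fintype Ω] [MulAction G Ω] (S : Subgroup G)
    (α β : Ω) (s : G), Cfg S α β s → (S ⊓ MulAction.stabilizer G α).relIndex S = 2 →
    (∀ ω : Ω, ω ≠ α → ω ≠ β → S ⊓ MulAction.stabilizer G ω = ⊥) → ¬ IsCyclic ↥S →
    ∃ N : Subgroup G, N.Normal ∧ N.index = 2 ∧ S ⊓ MulAction.stabilizer G α ≤ N ∧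
      ∀ x ∈ S, x ∈ N → x ∈ MulAction.stabilizer G α

/-- [NCYC] `S` a cyclic Sylow 2-subgroup: the elements acting as even permutations in the
regular representation form a normal subgroup `N` of index 2 with `S ∩ N = T`. -/
def NCyc : Prop :=
  ∀ {G : Type u} [Group G] [Finite G] {Ω : Type v} [MulAction G Ω] (P : Sylow 2 G)
    (α β : Ω) (s : G), Cfg (P : Subgroup G) α β s →
    ((P : Subgroup G) ⊓ MulAction.stabilizer G α).relIndex (P : Subgroup G) = 2 →
    IsCyclic ↥(P : Subgroup G) →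
    ∃ N : Subgroup G, N.Normal ∧ N.index = 2 ∧ (P : Subgroup G) ⊓ MulAction.stabilizer G α ≤ N ∧
      ∀ x ∈ (P : Subgroup G), x ∈ N → x ∈ MulAction.stabilizer G α

/-- [ORD4] a group of order 4 is cyclic or a four-group. -/
def Ord4 : Prop :=
  ∀ {S : Type u} [Group S] [Finite S], Nat.card S = 4 →
    IsCyclic S ∨ Nonempty (S ≃* DihedralGroup 2)

end Cfsg.Agent.Lib.Helper59.FxStmt
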