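import Mathlib
import Cfsg.Agent.Lib.Helper77.LocalRing

set_option autoImplicit false

namespace Cfsg.Agent.Lib.Helper59.DecD2a

open Cfsg Cfsg.Agent.Lib.Helper77.LocalRing Polynomial

variable {M : Ideal AlgInt}

/-- Common denominator for finitely many elements of the local ring. -/
theorem exists_common_denom (hMp : M.IsPrime) (T : Finset ℂ)
    (hT : ∀ x ∈ T, MemLocalRing M x) :
    ∃ s : AlgInt, s ∉ M ∧ ∀ x ∈ T, ∃ a : AlgInt, (s : ℂ) * x = (a : ℂ) := by
  classical
  induction T using Finset.induction_on with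
  | empty => exact ⟨1, one_not_mem hMp, by simp⟩
  | insert x T hx ih =>
    obtain ⟨s, hs, hsT⟩ := ih (fun y hy => hT y (Finset.mem_insert_of_mem hy))
    obtain ⟨a, b, hb, hab⟩ := hT x (Finset.mem_insert_self x T)
    have hb0 := coe_ne_zero_of_not_mem hb
    refine ⟨s * b, ?_, ?_⟩
    · intro h
      rcases hMp.mem_or_mem h with h | h
      · exact hs h
      · exact hb h
    · intro y hy
      rcases Finset.mem_insert.mp hy with rfl | hy
      · refine ⟨s * a, ?_⟩
        rw [← hab]
        push_cast
        field_simp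
      · obtain ⟨c, hc⟩ := hsT y hy
        refine ⟨b * c, ?_⟩
        push_cast
        rw [← hc]
        ring

/-- The local ring is integrally closed in `ℂ`. -/
theorem memLocalRing_of_root (hMp : M.IsPrime) (χ : Polynomial (localSubring M hMp))
    (hχ : χ.Monic) (z : ℂ) (hz : (χ.map (localSubring M hMp).subtype).eval z = 0) :
    MemLocalRing M z := by
  classical
  set ι : localSubring M hMp →+* ℂ := (localSubring M hMp).subtype with hι
  obtain ⟨s, hs, hsT⟩ := exists_common_denom hMp
    ((Finset.range (χ.natDegree + 1)).image (fun i => ι (χ.coeff i)))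
    (by
      intro x hx
      obtain ⟨i, -, rfl⟩ := Finset.mem_image.mp hx
      exact (χ.coeff i).2)
  have hcoef : ∀ i : ℕ, ∃ a : AlgInt, (s : ℂ) * ι (χ.coeff i) = (a : ℂ) := by
    intro i
    by_cases hi : i < χ.natDegree + 1
    · exact hsT _ (Finset.mem_image.mpr ⟨i, Finset.mem_range.mpr hi, rfl⟩)
    · have : χ.coeff i = 0 := Polynomial.coeff_eq_zero_of_natDegree_lt (by omega)
      exact ⟨0, by simp [this]⟩
  have hlift : (C (s : ℂ) * χ.map ι) ∈ Polynomial.lifts (algebraMap AlgInt ℂ) := by
    rw [Polynomial.lifts_iff_coeff_lifts]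
    intro i
    obtain ⟨a, ha⟩ := hcoef i
    refine ⟨a, ?_⟩
    rw [Polynomial.coeff_C_mul, Polynomial.coeff_map, ha]
    rfl
  obtain ⟨p, hp⟩ := hlift
  have hinj : Function.Injective (algebraMap AlgInt ℂ) := Subtype.val_injective
  have hlc : ((p.leadingCoeff : AlgInt) : ℂ) = (s : ℂ) := by
    have h1 : (p.map (algebraMap AlgInt ℂ)).leadingCoeff = algebraMap AlgInt ℂ p.leadingCoeff :=
      Polynomial.leadingCoeff_map_of_injective hinj p
    have h2 : (C (s : ℂ) * χ.map ι).leadingCoeff = (s : ℂ) := by
      rw [Polynomial.leadingCoeff_mul, Polynomial.leadingCoeff_C, (hχ.map ι).leadingCoeff, mul_one]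
    have hp' : p.map (algebraMap AlgInt ℂ) = C (s : ℂ) * χ.map ι := hp
    rw [hp', h2] at h1
    exact h1.symm
  have hlc' : p.leadingCoeff = s := Subtype.ext hlc
  have hroot : Polynomial.aeval z p = 0 := by
    have hp' : p.map (algebraMap AlgInt ℂ) = C (s : ℂ) * χ.map ι := hp
    rw [Polynomial.aeval_def, ← Polynomial.eval_map, hp', Polynomial.eval_mul, hz, mul_zero]
  have hint : IsIntegral AlgInt (p.leadingCoeff • z) := isIntegral_leadingCoeff_smul p z hroot
  have hint' : IsIntegral ℤ (p.leadingCoeff • z) := isIntegral_trans _ hint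
  rw [hlc'] at hint'
  have hs0 := coe_ne_zero_of_not_mem hs
  refine ⟨⟨s • z, hint'⟩, s, hs, ?_⟩
  show (s • z) / (s : ℂ) = z
  rw [Algebra.smul_def]
  show (s : ℂ) * z / (s : ℂ) = z
  field_simp

/-- A monic polynomial over `ℂ` divides the product of `(X - z)^n` over any finite set containing
its roots. -/
theorem dvd_prod_pow (f : ℂ[X]) (hf : f.Monic) (T : Finset ℂ) (hT : ∀ z, f.eval z = 0 → z ∈ T) :
    f ∣ ∏ z ∈ T, (X - C z) ^ (f.natDegree + 1) := by
  classical
  have h1 : f = (f.roots.map (X - C ·)).prod := (IsAlgClosed.splits f).eq_prod_roots_of_monic hf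
  have h2 := Polynomial.prod_multiset_root_eq_finset_root (p := f)
  have h3 : f = ∏ a ∈ f.roots.toFinset, (X - C a) ^ rootMultiplicity a f := h1.trans h2
  have hsub : f.roots.toFinset ⊆ T := by
    intro z hz
    have : z ∈ f.roots := Multiset.mem_toFinset.mp hz
    exact hT z ((Polynomial.mem_roots hf.ne_zero).mp this)
  have h4 : (∏ a ∈ f.roots.toFinset, (X - C a) ^ rootMultiplicity a f) ∣
      ∏ a ∈ f.roots.toFinset, (X - C a) ^ (f.natDegree + 1) := by
    apply Finset.prod_dvd_prod_of_dvd
    intro a _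
    apply pow_dvd_pow
    have h6 : rootMultiplicity a f = f.roots.count a := (Polynomial.count_roots f).symm
    have h7 := Multiset.count_le_card a f.roots
    have h8 := Polynomial.card_roots' f
    omega
  have h5 : (∏ a ∈ f.roots.toFinset, (X - C a) ^ (f.natDegree + 1)) ∣
      ∏ a ∈ T, (X - C a) ^ (f.natDegree + 1) :=
    Finset.prod_dvd_prod_of_subset _ _ _ hsub
  calc f = ∏ a ∈ f.roots.toFinset, (X - C a) ^ rootMultiplicity a f := h3
    _ ∣ _ := h4.trans h5

/-- Coefficientwise lifting along a surjective ring hom. -/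
theorem exists_lift {G : Type*} [Group G] [Finite G] {R F : Type*} [CommRing R] [Field F]
    (q : R →+* F) (hqs : Function.Surjective q) (e : MonoidAlgebra F G) :
    ∃ a : MonoidAlgebra R G, MonoidAlgebra.mapRingHom G q a = e := by
  classical
  choose f hf using hqs
  refine ⟨MonoidAlgebra.ofCoeff (Finsupp.equivFunOnFinite.symm (fun g => f (e.coeff g))), ?_⟩
  apply MonoidAlgebra.ext
  ext g
  rw [MonoidAlgebra.coeff_mapRingHom]
  simp [hf]

/-- Purely algebraic core: from a coprime factorisation to an idempotent lift. -/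
theorem idem_of_coprime {G : Type*} [Group G] {R F : Type*} [CommRing R] [Field F]
    (q : R →+* F) (a : MonoidAlgebra R G) (e : MonoidAlgebra F G) (he : e * e = e)
    (ha : MonoidAlgebra.mapRingHom G q a = e)
    (χ P0 P1 : R[X]) (hχa : Polynomial.aeval a χ = 0) (hdvd : χ ∣ P0 * P1)
    (hcop : IsCoprime P0 P1) (h0 : X ∣ P0) (h1 : (X - 1) ∣ P1) :
    ∃ ê : MonoidAlgebra R G, ê * ê = ê ∧ MonoidAlgebra.mapRingHom G q ê = e := by
  obtain ⟨U, V, hUV⟩ := hcop
  have hred : ∀ f : R[X], MonoidAlgebra.mapRingHom G q (Polynomial.aeval a f)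
      = Polynomial.aeval e (f.map q) := by
    intro f
    have := Polynomial.map_aeval_eq_aeval_map (φ := q) (ψ := MonoidAlgebra.mapRingHom G q)
      (S := MonoidAlgebra R G) (U := MonoidAlgebra F G)
      (MonoidAlgebra.mapRingHom_comp_algebraMap q).symm f a
    rw [this, ha]
  have hprod : Polynomial.aeval a ((U * P0) * (V * P1)) = 0 := by
    obtain ⟨c, hc⟩ := hdvd
    have : (U * P0) * (V * P1) = χ * (c * U * V) := by rw [show U * P0 * (V * P1) = (P0 * P1) * (U * V) by ring, hc]; ring
    rw [this, map_mul, hχa, zero_mul]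
  have hsum : Polynomial.aeval a (U * P0) + Polynomial.aeval a (V * P1) = 1 := by
    rw [← map_add, hUV, map_one]
  refine ⟨Polynomial.aeval a (U * P0), ?_, ?_⟩
  · have h2 : Polynomial.aeval a (U * P0) * Polynomial.aeval a (V * P1) = 0 := by
      rw [← map_mul]; exact hprod
    have h3 : Polynomial.aeval a (V * P1) = 1 - Polynomial.aeval a (U * P0) :=
      eq_sub_of_add_eq' hsum
    rw [h3, mul_sub, mul_one, sub_eq_zero] at h2
    exact h2.symm
  · rw [hred]
    have hsum' : Polynomial.aeval e ((U * P0).map q) + Polynomial.aeval e ((V * P1).map q) = 1 := by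
      rw [← hred, ← hred, ← map_add, hsum, map_one]
    -- x0 = e * y0
    obtain ⟨c0, hc0⟩ := h0
    obtain ⟨c1, hc1⟩ := h1
    have hx0 : Polynomial.aeval e ((U * P0).map q) = e * Polynomial.aeval e ((U * c0).map q) := by
      have : (U * P0).map q = X * (U * c0).map q := by
        rw [hc0]; simp only [Polynomial.map_mul, Polynomial.map_X]; ring
      rw [this, map_mul, Polynomial.aeval_X]
    have hx1 : Polynomial.aeval e ((V * P1).map q) = (e - 1) * Polynomial.aeval e ((V * c1).map q) := by
      have : (V * P1).map q = (X - 1) * (V * c1).map q := by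
        rw [hc1]; simp only [Polynomial.map_mul, Polynomial.map_X, Polynomial.map_sub, Polynomial.map_one]; ring
      rw [this, map_mul, map_sub, Polynomial.aeval_X, map_one]
    have hex1 : e * Polynomial.aeval e ((V * P1).map q) = 0 := by
      rw [hx1, ← mul_assoc, mul_sub, he, mul_one, sub_self, zero_mul]
    have hex0 : e * Polynomial.aeval e ((U * P0).map q) = Polynomial.aeval e ((U * P0).map q) := by
      rw [hx0, ← mul_assoc, he]
    calc Polynomial.aeval e ((U * P0).map q) = e * Polynomial.aeval e ((U * P0).map q) := hex0.symm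
      _ = e * Polynomial.aeval e ((U * P0).map q) + e * Polynomial.aeval e ((V * P1).map q) := by
          rw [hex1, add_zero]
      _ = e := by rw [← mul_add, hsum', mul_one]

/-- Idempotents lift from `FG` to `OG`, `O` the local ring at `M`. -/
theorem exists_idem_lift {G : Type*} [Group G] [Finite G] {M : Ideal AlgInt} (hMp : M.IsPrime)
    {F : Type*} [Field F] (q : localSubring M hMp →+* F)
    (hq0 : ∀ x : localSubring M hMp, q x = 0 ↔ MemLocalIdeal M (x : ℂ))
    (hqs : Function.Surjective q) (e : MonoidAlgebra F G) (he : e * e = e) :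
    ∃ ê : MonoidAlgebra (localSubring M hMp) G, ê * ê = ê ∧ MonoidAlgebra.mapRingHom G q ê = e := by
  classical
  obtain ⟨a, ha⟩ := exists_lift q hqs e
  obtain ⟨χ, hχ, hχa⟩ := IsIntegral.of_finite (localSubring M hMp) a
  have hχa' : Polynomial.aeval a χ = 0 := by rw [Polynomial.aeval_def]; exact hχa
  set ι : localSubring M hMp →+* ℂ := (localSubring M hMp).subtype with hι
  have hιinj : Function.Injective ι := Subtype.val_injective
  set n := χ.natDegree + 1 with hn
  let R : Finset ℂ := (χ.map ι).roots.toFinset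
  let S : Finset (localSubring M hMp) := (R.subtype (fun z => z ∈ localSubring M hMp)) ∪ {0, 1}
  let P0 : (localSubring M hMp)[X] := ∏ l ∈ S.filter (fun l => q l = 0), (X - C l) ^ n
  let P1 : (localSubring M hMp)[X] := ∏ l ∈ S.filter (fun l => ¬ q l = 0), (X - C l) ^ n
  have hP : P0 * P1 = ∏ l ∈ S, (X - C l) ^ n := Finset.prod_filter_mul_prod_filter_not S _ _
  have hdvd : χ ∣ P0 * P1 := by
    rw [hP, ← Polynomial.map_dvd_map ι hιinj hχ]
    have h1 := dvd_prod_pow (χ.map ι) (hχ.map ι) (S.image ι) (by
      intro z hz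
      have hzO : z ∈ localSubring M hMp := memLocalRing_of_root hMp χ hχ z hz
      refine Finset.mem_image.mpr ⟨⟨z, hzO⟩, ?_, rfl⟩
      refine Finset.mem_union_left _ ?_
      rw [Finset.mem_subtype]
      exact Multiset.mem_toFinset.mpr ((Polynomial.mem_roots (hχ.map ι).ne_zero).mpr hz))
    rw [Finset.prod_image (fun x _ y _ h => hιinj h)] at h1
    have h2 : (χ.map ι).natDegree + 1 = n := by
      rw [Polynomial.natDegree_map_eq_of_injective hιinj]
    rw [h2] at h1
    simpa [Polynomial.map_prod] using h1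
  have hcop : IsCoprime P0 P1 := by
    apply IsCoprime.prod_left
    intro i hi
    apply IsCoprime.prod_right
    intro j hj
    apply IsCoprime.pow
    have hqi : q i = 0 := (Finset.mem_filter.mp hi).2
    have hqj : ¬ q j = 0 := (Finset.mem_filter.mp hj).2
    have hnot : ¬ MemLocalIdeal M ((j - i : localSubring M hMp) : ℂ) := by
      rw [← hq0, map_sub, hqi, sub_zero]; exact hqj
    have hinv : MemLocalRing M ((j - i : localSubring M hMp) : ℂ)⁻¹ :=
      memLocalRing_inv (j - i).2 hnot
    have hne : ((j - i : localSubring M hMp) : ℂ) ≠ 0 := by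
      intro h; apply hnot; rw [h]; exact memLocalIdeal_zero hMp
    let u : localSubring M hMp := ⟨_, hinv⟩
    have hu : u * (j - i) = 1 := Subtype.ext (inv_mul_cancel₀ hne)
    refine ⟨C u, - C u, ?_⟩
    have : C u * (X - C i) + -C u * (X - C j) = C (u * (j - i)) := by
      simp only [C_mul, C_sub]; ring
    rw [this, hu, C_1]
  have h0 : X ∣ P0 := by
    have hmem : (0 : localSubring M hMp) ∈ S.filter (fun l => q l = 0) := by
      simp [S]
    have : (X - C (0 : localSubring M hMp)) ^ n ∣ P0 := Finset.dvd_prod_of_mem _ hmem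
    refine dvd_trans ?_ this
    rw [C_0, sub_zero]
    exact dvd_pow_self X (by omega)
  have h1 : (X - 1) ∣ P1 := by
    have hmem : (1 : localSubring M hMp) ∈ S.filter (fun l => ¬ q l = 0) := by
      simp [S]
    have : (X - C (1 : localSubring M hMp)) ^ n ∣ P1 := Finset.dvd_prod_of_mem _ hmem
    refine dvd_trans ?_ this
    rw [C_1]
    exact dvd_pow_self _ (by omega)
  exact idem_of_coprime q a e he ha χ P0 P1 hχa' hdvd hcop h0 h1

end Cfsg.Agent.Lib.Helper59.DecD2a
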