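import Mathlib

set_option autoImplicit false

/-! Bochert's bound: a primitive permutation group of degree `n` not containing the alternating
group has index at least `⌊(n+1)/2⌋!` in the symmetric group. -/

namespace Cfsg.Agent.Lib.Helper59.Bochert

open Equiv Equiv.Perm

variable {Ω : Type*} [Fintype Ω] [DecidableEq Ω]

/-- The commutator of two permutations whose supports meet in exactly one point is a
`3`-cycle. -/
theorem isThreeCycle_commutator (x y : Perm Ω) (δ : Ω) (hx : x δ ≠ δ) (hy : y δ ≠ δ)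
    (h : ∀ ω, ω ≠ δ → x ω = ω ∨ y ω = ω) : (x * y * x⁻¹ * y⁻¹).IsThreeCycle := by
  have hxa : x (x δ) ≠ x δ := fun h0 => hx (x.injective h0)
  have hyb : y (y δ) ≠ y δ := fun h0 => hy (y.injective h0)
  have hya : y (x δ) = x δ := (h (x δ) hx).resolve_left hxa
  have hxb : x (y δ) = y δ := (h (y δ) hy).resolve_right hyb
  have hab : x δ ≠ y δ := by
    intro h0; rw [h0] at hya; exact hyb hya
  have hinv : ∀ (z : Perm Ω) (u : Ω), z u = u → z⁻¹ u = u := fun z u hu => by
    rw [Perm.inv_eq_iff_eq]; exact hu.symm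
  have ai : ∀ (z : Perm Ω) (u : Ω), z (z⁻¹ u) = u := fun z u => by simp
  have ia : ∀ (z : Perm Ω) (u : Ω), z⁻¹ (z u) = u := fun z u => by simp
  have c1 : (x * y * x⁻¹ * y⁻¹) δ = x δ := by
    simp only [Perm.mul_apply]
    have h1 : y⁻¹ δ ≠ δ := fun h0 => hy (by rw [Perm.inv_eq_iff_eq] at h0; exact h0.symm)
    have h2 : x (y⁻¹ δ) = y⁻¹ δ := by
      rcases h _ h1 with h3 | h3
      · exact h3
      · exfalso; apply h1; rw [ai] at h3; exact h3.symm
    rw [hinv x _ h2, ai]
  have c2 : (x * y * x⁻¹ * y⁻¹) (x δ) = y δ := by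
    simp only [Perm.mul_apply]
    rw [hinv y _ hya, ia, hxb]
  have c3 : (x * y * x⁻¹ * y⁻¹) (y δ) = δ := by
    simp only [Perm.mul_apply]
    rw [ia]
    have h1 : x⁻¹ δ ≠ δ := fun h0 => hx (by rw [Perm.inv_eq_iff_eq] at h0; exact h0.symm)
    have h2 : y (x⁻¹ δ) = x⁻¹ δ := by
      rcases h _ h1 with h3 | h3
      · exfalso; apply h1; rw [ai] at h3; exact h3.symm
      · exact h3
    rw [h2, ai]
  have c4 : ∀ ω, ω ≠ δ → ω ≠ x δ → ω ≠ y δ → (x * y * x⁻¹ * y⁻¹) ω = ω := by
    intro ω h1 h2 h3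
    simp only [Perm.mul_apply]
    rcases h ω h1 with hω | hω
    · have hv : y⁻¹ ω ≠ δ := fun h0 => h3 (by rw [Perm.inv_eq_iff_eq] at h0; exact h0)
      have hxv : x (y⁻¹ ω) = y⁻¹ ω := by
        rcases h _ hv with h4 | h4
        · exact h4
        · rw [ai] at h4
          rw [← h4]; exact hω
      rw [hinv x _ hxv, ai, hω]
    · rw [hinv y _ hω]
      have hu : x⁻¹ ω ≠ δ := fun h0 => h2 (by rw [Perm.inv_eq_iff_eq] at h0; exact h0)
      have hyu : y (x⁻¹ ω) = x⁻¹ ω := by
        rcases h _ hu with h4 | h4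
        · rw [ai] at h4
          rw [← h4]; exact hω
        · exact h4
      rw [hyu, ai]
  have hsupp : (x * y * x⁻¹ * y⁻¹).support = {δ, x δ, y δ} := by
    ext ω
    rw [Perm.mem_support]
    simp only [Finset.mem_insert, Finset.mem_singleton]
    constructor
    · intro hω
      by_contra hcon
      push Not at hcon
      exact hω (c4 ω hcon.1 hcon.2.1 hcon.2.2)
    · intro hω
      rcases hω with h0 | h0 | h0
      · rw [h0, c1]; exact hx
      · rw [h0, c2]; exact hab.symm
      · rw [h0, c3]; exact hy.symm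
  rw [← card_support_eq_three_iff, hsupp]
  rw [Finset.card_insert_of_notMem, Finset.card_insert_of_notMem, Finset.card_singleton]
  · simpa using hab
  · simp only [Finset.mem_insert, Finset.mem_singleton, not_or]
    exact ⟨hx.symm, hy.symm⟩

/-- **Bochert's bound** for subgroups of `Perm Ω`. -/
theorem bochert_perm (H : Subgroup (Perm Ω)) (hprim : MulAction.IsPreprimitive H Ω)
    (hA : ¬ alternatingGroup Ω ≤ H) :
    Nat.card H * Nat.factorial ((Fintype.card Ω + 1) / 2) ≤ Nat.factorial (Fintype.card Ω) := by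
  classical
  have h3 : ∀ g ∈ H, ¬ g.IsThreeCycle := fun g hg h3g =>
    hA (alternatingGroup_le_of_isPreprimitive_of_isThreeCycle_mem hprim h3g hg)
  let P : Finset Ω → Prop := fun Γ => ∀ g ∈ H, g.support ⊆ Γ → g = 1
  have hP0 : P ∅ := by
    intro g _ hg
    exact Perm.support_eq_empty_iff.mp (Finset.subset_empty.mp hg)
  obtain ⟨Γ, hΓmem, hΓmax⟩ := Finset.exists_max_image (Finset.univ.filter P) Finset.card
    ⟨∅, by simp [hP0]⟩
  have hΓ : P Γ := (Finset.mem_filter.mp hΓmem).2
  have hmax : ∀ Γ' : Finset Ω, Γ.card < Γ'.card → ¬ P Γ' := by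
    intro Γ' hlt hP'
    have h0 := hΓmax Γ' (by simp [hP'])
    omega
  have hle : Γᶜ.card ≤ Γ.card := by
    by_contra hlt
    push Not at hlt
    have h1 := hmax _ hlt
    simp only [P] at h1
    push Not at h1
    obtain ⟨y, hyH, hysupp, hy1⟩ := h1
    obtain ⟨δ, hδ⟩ : ∃ δ, δ ∈ y.support := by
      by_contra hcon
      push Not at hcon
      exact hy1 (Perm.support_eq_empty_iff.mp (Finset.eq_empty_of_forall_notMem hcon))
    have hδΓ : δ ∉ Γ := Finset.mem_compl.mp (hysupp hδ)
    have h2 := hmax (insert δ Γ) (by rw [Finset.card_insert_of_notMem hδΓ]; omega)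
    simp only [P] at h2
    push Not at h2
    obtain ⟨x, hxH, hxsupp, hx1⟩ := h2
    have hxδ : δ ∈ x.support := by
      by_contra hcon
      apply hx1
      apply hΓ x hxH
      intro ω hω
      rcases Finset.mem_insert.mp (hxsupp hω) with h0 | h0
      · rw [h0] at hω; exact absurd hω hcon
      · exact h0
    apply h3 (x * y * x⁻¹ * y⁻¹)
      (H.mul_mem (H.mul_mem (H.mul_mem hxH hyH) (H.inv_mem hxH)) (H.inv_mem hyH))
    apply isThreeCycle_commutator x y δ (Perm.mem_support.mp hxδ) (Perm.mem_support.mp hδ)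
    intro ω hω
    by_contra hcon
    push Not at hcon
    have hωx : ω ∈ x.support := Perm.mem_support.mpr hcon.1
    have hωy : ω ∈ y.support := Perm.mem_support.mpr hcon.2
    rcases Finset.mem_insert.mp (hxsupp hωx) with h0 | h0
    · exact hω h0
    · exact (Finset.mem_compl.mp (hysupp hωy)) h0
  have hinj : Function.Injective
      (fun p : H × Perm {ω // ω ∈ Γ} => (p.1 : Perm Ω) * Perm.ofSubtype p.2) := by
    rintro ⟨g, s⟩ ⟨g', s'⟩ hgs
    simp only at hgs
    have h1 : (g' : Perm Ω)⁻¹ * g = Perm.ofSubtype (s' * s⁻¹) := by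
      rw [map_mul, map_inv, inv_mul_eq_iff_eq_mul, ← mul_assoc, eq_mul_inv_iff_mul_eq]
      exact hgs
    have h2 : (g' : Perm Ω)⁻¹ * g = 1 := by
      apply hΓ _ (H.mul_mem (H.inv_mem g'.2) g.2)
      rw [h1]
      intro ω hω
      by_contra hωΓ
      exact (Perm.mem_support.mp hω) (Perm.ofSubtype_apply_of_not_mem _ hωΓ)
    have hg : g = g' := by
      apply Subtype.ext
      exact (inv_mul_eq_one.mp h2).symm
    subst hg
    have hs : Perm.ofSubtype s = Perm.ofSubtype s' := mul_left_cancel hgs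
    rw [Perm.ofSubtype_injective hs]
  have hcard := Nat.card_le_card_of_injective _ hinj
  rw [Nat.card_prod, Nat.card_perm, Nat.card_perm, Nat.card_eq_fintype_card (α := {ω // ω ∈ Γ}),
    Fintype.card_coe, Nat.card_eq_fintype_card (α := Ω)] at hcard
  have hsum := Finset.card_add_card_compl Γ
  have hfac : Nat.factorial ((Fintype.card Ω + 1) / 2) ≤ Nat.factorial Γ.card :=
    Nat.factorial_le (by omega)
  calc Nat.card H * Nat.factorial ((Fintype.card Ω + 1) / 2)
      ≤ Nat.card H * Nat.factorial Γ.card := Nat.mul_le_mul_left _ hfac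
    _ ≤ _ := hcard

/-- **Bochert's bound** for a faithful primitive action. -/
theorem bochert {G : Type*} [Group G] [Finite G] [MulAction G Ω] [FaithfulSMul G Ω]
    (hprim : MulAction.IsPreprimitive G Ω)
    (hA : ¬ alternatingGroup Ω ≤ (MulAction.toPermHom G Ω).range) :
    Nat.card G * Nat.factorial ((Fintype.card Ω + 1) / 2) ≤ Nat.factorial (Fintype.card Ω) := by
  have hφinj : Function.Injective (MulAction.toPermHom G Ω) := MulAction.toPerm_injective
  have hcard : Nat.card G = Nat.card (MulAction.toPermHom G Ω).range :=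
    Nat.card_congr (MonoidHom.ofInjective hφinj).toEquiv
  have hprim' : MulAction.IsPreprimitive (MulAction.toPermHom G Ω).range Ω := by
    let f : Ω →ₑ[(MulAction.toPermHom G Ω).rangeRestrict] Ω :=
      { toFun := id, map_smul' := fun g x => rfl }
    exact MulAction.IsPreprimitive.of_surjective (f := f) Function.surjective_id
  rw [hcard]
  exact bochert_perm _ hprim' hA

end Cfsg.Agent.Lib.Helper59.Bochert
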