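import Mathlib

set_option autoImplicit false

namespace Cfsg.Agent.Lib.Helper59.Derange2

open MulAction

variable {G Ω : Type*} [Group G] [MulAction G Ω]

/-- If a finite invariant set is a union of orbits whose sizes are all divisible by `m`, then its
size is divisible by `m`. -/
theorem dvd_ncard_of_invariant {H : Type*} [Group H] [MulAction H Ω] (m : ℕ) (n : ℕ) :
    ∀ (S : Set Ω), S.Finite → S.ncard = n → (∀ h : H, ∀ x ∈ S, h • x ∈ S) →
      (∀ x ∈ S, m ∣ (orbit H x).ncard) → m ∣ S.ncard := by
  induction n using Nat.strong_induction_on with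
  | _ n ih =>
    intro S hS hn hinv hm
    rcases S.eq_empty_or_nonempty with rfl | ⟨x, hx⟩
    · simp
    · have hsub : orbit H x ⊆ S := by
        rintro _ ⟨h, rfl⟩; exact hinv h x hx
      have hfin : (orbit H x).Finite := hS.subset hsub
      have hpos : 0 < (orbit H x).ncard := (Set.ncard_pos hfin).mpr ⟨x, mem_orbit_self x⟩
      have hdiff : (S \ orbit H x).ncard = S.ncard - (orbit H x).ncard := Set.ncard_sdiff hsub hfin
      have hle : (orbit H x).ncard ≤ S.ncard := Set.ncard_le_ncard hsub hS
      have h1 : m ∣ (S \ orbit H x).ncard := by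
        apply ih (S \ orbit H x).ncard (by omega) (S \ orbit H x) (hS.subset Set.sdiff_subset) rfl
        · intro h y hy
          refine ⟨hinv h y hy.1, fun hmem => hy.2 ?_⟩
          have h3 : orbit H y = orbit H x := by
            rw [← orbit_smul h y]; exact orbit_eq_iff.mpr hmem
          rw [← h3]; exact mem_orbit_self y
        · intro y hy; exact hm y hy.1
      have h2 := hm x hx
      have h4 : S.ncard = (S \ orbit H x).ncard + (orbit H x).ncard := by omega
      rw [h4]; exact dvd_add h1 h2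

theorem sup_stabilizer_eq_top (D : Subgroup G) (hDt : IsPretransitive D Ω) (α : Ω) :
    D ⊔ stabilizer G α = ⊤ := by
  rw [eq_top_iff]
  intro g _
  obtain ⟨d, hd⟩ := exists_smul_eq D α (g • α)
  have hd' : (d : G) • α = g • α := hd
  have h1 : (d : G)⁻¹ * g ∈ stabilizer G α := by
    rw [mem_stabilizer_iff, mul_smul, ← hd', inv_smul_smul]
  have h2 : g = (d : G) * ((d : G)⁻¹ * g) := by group
  rw [h2]
  exact Subgroup.mul_mem _ (Subgroup.mem_sup_left d.2) (Subgroup.mem_sup_right h1)

theorem index_eq_relIndex_stabilizer (D : Subgroup G) [D.Normal] (hDt : IsPretransitive D Ω)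
    (α : Ω) : D.index = D.relIndex (stabilizer G α) := by
  rw [← Subgroup.relIndex_top_right, ← sup_stabilizer_eq_top D hDt α, Subgroup.relIndex_sup_left]

theorem inf_stabilizer_le (D : Subgroup G)
    (hfix : ∀ g : G, g ∉ D → Nat.card (fixedBy Ω g) = 1) (α β : Ω) (hβ : β ≠ α) :
    stabilizer G α ⊓ stabilizer G β ≤ D ⊓ stabilizer G α := by
  intro g hg
  refine ⟨?_, hg.1⟩
  by_contra hgD
  have h1 := hfix g hgD
  have h2 := (Nat.card_eq_one_iff_unique.mp h1).1
  have h3 : (⟨α, hg.1⟩ : fixedBy Ω g) = ⟨β, hg.2⟩ := Subsingleton.elim _ _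
  exact hβ (congrArg Subtype.val h3).symm

theorem ncard_orbit_eq_relIndex (α β : Ω) :
    (orbit (stabilizer G α) β).ncard =
      (stabilizer G α ⊓ stabilizer G β).relIndex (stabilizer G α) := by
  rw [← index_stabilizer, Subgroup.relIndex]
  congr 1
  ext h
  simp only [mem_stabilizer_iff, Subgroup.mem_subgroupOf, Subgroup.mem_inf]
  constructor
  · intro hh; exact ⟨h.2, hh⟩
  · intro hh; exact hh.2

theorem index_dvd_ncard_orbit (D : Subgroup G) [D.Normal] (hDt : IsPretransitive D Ω)
    (hfix : ∀ g : G, g ∉ D → Nat.card (fixedBy Ω g) = 1) (α β : Ω) (hβ : β ≠ α) :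
    D.index ∣ (orbit (stabilizer G α) β).ncard := by
  rw [ncard_orbit_eq_relIndex, index_eq_relIndex_stabilizer D hDt α,
    ← Subgroup.inf_relIndex_right (H := D) (K := stabilizer G α),
    ← Subgroup.relIndex_mul_relIndex _ _ _ (inf_stabilizer_le D hfix α β hβ) inf_le_right]
  exact dvd_mul_left _ _

/-- The index divides the size of every set avoiding `α` that is invariant under the stabilizer
of `α`. -/
theorem index_dvd_ncard (D : Subgroup G) [D.Normal] (hDt : IsPretransitive D Ω)
    (hfix : ∀ g : G, g ∉ D → Nat.card (fixedBy Ω g) = 1) (α : Ω) (S : Set Ω) (hS : S.Finite)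
    (hα : α ∉ S) (hinv : ∀ h : stabilizer G α, ∀ x ∈ S, h • x ∈ S) : D.index ∣ S.ncard := by
  refine dvd_ncard_of_invariant (H := stabilizer G α) D.index _ S hS rfl hinv ?_
  intro x hx
  exact index_dvd_ncard_orbit D hDt hfix α x (fun h => hα (h ▸ hx))

theorem index_dvd_card_sub_one [Finite Ω] (D : Subgroup G) [D.Normal] (hDt : IsPretransitive D Ω)
    (hfix : ∀ g : G, g ∉ D → Nat.card (fixedBy Ω g) = 1) (α : Ω) :
    D.index ∣ Nat.card Ω - 1 := by
  have h := index_dvd_ncard D hDt hfix α ({α}ᶜ : Set Ω) (Set.toFinite _) (by simp) ?_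
  · rwa [Set.ncard_compl, Set.ncard_singleton] at h
  · intro h x hx
    simp only [Set.mem_compl_iff, Set.mem_singleton_iff] at hx ⊢
    intro hh
    apply hx
    have h5 : (h : G) • x = α := hh
    have h6 : (h : G) • α = α := h.2
    have h7 : (h : G) • x = (h : G) • α := by rw [h5, h6]
    exact smul_left_cancel _ h7

/-- If the index is `n - 1` then the degree is a prime power. -/
theorem isPrimePow_of_index_eq [Finite G] [Finite Ω] [FaithfulSMul G Ω] (D : Subgroup G)
    [D.Normal] (hDt : IsPretransitive D Ω)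
    (hfix : ∀ g : G, g ∉ D → Nat.card (fixedBy Ω g) = 1) (α : Ω) (hn : 2 ≤ Nat.card Ω)
    (hidx : D.index = Nat.card Ω - 1) : IsPrimePow (Nat.card Ω) := by
  classical
  have hcompl : ({α}ᶜ : Set Ω).ncard = Nat.card Ω - 1 := by
    rw [Set.ncard_compl, Set.ncard_singleton]
  -- every orbit of the stabilizer off α is everything
  have horb : ∀ β : Ω, β ≠ α → orbit (stabilizer G α) β = ({α}ᶜ : Set Ω) := by
    intro β hβ
    have hsub : orbit (stabilizer G α) β ⊆ ({α}ᶜ : Set Ω) := by
      rintro _ ⟨h, rfl⟩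
      simp only [Set.mem_compl_iff, Set.mem_singleton_iff]
      intro hh
      apply hβ
      have h5 : (h : G) • β = α := hh
      have h6 : (h : G) • α = α := h.2
      have h7 : (h : G) • β = (h : G) • α := by rw [h5, h6]
      exact smul_left_cancel _ h7
    apply Set.eq_of_subset_of_ncard_le hsub _ (Set.toFinite _)
    have hdvd := index_dvd_ncard_orbit D hDt hfix α β hβ
    have hpos : 0 < (orbit (stabilizer G α) β).ncard :=
      (Set.ncard_pos (Set.toFinite _)).mpr ⟨β, mem_orbit_self β⟩
    rw [hcompl, ← hidx]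
    exact Nat.le_of_dvd hpos hdvd
  -- D ∩ G_α fixes every point
  have hbot : D ⊓ stabilizer G α = ⊥ := by
    rw [eq_bot_iff]
    intro g hg
    rw [Subgroup.mem_bot]
    apply FaithfulSMul.eq_of_smul_eq_smul (α := Ω)
    intro β
    rw [one_smul]
    by_cases hβ : β = α
    · rw [hβ]; exact hg.2
    · have h1 : (stabilizer G α ⊓ stabilizer G β).relIndex (D ⊓ stabilizer G α) *
          (D ⊓ stabilizer G α).relIndex (stabilizer G α) =
          (stabilizer G α ⊓ stabilizer G β).relIndex (stabilizer G α) :=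
        Subgroup.relIndex_mul_relIndex _ _ _ (inf_stabilizer_le D hfix α β hβ) inf_le_right
      rw [← ncard_orbit_eq_relIndex, horb β hβ, hcompl, Subgroup.inf_relIndex_right,
        ← index_eq_relIndex_stabilizer D hDt α, hidx] at h1
      have h2 : (stabilizer G α ⊓ stabilizer G β).relIndex (D ⊓ stabilizer G α) = 1 := by
        have hpos : 0 < Nat.card Ω - 1 := by omega
        have : (stabilizer G α ⊓ stabilizer G β).relIndex (D ⊓ stabilizer G α) *
            (Nat.card Ω - 1) = 1 * (Nat.card Ω - 1) := by rw [h1, one_mul]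
        exact Nat.eq_of_mul_eq_mul_right hpos this
      have h3 := Subgroup.relIndex_eq_one.mp h2 hg
      exact h3.2
  -- D acts regularly
  have hDα : ∀ d : D, (d : G) • α = α → d = 1 := by
    intro d hd
    have : (d : G) ∈ D ⊓ stabilizer G α := ⟨d.2, hd⟩
    rw [hbot, Subgroup.mem_bot] at this
    exact Subtype.ext this
  have hcard : Nat.card D = Nat.card Ω := by
    apply Nat.card_congr
    refine Equiv.ofBijective (fun d : D => (d : G) • α) ⟨?_, ?_⟩
    · intro d d' hdd
      have hdd' : (d : G) • α = (d' : G) • α := hdd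
      have : d⁻¹ * d' = 1 := by
        apply hDα
        simp only [Subgroup.coe_mul, Subgroup.coe_inv, mul_smul]
        rw [← hdd', inv_smul_smul]
      exact (inv_mul_eq_one.mp this)
    · intro β
      obtain ⟨d, hd⟩ := exists_smul_eq D α β
      exact ⟨d, hd⟩
  -- all non-identity elements of D have the same order
  have hord : ∀ d d' : D, d ≠ 1 → d' ≠ 1 → orderOf d = orderOf d' := by
    intro d d' hd hd'
    have h1 : (d : G) • α ≠ α := fun h => hd (hDα d h)
    have h1' : (d' : G) • α ≠ α := fun h => hd' (hDα d' h)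
    have h2 : (d : G) • α ∈ orbit (stabilizer G α) ((d' : G) • α) := by
      rw [horb _ h1']; exact h1
    obtain ⟨h, hh⟩ := h2
    have hh' : (h : G) • (d' : G) • α = (d : G) • α := hh
    have hconj : (h : G) * d' * (h : G)⁻¹ ∈ D := Subgroup.Normal.conj_mem inferInstance _ d'.2 _
    have h3 : (⟨(h : G) * d' * (h : G)⁻¹, hconj⟩ : D) = d := by
      have : d⁻¹ * ⟨(h : G) * d' * (h : G)⁻¹, hconj⟩ = 1 := by
        apply hDα
        simp only [Subgroup.coe_mul, Subgroup.coe_inv, mul_smul]
        have h6 : (h : G)⁻¹ • α = α := by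
          have := h.2
          rw [mem_stabilizer_iff] at this
          rw [inv_smul_eq_iff, this]
        rw [h6, hh', inv_smul_smul]
      exact (inv_mul_eq_one.mp this).symm
    rw [← Subgroup.orderOf_coe d, ← h3, ← Subgroup.orderOf_coe d']
    exact orderOf_injective (MulAut.conj (h : G)).toMonoidHom (MulAut.conj (h : G)).injective _
  -- a prime dividing the order
  have hne1 : Nat.card D ≠ 1 := by rw [hcard]; omega
  obtain ⟨p, hp, hpd⟩ := Nat.exists_prime_and_dvd hne1
  have := Fact.mk hp
  obtain ⟨d₀, hd₀⟩ := exists_prime_orderOf_dvd_card' p hpd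
  have hd₀1 : d₀ ≠ 1 := by
    intro h; rw [h, orderOf_one] at hd₀; exact hp.one_lt.ne hd₀
  have hP : IsPGroup p D := by
    intro d
    by_cases hd : d = 1
    · exact ⟨0, by rw [hd]; simp⟩
    · refine ⟨1, ?_⟩
      rw [pow_one, ← hd₀, ← hord d d₀ hd hd₀1, pow_orderOf_eq_one]
  obtain ⟨k, hk⟩ := IsPGroup.iff_card.mp hP
  rw [← hcard, hk]
  have hk0 : k ≠ 0 := by
    intro h; rw [h, pow_zero] at hk; exact hne1 hk
  exact hp.isPrimePow.pow hk0

end Cfsg.Agent.Lib.Helper59.Derange2
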