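import Mathlib

/-!
# Linear algebra of Frobenius actions

`K` a field, `V` a finite-dimensional `K`-space, `r : E →* End K V`.

* `finrank_of_regular_idempotents` : if `P : E → End K V` is a family of pairwise orthogonal
  idempotents summing to `1` and permuted regularly by `E` (`r e' * P e = P (e' * e) * r e'`),
  then `dim V = |E| * dim Fix(E)`.
* `finrank_of_free_idempotents` : the same for orthogonal idempotents indexed by a free `E`-set.
* `finrank_of_weights` : `K` algebraically closed, `A ⊴ F` acting by commuting semisimple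
  operators without nonzero fixed vectors, `E ≤ F` acting fixed-point-freely on `A`:
  `dim V = |E| * dim Fix(E)`.
* `finrank_of_frobenius` : the same over an arbitrary field (base change to the algebraic closure).
-/

set_option autoImplicit false

namespace Cfsg.Agent.Lib.Helper59.FrobLin

open Module

variable {K V : Type*} [Field K] [AddCommGroup V] [Module K V]

/-- The subspace of vectors fixed by all elements of `S` under `r`. -/
def fixM {G : Type*} [Monoid G] (r : G →* Module.End K V) (S : Set G) : Submodule K V where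
  carrier := {v | ∀ g ∈ S, r g v = v}
  add_mem' := by
    intro a b ha hb g hg
    rw [map_add, ha g hg, hb g hg]
  zero_mem' := by
    intro g _
    rw [map_zero]
  smul_mem' := by
    intro c v hv g hg
    rw [map_smul, hv g hg]

theorem mem_fixM {G : Type*} [Monoid G] (r : G →* Module.End K V) (S : Set G) (v : V) :
    v ∈ fixM r S ↔ ∀ g ∈ S, r g v = v := Iff.rfl

section regular

variable {E : Type*} [Group E] [Fintype E]

theorem finrank_of_regular_idempotents [FiniteDimensional K V] (r : E →* Module.End K V)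
    (P : E → Module.End K V) (hsum : ∑ e, P e = 1)
    (horth : ∀ e e', e ≠ e' → P e * P e' = 0)
    (hequiv : ∀ e e', r e' * P e = P (e' * e) * r e') :
    finrank K V = Fintype.card E * finrank K (fixM r (Set.univ : Set E)) := by
  classical
  have hidem : ∀ e, P e * P e = P e := by
    intro e
    have h1 : P e * ∑ e', P e' = P e := by rw [hsum, mul_one]
    rw [Finset.mul_sum, Finset.sum_eq_single e] at h1
    · exact h1
    · intro b _ hb
      exact horth e b (Ne.symm hb)
    · intro h; exact absurd (Finset.mem_univ e) h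
  have happ : ∀ e e' (v : V), e ≠ e' → P e (P e' v) = 0 := by
    intro e e' v hne
    have := congrArg (fun f : Module.End K V => f v) (horth e e' hne)
    simpa using this
  have hidem' : ∀ e (v : V), P e (P e v) = P e v := by
    intro e v
    have := congrArg (fun f : Module.End K V => f v) (hidem e)
    simpa using this
  have heq' : ∀ e e' (v : V), r e' (P e v) = P (e' * e) (r e' v) := by
    intro e e' v
    have := congrArg (fun f : Module.End K V => f v) (hequiv e e')
    simpa using this
  have hsum' : ∀ v : V, ∑ e, P e v = v := by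
    intro v
    have := congrArg (fun f : Module.End K V => f v) hsum
    simpa [LinearMap.sum_apply] using this
  have hr1 : ∀ v : V, r 1 v = v := by
    intro v; rw [map_one]; rfl
  have hrr : ∀ (e e' : E) (v : V), r e (r e' v) = r (e * e') v := by
    intro e e' v; rw [map_mul]; rfl
  -- (b) V ≃ Π range (P e)
  let Φ : V ≃ₗ[K] (∀ e : E, LinearMap.range (P e)) :=
    { toFun := fun v e => ⟨P e v, LinearMap.mem_range_self _ _⟩
      map_add' := by
        intro x y; funext e; apply Subtype.ext; simp
      map_smul' := by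
        intro c x; funext e; apply Subtype.ext; simp
      invFun := fun y => ∑ e, (y e : V)
      left_inv := by
        intro v
        exact hsum' v
      right_inv := by
        intro y
        funext e
        apply Subtype.ext
        show P e (∑ e', (y e' : V)) = y e
        rw [map_sum, Finset.sum_eq_single e]
        · obtain ⟨w, hw⟩ := (y e).2
          rw [← hw, hidem']
        · intro b _ hb
          obtain ⟨w, hw⟩ := (y b).2
          rw [← hw, happ e b w (Ne.symm hb)]
        · intro h; exact absurd (Finset.mem_univ e) h }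
  have hb : finrank K V = ∑ e : E, finrank K (LinearMap.range (P e)) := by
    rw [Φ.finrank_eq, Module.finrank_pi_fintype]
  -- (c) all ranges have the same dimension
  have hc : ∀ e : E, finrank K (LinearMap.range (P e)) = finrank K (LinearMap.range (P 1)) := by
    intro e
    let re : V ≃ₗ[K] V := LinearEquiv.ofLinearMap (r e) (r e⁻¹)
      (by
        apply LinearMap.ext; intro v
        show r e (r e⁻¹ v) = v
        rw [hrr, mul_inv_cancel, hr1])
      (by
        apply LinearMap.ext; intro v
        show r e⁻¹ (r e v) = v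
        rw [hrr, inv_mul_cancel, hr1])
    have hmap : LinearMap.range (P e) = (LinearMap.range (P 1)).map (re : V →ₗ[K] V) := by
      apply le_antisymm
      · rintro _ ⟨w, rfl⟩
        refine ⟨P 1 (r e⁻¹ w), LinearMap.mem_range_self _ _, ?_⟩
        show r e (P 1 (r e⁻¹ w)) = P e w
        rw [heq', mul_one, hrr, mul_inv_cancel, hr1]
      · rintro _ ⟨_, ⟨w, rfl⟩, rfl⟩
        show r e (P 1 w) ∈ LinearMap.range (P e)
        rw [heq', mul_one]
        exact LinearMap.mem_range_self _ _
    rw [hmap, LinearEquiv.finrank_map_eq]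
  -- (a) Fix ≃ range (P 1)
  let Ψ : fixM r (Set.univ : Set E) ≃ₗ[K] LinearMap.range (P 1) :=
    { toFun := fun v => ⟨P 1 (v : V), LinearMap.mem_range_self _ _⟩
      map_add' := by
        intro x y; apply Subtype.ext; simp
      map_smul' := by
        intro c x; apply Subtype.ext; simp
      invFun := fun y => ⟨∑ e, r e (y : V), by
        intro e' _
        rw [map_sum]
        simp only [hrr]
        exact Fintype.sum_equiv (Equiv.mulLeft e') _ _ (fun e => rfl)⟩
      left_inv := by
        intro v
        apply Subtype.ext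
        show ∑ e, r e (P 1 (v : V)) = v
        have h1 : ∀ e : E, r e (P 1 (v : V)) = P e (v : V) := by
          intro e
          rw [heq', mul_one, v.2 e (Set.mem_univ e)]
        simp only [h1]
        exact hsum' v
      right_inv := by
        intro y
        apply Subtype.ext
        show P 1 (∑ e, r e (y : V)) = y
        obtain ⟨w, hw⟩ := y.2
        rw [map_sum, Finset.sum_eq_single (1 : E)]
        · rw [hr1, ← hw, hidem']
        · intro b _ hb
          rw [← hw, heq', mul_one, happ 1 b _ (Ne.symm hb)]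
        · intro h; exact absurd (Finset.mem_univ _) h }
  rw [hb, Finset.sum_congr rfl (fun e _ => hc e), Finset.sum_const, Finset.card_univ,
    smul_eq_mul, Ψ.finrank_eq]

/-- Orthogonal idempotents indexed by a free `E`-set. -/
theorem finrank_of_free_idempotents [FiniteDimensional K V] (r : E →* Module.End K V)
    {ι : Type*} [Fintype ι] [MulAction E ι]
    (hfree : ∀ (e : E) (i : ι), e • i = i → e = 1)
    (c : ι → Module.End K V) (hsum : ∑ i, c i = 1)
    (horth : ∀ i j, i ≠ j → c i * c j = 0)
    (hequiv : ∀ (e : E) (i : ι), r e * c i = c (e • i) * r e) :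
    finrank K V = Fintype.card E * finrank K (fixM r (Set.univ : Set E)) := by
  classical
  let Q := MulAction.orbitRel.Quotient E ι
  letI : Fintype Q := Fintype.ofFinite Q
  let g : Q × E → ι := fun x => x.2 • (Quotient.out x.1 : ι)
  have hout : ∀ q : Q, (Quotient.mk'' (Quotient.out q : ι) : Q) = q := fun q => Quotient.out_eq' q
  have hginj : Function.Injective g := by
    rintro ⟨q, e⟩ ⟨q', e'⟩ h
    have h' : e • (Quotient.out q : ι) = e' • (Quotient.out q' : ι) := h
    have hq : q = q' := by
      rw [← hout q, ← hout q']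
      apply Quotient.sound'
      show (Quotient.out q : ι) ∈ MulAction.orbit E (Quotient.out q' : ι)
      refine ⟨e⁻¹ * e', ?_⟩
      show (e⁻¹ * e') • (Quotient.out q' : ι) = Quotient.out q
      rw [mul_smul, ← h', inv_smul_smul]
    subst hq
    have h2 : (e'⁻¹ * e) • (Quotient.out q : ι) = Quotient.out q := by
      rw [mul_smul, h', inv_smul_smul]
    have h3 := hfree _ _ h2
    have h4 : e = e' := by
      have := congrArg (fun x => e' * x) h3
      simpa using this
    rw [h4]
  have hgsurj : Function.Surjective g := by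
    intro i
    have h1 : (Quotient.mk'' (Quotient.out (Quotient.mk'' i : Q) : ι) : Q) = Quotient.mk'' i :=
      hout _
    have h2 : (Quotient.out (Quotient.mk'' i : Q) : ι) ∈ MulAction.orbit E i := Quotient.exact' h1
    obtain ⟨e, he⟩ := h2
    refine ⟨(Quotient.mk'' i, e⁻¹), ?_⟩
    show e⁻¹ • (Quotient.out (Quotient.mk'' i : Q) : ι) = i
    rw [← he]
    exact inv_smul_smul e i
  let ε : Q × E ≃ ι := Equiv.ofBijective g ⟨hginj, hgsurj⟩
  let P : E → Module.End K V := fun e => ∑ q : Q, c (e • (Quotient.out q : ι))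
  apply finrank_of_regular_idempotents r P
  · show ∑ e : E, ∑ q : Q, c (e • (Quotient.out q : ι)) = 1
    rw [Finset.sum_comm, ← Fintype.sum_prod_type (f := fun x : Q × E => c (g x)), ← hsum]
    exact Fintype.sum_equiv ε _ _ (fun x => rfl)
  · intro e e' hne
    show (∑ q : Q, c (e • (Quotient.out q : ι))) * (∑ q : Q, c (e' • (Quotient.out q : ι))) = 0
    rw [Finset.sum_mul_sum]
    apply Finset.sum_eq_zero
    intro q _
    apply Finset.sum_eq_zero
    intro q' _
    apply horth
    intro h
    have := hginj (a₁ := (q, e)) (a₂ := (q', e')) h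
    exact hne (congrArg Prod.snd this)
  · intro e e'
    show r e' * (∑ q : Q, c (e • (Quotient.out q : ι)))
      = (∑ q : Q, c ((e' * e) • (Quotient.out q : ι))) * r e'
    rw [Finset.mul_sum, Finset.sum_mul]
    apply Finset.sum_congr rfl
    intro q _
    rw [hequiv, mul_smul]

end regular

section weights

variable {F : Type*} [Group F] [Finite F]

theorem finrank_of_weights [IsAlgClosed K] [FiniteDimensional K V] (ρ : F →* Module.End K V)
    (A E : Subgroup F) [hAn : A.Normal] (hF : (Nat.card F : K) ≠ 0)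
    (hcomm : ∀ a ∈ A, ∀ b ∈ A, ρ a * ρ b = ρ b * ρ a)
    (hfpf : ∀ e ∈ E, e ≠ 1 → ∀ a ∈ A, e * a = a * e → a = 1)
    (hz : ∀ v : V, (∀ a ∈ A, ρ a v = v) → v = 0) :
    finrank K V = Nat.card E * finrank K (fixM ρ (E : Set F)) := by
  classical
  have hρ1 : ∀ v : V, ρ 1 v = v := by
    intro v; rw [map_one]; rfl
  have hρmul : ∀ (g h : F) (v : V), ρ g (ρ h v) = ρ (g * h) v := by
    intro g h v; rw [map_mul]; rfl
  let f : ↥A → Module.End K V := fun a => ρ a
  have hss : ∀ g : F, (ρ g).IsSemisimple := by
    intro g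
    have hsq : Squarefree (Polynomial.X ^ Nat.card F - Polynomial.C (1 : K)) :=
      (Polynomial.separable_X_pow_sub_C (1 : K) hF one_ne_zero).squarefree
    apply Module.End.isSemisimple_of_squarefree_aeval_eq_zero hsq
    have h1 : ρ g ^ Nat.card F = 1 := by
      rw [← map_pow, pow_card_eq_one', map_one]
    simp [h1]
  have hcomm' : Pairwise fun i j : ↥A => Commute (f i) (f j) := fun i j _ => hcomm i i.2 j j.2
  let Wt : (↥A → K) → Submodule K V := fun χ => ⨅ a : ↥A, (f a).eigenspace (χ a)
  have hmemWt : ∀ (χ : ↥A → K) (v : V), v ∈ Wt χ ↔ ∀ a : ↥A, ρ a v = χ a • v := by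
    intro χ v
    simp only [Wt, Submodule.mem_iInf, Module.End.mem_eigenspace_iff, f]
  have hgen : ∀ (a : ↥A) (μ : K), (f a).maxGenEigenspace μ = (f a).eigenspace μ := fun a μ =>
    (hss a).isFinitelySemisimple.maxGenEigenspace_eq_eigenspace μ
  have htop : ⨆ χ : ↥A → K, Wt χ = ⊤ := by
    have := Module.End.iSup_iInf_maxGenEigenspace_eq_top_of_iSup_maxGenEigenspace_eq_top_of_commute
      f hcomm' (fun a => Module.End.iSup_maxGenEigenspace_eq_top (f a))
    simpa only [hgen] using this
  have hind : iSupIndep Wt := by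
    have := Module.End.independent_iInf_maxGenEigenspace_of_forall_mapsTo f
      (fun i j φ => Module.End.mapsTo_maxGenEigenspace_of_comm (hcomm j j.2 i i.2) φ)
    simpa only [hgen] using this
  have hconj : ∀ (g : F) (a : ↥A), g⁻¹ * (a : F) * g ∈ A := by
    intro g a
    have := hAn.conj_mem a a.2 g⁻¹
    simpa using this
  let tw : F → (↥A → K) → (↥A → K) := fun g χ a => χ ⟨g⁻¹ * (a : F) * g, hconj g a⟩
  have htw1 : ∀ χ : ↥A → K, tw 1 χ = χ := by
    intro χ; funext a
    show χ ⟨(1 : F)⁻¹ * (a : F) * 1, _⟩ = χ a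
    congr 1
    apply Subtype.ext
    simp
  have htwmul : ∀ (g h : F) (χ : ↥A → K), tw (g * h) χ = tw g (tw h χ) := by
    intro g h χ; funext a
    show χ ⟨(g * h)⁻¹ * (a : F) * (g * h), _⟩ = χ ⟨h⁻¹ * (g⁻¹ * (a : F) * g) * h, _⟩
    congr 1
    apply Subtype.ext
    show (g * h)⁻¹ * (a : F) * (g * h) = h⁻¹ * (g⁻¹ * (a : F) * g) * h
    group
  have hmapWt : ∀ (g : F) (χ : ↥A → K) (v : V), v ∈ Wt χ → ρ g v ∈ Wt (tw g χ) := by
    intro g χ v hv
    rw [hmemWt] at hv ⊢
    intro a
    have h1 : (a : F) * g = g * (g⁻¹ * (a : F) * g) := by group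
    rw [hρmul, h1, ← hρmul]
    have := hv ⟨g⁻¹ * (a : F) * g, hconj g a⟩
    rw [this, map_smul]
  have hinj : ∀ (g : F) (v : V), ρ g v = 0 → v = 0 := by
    intro g v hv
    have := congrArg (ρ g⁻¹) hv
    rwa [hρmul, inv_mul_cancel, hρ1, map_zero] at this
  have hne : ∀ (g : F) (χ : ↥A → K), Wt χ ≠ ⊥ → Wt (tw g χ) ≠ ⊥ := by
    intro g χ h
    obtain ⟨v, hv, hv0⟩ := (Submodule.ne_bot_iff _).mp h
    exact (Submodule.ne_bot_iff _).mpr ⟨ρ g v, hmapWt g χ v hv, fun h0 => hv0 (hinj g v h0)⟩
  let S := {χ : ↥A → K // Wt χ ≠ ⊥}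
  have hSfin : Finite S := (Submodule.finite_ne_bot_of_iSupIndep hind).to_subtype
  letI : Fintype S := Fintype.ofFinite S
  letI : Fintype ↥E := Fintype.ofFinite ↥E
  letI : MulAction ↥E S :=
    { smul := fun e χ => ⟨tw (e : F) χ.1, hne _ _ χ.2⟩
      one_smul := fun χ => Subtype.ext (htw1 χ.1)
      mul_smul := fun e e' χ => Subtype.ext (htwmul e e' χ.1) }
  have hsmul : ∀ (e : ↥E) (χ : S), (e • χ).1 = tw (e : F) χ.1 := fun e χ => rfl
  have hfree : ∀ (e : ↥E) (χ : S), e • χ = χ → e = 1 := by
    intro e χ h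
    by_contra hne1
    have hne1' : (e : F) ≠ 1 := fun h1 => hne1 (Subtype.ext h1)
    have htw : tw (e : F) χ.1 = χ.1 := by rw [← hsmul, h]
    obtain ⟨v, hv, hv0⟩ := (Submodule.ne_bot_iff _).mp χ.2
    rw [hmemWt] at hv
    apply hv0
    apply hz
    let m : ↥A → ↥A := fun a =>
      ⟨(a : F)⁻¹ * ((e : F)⁻¹ * (a : F) * e), A.mul_mem (A.inv_mem a.2) (hconj e a)⟩
    have hminj : Function.Injective m := by
      intro a a' haa
      have h1 : (a : F)⁻¹ * ((e : F)⁻¹ * (a : F) * e) = (a' : F)⁻¹ * ((e : F)⁻¹ * (a' : F) * e) :=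
        congrArg Subtype.val haa
      have h2 : (e : F) * ((a' : F) * (a : F)⁻¹) = ((a' : F) * (a : F)⁻¹) * e := by
        have h3 : (a' : F) * (a : F)⁻¹ * (e : F)⁻¹ = (e : F)⁻¹ * ((a' : F) * (a : F)⁻¹) := by
          calc (a' : F) * (a : F)⁻¹ * (e : F)⁻¹
              = (a' : F) * ((a : F)⁻¹ * ((e : F)⁻¹ * (a : F) * e)) * (e : F)⁻¹ * (a : F)⁻¹ := by
                group
            _ = (a' : F) * ((a' : F)⁻¹ * ((e : F)⁻¹ * (a' : F) * e)) * (e : F)⁻¹ * (a : F)⁻¹ := by
                rw [h1]
            _ = (e : F)⁻¹ * ((a' : F) * (a : F)⁻¹) := by group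
        calc (e : F) * ((a' : F) * (a : F)⁻¹)
            = e * (((a' : F) * (a : F)⁻¹) * (e : F)⁻¹) * e := by group
          _ = e * ((e : F)⁻¹ * ((a' : F) * (a : F)⁻¹)) * e := by rw [h3]
          _ = ((a' : F) * (a : F)⁻¹) * e := by group
      have h5 := hfpf e e.2 hne1' _ (A.mul_mem a'.2 (A.inv_mem a.2)) h2
      apply Subtype.ext
      have h6 : (a' : F) = a := by
        have := congrArg (fun x => x * (a : F)) h5
        simpa using this
      exact h6.symm
    have hmsurj : Function.Surjective m := Finite.injective_iff_surjective.mp hminj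
    intro b hb
    obtain ⟨a, ha⟩ := hmsurj ⟨b, hb⟩
    have hb' : b = (a : F)⁻¹ * ((e : F)⁻¹ * (a : F) * e) := (congrArg Subtype.val ha).symm
    have h1 : ρ ((e : F)⁻¹ * (a : F) * e) v = χ.1 a • v := by
      have := hv ⟨(e : F)⁻¹ * (a : F) * e, hconj e a⟩
      rw [this]
      congr 1
      exact congrFun htw a
    have h2 : ρ (a : F)⁻¹ (χ.1 a • v) = v := by
      rw [← hv a, hρmul, inv_mul_cancel, hρ1]
    rw [hb', ← hρmul, h1, h2]
  have hindS : iSupIndep (fun χ : S => Wt χ.1) := hind.comp Subtype.val_injective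
  have htopS : ⨆ χ : S, Wt χ.1 = ⊤ := by
    rw [← htop]
    exact iSup_ne_bot_subtype Wt
  have hcompl : ∀ χ : S, IsCompl (Wt χ.1) (⨆ (ψ : S) (_ : ψ ≠ χ), Wt ψ.1) := by
    intro χ
    refine ⟨hindS χ, ?_⟩
    rw [codisjoint_iff, ← iSup_split_single (fun ψ : S => Wt ψ.1) χ]
    exact htopS
  let c : S → Module.End K V := fun χ => (Wt χ.1).projection _ (hcompl χ)
  have hc_same : ∀ (χ : S) (v : V), v ∈ Wt χ.1 → c χ v = v := fun χ v hv =>
    Submodule.projection_apply_of_mem_left (hcompl χ) hv
  have hc_ne : ∀ (χ ψ : S) (v : V), ψ ≠ χ → v ∈ Wt ψ.1 → c χ v = 0 := by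
    intro χ ψ v hne hv
    apply Submodule.projection_apply_of_mem_right (hcompl χ)
    exact Submodule.mem_iSup_of_mem ψ (Submodule.mem_iSup_of_mem hne hv)
  have hc_mem : ∀ (χ : S) (v : V), c χ v ∈ Wt χ.1 := fun χ v =>
    Submodule.projection_apply_mem (hcompl χ) v
  have hext : ∀ T T' : Module.End K V, (∀ (ψ : S) (v : V), v ∈ Wt ψ.1 → T v = T' v) → T = T' := by
    intro T T' h
    apply LinearMap.ext
    intro v
    have hv : v ∈ ⨆ ψ : S, Wt ψ.1 := by rw [htopS]; exact Submodule.mem_top
    refine Submodule.iSup_induction (fun ψ : S => Wt ψ.1) (motive := fun v => T v = T' v) hv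
      (fun ψ x hx => h ψ x hx) (by simp) (fun x y hx hy => by simp [hx, hy])
  let r : ↥E →* Module.End K V := ρ.comp E.subtype
  have hmain := finrank_of_free_idempotents (E := ↥E) r hfree c
    (by
      apply hext
      intro ψ v hv
      rw [LinearMap.sum_apply, Finset.sum_eq_single ψ]
      · rw [hc_same ψ v hv]; rfl
      · intro b _ hb
        exact hc_ne b ψ v hb.symm hv
      · intro h; exact absurd (Finset.mem_univ _) h)
    (by
      intro χ ψ hne'
      apply LinearMap.ext
      intro v
      show c χ (c ψ v) = 0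
      exact hc_ne χ ψ _ (Ne.symm hne') (hc_mem ψ v))
    (by
      intro e χ
      apply hext
      intro ψ v hv
      show ρ (e : F) (c χ v) = c (e • χ) (ρ (e : F) v)
      have hv' : ρ (e : F) v ∈ Wt (e • ψ).1 := hmapWt e ψ.1 v hv
      by_cases hψ : ψ = χ
      · subst hψ
        rw [hc_same ψ v hv, hc_same _ _ hv']
      · rw [hc_ne χ ψ v hψ hv, map_zero, hc_ne (e • χ) (e • ψ) _ ?_ hv']
        intro h
        exact hψ (MulAction.injective e h))
  have hfix : fixM r (Set.univ : Set ↥E) = fixM ρ (E : Set F) := by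
    apply le_antisymm
    · intro v hv g hg
      exact hv ⟨g, hg⟩ (Set.mem_univ _)
    · intro v hv e _
      exact hv e e.2
  rw [hmain, Nat.card_eq_fintype_card, hfix]

end weights

section baseChange

open TensorProduct

variable {k W : Type*} [Field k] [AddCommGroup W] [Module k W]

theorem finrank_range_baseChange_le (L : Type*) [Field L] [Algebra k L] [FiniteDimensional k W]
    (T : Module.End k W) :
    finrank L (LinearMap.range (T.baseChange L)) ≤ finrank k (LinearMap.range T) := by
  have h1 : T = (LinearMap.range T).subtype ∘ₗ T.rangeRestrict := by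
    apply LinearMap.ext; intro w; rfl
  have h2 : T.baseChange L
      = ((LinearMap.range T).subtype.baseChange L) ∘ₗ (T.rangeRestrict.baseChange L) := by
    conv_lhs => rw [h1]
    exact LinearMap.baseChange_comp _ _
  have h3 : LinearMap.range (T.baseChange L)
      ≤ LinearMap.range ((LinearMap.range T).subtype.baseChange L) := by
    rw [h2]
    exact LinearMap.range_comp_le_range _ _
  calc finrank L (LinearMap.range (T.baseChange L))
      ≤ finrank L (LinearMap.range ((LinearMap.range T).subtype.baseChange L)) :=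
        Submodule.finrank_mono h3
    _ ≤ finrank L (L ⊗[k] (LinearMap.range T)) := LinearMap.finrank_range_le _
    _ = finrank k (LinearMap.range T) := Module.finrank_baseChange

theorem finrank_range_idem {k W : Type*} [Field k] [AddCommGroup W] [Module k W]
    [FiniteDimensional k W] (π : Module.End k W) (hπ : π * π = π) :
    finrank k (LinearMap.range π) + finrank k (LinearMap.range (1 - π)) = finrank k W := by
  have h1 : LinearMap.range (1 - π) = LinearMap.ker π := by
    apply le_antisymm
    · rintro _ ⟨y, rfl⟩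
      rw [LinearMap.mem_ker]
      have := congrArg (fun f : Module.End k W => f y) hπ
      simp only [Module.End.mul_apply] at this
      simp [this]
    · intro x hx
      rw [LinearMap.mem_ker] at hx
      exact ⟨x, by simp [hx]⟩
  rw [h1]
  exact LinearMap.finrank_range_add_finrank_ker π

variable {F : Type*} [Group F] [Finite F]

/-- **Frobenius actions, linear form.** `A ⊴ F` acts on the finite-dimensional `k`-space `W` by
commuting operators without nonzero common fixed vector, `E ≤ F` acts fixed-point-freely on `A`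
(by conjugation), and `|F|` is invertible in `k`.  Then `dim W = |E| * dim C_W(E)`. -/
theorem finrank_of_frobenius [FiniteDimensional k W] (ρ : F →* Module.End k W)
    (A E : Subgroup F) [hAn : A.Normal] (hF : (Nat.card F : k) ≠ 0)
    (hcomm : ∀ a ∈ A, ∀ b ∈ A, ρ a * ρ b = ρ b * ρ a)
    (hfpf : ∀ e ∈ E, e ≠ 1 → ∀ a ∈ A, e * a = a * e → a = 1)
    (hz : ∀ w : W, (∀ a ∈ A, ρ a w = w) → w = 0) :
    finrank k W = Nat.card E * finrank k (fixM ρ (E : Set F)) := by
  classical
  let L := AlgebraicClosure k
  let bc : Module.End k W →ₐ[k] Module.End L (L ⊗[k] W) := Module.End.baseChangeHom k L W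
  let ρL : F →* Module.End L (L ⊗[k] W) := (bc : Module.End k W →* _).comp ρ
  have hρL : ∀ g : F, ρL g = bc (ρ g) := fun g => rfl
  have hρ1 : ∀ w : W, ρ 1 w = w := by
    intro w; rw [map_one]; rfl
  have hρmul : ∀ (g h : F) (w : W), ρ g (ρ h w) = ρ (g * h) w := by
    intro g h w; rw [map_mul]; rfl
  have hinjL : Function.Injective (algebraMap k L) := (algebraMap k L).injective
  have hcast : ∀ n : ℕ, (n : k) ≠ 0 → (n : L) ≠ 0 := by
    intro n hn h
    apply hn
    apply hinjL
    rw [map_natCast, map_zero]; exact h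
  have hFL : (Nat.card F : L) ≠ 0 := hcast _ hF
  have hsub : ∀ B : Subgroup F, (Nat.card B : k) ≠ 0 := by
    intro B h
    apply hF
    obtain ⟨m, hm⟩ := Subgroup.card_subgroup_dvd_card B
    rw [hm, Nat.cast_mul, h, zero_mul]
  letI : Fintype ↥A := Fintype.ofFinite ↥A
  letI : Fintype ↥E := Fintype.ofFinite ↥E
  -- no fixed vectors after base change
  have hNA : ∑ a : ↥A, ρ (a : F) = 0 := by
    apply LinearMap.ext
    intro w
    rw [LinearMap.sum_apply]
    apply hz
    intro b hb
    rw [map_sum]
    simp only [hρmul]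
    exact Fintype.sum_equiv (Equiv.mulLeft (⟨b, hb⟩ : ↥A)) _ _ (fun a => rfl)
  have hNAL : ∑ a : ↥A, ρL (a : F) = 0 := by
    simp only [hρL]
    rw [← map_sum, hNA, map_zero]
  have hzL : ∀ v : L ⊗[k] W, (∀ a ∈ A, ρL a v = v) → v = 0 := by
    intro v hv
    have h1 : (∑ a : ↥A, ρL (a : F)) v = (Fintype.card ↥A : L) • v := by
      rw [LinearMap.sum_apply]
      simp only [fun a : ↥A => hv a a.2]
      rw [Finset.sum_const, Finset.card_univ, Nat.cast_smul_eq_nsmul]
    rw [hNAL, LinearMap.zero_apply] at h1
    have h2 : (Fintype.card ↥A : L) ≠ 0 := by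
      rw [← Nat.card_eq_fintype_card]
      exact hcast _ (hsub A)
    exact (smul_eq_zero.mp h1.symm).resolve_left h2
  have hcommL : ∀ a ∈ A, ∀ b ∈ A, ρL a * ρL b = ρL b * ρL a := by
    intro a ha b hb
    show bc (ρ a) * bc (ρ b) = bc (ρ b) * bc (ρ a)
    rw [← map_mul bc, ← map_mul bc, hcomm a ha b hb]
  have hmain := finrank_of_weights (K := L) ρL A E hFL hcommL hfpf hzL
  -- the projection onto the fixed points
  have hn : (Fintype.card ↥E : k) ≠ 0 := by
    rw [← Nat.card_eq_fintype_card]; exact hsub E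
  let NE : Module.End k W := ∑ e : ↥E, ρ (e : F)
  let π : Module.End k W := (Fintype.card ↥E : k)⁻¹ • NE
  have hgπ : ∀ g ∈ E, ρ g * π = π := by
    intro g hg
    show ρ g * ((Fintype.card ↥E : k)⁻¹ • ∑ e : ↥E, ρ (e : F))
      = (Fintype.card ↥E : k)⁻¹ • ∑ e : ↥E, ρ (e : F)
    rw [mul_smul_comm, Finset.mul_sum]
    congr 1
    simp only [← map_mul]
    exact Fintype.sum_equiv (Equiv.mulLeft (⟨g, hg⟩ : ↥E)) _ _ (fun a => rfl)
  have hπfix : ∀ w : W, (∀ g ∈ E, ρ g w = w) → π w = w := by
    intro w hw
    show ((Fintype.card ↥E : k)⁻¹ • ∑ e : ↥E, ρ (e : F)) w = w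
    rw [LinearMap.smul_apply, LinearMap.sum_apply]
    simp only [fun e : ↥E => hw e e.2]
    rw [Finset.sum_const, Finset.card_univ, ← Nat.cast_smul_eq_nsmul k, smul_smul,
      inv_mul_cancel₀ hn, one_smul]
  have hπrange : LinearMap.range π = fixM ρ (E : Set F) := by
    apply le_antisymm
    · rintro _ ⟨w, rfl⟩ g hg
      have := congrArg (fun f : Module.End k W => f w) (hgπ g hg)
      exact this
    · intro w hw
      exact ⟨w, hπfix w hw⟩
  have hπidem : π * π = π := by
    apply LinearMap.ext
    intro w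
    show π (π w) = π w
    apply hπfix
    intro g hg
    have := congrArg (fun f : Module.End k W => f w) (hgπ g hg)
    exact this
  let πL : Module.End L (L ⊗[k] W) := bc π
  have hπLidem : πL * πL = πL := by
    show bc π * bc π = bc π
    rw [← map_mul, hπidem]
  have hgπL : ∀ g ∈ E, ρL g * πL = πL := by
    intro g hg
    show bc (ρ g) * bc π = bc π
    rw [← map_mul, hgπ g hg]
  have hπLeq : πL = (Fintype.card ↥E : L)⁻¹ • ∑ e : ↥E, ρL (e : F) := by
    have h1 : (Fintype.card ↥E : k) • π = NE := by
      show (Fintype.card ↥E : k) • ((Fintype.card ↥E : k)⁻¹ • NE) = NE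
      rw [smul_smul, mul_inv_cancel₀ hn, one_smul]
    have h2 : (Fintype.card ↥E : L) • πL = ∑ e : ↥E, ρL (e : F) := by
      have h3 : bc NE = ∑ e : ↥E, ρL (e : F) := by
        show bc (∑ e : ↥E, ρ (e : F)) = _
        rw [map_sum]
        rfl
      rw [← h3, ← h1]
      show _ = bc ((Fintype.card ↥E : k) • π)
      rw [Nat.cast_smul_eq_nsmul, Nat.cast_smul_eq_nsmul, map_nsmul]
    rw [← h2, smul_smul, inv_mul_cancel₀ (hcast _ hn), one_smul]
  have hπLfix : ∀ v : L ⊗[k] W, (∀ g ∈ E, ρL g v = v) → πL v = v := by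
    intro v hv
    rw [hπLeq, LinearMap.smul_apply, LinearMap.sum_apply]
    simp only [fun e : ↥E => hv e e.2]
    rw [Finset.sum_const, Finset.card_univ, ← Nat.cast_smul_eq_nsmul L, smul_smul,
      inv_mul_cancel₀ (hcast _ hn), one_smul]
  have hπLrange : LinearMap.range πL = fixM ρL (E : Set F) := by
    apply le_antisymm
    · rintro _ ⟨w, rfl⟩ g hg
      have := congrArg (fun f : Module.End L (L ⊗[k] W) => f w) (hgπL g hg)
      exact this
    · intro w hw
      exact ⟨w, hπLfix w hw⟩
  have e1 := finrank_range_idem π hπidem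
  have e2 := finrank_range_idem πL hπLidem
  have e3 : finrank L (LinearMap.range πL) ≤ finrank k (LinearMap.range π) :=
    finrank_range_baseChange_le L π
  have e4 : finrank L (LinearMap.range (1 - πL)) ≤ finrank k (LinearMap.range (1 - π)) := by
    have : (1 - πL) = (1 - π).baseChange L := by
      show (1 : Module.End L (L ⊗[k] W)) - bc π = bc (1 - π)
      rw [map_sub, map_one]
    rw [this]
    exact finrank_range_baseChange_le L (1 - π)
  have e5 : finrank L (L ⊗[k] W) = finrank k W := Module.finrank_baseChange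
  have e6 : finrank L (LinearMap.range πL) = finrank k (LinearMap.range π) := by omega
  rw [← e5, hmain, ← hπLrange, e6, hπrange]

end baseChange

end Cfsg.Agent.Lib.Helper59.FrobLin
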