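import Mathlib
import Cfsg.Agent.Lib.Helper59.FxStmt

/-!
# S3390: the assembly of the pieces of `FxStmt`
-/

set_option autoImplicit false

namespace Cfsg.Agent.Lib.Helper59.FxAsm

open Cfsg Cfsg.Agent.Lib.Helper59.FxStmt

universe u v

theorem f3_of_hfix {G : Type u} [Group G] {Ω : Type v} [Finite Ω] [MulAction G Ω]
    (hfix : ∀ g : G, g ≠ 1 → Nat.card (MulAction.fixedBy Ω g) ≤ 2) : F3 G Ω := by
  intro g hg a b c ha hb hc
  by_contra hne
  push Not at hne
  obtain ⟨hab, hac, hbc⟩ := hne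
  have h := hfix g hg
  have h3 : 3 ≤ Nat.card (MulAction.fixedBy Ω g) := by
    rw [Nat.card_coe_set_eq]
    have hsub : ({a, b, c} : Set Ω) ⊆ MulAction.fixedBy Ω g := by
      intro x hx
      rcases hx with rfl | rfl | rfl
      · exact ha
      · exact hb
      · exact hc
    calc 3 = ({a, b, c} : Set Ω).ncard :=
          (Set.ncard_eq_three.2 ⟨a, b, c, hab, hac, hbc, rfl⟩).symm
      _ ≤ _ := Set.ncard_le_ncard hsub (Set.toFinite _)
  omega

theorem relIndex_mul_card {G : Type u} [Group G] {T S : Subgroup G} (h : T ≤ S) :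
    T.relIndex S * Nat.card T = Nat.card S := by
  have h1 := Subgroup.card_mul_index (T.subgroupOf S)
  have h2 : Nat.card (T.subgroupOf S) = Nat.card T :=
    Nat.card_congr (Subgroup.subgroupOfEquivOfLe h).toEquiv
  rw [h2] at h1
  rw [Subgroup.relIndex, mul_comm]
  exact h1

theorem thm_of (hBeta : Beta.{u, v}) (hIdx : Idx.{u, v}) (hTwo : Two.{u, v})
    (hUCent : UCent.{u, v}) (hOrb : Orb.{u, v}) (hCycOrb : CycOrb.{u, v}) (hFrob : Frob.{u, v})
    (hNSign : NSign.{u, v}) (hNCyc : NCyc.{u, v}) (hOrd4 : Ord4.{u})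
    (h3224 : ∀ {S : Type u} [Group S] [Finite S], IsPGroup 2 S → ∀ x : S, orderOf x = 2 →
      Nat.card ↥(Subgroup.centralizer ({x} : Set S)) = 4 →
      (∃ n : ℕ, Nonempty (S ≃* DihedralGroup n)) ∨ Cfsg.IsQuasiDihedral S ∨ Nat.card S = 4)
    {G : Type u} [Group G] [Finite G] {Ω : Type v} [Fintype Ω] [MulAction G Ω]
    [FaithfulSMul G Ω] (htr : MulAction.IsPretransitive G Ω)
    (hfix : ∀ g : G, g ≠ 1 → Nat.card (MulAction.fixedBy Ω g) ≤ 2) (α : Ω) (S : Sylow 2 G) :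
    (S : Subgroup G) ⊓ MulAction.stabilizer G α = ⊥ ∨
    (((∃ n : ℕ, Nonempty (↥(S : Subgroup G) ≃* DihedralGroup n)) ∨
        Cfsg.IsQuasiDihedral ↥(S : Subgroup G)) ∧
       (Nat.card ↥((S : Subgroup G) ⊓ MulAction.stabilizer G α) = 2 ∨
        ((S : Subgroup G) ⊓ MulAction.stabilizer G α).relIndex (S : Subgroup G) = 2)) ∨
    (4 ≤ Nat.card (S : Subgroup G) ∧
       (∃ ω : Ω, Nat.card (MulAction.orbit ↥(S : Subgroup G) ω) = 2 ∧
          ∀ ω' : Ω, ω' ∉ MulAction.orbit ↥(S : Subgroup G) ω →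
            Nat.card (MulAction.orbit ↥(S : Subgroup G) ω') = Nat.card (S : Subgroup G)) ∧
       ∃ N : Subgroup G, N.Normal ∧ (N.index = 2 ∨ N.index = Nat.card (S : Subgroup G)) ∧
         (∃ H : Subgroup ↥N, Cfsg.IsFrobeniusComplement H)) ∨
    (S : Subgroup G) ≤ MulAction.stabilizer G α := by
  classical
  by_cases hT : (S : Subgroup G) ⊓ MulAction.stabilizer G α = ⊥
  · exact Or.inl hT
  by_cases hle : (S : Subgroup G) ≤ MulAction.stabilizer G α
  · exact Or.inr (Or.inr (Or.inr hle))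
  have f3 : F3 G Ω := f3_of_hfix hfix
  obtain ⟨β, s, cfg⟩ := hBeta f3 (S : Subgroup G) S.isPGroup' α hT hle
  have hTS : (S : Subgroup G) ⊓ MulAction.stabilizer G α ≤ (S : Subgroup G) := inf_le_left
  have hcard := relIndex_mul_card hTS
  -- the third alternative
  have third : ((S : Subgroup G) ⊓ MulAction.stabilizer G α).relIndex (S : Subgroup G) = 2 →
      (∀ ω : Ω, ω ≠ α → ω ≠ β → (S : Subgroup G) ⊓ MulAction.stabilizer G ω = ⊥) →
      4 ≤ Nat.card (S : Subgroup G) →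
      (4 ≤ Nat.card (S : Subgroup G) ∧
       (∃ ω : Ω, Nat.card (MulAction.orbit ↥(S : Subgroup G) ω) = 2 ∧
          ∀ ω' : Ω, ω' ∉ MulAction.orbit ↥(S : Subgroup G) ω →
            Nat.card (MulAction.orbit ↥(S : Subgroup G) ω') = Nat.card (S : Subgroup G)) ∧
       ∃ N : Subgroup G, N.Normal ∧ (N.index = 2 ∨ N.index = Nat.card (S : Subgroup G)) ∧
         (∃ H : Subgroup ↥N, Cfsg.IsFrobeniusComplement H)) := by
    intro hidx hreg h4
    obtain ⟨N, hNn, hNi, hTN, hSN⟩ : ∃ N : Subgroup G, N.Normal ∧ N.index = 2 ∧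
        (S : Subgroup G) ⊓ MulAction.stabilizer G α ≤ N ∧
        ∀ x ∈ (S : Subgroup G), x ∈ N → x ∈ MulAction.stabilizer G α := by
      by_cases hcyc : IsCyclic ↥(S : Subgroup G)
      · exact hNCyc S α β s cfg hidx hcyc
      · exact hNSign (S : Subgroup G) α β s cfg hidx hreg hcyc
    obtain ⟨H, hH⟩ := hFrob htr S α β s cfg hidx N hNn hTN hSN
    obtain ⟨ho1, ho2⟩ := hOrb (S : Subgroup G) α β s cfg hidx hreg
    exact ⟨h4, ⟨α, ho1, ho2⟩, N, hNn, Or.inl hNi, H, hH⟩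
  by_cases h4T : 4 ≤ Nat.card ↥((S : Subgroup G) ⊓ MulAction.stabilizer G α)
  · have hidx := hIdx (S : Subgroup G) α β s cfg h4T
    have hS8 : 8 ≤ Nat.card (S : Subgroup G) := by
      rw [hidx] at hcard
      omega
    by_cases hreg : ∀ ω : Ω, ω ≠ α → ω ≠ β → (S : Subgroup G) ⊓ MulAction.stabilizer G ω = ⊥
    · exact Or.inr (Or.inr (Or.inl (third hidx hreg (by omega))))
    · push Not at hreg
      obtain ⟨ω, hωα, hωβ, hω⟩ := hreg
      obtain ⟨x, hx, hC⟩ := hUCent (S : Subgroup G) α β s cfg hidx h4T ω hωα hωβ hω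
      rcases h3224 S.isPGroup' x hx hC with hD | hQ | h4
      · exact Or.inr (Or.inl ⟨Or.inl hD, Or.inr hidx⟩)
      · exact Or.inr (Or.inl ⟨Or.inr hQ, Or.inr hidx⟩)
      · omega
  · -- `|T| = 2`
    have hT2 : Nat.card ↥((S : Subgroup G) ⊓ MulAction.stabilizer G α) = 2 := by
      have hpT : IsPGroup 2 ↥((S : Subgroup G) ⊓ MulAction.stabilizer G α) :=
        S.isPGroup'.to_le hTS
      obtain ⟨k, hk⟩ := IsPGroup.iff_card.mp hpT
      have hne1 : Nat.card ↥((S : Subgroup G) ⊓ MulAction.stabilizer G α) ≠ 1 := by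
        intro h1
        exact hT (Subgroup.card_eq_one.mp h1)
      rw [hk] at h4T hne1 ⊢
      have hk1 : k = 1 := by
        rcases k with _ | _ | k
        · exact absurd rfl hne1
        · rfl
        · exfalso
          apply h4T
          calc 4 = 2 ^ 2 := by norm_num
            _ ≤ 2 ^ (k + 1 + 1) := Nat.pow_le_pow_right (by norm_num) (by omega)
      rw [hk1, pow_one]
    obtain ⟨x, hx, hC⟩ := hTwo (S : Subgroup G) α β s cfg hT2
    rcases h3224 S.isPGroup' x hx hC with hD | hQ | h4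
    · exact Or.inr (Or.inl ⟨Or.inl hD, Or.inl hT2⟩)
    · exact Or.inr (Or.inl ⟨Or.inr hQ, Or.inl hT2⟩)
    · rcases hOrd4 h4 with hcyc | hD2
      · have hidx : ((S : Subgroup G) ⊓ MulAction.stabilizer G α).relIndex (S : Subgroup G)
            = 2 := by
          rw [hT2, h4] at hcard
          omega
        have hreg := hCycOrb (S : Subgroup G) α β s cfg hcyc
        exact Or.inr (Or.inr (Or.inl (third hidx hreg (by omega))))
      · exact Or.inr (Or.inl ⟨Or.inl ⟨2, hD2⟩, Or.inl hT2⟩)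

end Cfsg.Agent.Lib.Helper59.FxAsm
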