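import Mathlib
import Cfsg.Agent.Lib.Helper40.GFStmt
import Cfsg.Agent.Lib.Helper40.KStr

/-!
# S5886 / K2B (call by helper40)

`[L : F] ≥ 3`: from `R(p e, d c₀) - R(p d~ e, c₀) ∈ Σ` (all `p, d, c₀`) a special transvection.
Telescoping with `(1, d d', 1)`, `(1, d, d')`, `(d~, d', 1)` gives `R(δ e, 1) ∈ Σ` for
`δ = (d d')~ - d~ d'~`; choose `d' ∉ F` with `b (d' e) = 0` and `d` with `b (d e) ≠ 0`.
-/

set_option autoImplicit false

namespace Cfsg.Agent.Lib.Helper59.GFK2B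

open Cfsg.Agent.Lib.Helper40.GFStmt

universe u

theorem main : K2B.{u} := by
  intro F L _ _ _ _ k c hprime h3 τ hτ v ψ e b hv hψ hψv he hb hbe hyp
  have hfd : FiniteDimensional F L := Module.Finite.of_finite
  -- `d` with `b (d * e) ≠ 0`
  obtain ⟨a, ha⟩ : ∃ a, b a ≠ 0 := by
    by_contra hcon
    push Not at hcon
    exact hb (LinearMap.ext hcon)
  obtain ⟨d, hd⟩ : ∃ d : L, b (d * e) ≠ 0 := ⟨a * e⁻¹, by rwa [inv_mul_cancel_right₀ he]⟩
  -- `d' ∉ F` with `b (d' * e) = 0`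
  obtain ⟨d', hd'0, hd'F⟩ : ∃ d' : L, b (d' * e) = 0 ∧ d' ∉ Set.range (algebraMap F L) := by
    obtain ⟨f, hf⟩ : ∃ f : L →ₗ[F] F, f = b ∘ₗ LinearMap.mulRight F e := ⟨_, rfl⟩
    have h1 := LinearMap.finrank_range_add_finrank_ker f
    have h2 : Module.finrank F (LinearMap.range f) ≤ 1 := by
      have h := Submodule.finrank_le (LinearMap.range f)
      rwa [Module.finrank_self] at h
    have h4 : 2 ≤ Module.finrank F (LinearMap.ker f) := by omega
    have h5 : ¬ LinearMap.ker f ≤ Submodule.span F {(1 : L)} := by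
      intro hle
      have h6 := Submodule.finrank_mono hle
      rw [finrank_span_singleton (one_ne_zero)] at h6
      omega
    obtain ⟨d', hd'k, hd'n⟩ := SetLike.not_le_iff_exists.mp h5
    refine ⟨d', ?_, ?_⟩
    · have h := LinearMap.mem_ker.mp hd'k
      rw [hf] at h
      simpa using h
    · rintro ⟨s, rfl⟩
      apply hd'n
      rw [Algebra.algebraMap_eq_smul_one]
      exact Submodule.smul_mem _ _ (Submodule.mem_span_singleton_self 1)
  obtain ⟨Td, hTd⟩ : ∃ Td : L, Td = d + algebraMap F L (b (d * e)) := ⟨_, rfl⟩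
  obtain ⟨δ, hδ⟩ : ∃ δ : L, δ = d * d' + algebraMap F L (b (d * d' * e))
      - Td * (d' + algebraMap F L (b (d' * e))) := ⟨_, rfl⟩
  have hγ : algebraMap F L (b (d * e)) ≠ 0 := by
    rw [Ne, map_eq_zero]
    exact hd
  have hδ0 : δ ≠ 0 := by
    intro h
    apply hd'F
    refine ⟨b (d * d' * e) / b (d * e), ?_⟩
    rw [map_div₀, div_eq_iff hγ]
    rw [hδ, hTd, hd'0, map_zero, add_zero] at h
    linear_combination h
  have H1 := hyp 1 (d * d') 1
  have H2 := hyp 1 d d'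
  have H3 := hyp Td d' 1
  obtain ⟨w, hwM, hwx⟩ := inSig_sub c v ψ hψv (inSig_add c v ψ hψv H2 H3) H1
  obtain ⟨cb, hcb⟩ := Cfsg.Agent.Lib.Helper40.KStr.exists_rep τ hτ b
  have hcb0 : cb ≠ 0 := by
    rintro rfl
    apply hb
    ext a
    rw [hcb a, mul_zero, map_zero]
    rfl
  have key : ∀ x, w x = x + (algebraMap F L (b (ψ x)) * (δ * e)) • v := by
    intro x
    rw [hwx x]
    congr 1
    congr 1
    simp only [LinearMap.sub_apply, LinearMap.add_apply, rk1_apply, one_mul, mul_one,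
      Algebra.smul_def]
    rw [hδ, hTd]
    ring
  refine ⟨w, hwM, (δ * e) • v, cb • ψ, ?_, ?_, ?_, ?_⟩
  · exact smul_ne_zero (mul_ne_zero hδ0 he) hv
  · intro h
    apply hψ
    have h' : cb⁻¹ • (cb • ψ) = 0 := by rw [h, smul_zero]
    rwa [smul_smul, inv_mul_cancel₀ hcb0, one_smul] at h'
  · rw [LinearMap.smul_apply, map_smul, hψv, smul_zero, smul_zero]
  · intro x
    rw [key x, mul_smul, ← smulF, LinearMap.smul_apply, smul_eq_mul, hcb, mul_comm cb]

end Cfsg.Agent.Lib.Helper59.GFK2B
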