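import Mathlib
import Cfsg.Agent.Lib.Helper44.GFStmt
import Cfsg.Agent.Lib.Helper44.GFHs
import Cfsg.Agent.Lib.Helper97.MCentCO
import Cfsg.Agent.Lib.Helper99.MCentOR

/-! Piece [RAT] of S2717: rational inner-diagonal elements with square multiplier become inner. -/

set_option autoImplicit false
set_option linter.unusedSectionVars false

namespace Cfsg.Agent.Lib.Helper59.GFRAT

open Matrix Module QuadraticMap
open Cfsg.Agent.Lib.Helper45.OmegaAut Cfsg.Agent.Lib.Helper43.H90Fin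
open Cfsg.Agent.Lib.Helper44.MFld0 Cfsg.Agent.Lib.Helper44.NegPairs Cfsg.Agent.Lib.Helper44.QSpace
  Cfsg.Agent.Lib.Helper44.MFldStmt Cfsg.Agent.Lib.Helper44.OMat
  Cfsg.Agent.Lib.Helper45.MinusInndiag Cfsg.Agent.Lib.Helper45.PlusInndiag
  Cfsg.Agent.Lib.Helper45.OmegaAutPsi Cfsg.Agent.Lib.Helper45.OmegaAutMain
  Cfsg.Agent.Lib.Helper45.OmegaInndiag Cfsg.Agent.Lib.Helper45.OmegaAutKer
  Cfsg.Agent.Lib.Helper44.OGroup Cfsg.Agent.Lib.Helper44.Omega2 Cfsg.Agent.Lib.Helper44.OMat2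
  Cfsg.Agent.Lib.Helper44.GFStmt Cfsg.Agent.Lib.Helper44.OFld0 Cfsg.Agent.Lib.Helper44.Spinor

universe u v

section general

variable {F : Type*} [Field F] {ι κ : Type} [Fintype ι] [DecidableEq ι] [Fintype κ]
  [DecidableEq κ]

theorem rect_ext {M N : Matrix κ ι F} (h : ∀ x, M *ᵥ x = N *ᵥ x) : M = N := by
  ext i c
  have h1 := congrFun (h (Pi.single c 1)) i
  simpa using h1

theorem reflectionMatrix_map {F₀ : Type*} [Field F₀] (j : F₀ →+* F) (Q₀ : (ι → F₀) → F₀)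
    (Q₁ : (ι → F) → F) (hQ : ∀ v : ι → F₀, Q₁ (j ∘ v) = j (Q₀ v)) (w : ι → F₀) :
    (Cfsg.reflectionMatrix Q₀ w).map j = Cfsg.reflectionMatrix Q₁ (j ∘ w) := by
  have hpol : ∀ c, j (Cfsg.polarVec Q₀ w c) = Cfsg.polarVec Q₁ (j ∘ w) c := by
    intro c
    unfold Cfsg.polarVec QuadraticMap.polar
    have e1 : j ∘ (w + Pi.single c (1 : F₀)) = j ∘ w + Pi.single c 1 := by
      funext i
      by_cases hic : i = c
      · subst hic; simp
      · simp [hic]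
    have e2 : j ∘ (Pi.single c (1 : F₀) : ι → F₀) = Pi.single c 1 := by
      funext i
      by_cases hic : i = c
      · subst hic; simp
      · simp [hic]
    rw [map_sub, map_sub, ← hQ, ← hQ, ← hQ, e1, e2]
  ext i c
  unfold Cfsg.reflectionMatrix
  simp only [Matrix.map_apply, Matrix.sub_apply, Matrix.smul_apply, Matrix.vecMulVec_apply,
    smul_eq_mul, map_sub, map_mul, map_inv₀, hpol, ← hQ, Function.comp_apply]
  congr 1
  by_cases hic : i = c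
  · subst hic; simp
  · simp [hic]

theorem det_reflectionMatrix [Fintype F] (Q : QuadraticForm F (ι → F)) {v : ι → F}
    (hv : Q v ≠ 0) : (Cfsg.reflectionMatrix (⇑Q) v).det = -1 := by
  have h1 : (((rfl' Q v : ↥(Cfsg.Geo.quadSimilarityGroup (F := F) ⇑Q)) : GL ι F) : Matrix ι ι F)
      = Cfsg.reflectionMatrix (⇑Q) v := by
    apply matrix_ext_mulVec
    intro x
    rw [rfl'_mulVec, reflection_mulVec]
  have h2 := det_rfl' Q hv
  have h3 := congrArg (fun t : Fˣ => (t : F)) h2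
  simp only [Matrix.GeneralLinearGroup.val_det_apply, Units.val_neg, Units.val_one] at h3
  rw [← h1]
  exact h3

theorem det_prod_refl [Fintype F] (Q : QuadraticForm F (ι → F)) (vs : List (ι → F))
    (hvs : ∀ v ∈ vs, Q v ≠ 0) :
    ((vs.map (fun v => Cfsg.reflectionMatrix (⇑Q) v)).prod).det = (-1) ^ vs.length := by
  induction vs with
  | nil => simp
  | cons w ws ih =>
    rw [List.map_cons, List.prod_cons, Matrix.det_mul, List.length_cons, pow_succ,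
      det_reflectionMatrix Q (hvs w List.mem_cons_self),
      ih (fun v hv => hvs v (List.mem_cons_of_mem _ hv))]
    ring

theorem conj_refl (Q₁ : QuadraticForm F (ι → F)) (Q₂ : QuadraticForm F (κ → F))
    (H : Matrix κ ι F) (hH : ∀ v, Q₂ (H *ᵥ v) = Q₁ v) (w : ι → F) :
    H * Cfsg.reflectionMatrix (⇑Q₁) w = Cfsg.reflectionMatrix (⇑Q₂) (H *ᵥ w) * H := by
  apply rect_ext
  intro y
  have hpol : polar (⇑Q₂) (H *ᵥ y) (H *ᵥ w) = polar (⇑Q₁) y w := by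
    unfold polar
    rw [← Matrix.mulVec_add, hH, hH, hH]
  rw [← Matrix.mulVec_mulVec, ← Matrix.mulVec_mulVec, reflection_mulVec, reflection_mulVec,
    reflE_apply, reflE_apply, Matrix.mulVec_sub, Matrix.mulVec_smul, hH, hpol]

theorem conj_prod {F₀ : Type*} [Field F₀] (j : F₀ →+* F) (Q₀ : (ι → F₀) → F₀)
    (Q₁ : QuadraticForm F (ι → F)) (Q₂ : QuadraticForm F (κ → F))
    (hQ : ∀ v : ι → F₀, Q₁ (j ∘ v) = j (Q₀ v))
    (H : Matrix κ ι F) (hH : ∀ v, Q₂ (H *ᵥ v) = Q₁ v) (vs : List (ι → F₀)) :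
    H * ((vs.map (fun w => Cfsg.reflectionMatrix Q₀ w)).prod).map j =
      (vs.map (fun w => Cfsg.reflectionMatrix (⇑Q₂) (H *ᵥ (j ∘ w)))).prod * H := by
  induction vs with
  | nil =>
    rw [List.map_nil, List.prod_nil, List.map_nil, List.prod_nil, Matrix.one_mul,
      Matrix.map_one j (map_zero _) (map_one _), Matrix.mul_one]
  | cons w ws ih =>
    rw [List.map_cons, List.prod_cons, List.map_cons, List.prod_cons]
    have h1 : (Cfsg.reflectionMatrix Q₀ w *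
        (ws.map (fun w => Cfsg.reflectionMatrix Q₀ w)).prod).map j =
        (Cfsg.reflectionMatrix Q₀ w).map j *
          ((ws.map (fun w => Cfsg.reflectionMatrix Q₀ w)).prod).map j :=
      Matrix.map_mul (f := j)
    rw [h1, ← Matrix.mul_assoc, reflectionMatrix_map j Q₀ (⇑Q₁) hQ w, conj_refl Q₁ Q₂ H hH,
      Matrix.mul_assoc, ih, Matrix.mul_assoc]

end general

theorem main (hSF : SqOfFix.{u}) (hHS : HsInv.{u}) : RatOmega.{u, v} := by
  intro F₀ _ _ F _ _ j σ hσ hfix k hk a₀ b₀ hab h2 ω ω' hsum hprod hne g₀ hinn hsq g hmat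
  obtain ⟨c₀, hc₀⟩ := hsq
  have hjinj : Function.Injective j := j.injective
  have h2₀ : (2 : F₀) ≠ 0 := by
    intro h
    apply h2
    have h' := congrArg j h
    rw [map_ofNat, map_zero] at h'
    exact h'
  obtain ⟨v₀, hv₀def⟩ : ∃ v₀ : MI k → F₀, v₀ = Pi.single (Sum.inr 0) 1 := ⟨_, rfl⟩
  have hQ₀ : minusQ k F₀ a₀ b₀ v₀ = 1 := by
    show Cfsg.quadFormMinus k F₀ a₀ b₀ v₀ = 1
    rw [hv₀def]
    unfold Cfsg.quadFormMinus
    simp
  have hv₀ : minusQ k F₀ a₀ b₀ v₀ ≠ 0 := by rw [hQ₀]; exact one_ne_zero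
  have hdl : dl (minusQ k F₀ a₀ b₀) hv₀ (k + 1) g₀ = 1 := by
    have h1 := hinn
    rw [inndiag_minus_eq h2₀ k hab hv₀] at h1
    exact (Cfsg.Agent.Lib.Helper97.MCentCO.mem_D0_iff h2₀ k hk hab hv₀ g₀).mp h1
  have hμ : mu (minusQ k F₀ a₀ b₀) g₀ = c₀ ^ 2 :=
    mu_unique (minusQ k F₀ a₀ b₀) hv₀ g₀ (c₀ ^ 2) (fun v => by
      rw [Units.val_pow_eq_pow_val]; exact hc₀ v)
  have hdet : ((g₀ : GL (MI k) F₀) : Matrix (MI k) (MI k) F₀).det =
      (c₀ : F₀) ^ (2 * (k + 1)) := by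
    have h1 := (dl_eq_one_iff (minusQ k F₀ a₀ b₀) hv₀ (k + 1) g₀).mp hdl
    rw [h1, hμ, Units.val_pow_eq_pow_val, ← pow_mul]
  have hS₀ : Sep (minusQ k F₀ a₀ b₀) := sep_minusQ h2₀ k a₀ b₀ hab
  have hCD : CDP (minusQ k F₀ a₀ b₀) := cdp_of_two_ne_zero h2₀ hS₀
  have hcardM : Fintype.card (MI k) = 2 * (k + 1) := by
    simp only [Fintype.card_sum, Fintype.card_fin]
    ring
  -- the isometry `c₀⁻¹ g₀`
  obtain ⟨M₀, hM₀⟩ : ∃ M₀ : Matrix (MI k) (MI k) F₀,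
      M₀ = (c₀ : F₀)⁻¹ • ((g₀ : GL (MI k) F₀) : Matrix (MI k) (MI k) F₀) := ⟨_, rfl⟩
  obtain ⟨u₀, hu₀⟩ : ∃ u₀ : GL (MI k) F₀, (u₀ : Matrix (MI k) (MI k) F₀) = M₀ := by
    refine ⟨Matrix.GeneralLinearGroup.scalar (MI k) c₀⁻¹ * (g₀ : GL (MI k) F₀), ?_⟩
    rw [Units.val_mul, Matrix.GeneralLinearGroup.coe_scalar, hM₀, Matrix.scalar_apply,
      ← Matrix.smul_eq_diagonal_mul, Units.val_inv_eq_inv_val]
  have hu₀iso : u₀ ∈ Cfsg.isometryGroup F₀ ⇑(minusQ k F₀ a₀ b₀) := by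
    rw [mem_iso_iff']
    intro x
    rw [hu₀, hM₀, Matrix.smul_mulVec, QuadraticMap.map_smul]
    show (c₀ : F₀)⁻¹ * (c₀ : F₀)⁻¹ *
      Cfsg.quadFormMinus k F₀ a₀ b₀ (((g₀ : GL (MI k) F₀) : Matrix (MI k) (MI k) F₀) *ᵥ x) = _
    rw [hc₀ x]
    have hc0 : (c₀ : F₀) ≠ 0 := c₀.ne_zero
    show _ = Cfsg.quadFormMinus k F₀ a₀ b₀ x
    field_simp
  obtain ⟨vs, hvs, hs⟩ := exists_prod_of_cdp hCD ⟨u₀, hu₀iso⟩
  have hM₀prod : M₀ =
      (vs.map (fun w => Cfsg.reflectionMatrix (⇑(minusQ k F₀ a₀ b₀)) w)).prod := by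
    apply matrix_ext_mulVec
    intro x
    rw [prod_reflection_mulVec, ← coe_prod_refl, ← hs, isoEquiv_apply, hu₀]
  have hdetM₀ : M₀.det = 1 := by
    rw [hM₀, Matrix.det_smul, hdet, hcardM, inv_pow]
    exact inv_mul_cancel₀ (pow_ne_zero _ c₀.ne_zero)
  have heven : Even vs.length := by
    have h1 := det_prod_refl (minusQ k F₀ a₀ b₀) vs hvs
    rw [← hM₀prod, hdetM₀] at h1
    by_contra hodd
    rw [Nat.not_even_iff_odd] at hodd
    rw [hodd.neg_one_pow] at h1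
    apply h2₀
    linear_combination h1
  -- transfer through `Hs`
  have hH : ∀ y : MI k → F, plusQ (k + 1) F (Hs k ω ω' *ᵥ y) = minusQ k F (j a₀) (j b₀) y := by
    intro y
    show Cfsg.quadFormPlus (k + 1) F (Hs k ω ω' *ᵥ y) = Cfsg.quadFormMinus k F (j a₀) (j b₀) y
    rw [Cfsg.Agent.Lib.Helper44.GFHs.hsIso F k ω ω' y, hsum, hprod]
  have hQmap : ∀ w : MI k → F₀, minusQ k F (j a₀) (j b₀) (j ∘ w) = j (minusQ k F₀ a₀ b₀ w) :=
    fun w => minus_map j k a₀ b₀ w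
  have hconj := conj_prod j (⇑(minusQ k F₀ a₀ b₀)) (minusQ k F (j a₀) (j b₀)) (plusQ (k + 1) F)
    hQmap (Hs k ω ω') hH vs
  rw [← hM₀prod] at hconj
  obtain ⟨H', hH'1, hH'2⟩ := hHS F k ω ω' hne
  have hjc : j (c₀ : F₀) ≠ 0 := by
    intro h
    exact c₀.ne_zero (hjinj (by rw [h, map_zero]))
  have hM₀map : M₀.map j =
      (j (c₀ : F₀))⁻¹ • ((g₀ : GL (MI k) F₀) : Matrix (MI k) (MI k) F₀).map j := by
    rw [hM₀]
    ext a b
    simp
  obtain ⟨vs', hvs'def⟩ : ∃ vs' : List (PI k → F), vs' = vs.map (fun w => Hs k ω ω' *ᵥ (j ∘ w)) :=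
    ⟨_, rfl⟩
  have hD : (j (c₀ : F₀))⁻¹ • ((g : GL (PI k) F) : Matrix (PI k) (PI k) F) =
      (vs'.map (fun v => Cfsg.reflectionMatrix (⇑(plusQ (k + 1) F)) v)).prod := by
    have h1 : ((j (c₀ : F₀))⁻¹ • ((g : GL (PI k) F) : Matrix (PI k) (PI k) F)) * Hs k ω ω' =
        (vs.map (fun w => Cfsg.reflectionMatrix (⇑(plusQ (k + 1) F))
          (Hs k ω ω' *ᵥ (j ∘ w)))).prod * Hs k ω ω' := by
      rw [← hconj, hM₀map, Matrix.smul_mul, hmat, Matrix.mul_smul]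
    have h3 := congrArg (fun X => X * H') h1
    simp only [Matrix.mul_assoc, hH'1, Matrix.mul_one] at h3
    rw [h3, hvs'def, List.map_map]
    rfl
  have hvs' : ∀ v ∈ vs', plusQ (k + 1) F v ≠ 0 := by
    intro v hv
    rw [hvs'def] at hv
    obtain ⟨w, hw, rfl⟩ := List.mem_map.mp hv
    rw [hH, hQmap]
    intro h
    exact hvs w hw (hjinj (by rw [h, map_zero]))
  have hlen : Even vs'.length := by rw [hvs'def, List.length_map]; exact heven
  have hsqr : IsSquare (vs'.map (fun v => plusQ (k + 1) F v)).prod := by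
    have h1 : (vs'.map (fun v => plusQ (k + 1) F v)).prod =
        j ((vs.map (fun w => minusQ k F₀ a₀ b₀ w)).prod) := by
      rw [hvs'def, List.map_map, map_list_prod, List.map_map]
      congr 1
      apply List.map_congr_left
      intro w _
      show plusQ (k + 1) F (Hs k ω ω' *ᵥ (j ∘ w)) = j (minusQ k F₀ a₀ b₀ w)
      rw [hH, hQmap]
    rw [h1]
    exact hSF F σ hσ _ ((hfix _).mpr ⟨_, rfl⟩)
  have hcardP : 2 ≤ Fintype.card (PI k) := by
    simp only [Fintype.card_sum, Fintype.card_fin]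
    omega
  obtain ⟨s, hsΩ, hsD⟩ := (exists_mem_omega_iff h2 (plusQ (k + 1) F) (sep_plusQ (k + 1)) hcardP
    ((j (c₀ : F₀))⁻¹ • ((g : GL (PI k) F) : Matrix (PI k) (PI k) F)) vs' hvs'
    (fun x => by rw [hD, prod_reflection_mulVec])).mpr ⟨hlen, hsqr⟩
  -- conclusion
  rw [inn_eq]
  refine ⟨⟨s, hsΩ⟩, ?_⟩
  show Phi (Cfsg.quadFormPlus (k + 1) F) (inclΩ (Cfsg.quadFormPlus (k + 1) F) ⟨s, hsΩ⟩) =
    Phi (Cfsg.quadFormPlus (k + 1) F) g
  have hz : Phi (Cfsg.quadFormPlus (k + 1) F)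
      (g * (inclΩ (Cfsg.quadFormPlus (k + 1) F) ⟨s, hsΩ⟩)⁻¹) = 1 := by
    apply Phi_eq_one_of_scalar _ _ (j (c₀ : F₀))
    intro x
    have h1 : ((g : GL (PI k) F) : Matrix (PI k) (PI k) F) =
        j (c₀ : F₀) • ((s : GL (PI k) F) : Matrix (PI k) (PI k) F) := by
      rw [hsD, smul_smul, mul_inv_cancel₀ hjc, one_smul]
    rw [Subgroup.coe_mul, Subgroup.coe_inv, inclΩ_coe, Units.val_mul, h1, Matrix.smul_mul,
      Units.mul_inv, Matrix.smul_mulVec, Matrix.one_mulVec]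
  rw [map_mul, map_inv, mul_inv_eq_one] at hz
  exact hz.symm

end Cfsg.Agent.Lib.Helper59.GFRAT
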