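import Mathlib

/-!
# Hall–Higman type core: a prime order automorphism of a nondegenerate projective
representation of an abelian group without fixed vectors.
-/

namespace Cfsg.Agent.Lib.Helper59.HHCore

open Module

section WeightSep

variable {K : Type*} [Field K] {M : Type*} [AddCommGroup M] [Module K M]

/-- Weight vectors with pairwise distinct weights: a stable submodule containing a linear
combination contains every term. -/
theorem weight_sep {ι B : Type*} (f : B → M →ₗ[K] M) (v : ι → M) (χ : ι → B → K)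
    (hχ : ∀ i b, f b (v i) = χ i b • v i)
    (hdist : ∀ i j, i ≠ j → ∃ b, χ i b ≠ χ j b)
    (J : Submodule K M) (hJ : ∀ b, ∀ u ∈ J, f b u ∈ J) :
    ∀ (S : Finset ι) (c : ι → K), ∑ i ∈ S, c i • v i ∈ J → ∀ i ∈ S, c i • v i ∈ J := by
  classical
  intro S
  induction S using Finset.induction_on with
  | empty => intro c _ i hi; simp at hi
  | insert j S hj ih =>
    intro c hc
    rw [Finset.sum_insert hj] at hc
    have hS : ∀ i ∈ S, c i • v i ∈ J := by
      intro i₀ hi₀
      have hne : i₀ ≠ j := fun h => hj (h ▸ hi₀)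
      obtain ⟨b, hb⟩ := hdist i₀ j hne
      have h1 : f b (c j • v j + ∑ i ∈ S, c i • v i) - χ j b • (c j • v j + ∑ i ∈ S, c i • v i) ∈ J :=
        J.sub_mem (hJ b _ hc) (J.smul_mem _ hc)
      have h2 : f b (c j • v j + ∑ i ∈ S, c i • v i) - χ j b • (c j • v j + ∑ i ∈ S, c i • v i)
          = ∑ i ∈ S, (c i * (χ i b - χ j b)) • v i := by
        rw [map_add, map_sum, smul_add, Finset.smul_sum, map_smul, hχ]
        have h3 : ∀ i ∈ S, f b (c i • v i) = (c i * χ i b) • v i := by
          intro i _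
          rw [map_smul, hχ, smul_smul]
        rw [Finset.sum_congr rfl h3]
        have h4 : ∀ i ∈ S, (c i * (χ i b - χ j b)) • v i
            = (c i * χ i b) • v i - χ j b • c i • v i := by
          intro i _
          rw [smul_smul, ← sub_smul]
          congr 1; ring
        rw [Finset.sum_congr rfl h4, Finset.sum_sub_distrib, smul_smul, smul_smul, mul_comm (c j)]
        abel
      rw [h2] at h1
      have h5 := ih (fun i => c i * (χ i b - χ j b)) h1 i₀ hi₀
      have h6 : (χ i₀ b - χ j b) ≠ 0 := sub_ne_zero.mpr hb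
      have h7 := J.smul_mem (χ i₀ b - χ j b)⁻¹ h5
      rw [smul_smul] at h7
      have h8 : (χ i₀ b - χ j b)⁻¹ * (c i₀ * (χ i₀ b - χ j b)) = c i₀ := by
        field_simp
      rwa [h8] at h7
    intro i hi
    rcases Finset.mem_insert.mp hi with rfl | hi
    · have h9 : ∑ i ∈ S, c i • v i ∈ J := J.sum_mem hS
      have := J.sub_mem hc h9
      simpa using this
    · exact hS i hi

end WeightSep

section L5

variable {K : Type*} [Field K] {V : Type*} [AddCommGroup V] [Module K V]

theorem card_pairs_le_finrank [FiniteDimensional K V] {ι : Type*} [Fintype ι] [DecidableEq ι]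
    (B : Basis ι K V) (d : ι → K) (f : Module.End K V) (hf : ∀ i, f (B i) = d i • B i)
    (D : Submodule K (Module.End K V)) (hD : ∀ g : Module.End K V, f * g = g * f → g ∈ D) :
    Nat.card {p : ι × ι // d p.1 = d p.2} ≤ finrank K D := by
  classical
  rw [Nat.card_eq_fintype_card]
  let u : {p : ι × ι // d p.1 = d p.2} → Module.End K V := fun p =>
    B.constr K (fun k => if k = p.1.2 then B p.1.1 else 0)
  have hu : ∀ (p : {p : ι × ι // d p.1 = d p.2}) (k : ι),
      u p (B k) = if k = p.1.2 then B p.1.1 else 0 := by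
    intro p k
    simp [u]
  have hli : LinearIndependent K u := by
    rw [Fintype.linearIndependent_iff]
    intro c hc p
    have h1 : (∑ q, c q • u q) (B p.1.2) = 0 := by rw [hc]; rfl
    rw [LinearMap.sum_apply] at h1
    have h2 := congrArg (fun w : V => B.repr w p.1.1) h1
    simp only [LinearMap.smul_apply, hu, map_sum, map_smul, map_zero, Finsupp.coe_finsetSum,
      Finset.sum_apply, Finsupp.coe_smul, Pi.smul_apply, smul_eq_mul, Finsupp.coe_zero,
      Pi.zero_apply] at h2
    rw [Finset.sum_eq_single p] at h2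
    · simpa using h2
    · intro q _ hq
      by_cases h3 : p.1.2 = q.1.2
      · rw [if_pos h3]
        have h4 : q.1.1 ≠ p.1.1 := by
          intro h4
          apply hq
          apply Subtype.ext
          exact Prod.ext h4 h3.symm
        simp [h4]
      · rw [if_neg h3]; simp
    · intro h; exact absurd (Finset.mem_univ p) h
  have hcomm : ∀ p, f * u p = u p * f := by
    intro p
    apply B.ext
    intro k
    rw [Module.End.mul_apply, Module.End.mul_apply, hu, hf, map_smul, hu]
    by_cases h : k = p.1.2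
    · rw [if_pos h, hf, h, p.2]
    · rw [if_neg h, map_zero, smul_zero]
  have hle : Submodule.span K (Set.range u) ≤ D := by
    rw [Submodule.span_le]
    rintro _ ⟨p, rfl⟩
    exact hD _ (hcomm p)
  calc Fintype.card {p : ι × ι // d p.1 = d p.2}
      = finrank K (Submodule.span K (Set.range u)) := (finrank_span_eq_card hli).symm
    _ ≤ finrank K D := Submodule.finrank_mono hle

theorem sq_finrank_le [IsAlgClosed K] [FiniteDimensional K V]
    (f : Module.End K V) (r : ℕ) (hr : 0 < r) (hfr : f ^ r = 1) (hrK : (r : K) ≠ 0)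
    (hfix : ∀ v, f v = v → v = 0)
    (D : Submodule K (Module.End K V)) (hD : ∀ g : Module.End K V, f * g = g * f → g ∈ D) :
    (finrank K V) ^ 2 ≤ (r - 1) * finrank K D := by
  classical
  have hss : f.IsSemisimple := by
    have hsq : Squarefree (Polynomial.X ^ r - Polynomial.C (1 : K)) :=
      (Polynomial.separable_X_pow_sub_C (1 : K) hrK one_ne_zero).squarefree
    apply Module.End.isSemisimple_of_squarefree_aeval_eq_zero hsq
    simp [hfr]
  have htop : ⨆ μ : K, f.eigenspace μ = ⊤ := by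
    have := Module.End.iSup_maxGenEigenspace_eq_top f
    simpa only [hss.isFinitelySemisimple.maxGenEigenspace_eq_eigenspace] using this
  let s : Set V := {v | ∃ μ : K, f v = μ • v}
  have hs : Submodule.span K s = ⊤ := by
    rw [eq_top_iff, ← htop]
    apply iSup_le
    intro μ v hv
    exact Submodule.subset_span ⟨μ, Module.End.mem_eigenspace_iff.mp hv⟩
  obtain ⟨b, hbs, hbspan, hbli⟩ := exists_linearIndependent K s
  let B : Basis ↥b K V := Basis.mk hbli (by rw [Subtype.range_coe, hbspan, hs])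
  letI : Fintype ↥b := FiniteDimensional.fintypeBasisIndex B
  have hB : ∀ i : ↥b, B i = (i : V) := fun i => by simp [B]
  choose d hd using fun i : ↥b => hbs i.2
  have hP := card_pairs_le_finrank B d f (by intro i; rw [hB]; exact hd i) D hD
  rw [Nat.card_eq_fintype_card] at hP
  have hpow : ∀ (i : ↥b) (k : ℕ), (f ^ k) (i : V) = d i ^ k • (i : V) := by
    intro i k
    induction k with
    | zero => simp
    | succ k ih =>
      rw [pow_succ, Module.End.mul_apply, hd, map_smul, ih, smul_smul, pow_succ, mul_comm]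
  have hne0 : ∀ i : ↥b, (i : V) ≠ 0 := fun i => by rw [← hB]; exact B.ne_zero i
  have hdr : ∀ i, d i ^ r = 1 := by
    intro i
    have h1 := hpow i r
    rw [hfr, Module.End.one_apply] at h1
    have h2 : (d i ^ r - 1) • (i : V) = 0 := by rw [sub_smul, one_smul, ← h1, sub_self]
    rcases smul_eq_zero.mp h2 with h | h
    · exact sub_eq_zero.mp h
    · exact absurd h (hne0 i)
  have hd1 : ∀ i, d i ≠ 1 := by
    intro i h
    apply hne0 i
    apply hfix
    rw [hd, h, one_smul]
  let S : Finset K := Finset.univ.image d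
  have hScard : S.card ≤ r - 1 := by
    have h1 : S ⊆ (Polynomial.nthRoots r (1 : K)).toFinset.erase 1 := by
      intro μ hμ
      obtain ⟨i, _, rfl⟩ := Finset.mem_image.mp hμ
      rw [Finset.mem_erase, Multiset.mem_toFinset, Polynomial.mem_nthRoots hr]
      exact ⟨hd1 i, hdr i⟩
    have h2 : (1 : K) ∈ (Polynomial.nthRoots r (1 : K)).toFinset := by
      rw [Multiset.mem_toFinset, Polynomial.mem_nthRoots hr, one_pow]
    calc S.card ≤ ((Polynomial.nthRoots r (1 : K)).toFinset.erase 1).card := Finset.card_le_card h1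
      _ = (Polynomial.nthRoots r (1 : K)).toFinset.card - 1 := Finset.card_erase_of_mem h2
      _ ≤ r - 1 := Nat.sub_le_sub_right
          ((Multiset.toFinset_card_le _).trans (Polynomial.card_nthRoots r 1)) 1
  have hn : finrank K V = ∑ μ ∈ S, (Finset.univ.filter (fun i => d i = μ)).card := by
    rw [Module.finrank_eq_card_basis B, ← Finset.card_univ]
    exact Finset.card_eq_sum_card_image d Finset.univ
  have hPc : Fintype.card {p : ↥b × ↥b // d p.1 = d p.2}
      = ∑ μ ∈ S, (Finset.univ.filter (fun i => d i = μ)).card ^ 2 := by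
    rw [Fintype.card_subtype]
    rw [Finset.card_eq_sum_card_fiberwise (f := fun p : ↥b × ↥b => d p.1) (t := S)]
    · apply Finset.sum_congr rfl
      intro μ _
      rw [sq, ← Finset.card_product]
      congr 1
      ext ⟨i, j⟩
      simp only [Finset.mem_filter, Finset.mem_univ, true_and, Finset.mem_product]
      constructor
      · rintro ⟨h1, h2⟩; exact ⟨h2, by rw [← h1, h2]⟩
      · rintro ⟨h1, h2⟩; exact ⟨by rw [h1, h2], h1⟩
    · intro p _
      exact Finset.mem_image_of_mem _ (Finset.mem_univ _)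
  have hCS : (∑ μ ∈ S, (Finset.univ.filter (fun i => d i = μ)).card) ^ 2
      ≤ S.card * ∑ μ ∈ S, (Finset.univ.filter (fun i => d i = μ)).card ^ 2 :=
    sq_sum_le_card_mul_sum_sq
  calc (finrank K V) ^ 2 = (∑ μ ∈ S, (Finset.univ.filter (fun i => d i = μ)).card) ^ 2 := by rw [hn]
    _ ≤ S.card * ∑ μ ∈ S, (Finset.univ.filter (fun i => d i = μ)).card ^ 2 := hCS
    _ = S.card * Fintype.card {p : ↥b × ↥b // d p.1 = d p.2} := by rw [hPc]
    _ ≤ (r - 1) * finrank K D := Nat.mul_le_mul hScard hP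

end L5

section Core

variable {K : Type*} [Field K] {E : Type*} [Ring E] [Algebra K E]

theorem unit_inv_of_smul (u v : Eˣ) (c : K) (h : (u : E) = c • (v : E)) :
    ((u⁻¹ : Eˣ) : E) = c⁻¹ • ((v⁻¹ : Eˣ) : E) := by
  by_cases hE : Nontrivial E
  · have hc : c ≠ 0 := by
      rintro rfl
      rw [zero_smul] at h
      exact u.ne_zero h
    have h1 : (v : E) = c⁻¹ • (u : E) := by rw [h, smul_smul, inv_mul_cancel₀ hc, one_smul]
    calc ((u⁻¹ : Eˣ) : E) = ((u⁻¹ : Eˣ) : E) * ((v : E) * ((v⁻¹ : Eˣ) : E)) := by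
          rw [Units.mul_inv, mul_one]
      _ = c⁻¹ • ((v⁻¹ : Eˣ) : E) := by
          rw [h1, smul_mul_assoc, mul_smul_comm, ← mul_assoc, Units.inv_mul, one_mul]
  · rw [not_nontrivial_iff_subsingleton] at hE
    exact Subsingleton.elim _ _

theorem conj_of_smul (u v : Eˣ) (c : K) (h : (u : E) = c • (v : E)) (x : E) :
    ((u⁻¹ : Eˣ) : E) * x * (u : E) = ((v⁻¹ : Eˣ) : E) * x * (v : E) := by
  by_cases hE : Nontrivial E
  · have hc : c ≠ 0 := by
      rintro rfl
      rw [zero_smul] at h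
      exact u.ne_zero h
    rw [unit_inv_of_smul u v c h, h, smul_mul_assoc, smul_mul_assoc, mul_smul_comm, smul_smul,
      inv_mul_cancel₀ hc, one_smul]
  · rw [not_nontrivial_iff_subsingleton] at hE
    exact Subsingleton.elim _ _

end Core

section Main

variable {K : Type*} [Field K] [IsAlgClosed K] {W : Type*} [AddCommGroup W] [Module K W]
  [FiniteDimensional K W] [Nontrivial W]
  {I : Type*} [Group I] [Finite I] [Nontrivial I]

set_option maxHeartbeats 1600000 in
theorem hh_abstract (hI : ∀ a b : I, a * b = b * a)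
    (T : I → (Module.End K W)ˣ)
    (hT : ∀ a b, ∃ c : K, (T a : Module.End K W) * T b = c • (T (a * b) : Module.End K W))
    (hnd : ∀ a, a ≠ 1 → ∃ b, (T b : Module.End K W) * T a ≠ T a * T b)
    (X : (Module.End K W)ˣ) (r : ℕ) (hr : r.Prime) (hXr : X ^ r = 1) (hrK : (r : K) ≠ 0)
    (φ : I ≃* I) (hφr : ∀ a, (⇑φ)^[r] a = a) (hfpf : ∀ a, φ a = a → a = 1)
    (hX : ∀ a, ∃ c : K, (X : Module.End K W) * T a = c • ((T (φ a) : Module.End K W) * X))
    (hfix : ∀ w : W, (X : Module.End K W) w = w → w = 0) :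
    Nat.card I = (r - 1) ^ 2 := by
  classical
  letI : Fintype I := Fintype.ofFinite I
  choose α hα using hT
  choose γ hγ using hX
  -- abbreviations
  let t : I → Module.End K W := fun a => (T a : Module.End K W)
  let ti : I → Module.End K W := fun a => ((T a)⁻¹ : (Module.End K W)ˣ)
  let x : Module.End K W := (X : Module.End K W)
  let xi : Module.End K W := ((X⁻¹ : (Module.End K W)ˣ) : Module.End K W)
  have htti : ∀ a, t a * ti a = 1 := fun a => Units.mul_inv (T a)
  have htit : ∀ a, ti a * t a = 1 := fun a => Units.inv_mul (T a)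
  have hxxi : x * xi = 1 := Units.mul_inv X
  have hxix : xi * x = 1 := Units.inv_mul X
  have hα' : ∀ a b, t a * t b = α a b • t (a * b) := hα
  have hγ' : ∀ a, x * t a = γ a • (t (φ a) * x) := hγ
  have ht0 : ∀ a, t a ≠ 0 := fun a => (T a).ne_zero
  have hα0 : ∀ a b, α a b ≠ 0 := by
    intro a b h
    have h1 := hα' a b
    rw [h, zero_smul] at h1
    exact (T a * T b).ne_zero h1
  have hγ0 : ∀ a, γ a ≠ 0 := by
    intro a h
    have h1 := hγ' a
    rw [h, zero_smul] at h1
    exact (X * T a).ne_zero h1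
  have ht1 : t 1 = α 1 1 • (1 : Module.End K W) := by
    have h1 := hα' 1 1
    rw [mul_one] at h1
    calc t 1 = t 1 * (t 1 * ti 1) := by rw [htti, mul_one]
      _ = (t 1 * t 1) * ti 1 := by rw [mul_assoc]
      _ = α 1 1 • (1 : Module.End K W) := by rw [h1, smul_mul_assoc, htti]
  -- commutation scalars
  let β : I → I → K := fun b a => α b a * (α a b)⁻¹
  have hβ : ∀ a b, t b * t a = β b a • (t a * t b) := by
    intro a b
    rw [hα' b a, hα' a b, smul_smul, hI b a]
    congr 1
    show α b a = α b a * (α a b)⁻¹ * α a b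
    rw [mul_assoc, inv_mul_cancel₀ (hα0 a b), mul_one]
  have hβ0 : ∀ a b, β b a ≠ 0 := fun a b => mul_ne_zero (hα0 b a) (inv_ne_zero (hα0 a b))
  -- conjugation maps
  let cj : I → Module.End K W →ₗ[K] Module.End K W := fun b =>
    (LinearMap.mulLeft K (t b)).comp (LinearMap.mulRight K (ti b))
  have hcj : ∀ b u, cj b u = t b * (u * ti b) := fun b u => rfl
  have hχ : ∀ a b, cj b (t a) = β b a • t a := by
    intro a b
    rw [hcj, ← mul_assoc, hβ, smul_mul_assoc, mul_assoc, htti, mul_one]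
  have hdist : ∀ a a', a ≠ a' → ∃ b, β b a ≠ β b a' := by
    intro a a' hne
    by_contra hall
    push Not at hall
    have hc : a'⁻¹ * a ≠ 1 := by
      intro h
      apply hne
      rw [inv_mul_eq_one] at h
      exact h.symm
    obtain ⟨b, hb⟩ := hnd _ hc
    apply hb
    have h1 : t (a'⁻¹ * a) = (α a' (a'⁻¹ * a)) • (ti a' * t a) := by
      have h2 := hα' a' (a'⁻¹ * a)
      rw [mul_inv_cancel_left] at h2
      rw [← mul_smul_comm, ← h2, ← mul_assoc, htit, one_mul]
    have h3 : t b * ti a' = (β b a')⁻¹ • (ti a' * t b) := by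
      have h4 := hβ a' b
      calc t b * ti a' = ti a' * (t a' * t b) * ti a' := by
            rw [← mul_assoc, htit, one_mul]
        _ = (β b a')⁻¹ • (ti a' * (t b * t a') * ti a') := by
            rw [h4, mul_smul_comm, smul_mul_assoc, smul_smul, inv_mul_cancel₀ (hβ0 a' b), one_smul]
        _ = (β b a')⁻¹ • (ti a' * t b) := by
            rw [mul_assoc, mul_assoc, htti, mul_one]
    have h5 : t b * (ti a' * t a) = (ti a' * t a) * t b := by
      rw [← mul_assoc, h3, smul_mul_assoc, mul_assoc, hβ a b, mul_smul_comm, smul_smul,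
        hall b, inv_mul_cancel₀ (hβ0 a' b), one_smul, mul_assoc]
    show t b * t (a'⁻¹ * a) = t (a'⁻¹ * a) * t b
    rw [h1, mul_smul_comm, smul_mul_assoc, h5]
  -- separation
  have hsep : ∀ (J : Submodule K (Module.End K W)), (∀ b, ∀ u ∈ J, t b * (u * ti b) ∈ J) →
      ∀ c : I → K, ∑ a, c a • t a ∈ J → ∀ a, c a • t a ∈ J := by
    intro J hJ c hc a
    exact weight_sep cj t (fun a b => β b a) hχ hdist J hJ Finset.univ c hc a (Finset.mem_univ a)
  have hli : LinearIndependent K t := by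
    rw [Fintype.linearIndependent_iff]
    intro c hc a
    have h1 := hsep ⊥ (fun b u hu => by
      rw [Submodule.mem_bot] at hu ⊢
      rw [hu, zero_mul, mul_zero]) c (by rw [hc]; exact Submodule.zero_mem _) a
    rw [Submodule.mem_bot] at h1
    exact (smul_eq_zero.mp h1).resolve_right (ht0 a)
  -- the span
  let 𝒮 : Submodule K (Module.End K W) := Submodule.span K (Set.range t)
  have hmem𝒮 : ∀ u, u ∈ 𝒮 ↔ ∃ c : I → K, ∑ a, c a • t a = u := fun u =>
    Submodule.mem_span_range_iff_exists_fun K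
  have ht𝒮 : ∀ a, t a ∈ 𝒮 := fun a => Submodule.subset_span ⟨a, rfl⟩
  have h1𝒮 : (1 : Module.End K W) ∈ 𝒮 := by
    have : (1 : Module.End K W) = (α 1 1)⁻¹ • t 1 := by
      rw [ht1, smul_smul, inv_mul_cancel₀ (hα0 1 1), one_smul]
    rw [this]
    exact 𝒮.smul_mem _ (ht𝒮 1)
  have hmul𝒮 : ∀ u v, u ∈ 𝒮 → v ∈ 𝒮 → u * v ∈ 𝒮 := by
    intro u v hu hv
    obtain ⟨c, rfl⟩ := (hmem𝒮 u).mp hu
    obtain ⟨c', rfl⟩ := (hmem𝒮 v).mp hv
    rw [Finset.sum_mul]
    apply Submodule.sum_mem
    intro a _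
    rw [Finset.mul_sum]
    apply Submodule.sum_mem
    intro b _
    rw [smul_mul_assoc, mul_smul_comm, hα' a b]
    exact 𝒮.smul_mem _ (𝒮.smul_mem _ (𝒮.smul_mem _ (ht𝒮 _)))
  have hti : ∀ a, ti a = (α a a⁻¹ * α 1 1)⁻¹ • t a⁻¹ := by
    intro a
    have h1 := hα' a a⁻¹
    rw [mul_inv_cancel, ht1, smul_smul] at h1
    calc ti a = ti a * ((α a a⁻¹ * α 1 1)⁻¹ • (t a * t a⁻¹)) := by
          rw [h1, smul_smul, inv_mul_cancel₀ (mul_ne_zero (hα0 _ _) (hα0 _ _)), one_smul, mul_one]
      _ = (α a a⁻¹ * α 1 1)⁻¹ • t a⁻¹ := by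
          rw [mul_smul_comm, ← mul_assoc, htit, one_mul]
  have hti𝒮 : ∀ a, ti a ∈ 𝒮 := by
    intro a
    rw [hti]
    exact 𝒮.smul_mem _ (ht𝒮 _)
  let 𝒜 : Subalgebra K (Module.End K W) := 𝒮.toSubalgebra h1𝒮 hmul𝒮
  have hmem𝒜 : ∀ u, u ∈ 𝒜 ↔ u ∈ 𝒮 := fun u => Iff.rfl
  -- simplicity
  haveI hsimple : IsSimpleRing ↥𝒜 := by
    apply IsSimpleRing.of_eq_bot_or_eq_top
    intro 𝔍
    by_cases h𝔍 : 𝔍 = ⊥
    · exact Or.inl h𝔍
    right
    have hex : ∃ u : ↥𝒜, u ∈ 𝔍 ∧ u ≠ 0 := by
      by_contra h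
      push Not at h
      apply h𝔍
      ext u
      rw [TwoSidedIdeal.mem_bot]
      exact ⟨h u, fun hu => hu ▸ 𝔍.zero_mem⟩
    obtain ⟨u, hu𝔍, hu0⟩ := hex
    let J : Submodule K (Module.End K W) :=
      { carrier := {v | ∃ h : v ∈ 𝒜, (⟨v, h⟩ : ↥𝒜) ∈ 𝔍}
        add_mem' := by
          rintro v w ⟨hv, hv'⟩ ⟨hw, hw'⟩
          exact ⟨𝒜.add_mem hv hw, 𝔍.add_mem hv' hw'⟩
        zero_mem' := ⟨𝒜.zero_mem, 𝔍.zero_mem⟩
        smul_mem' := by
          rintro c v ⟨hv, hv'⟩
          refine ⟨𝒜.smul_mem hv c, ?_⟩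
          have h1 : (⟨c • v, 𝒜.smul_mem hv c⟩ : ↥𝒜) = algebraMap K ↥𝒜 c * ⟨v, hv⟩ := by
            rw [← Algebra.smul_def]; rfl
          rw [h1]
          exact 𝔍.mul_mem_left _ _ hv' }
    have hJmem : ∀ v, v ∈ J ↔ ∃ h : v ∈ 𝒜, (⟨v, h⟩ : ↥𝒜) ∈ 𝔍 := fun v => Iff.rfl
    have hJst : ∀ b, ∀ v ∈ J, t b * (v * ti b) ∈ J := by
      rintro b v ⟨hv, hv'⟩
      refine ⟨𝒜.mul_mem (ht𝒮 b) (𝒜.mul_mem hv (hti𝒮 b)), ?_⟩
      have h1 : (⟨t b * (v * ti b), 𝒜.mul_mem (ht𝒮 b) (𝒜.mul_mem hv (hti𝒮 b))⟩ : ↥𝒜)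
          = ⟨t b, ht𝒮 b⟩ * (⟨v, hv⟩ * ⟨ti b, hti𝒮 b⟩) := rfl
      rw [h1]
      exact 𝔍.mul_mem_left _ _ (𝔍.mul_mem_right _ _ hv')
    obtain ⟨c, hc⟩ := (hmem𝒮 (u : Module.End K W)).mp u.2
    have hcne : ∃ a, c a ≠ 0 := by
      by_contra h
      push Not at h
      apply hu0
      apply Subtype.ext
      rw [← hc]
      simp [h]
    obtain ⟨a, ha⟩ := hcne
    have h2 : c a • t a ∈ J := hsep J hJst c (by rw [hc]; exact ⟨u.2, hu𝔍⟩) a
    have h3 : t a ∈ J := by
      have := J.smul_mem (c a)⁻¹ h2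
      rwa [smul_smul, inv_mul_cancel₀ ha, one_smul] at this
    obtain ⟨h4, h5⟩ := h3
    rw [← TwoSidedIdeal.one_mem_iff]
    have h6 : (1 : ↥𝒜) = ⟨ti a, hti𝒮 a⟩ * ⟨t a, h4⟩ := by
      apply Subtype.ext
      show (1 : Module.End K W) = ti a * t a
      rw [htit]
    rw [h6]
    exact 𝔍.mul_mem_left _ _ h5
  -- the operator C
  let F : I → Module.End K W := fun a => ti a * x * t a
  let C : Module.End K W := ∑ a, F a
  have hFmul : ∀ a b, F (a * b) = ti b * F a * t b := by
    intro a b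
    have h1 : ((T a * T b : (Module.End K W)ˣ) : Module.End K W)
        = α a b • ((T (a * b) : (Module.End K W)ˣ) : Module.End K W) := by
      rw [Units.val_mul]; exact hα a b
    have h2 := conj_of_smul (T a * T b) (T (a * b)) (α a b) h1 x
    rw [mul_inv_rev, Units.val_mul, Units.val_mul] at h2
    have h3 : ti b * ti a * x * (t a * t b) = ti (a * b) * x * t (a * b) := h2
    show ti (a * b) * x * t (a * b) = ti b * (ti a * x * t a) * t b
    rw [← h3]
    simp only [mul_assoc]
  have hCT' : ∀ b, ti b * C * t b = C := by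
    intro b
    show ti b * (∑ a, F a) * t b = ∑ a, F a
    rw [Finset.mul_sum, Finset.sum_mul]
    conv_rhs => rw [← Equiv.sum_comp (Equiv.mulRight b) F]
    apply Finset.sum_congr rfl
    intro a _
    exact (hFmul a b).symm
  have hCT : ∀ b, C * t b = t b * C := by
    intro b
    calc C * t b = t b * (ti b * C * t b) := by rw [← mul_assoc, ← mul_assoc, htti, one_mul]
      _ = t b * C := by rw [hCT' b]
  have hCti : ∀ b, C * ti b = ti b * C := by
    intro b
    calc C * ti b = ti b * (t b * C) * ti b := by rw [← mul_assoc, htit, one_mul]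
      _ = ti b * (C * t b) * ti b := by rw [hCT]
      _ = ti b * C := by rw [mul_assoc, mul_assoc, htti, mul_one]
  have hFφ : ∀ a, F a = xi * F (φ a) * x := by
    intro a
    have h1 : ((X * T a : (Module.End K W)ˣ) : Module.End K W)
        = γ a • ((T (φ a) * X : (Module.End K W)ˣ) : Module.End K W) := by
      rw [Units.val_mul, Units.val_mul]; exact hγ a
    have h2 := conj_of_smul (X * T a) (T (φ a) * X) (γ a) h1 x
    rw [mul_inv_rev, mul_inv_rev, Units.val_mul, Units.val_mul, Units.val_mul, Units.val_mul] at h2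
    have h3 : ti a * xi * x * (x * t a) = xi * ti (φ a) * x * (t (φ a) * x) := h2
    calc F a = ti a * xi * x * (x * t a) := by
          show ti a * x * t a = _
          rw [mul_assoc (ti a) xi x, hxix, mul_one, mul_assoc]
      _ = xi * ti (φ a) * x * (t (φ a) * x) := h3
      _ = xi * F (φ a) * x := by
          show _ = xi * (ti (φ a) * x * t (φ a)) * x
          simp only [mul_assoc]
  have hCX' : xi * C * x = C := by
    show xi * (∑ a, F a) * x = ∑ a, F a
    rw [Finset.mul_sum, Finset.sum_mul]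
    rw [← Equiv.sum_comp φ.toEquiv (fun a => xi * F a * x)]
    apply Finset.sum_congr rfl
    intro a _
    exact (hFφ a).symm
  have hCX : C * x = x * C := by
    calc C * x = x * (xi * C * x) := by rw [← mul_assoc, ← mul_assoc, hxxi, one_mul]
      _ = x * C := by rw [hCX']
  have hCxi : C * xi = xi * C := by
    calc C * xi = xi * (x * C) * xi := by rw [← mul_assoc, hxix, one_mul]
      _ = xi * (C * x) * xi := by rw [hCX]
      _ = xi * C := by rw [mul_assoc, mul_assoc, hxxi, mul_one]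
  -- the element Ξ
  let τ : I → I := fun a => a⁻¹ * φ a
  have hτinj : Function.Injective τ := by
    intro a b hab
    have h1 : a⁻¹ * φ a = b⁻¹ * φ b := hab
    have h2 : φ (a * b⁻¹) = a * b⁻¹ := by
      rw [map_mul, map_inv]
      have h3 : φ a = a * (b⁻¹ * φ b) := by rw [← h1, mul_inv_cancel_left]
      rw [h3, mul_assoc, mul_assoc, mul_inv_cancel, mul_one]
    have h4 := hfpf _ h2
    exact mul_inv_eq_one.mp h4
  let τe : I ≃ I := Equiv.ofBijective τ (Finite.injective_iff_bijective.mp hτinj)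
  let ξ : I → K := fun a => γ a * (α a (τ a))⁻¹
  have hξ0 : ∀ a, ξ a ≠ 0 := fun a => mul_ne_zero (hγ0 a) (inv_ne_zero (hα0 _ _))
  let Ξ : Module.End K W := C * xi
  have hΞ1 : Ξ = ∑ a, ξ a • t (τ a) := by
    show (∑ a, F a) * xi = _
    rw [Finset.sum_mul]
    apply Finset.sum_congr rfl
    intro a _
    show ti a * x * t a * xi = (γ a * (α a (τ a))⁻¹) • t (τ a)
    have h1 : x * t a * xi = γ a • t (φ a) := by
      rw [hγ', smul_mul_assoc, mul_assoc, hxxi, mul_one]
    have h2 : ti a * t (φ a) = (α a (τ a))⁻¹ • t (τ a) := by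
      have h3 := hα' a (τ a)
      have h4 : a * τ a = φ a := mul_inv_cancel_left a (φ a)
      rw [h4] at h3
      calc ti a * t (φ a) = (α a (τ a))⁻¹ • (ti a * (α a (τ a) • t (φ a))) := by
            rw [mul_smul_comm, smul_smul, inv_mul_cancel₀ (hα0 _ _), one_smul]
        _ = (α a (τ a))⁻¹ • t (τ a) := by
            rw [← h3, ← mul_assoc, htit, one_mul]
    rw [mul_assoc (ti a) x (t a), mul_assoc (ti a), h1, mul_smul_comm, h2, smul_smul]
  let ξ' : I → K := fun b => ξ (τe.symm b)
  have hξ'0 : ∀ b, ξ' b ≠ 0 := fun b => hξ0 _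
  have hΞ2 : Ξ = ∑ b, ξ' b • t b := by
    rw [hΞ1, ← Equiv.sum_comp τe (fun b => ξ' b • t b)]
    apply Finset.sum_congr rfl
    intro a _
    show ξ a • t (τ a) = ξ (τe.symm (τe a)) • t (τe a)
    rw [Equiv.symm_apply_apply]
    rfl
  have hΞ𝒮 : Ξ ∈ 𝒮 := (hmem𝒮 Ξ).mpr ⟨ξ', hΞ2.symm⟩
  -- faithfulness on stable subspaces
  have hF : ∀ (U : Submodule K W), U ≠ ⊥ → (∀ b, ∀ w ∈ U, ti b w ∈ U) → ∀ c : I → K,
      (∀ w ∈ U, (∑ a, c a • t a) w = 0) → ∀ a, c a = 0 := by
    intro U hU hst c hc a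
    let J : Submodule K (Module.End K W) :=
      { carrier := {u | ∀ w ∈ U, u w = 0}
        add_mem' := by
          intro u v hu hv w hw
          rw [LinearMap.add_apply, hu w hw, hv w hw, add_zero]
        zero_mem' := fun w _ => rfl
        smul_mem' := by
          intro k u hu w hw
          rw [LinearMap.smul_apply, hu w hw, smul_zero] }
    have hJ : ∀ b, ∀ u ∈ J, t b * (u * ti b) ∈ J := by
      intro b u hu w hw
      show t b (u (ti b w)) = 0
      rw [hu _ (hst b w hw), map_zero]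
    have h1 : c a • t a ∈ J := hsep J hJ c hc a
    obtain ⟨w, hw, hw0⟩ := (Submodule.ne_bot_iff _).mp hU
    have h2 : (c a • t a) w = 0 := h1 w hw
    rw [LinearMap.smul_apply] at h2
    rcases smul_eq_zero.mp h2 with h | h
    · exact h
    · exfalso
      apply hw0
      have h3 : ti a (t a w) = w := by
        have := congrArg (fun g : Module.End K W => g w) (htit a)
        exact this
      rw [← h3, h, map_zero]
  -- C is injective
  have hCker : LinearMap.ker C = ⊥ := by
    by_contra hne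
    have h1 := hF (LinearMap.ker C) hne (by
      intro b w hw
      rw [LinearMap.mem_ker] at hw ⊢
      have := congrArg (fun g : Module.End K W => g w) (hCti b)
      simp only [Module.End.mul_apply] at this
      rw [this, hw, map_zero]) ξ' (by
      intro w hw
      rw [LinearMap.mem_ker] at hw
      rw [← hΞ2]
      show C (xi w) = 0
      have := congrArg (fun g : Module.End K W => g w) hCxi
      simp only [Module.End.mul_apply] at this
      rw [this, hw, map_zero]) 1
    exact hξ'0 1 h1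
  -- an eigenspace of C
  obtain ⟨μ, hμ⟩ := Module.End.exists_eigenvalue C
  obtain ⟨v₀, hv₀⟩ := hμ.exists_hasEigenvector
  have hμ0 : μ ≠ 0 := by
    rintro rfl
    apply hv₀.2
    have h1 : v₀ ∈ LinearMap.ker C := by
      rw [LinearMap.mem_ker, hv₀.apply_eq_smul, zero_smul]
    rw [hCker] at h1
    exact (Submodule.mem_bot K).mp h1
  let U : Submodule K W := Module.End.eigenspace C μ
  have hUmem : ∀ w, w ∈ U ↔ C w = μ • w := fun w => Module.End.mem_eigenspace_iff
  have hU : U ≠ ⊥ := (Submodule.ne_bot_iff _).mpr ⟨v₀, hv₀.1, hv₀.2⟩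
  have hUst : ∀ g : Module.End K W, C * g = g * C → ∀ w ∈ U, g w ∈ U := by
    intro g hg w hw
    rw [hUmem] at hw ⊢
    have := congrArg (fun h : Module.End K W => h w) hg
    simp only [Module.End.mul_apply] at this
    rw [this, hw, map_smul]
  have hC𝒮 : ∀ u ∈ 𝒮, C * u = u * C := by
    intro u hu
    obtain ⟨c, rfl⟩ := (hmem𝒮 u).mp hu
    rw [Finset.mul_sum, Finset.sum_mul]
    apply Finset.sum_congr rfl
    intro a _
    rw [mul_smul_comm, smul_mul_assoc, hCT]
  let Y : Module.End K W := μ⁻¹ • Ξ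
  have hY𝒮 : Y ∈ 𝒮 := 𝒮.smul_mem _ hΞ𝒮
  have hYU : ∀ w ∈ U, Y w = xi w := by
    intro w hw
    show μ⁻¹ • C (xi w) = xi w
    have h1 := hUst xi hCxi w hw
    rw [hUmem] at h1
    rw [h1, smul_smul, inv_mul_cancel₀ hμ0, one_smul]
  have hfaith : ∀ u ∈ 𝒮, (∀ w ∈ U, u w = 0) → u = 0 := by
    intro u hu h
    obtain ⟨c, rfl⟩ := (hmem𝒮 u).mp hu
    have h1 := hF U hU (fun b w hw => hUst (ti b) (hCti b) w hw) c h
    simp [h1]
  -- Wedderburn
  obtain ⟨n, hn0, ⟨e⟩⟩ := IsSimpleRing.exists_algEquiv_matrix_of_isAlgClosed K ↥𝒜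
  let Ψ : ↥𝒜 ≃ₐ[K] Module.End K (Fin n → K) := e.trans Matrix.toLinAlgEquiv'
  have hcard : Fintype.card I = n * n := by
    have h1 : finrank K ↥𝒮 = Fintype.card I := finrank_span_eq_card hli
    have h2 : finrank K ↥𝒜 = finrank K (Matrix (Fin n) (Fin n) K) := e.toLinearEquiv.finrank_eq
    have h3 : finrank K ↥𝒜 = finrank K ↥𝒮 := rfl
    rw [← h1, ← h3, h2, Module.finrank_matrix]
    simp
  let y : ↥𝒜 := ⟨Y, hY𝒮⟩
  let f : Module.End K (Fin n → K) := Ψ y
  have hxir : xi ^ r = 1 := by
    show ((X⁻¹ : (Module.End K W)ˣ) : Module.End K W) ^ r = 1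
    rw [← Units.val_pow_eq_pow_val, inv_pow, hXr, inv_one, Units.val_one]
  have hYpow : ∀ (k : ℕ) (w : W), w ∈ U → (Y ^ k) w = (xi ^ k) w := by
    intro k
    induction k with
    | zero => intro w _; simp
    | succ k ih =>
      intro w hw
      rw [pow_succ, pow_succ, Module.End.mul_apply, Module.End.mul_apply, hYU w hw]
      exact ih _ (hUst xi hCxi w hw)
  have hyr : y ^ r = 1 := by
    apply Subtype.ext
    show Y ^ r = 1
    have h1 : Y ^ r - 1 ∈ 𝒮 := 𝒮.sub_mem (𝒜.pow_mem hY𝒮 r) h1𝒮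
    have h2 := hfaith _ h1 (by
      intro w hw
      rw [LinearMap.sub_apply, hYpow r w hw, hxir]
      simp)
    exact sub_eq_zero.mp h2
  have hfr : f ^ r = 1 := by
    show Ψ y ^ r = 1
    rw [← map_pow, hyr, map_one]
  have hxxi_apply : ∀ w, x (xi w) = w := by
    intro w
    have := congrArg (fun g : Module.End K W => g w) hxxi
    exact this
  have hffix : ∀ v, f v = v → v = 0 := by
    intro v hv
    by_contra hv0
    have hn0' : n ≠ 0 := NeZero.ne n
    let i₀ : Fin n := ⟨0, Nat.pos_of_ne_zero hn0'⟩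
    let e₀ : Module.End K (Fin n → K) := (LinearMap.proj i₀ : (Fin n → K) →ₗ[K] K).smulRight v
    have he₀ : ∀ w, e₀ w = w i₀ • v := fun w => rfl
    have he₀0 : e₀ ≠ 0 := by
      intro h
      apply hv0
      have := congrArg (fun g : Module.End K (Fin n → K) => g (Pi.single i₀ 1)) h
      simpa [he₀] using this
    have hfe : f * e₀ = e₀ := by
      apply LinearMap.ext
      intro w
      rw [Module.End.mul_apply, he₀, map_smul, hv]
    let z : ↥𝒜 := Ψ.symm e₀
    have hz0 : z ≠ 0 := by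
      intro h
      apply he₀0
      have : Ψ z = e₀ := Ψ.apply_symm_apply e₀
      rw [← this, h, map_zero]
    have hyz : y * z = z := by
      apply Ψ.injective
      rw [map_mul]
      show f * Ψ (Ψ.symm e₀) = Ψ (Ψ.symm e₀)
      rw [Ψ.apply_symm_apply, hfe]
    have hz𝒮 : (z : Module.End K W) ∈ 𝒮 := z.2
    have hex : ∃ w ∈ U, (z : Module.End K W) w ≠ 0 := by
      by_contra h
      push Not at h
      apply hz0
      apply Subtype.ext
      exact hfaith _ hz𝒮 h
    obtain ⟨w, hw, hzw⟩ := hex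
    have hzwU : (z : Module.End K W) w ∈ U := hUst _ (hC𝒮 _ hz𝒮) w hw
    have h1 : Y ((z : Module.End K W) w) = (z : Module.End K W) w := by
      have := congrArg (fun g : ↥𝒜 => (g : Module.End K W) w) hyz
      exact this
    rw [hYU _ hzwU] at h1
    apply hzw
    apply hfix
    have h2 := congrArg x h1
    rw [hxxi_apply] at h2
    exact h2.symm
  -- the centralizer of x
  let Lc : (I → K) →ₗ[K] Module.End K W := Fintype.linearCombination K t
  have hLc : ∀ c : I → K, Lc c = ∑ a, c a • t a := fun c => rfl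
  let Fix₁ : Submodule K (I → K) :=
    LinearMap.ker ((LinearMap.mulLeft K x - LinearMap.mulRight K x).comp Lc)
  have hFix₁ : ∀ c, c ∈ Fix₁ ↔ x * (∑ a, c a • t a) = (∑ a, c a • t a) * x := by
    intro c
    rw [LinearMap.mem_ker, LinearMap.comp_apply, LinearMap.sub_apply, LinearMap.mulLeft_apply,
      LinearMap.mulRight_apply, hLc, sub_eq_zero]
  let Fix₀ : Submodule K (Module.End K W) := Fix₁.map Lc
  let gD : Module.End K (Fin n → K) →ₗ[K] Module.End K W :=
    (Subalgebra.val 𝒜).toLinearMap.comp Ψ.symm.toLinearMap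
  have hgD : ∀ g, gD g = ((Ψ.symm g : ↥𝒜) : Module.End K W) := fun g => rfl
  let D : Submodule K (Module.End K (Fin n → K)) := Fix₀.comap gD
  have hx𝒮 : ∀ u ∈ 𝒮, x * u * xi ∈ 𝒮 := by
    intro u hu
    obtain ⟨c, rfl⟩ := (hmem𝒮 u).mp hu
    rw [Finset.mul_sum, Finset.sum_mul]
    apply Submodule.sum_mem
    intro a _
    rw [mul_smul_comm, smul_mul_assoc, hγ', smul_mul_assoc, mul_assoc, hxxi, mul_one]
    exact 𝒮.smul_mem _ (𝒮.smul_mem _ (ht𝒮 _))
  have hD : ∀ g : Module.End K (Fin n → K), f * g = g * f → g ∈ D := by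
    intro g hg
    let u : ↥𝒜 := Ψ.symm g
    have hyu : y * u = u * y := by
      apply Ψ.injective
      rw [map_mul, map_mul]
      show f * Ψ (Ψ.symm g) = Ψ (Ψ.symm g) * f
      rw [Ψ.apply_symm_apply, hg]
    have hYu : Y * (u : Module.End K W) = (u : Module.End K W) * Y := congrArg Subtype.val hyu
    have hu𝒮 : (u : Module.End K W) ∈ 𝒮 := u.2
    have h1 : x * (u : Module.End K W) * xi - (u : Module.End K W) = 0 := by
      apply hfaith _ (𝒮.sub_mem (hx𝒮 _ hu𝒮) hu𝒮)
      intro w hw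
      rw [LinearMap.sub_apply, Module.End.mul_apply, Module.End.mul_apply, ← hYU w hw]
      have h2 : (u : Module.End K W) (Y w) = Y ((u : Module.End K W) w) := by
        have := congrArg (fun g : Module.End K W => g w) hYu
        exact this.symm
      rw [h2, hYU _ (hUst _ (hC𝒮 _ hu𝒮) w hw), hxxi_apply, sub_self]
    have h4 : x * (u : Module.End K W) = (u : Module.End K W) * x := by
      have h5 : x * (u : Module.End K W) * xi = (u : Module.End K W) := sub_eq_zero.mp h1
      calc x * (u : Module.End K W) = x * (u : Module.End K W) * xi * x := by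
            rw [mul_assoc _ xi x, hxix, mul_one]
        _ = (u : Module.End K W) * x := by rw [h5]
    obtain ⟨c, hc⟩ := (hmem𝒮 _).mp hu𝒮
    show gD g ∈ Fix₀
    rw [hgD]
    refine ⟨c, ?_, ?_⟩
    · rw [SetLike.mem_coe, hFix₁, hc]; exact h4
    · rw [hLc]; exact hc
  have hL5 := sq_finrank_le f r hr.pos hfr hrK hffix D hD
  rw [Module.finrank_fin_fun] at hL5
  have hD1 : finrank K D ≤ finrank K Fix₀ := by
    have hginj : Function.Injective gD := Subtype.val_injective.comp Ψ.symm.injective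
    let g' : ↥D →ₗ[K] ↥Fix₀ := gD.restrict (fun u hu => hu)
    apply LinearMap.finrank_le_finrank_of_injective (f := g')
    intro u v huv
    apply Subtype.ext
    have h : gD (u : Module.End K (Fin n → K)) = gD (v : Module.End K (Fin n → K)) :=
      congrArg (fun z : ↥Fix₀ => (z : Module.End K W)) huv
    exact hginj h
  have hD2 : finrank K Fix₀ ≤ finrank K Fix₁ := Submodule.finrank_map_le Lc Fix₁
  have hinv : ∀ c ∈ Fix₁, ∀ a, c (φ a) = c a * γ a := by
    intro c hc a
    rw [hFix₁] at hc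
    have h1 : x * (∑ a, c a • t a) = (∑ a, (c a * γ a) • t (φ a)) * x := by
      rw [Finset.mul_sum, Finset.sum_mul]
      apply Finset.sum_congr rfl
      intro a _
      rw [mul_smul_comm, hγ', smul_smul, smul_mul_assoc]
    have h2 : (∑ a, c a • t a) = ∑ a, c (φ a) • t (φ a) :=
      (Equiv.sum_comp φ.toEquiv (fun a => c a • t a)).symm
    have h3 : (∑ a, (c a * γ a) • t (φ a)) * x = (∑ a, c (φ a) • t (φ a)) * x := by
      rw [← h1, hc, h2]
    have h4 : ∑ a, (c a * γ a) • t (φ a) = ∑ a, c (φ a) • t (φ a) := by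
      calc ∑ a, (c a * γ a) • t (φ a) = (∑ a, (c a * γ a) • t (φ a)) * x * xi := by
            rw [mul_assoc, hxxi, mul_one]
        _ = ∑ a, c (φ a) • t (φ a) := by rw [h3, mul_assoc, hxxi, mul_one]
    have h5 : ∑ a, (c (φ a) - c a * γ a) • t (φ a) = 0 := by
      simp only [sub_smul]
      rw [Finset.sum_sub_distrib, h4, sub_self]
    have hli' : LinearIndependent K (t ∘ φ) := hli.comp φ φ.injective
    have h6 := Fintype.linearIndependent_iff.mp hli' (fun a => c (φ a) - c a * γ a) h5 a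
    exact sub_eq_zero.mp h6
  -- orbits
  let σ : Equiv.Perm I := φ.toEquiv
  have hσ : ∀ a, σ a = φ a := fun a => rfl
  let Gσ : Subgroup (Equiv.Perm I) := Subgroup.zpowers σ
  letI : Fintype (Quotient (MulAction.orbitRel ↥Gσ I)) := Fintype.ofFinite _
  have hzero : ∀ c ∈ Fix₁, ∀ g ∈ Gσ, ∀ a, c (g a) = 0 ↔ c a = 0 := by
    intro c hc
    let H : Subgroup (Equiv.Perm I) :=
      { carrier := {g | ∀ a, c (g a) = 0 ↔ c a = 0}
        mul_mem' := by
          intro g h hg hh a
          rw [Equiv.Perm.mul_apply, hg, hh]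
        one_mem' := fun a => Iff.rfl
        inv_mem' := by
          intro g hg a
          have h1 : g (g⁻¹ a) = a := by
            rw [Equiv.Perm.inv_def, Equiv.apply_symm_apply]
          rw [← hg (g⁻¹ a), h1] }
    have hσH : σ ∈ H := by
      intro a
      rw [hσ, hinv c hc a]
      constructor
      · intro h; exact (mul_eq_zero.mp h).resolve_right (hγ0 a)
      · intro h; rw [h, zero_mul]
    intro g hg
    exact (Subgroup.zpowers_le.mpr hσH) hg
  let κ : ↥Fix₁ →ₗ[K] (Quotient (MulAction.orbitRel ↥Gσ I) → K) :=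
    (LinearMap.funLeft K K (fun ω : Quotient (MulAction.orbitRel ↥Gσ I) => Quotient.out ω)).comp
      Fix₁.subtype
  have hκinj : Function.Injective κ := by
    rw [← LinearMap.ker_eq_bot, LinearMap.ker_eq_bot']
    intro c hc
    apply Subtype.ext
    funext a
    have h1 : (c : I → K) (Quotient.out (Quotient.mk (MulAction.orbitRel ↥Gσ I) a)) = 0 :=
      congrFun hc (Quotient.mk (MulAction.orbitRel ↥Gσ I) a)
    have h2 : Quotient.out (Quotient.mk (MulAction.orbitRel ↥Gσ I) a) ∈ MulAction.orbit ↥Gσ a :=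
      Quotient.mk_out (s := MulAction.orbitRel ↥Gσ I) a
    obtain ⟨g, hg⟩ := h2
    rw [← hg] at h1
    exact (hzero c c.2 g g.2 a).mp h1
  have hD3 : finrank K Fix₁ ≤ Fintype.card (Quotient (MulAction.orbitRel ↥Gσ I)) := by
    have := LinearMap.finrank_le_finrank_of_injective hκinj
    rwa [Module.finrank_fintype_fun_eq_card] at this
  have hσr : σ ^ r = 1 := by
    ext a
    rw [← Equiv.Perm.iterate_eq_pow]
    exact hφr a
  have hσ1 : σ ≠ 1 := by
    intro h
    obtain ⟨a, ha⟩ := exists_ne (1 : I)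
    apply ha
    apply hfpf
    rw [← hσ, h]; rfl
  haveI : Fact r.Prime := ⟨hr⟩
  have hord : orderOf σ = r := orderOf_eq_prime hσr hσ1
  have hGcard : Nat.card ↥Gσ = r := by rw [Nat.card_zpowers, hord]
  letI : Fintype ↥Gσ := Fintype.ofFinite _
  have hfix1 : ∀ g : ↥Gσ, g • (1 : I) = 1 := by
    intro g
    have h1 : Gσ ≤ MulAction.stabilizer (Equiv.Perm I) (1 : I) := by
      rw [Subgroup.zpowers_le, MulAction.mem_stabilizer_iff]
      show σ 1 = 1
      exact map_one φ
    exact MulAction.mem_stabilizer_iff.mp (h1 g.2)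
  have hfixne : ∀ g : ↥Gσ, g ≠ 1 → ∀ a : I, g • a = a → a = 1 := by
    intro g hg a ha
    have h1 : Subgroup.zpowers g = ⊤ := zpowers_eq_top_of_prime_card hGcard hg
    have h2 : Subgroup.zpowers g ≤ MulAction.stabilizer ↥Gσ a := by
      rw [Subgroup.zpowers_le]; exact ha
    have h3 : (⟨σ, Subgroup.mem_zpowers σ⟩ : ↥Gσ) ∈ MulAction.stabilizer ↥Gσ a :=
      h2 (by rw [h1]; trivial)
    have h4 : σ a = a := h3
    exact hfpf a h4
  have hB := MulAction.sum_card_fixedBy_eq_card_orbits_mul_card_group ↥Gσ I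
  have hsum : ∑ g : ↥Gσ, Fintype.card (MulAction.fixedBy I g) = Fintype.card I + (r - 1) := by
    rw [← Finset.add_sum_erase Finset.univ _ (Finset.mem_univ (1 : ↥Gσ))]
    congr 1
    · exact Fintype.card_congr (Equiv.subtypeUnivEquiv (fun a => by simp))
    · rw [Finset.sum_congr rfl (g := fun _ => 1)]
      · rw [Finset.sum_const, Finset.card_erase_of_mem (Finset.mem_univ _), Finset.card_univ,
          ← Nat.card_eq_fintype_card, hGcard]
        simp
      · intro g hg
        rw [Fintype.card_eq_one_iff]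
        exact ⟨⟨1, hfix1 g⟩, fun b => Subtype.ext (hfixne g (Finset.ne_of_mem_erase hg) b.1 b.2)⟩
  have hΩ : Fintype.card (Quotient (MulAction.orbitRel ↥Gσ I)) * r = Fintype.card I + (r - 1) := by
    rw [← hsum, hB, ← Nat.card_eq_fintype_card (α := ↥Gσ), hGcard]
  have hm2 : 2 ≤ Fintype.card I := Fintype.one_lt_card
  have hle : n ^ 2 ≤ (r - 1) * Fintype.card (Quotient (MulAction.orbitRel ↥Gσ I)) :=
    hL5.trans (Nat.mul_le_mul_left _ (hD1.trans (hD2.trans hD3)))
  rw [Nat.card_eq_fintype_card, hcard]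
  rw [hcard] at hΩ hm2
  have hr2 := hr.two_le
  generalize Fintype.card (Quotient (MulAction.orbitRel ↥Gσ I)) = N at hΩ hle
  obtain ⟨r', rfl⟩ : ∃ r', r = r' + 1 := ⟨r - 1, by omega⟩
  simp only [Nat.add_sub_cancel] at hΩ hle ⊢
  have h1 : n ^ 2 ≤ r' ^ 2 := by nlinarith
  have h2 : n ≤ r' := by nlinarith
  have hn2 : 2 ≤ n := by nlinarith
  have h3 : (r' + 1) ∣ (n - 1) * (n + 1) := by
    obtain ⟨k, rfl⟩ : ∃ k, n = k + 1 := ⟨n - 1, by omega⟩
    simp only [Nat.add_sub_cancel]
    have h4 : k * (k + 1 + 1) + (r' + 1) = N * (r' + 1) := by rw [hΩ]; ring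
    have h5 : (r' + 1) ∣ k * (k + 1 + 1) + (r' + 1) := ⟨N, by rw [h4, mul_comm]⟩
    exact (Nat.dvd_add_left (dvd_refl _)).mp h5
  rcases (Nat.Prime.dvd_mul hr).mp h3 with h | h
  · have := Nat.le_of_dvd (by omega) h
    omega
  · have := Nat.le_of_dvd (by omega) h
    have h6 : n = r' := by omega
    rw [h6]; ring

end Main

end Cfsg.Agent.Lib.Helper59.HHCore
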