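import Mathlib
import Cfsg.Agent.Lib.Helper59.HHCore

/-!
# Hall–Higman type theorem, linear and group forms

A group `Q` of class at most two over a central subgroup `Z`, an element `x` of prime order `r`
acting on `Q`, trivially on `Z` and fixed-point-freely on `Q / Z`, and a module on which `x`
has no fixed vectors: then `|Q : Z| = (r - 1) ^ 2`.
-/

namespace Cfsg.Agent.Lib.Helper59.HHLin

open Module Cfsg.Agent.Lib.Helper59

section weight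

set_option maxHeartbeats 1600000 in
/-- Algebraically closed version on a weight space of `Z`. -/
theorem hh_weight {K : Type*} [Field K] [IsAlgClosed K] {M : Type*} [AddCommGroup M] [Module K M]
    [FiniteDimensional K M] {Γ : Type*} [Group Γ] (ρ : Γ →* Module.End K M) (Q Z : Subgroup Γ)
    [Finite Q] (hZQ : Z ≤ Q) (x : Γ) (r : ℕ) (hr : r.Prime) (hxr : x ^ r = 1) (hrK : (r : K) ≠ 0)
    (hxQ : ∀ a, a ∈ Q ↔ x * a * x⁻¹ ∈ Q)
    (hxZ : ∀ z ∈ Z, x * z = z * x)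
    (hZc : ∀ z ∈ Z, ∀ a ∈ Q, a * z = z * a)
    (hcomm : ∀ a ∈ Q, ∀ b ∈ Q, a * b * a⁻¹ * b⁻¹ ∈ Z)
    (hfpf : ∀ a ∈ Q, x * a * x⁻¹ * a⁻¹ ∈ Z → a ∈ Z)
    (lam : Γ → K) (W : Submodule K M) (hW : ∀ w, w ∈ W ↔ ∀ z ∈ Z, ρ z w = lam z • w) (hW0 : W ≠ ⊥)
    (hnd : ∀ a ∈ Q, a ∉ Z → ∃ b ∈ Q, lam (a * b * a⁻¹ * b⁻¹) ≠ 1)
    (hQZ : ∃ a ∈ Q, a ∉ Z)
    (hfix : ∀ w ∈ W, ρ x w = w → w = 0) :
    Nat.card Q = (r - 1) ^ 2 * Nat.card Z := by
  classical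
  haveI : Nontrivial ↥W := Submodule.nontrivial_iff_ne_bot.mpr hW0
  let Γ₀ : Subgroup Γ := Subgroup.centralizer (Z : Set Γ)
  have hΓ₀ : ∀ g, g ∈ Γ₀ ↔ ∀ z ∈ Z, z * g = g * z := fun g => Subgroup.mem_centralizer_iff
  have hQΓ₀ : ∀ a ∈ Q, a ∈ Γ₀ := fun a ha => (hΓ₀ a).mpr (fun z hz => (hZc z hz a ha).symm)
  have hxΓ₀ : x ∈ Γ₀ := (hΓ₀ x).mpr (fun z hz => (hxZ z hz).symm)
  have hZΓ₀ : ∀ z ∈ Z, z ∈ Γ₀ := fun z hz => hQΓ₀ z (hZQ hz)
  have hρmul : ∀ (g h : Γ) (w : M), ρ g (ρ h w) = ρ (g * h) w := by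
    intro g h w; rw [map_mul]; rfl
  have hρ1 : ∀ w : M, ρ 1 w = w := by
    intro w; rw [map_one]; rfl
  have hst : ∀ g ∈ Γ₀, ∀ w ∈ W, ρ g w ∈ W := by
    intro g hg w hw
    rw [hW] at hw ⊢
    intro z hz
    rw [hρmul, (hΓ₀ g).mp hg z hz, ← hρmul, hw z hz, map_smul]
  let ρW : ↥Γ₀ →* Module.End K ↥W :=
    { toFun := fun g => (ρ (g : Γ)).restrict (hst g g.2)
      map_one' := by
        apply LinearMap.ext; intro w; apply Subtype.ext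
        show ρ 1 (w : M) = w
        exact hρ1 _
      map_mul' := by
        intro g h
        apply LinearMap.ext; intro w; apply Subtype.ext
        show ρ ((g : Γ) * (h : Γ)) (w : M) = ρ (g : Γ) (ρ (h : Γ) (w : M))
        rw [hρmul] }
  have hρW : ∀ (g : ↥Γ₀) (w : ↥W), ((ρW g w : ↥W) : M) = ρ (g : Γ) w := fun g w => rfl
  let R : ↥Γ₀ →* (Module.End K ↥W)ˣ := ρW.toHomUnits
  have hR : ∀ (g : ↥Γ₀), ((R g : (Module.End K ↥W)ˣ) : Module.End K ↥W) = ρW g := fun g => rfl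
  have hRz : ∀ (z : Γ) (hz : z ∈ Z),
      ((R ⟨z, hZΓ₀ z hz⟩ : (Module.End K ↥W)ˣ) : Module.End K ↥W) = lam z • 1 := by
    intro z hz
    apply LinearMap.ext; intro w; apply Subtype.ext
    rw [hR, hρW]
    exact (hW w).mp w.2 z hz
  have hRmul : ∀ (b : Γ) (hb : b ∈ Γ₀) (z : Γ) (hz : z ∈ Z),
      ((R ⟨b * z, Γ₀.mul_mem hb (hZΓ₀ z hz)⟩ : (Module.End K ↥W)ˣ) : Module.End K ↥W)
        = lam z • ((R ⟨b, hb⟩ : (Module.End K ↥W)ˣ) : Module.End K ↥W) := by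
    intro b hb z hz
    have h1 : (⟨b * z, Γ₀.mul_mem hb (hZΓ₀ z hz)⟩ : ↥Γ₀) = ⟨b, hb⟩ * ⟨z, hZΓ₀ z hz⟩ := rfl
    rw [h1, map_mul, Units.val_mul, hRz z hz, mul_smul_comm, mul_one]
  -- the quotient
  haveI hZn : (Z.subgroupOf Q).Normal := by
    constructor
    intro n hn g
    rw [Subgroup.mem_subgroupOf] at hn ⊢
    have h1 := hZc (n : Γ) hn (g : Γ) g.2
    show (g : Γ) * (n : Γ) * (g : Γ)⁻¹ ∈ Z
    rw [h1, mul_inv_cancel_right]; exact hn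
  let s : ↥Q ⧸ Z.subgroupOf Q → ↥Q := Quotient.out
  have hs : ∀ a : ↥Q ⧸ Z.subgroupOf Q, (QuotientGroup.mk (s a) : ↥Q ⧸ Z.subgroupOf Q) = a :=
    fun a => QuotientGroup.out_eq' a
  have hmk : ∀ a b : ↥Q, (QuotientGroup.mk a : ↥Q ⧸ Z.subgroupOf Q) = QuotientGroup.mk b
      ↔ (a : Γ)⁻¹ * (b : Γ) ∈ Z := by
    intro a b
    rw [QuotientGroup.eq, Subgroup.mem_subgroupOf]; rfl
  have hrep : ∀ a b : ↥Q, (QuotientGroup.mk a : ↥Q ⧸ Z.subgroupOf Q) = QuotientGroup.mk b →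
      ∃ z ∈ Z, (a : Γ) = b * z := by
    intro a b h
    exact ⟨(b : Γ)⁻¹ * a, (hmk b a).mp h.symm, by group⟩
  let T : ↥Q ⧸ Z.subgroupOf Q → (Module.End K ↥W)ˣ := fun a => R ⟨(s a : Γ), hQΓ₀ _ (s a).2⟩
  have hI : ∀ a b : ↥Q ⧸ Z.subgroupOf Q, a * b = b * a := by
    intro a b
    induction a using QuotientGroup.induction_on with
    | H a =>
      induction b using QuotientGroup.induction_on with
      | H b =>
        rw [← QuotientGroup.mk_mul, ← QuotientGroup.mk_mul, hmk]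
        have h1 := hcomm (b : Γ)⁻¹ (inv_mem b.2) (a : Γ)⁻¹ (inv_mem a.2)
        have h2 : ((a * b : ↥Q) : Γ)⁻¹ * ((b * a : ↥Q) : Γ)
            = (b : Γ)⁻¹ * (a : Γ)⁻¹ * (b : Γ)⁻¹⁻¹ * (a : Γ)⁻¹⁻¹ := by
          simp [mul_assoc]
        rw [h2]; exact h1
  have hT : ∀ a b : ↥Q ⧸ Z.subgroupOf Q, ∃ c : K,
      (T a : Module.End K ↥W) * T b = c • (T (a * b) : Module.End K ↥W) := by
    intro a b
    have h1 : (QuotientGroup.mk (s a * s b) : ↥Q ⧸ Z.subgroupOf Q)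
        = QuotientGroup.mk (s (a * b)) := by
      rw [QuotientGroup.mk_mul, hs, hs, hs]
    obtain ⟨z, hz, h2⟩ := hrep _ _ h1
    refine ⟨lam z, ?_⟩
    rw [← Units.val_mul, ← map_mul]
    have h3 : (⟨(s a : Γ), hQΓ₀ _ (s a).2⟩ * ⟨(s b : Γ), hQΓ₀ _ (s b).2⟩ : ↥Γ₀)
        = ⟨(s (a * b) : Γ) * z, Γ₀.mul_mem (hQΓ₀ _ (s (a * b)).2) (hZΓ₀ z hz)⟩ := Subtype.ext h2
    rw [h3, hRmul _ _ z hz]
  have hndT : ∀ a : ↥Q ⧸ Z.subgroupOf Q, a ≠ 1 →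
      ∃ b, (T b : Module.End K ↥W) * T a ≠ T a * T b := by
    intro a ha
    have h1 : (s a : Γ) ∉ Z := by
      intro h
      apply ha
      rw [← hs a]
      exact (QuotientGroup.eq_one_iff _).mpr (Subgroup.mem_subgroupOf.mpr h)
    obtain ⟨b, hb, hlam⟩ := hnd (s a) (s a).2 h1
    refine ⟨QuotientGroup.mk ⟨b, hb⟩, ?_⟩
    intro heq
    apply hlam
    obtain ⟨z, hz, h2⟩ := hrep (s (QuotientGroup.mk ⟨b, hb⟩)) ⟨b, hb⟩ (hs _)
    have h3 : (T (QuotientGroup.mk ⟨b, hb⟩) : Module.End K ↥W)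
        = lam z • ((R ⟨b, hQΓ₀ b hb⟩ : (Module.End K ↥W)ˣ) : Module.End K ↥W) := by
      have h4 : (⟨(s (QuotientGroup.mk ⟨b, hb⟩) : Γ), hQΓ₀ _ (s (QuotientGroup.mk ⟨b, hb⟩)).2⟩ : ↥Γ₀)
          = ⟨b * z, Γ₀.mul_mem (hQΓ₀ b hb) (hZΓ₀ z hz)⟩ := Subtype.ext h2
      show ((R ⟨(s (QuotientGroup.mk ⟨b, hb⟩) : Γ), hQΓ₀ _ (s (QuotientGroup.mk ⟨b, hb⟩)).2⟩ :
        (Module.End K ↥W)ˣ) : Module.End K ↥W) = _
      rw [h4, hRmul _ _ z hz]
    have hz0 : lam z ≠ 0 := by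
      intro h0
      rw [h0, zero_smul] at h3
      exact (T _).ne_zero h3
    rw [h3, smul_mul_assoc, mul_smul_comm] at heq
    have h4 : ((R ⟨b, hQΓ₀ b hb⟩ : (Module.End K ↥W)ˣ) : Module.End K ↥W) * (T a : Module.End K ↥W)
        = (T a : Module.End K ↥W) * ((R ⟨b, hQΓ₀ b hb⟩ : (Module.End K ↥W)ˣ) : Module.End K ↥W) :=
      smul_right_injective _ hz0 heq
    have h5 : R ⟨b, hQΓ₀ b hb⟩ * R ⟨(s a : Γ), hQΓ₀ _ (s a).2⟩
        = R ⟨(s a : Γ), hQΓ₀ _ (s a).2⟩ * R ⟨b, hQΓ₀ b hb⟩ := Units.ext h4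
    have hc : (s a : Γ) * b * (s a : Γ)⁻¹ * b⁻¹ ∈ Z := hcomm _ (s a).2 b hb
    have h6 : R ⟨(s a : Γ) * b * (s a : Γ)⁻¹ * b⁻¹, hZΓ₀ _ hc⟩ = 1 := by
      have h7 : (⟨(s a : Γ) * b * (s a : Γ)⁻¹ * b⁻¹, hZΓ₀ _ hc⟩ : ↥Γ₀)
          = ⟨(s a : Γ), hQΓ₀ _ (s a).2⟩ * ⟨b, hQΓ₀ b hb⟩ * ⟨(s a : Γ), hQΓ₀ _ (s a).2⟩⁻¹
            * ⟨b, hQΓ₀ b hb⟩⁻¹ := rfl
      rw [h7, map_mul, map_mul, map_mul, map_inv, map_inv, ← h5]
      group
    have h8 := hRz _ hc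
    rw [h6, Units.val_one] at h8
    have h9 : (1 : K) • (1 : Module.End K ↥W)
        = lam ((s a : Γ) * b * (s a : Γ)⁻¹ * b⁻¹) • (1 : Module.End K ↥W) := by
      rw [one_smul]; exact h8
    exact (smul_left_injective K (one_ne_zero (α := Module.End K ↥W)) h9).symm
  let X : (Module.End K ↥W)ˣ := R ⟨x, hxΓ₀⟩
  have hXr : X ^ r = 1 := by
    show R ⟨x, hxΓ₀⟩ ^ r = 1
    rw [← map_pow]
    have h1 : (⟨x, hxΓ₀⟩ : ↥Γ₀) ^ r = 1 := by
      apply Subtype.ext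
      rw [Subgroup.coe_pow, Subgroup.coe_one]
      exact hxr
    rw [h1, map_one]
  let eQ : ↥Q ≃* ↥Q :=
    { toFun := fun a => ⟨x * a * x⁻¹, (hxQ a).mp a.2⟩
      invFun := fun a => ⟨x⁻¹ * a * x, (hxQ _).mpr (by simpa [mul_assoc] using a.2)⟩
      left_inv := fun a => Subtype.ext (by simp [mul_assoc])
      right_inv := fun a => Subtype.ext (by simp [mul_assoc])
      map_mul' := fun a b => Subtype.ext (by simp [mul_assoc]) }
  have heQ : ∀ a : ↥Q, ((eQ a : ↥Q) : Γ) = x * a * x⁻¹ := fun a => rfl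
  have heQZ : (Z.subgroupOf Q).map (eQ : ↥Q →* ↥Q) = Z.subgroupOf Q := by
    have hfixZ : ∀ a : ↥Q, (a : Γ) ∈ Z → eQ a = a := by
      intro a ha
      apply Subtype.ext
      rw [heQ, hxZ _ ha, mul_inv_cancel_right]
    ext a
    constructor
    · rintro ⟨z, hz, rfl⟩
      have hz' : (z : Γ) ∈ Z := Subgroup.mem_subgroupOf.mp hz
      show eQ z ∈ Z.subgroupOf Q
      rw [hfixZ z hz']
      exact hz
    · intro ha
      exact ⟨a, ha, hfixZ a (Subgroup.mem_subgroupOf.mp ha)⟩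
  let φ : (↥Q ⧸ Z.subgroupOf Q) ≃* (↥Q ⧸ Z.subgroupOf Q) := QuotientGroup.congr _ _ eQ heQZ
  have hφ : ∀ a : ↥Q, φ (QuotientGroup.mk a) = QuotientGroup.mk (eQ a) := fun a => rfl
  have hiter1 : ∀ (k : ℕ) (a : ↥Q), (((⇑eQ)^[k] a : ↥Q) : Γ) = x ^ k * a * (x ^ k)⁻¹ := by
    intro k
    induction k with
    | zero => intro a; simp
    | succ k ih =>
      intro a
      rw [Function.iterate_succ_apply', heQ, ih, pow_succ']
      group
  have hiter2 : ∀ (k : ℕ) (a : ↥Q), (⇑φ)^[k] (QuotientGroup.mk a) = QuotientGroup.mk ((⇑eQ)^[k] a) := by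
    intro k
    induction k with
    | zero => intro a; rfl
    | succ k ih =>
      intro a
      rw [Function.iterate_succ_apply', ih, hφ, Function.iterate_succ_apply']
  have hφr : ∀ a, (⇑φ)^[r] a = a := by
    intro a
    induction a using QuotientGroup.induction_on with
    | H a =>
      rw [hiter2]
      congr 1
      apply Subtype.ext
      rw [hiter1, hxr]
      simp
  have hfpfφ : ∀ a, φ a = a → a = 1 := by
    intro a
    induction a using QuotientGroup.induction_on with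
    | H a =>
      intro h
      rw [hφ, hmk, heQ] at h
      have h1 : (x * (a : Γ) * x⁻¹)⁻¹ * (a : Γ) ∈ Z := h
      have h2 : x * (a : Γ) * x⁻¹ * (a : Γ)⁻¹ ∈ Z := by
        have h3 := Z.inv_mem h1
        have h4 := hZc _ h3 (x * (a : Γ) * x⁻¹) ((hxQ a).mp a.2)
        have h5 : x * (a : Γ) * x⁻¹ * (a : Γ)⁻¹
            = (x * (a : Γ) * x⁻¹) * ((x * (a : Γ) * x⁻¹)⁻¹ * (a : Γ))⁻¹ * (x * (a : Γ) * x⁻¹)⁻¹ := by
          group
        rw [h5, h4, mul_inv_cancel_right]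
        exact h3
      have h6 := hfpf a a.2 h2
      exact (QuotientGroup.eq_one_iff _).mpr (Subgroup.mem_subgroupOf.mpr h6)
  have hX : ∀ a : ↥Q ⧸ Z.subgroupOf Q, ∃ c : K,
      (X : Module.End K ↥W) * T a = c • ((T (φ a) : Module.End K ↥W) * X) := by
    intro a
    have h1 : (QuotientGroup.mk (eQ (s a)) : ↥Q ⧸ Z.subgroupOf Q) = QuotientGroup.mk (s (φ a)) := by
      rw [← hφ, hs, hs]
    obtain ⟨z, hz, h2⟩ := hrep _ _ h1
    refine ⟨lam z, ?_⟩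
    rw [← Units.val_mul, ← Units.val_mul]
    show ((R ⟨x, hxΓ₀⟩ * R ⟨(s a : Γ), hQΓ₀ _ (s a).2⟩ : (Module.End K ↥W)ˣ) : Module.End K ↥W)
      = lam z • ((R ⟨(s (φ a) : Γ), hQΓ₀ _ (s (φ a)).2⟩ * R ⟨x, hxΓ₀⟩ : (Module.End K ↥W)ˣ) :
        Module.End K ↥W)
    rw [← map_mul, ← map_mul]
    have h3 : (⟨x, hxΓ₀⟩ * ⟨(s a : Γ), hQΓ₀ _ (s a).2⟩ : ↥Γ₀)
        = ⟨((s (φ a) : Γ) * x) * z,
            Γ₀.mul_mem (Γ₀.mul_mem (hQΓ₀ _ (s (φ a)).2) hxΓ₀) (hZΓ₀ z hz)⟩ := by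
      apply Subtype.ext
      show x * (s a : Γ) = (s (φ a) : Γ) * x * z
      rw [heQ] at h2
      rw [mul_assoc, hxZ z hz, ← mul_assoc, ← h2]
      group
    rw [h3, hRmul _ _ z hz]
    rfl
  have hfixX : ∀ w : ↥W, (X : Module.End K ↥W) w = w → w = 0 := by
    intro w hw
    apply Subtype.ext
    exact hfix w w.2 (congrArg Subtype.val hw)
  haveI : Nontrivial (↥Q ⧸ Z.subgroupOf Q) := by
    obtain ⟨a, ha, haZ⟩ := hQZ
    refine nontrivial_of_ne (QuotientGroup.mk ⟨a, ha⟩) 1 ?_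
    intro h
    exact haZ (Subgroup.mem_subgroupOf.mp ((QuotientGroup.eq_one_iff _).mp h))
  have hmain := HHCore.hh_abstract hI T hT hndT X r hr hXr hrK φ hφr hfpfφ hX hfixX
  rw [Subgroup.card_eq_card_quotient_mul_card_subgroup (Z.subgroupOf Q), hmain,
    Nat.card_congr (Subgroup.subgroupOfEquivOfLe hZQ).toEquiv]

end weight

section field

open TensorProduct

set_option maxHeartbeats 1600000 in
/-- Version over an arbitrary field in which `r` and `|Z|` are invertible. -/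
theorem hh_field {k : Type*} [Field k] {W₀ : Type*} [AddCommGroup W₀] [Module k W₀]
    [FiniteDimensional k W₀] {Γ : Type*} [Group Γ] (ρ : Γ →* Module.End k W₀) (Q Z : Subgroup Γ)
    [Finite Q] (hZQ : Z ≤ Q) (x : Γ) (r : ℕ) (hr : r.Prime) (hxr : x ^ r = 1) (hrk : (r : k) ≠ 0)
    (hZk : (Nat.card Z : k) ≠ 0)
    (hxQ : ∀ a, a ∈ Q ↔ x * a * x⁻¹ ∈ Q)
    (hxZ : ∀ z ∈ Z, x * z = z * x)
    (hZc : ∀ z ∈ Z, ∀ a ∈ Q, a * z = z * a)
    (hcomm : ∀ a ∈ Q, ∀ b ∈ Q, a * b * a⁻¹ * b⁻¹ ∈ Z)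
    (hfpf : ∀ a ∈ Q, x * a * x⁻¹ * a⁻¹ ∈ Z → a ∈ Z)
    (c₀ : Γ) (hc₀ : c₀ ∈ Z) (hρc₀ : ρ c₀ ≠ 1)
    (hU : ∀ N : Subgroup Γ, N ≤ Z → c₀ ∉ N → ∀ a ∈ Q, (∀ b ∈ Q, a * b * a⁻¹ * b⁻¹ ∈ N) → a ∈ Z)
    (hQZ : ∃ a ∈ Q, a ∉ Z)
    (hfix : ∀ w, ρ x w = w → w = 0) :
    Nat.card Q = (r - 1) ^ 2 * Nat.card Z := by
  classical
  let L := AlgebraicClosure k
  let bc : Module.End k W₀ →ₐ[k] Module.End L (L ⊗[k] W₀) := Module.End.baseChangeHom k L W₀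
  let ρL : Γ →* Module.End L (L ⊗[k] W₀) := (bc : Module.End k W₀ →* _).comp ρ
  have hρL : ∀ g : Γ, ρL g = bc (ρ g) := fun g => rfl
  have hinjL : Function.Injective (algebraMap k L) := (algebraMap k L).injective
  have hcast : ∀ n : ℕ, (n : k) ≠ 0 → (n : L) ≠ 0 := by
    intro n hn h
    apply hn
    apply hinjL
    rw [map_natCast, map_zero]; exact h
  haveI : Finite ↥Z :=
    Finite.of_injective (Subgroup.inclusion hZQ) (Subgroup.inclusion_injective hZQ)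
  -- no fixed vectors after base change
  have hfixL : ∀ v : L ⊗[k] W₀, ρL x v = v → v = 0 := by
    have h1 : IsUnit (ρ x - 1) := by
      rw [LinearMap.isUnit_iff_ker_eq_bot, LinearMap.ker_eq_bot']
      intro w hw
      apply hfix
      rw [LinearMap.sub_apply, Module.End.one_apply, sub_eq_zero] at hw
      exact hw
    have h2 : IsUnit (bc (ρ x - 1)) := h1.map bc
    rw [map_sub, map_one] at h2
    intro v hv
    have h4 := (LinearMap.isUnit_iff_ker_eq_bot _).mp h2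
    have h5 : v ∈ LinearMap.ker (bc (ρ x) - 1) := by
      rw [LinearMap.mem_ker, LinearMap.sub_apply, Module.End.one_apply, sub_eq_zero]
      exact hv
    rw [h4] at h5
    exact (Submodule.mem_bot L).mp h5
  have hbcinj : Function.Injective bc := by
    intro f g hfg
    apply LinearMap.ext
    intro w
    have h1 : (1 : L) ⊗ₜ[k] f w = (1 : L) ⊗ₜ[k] g w := by
      have h2 : (f.baseChange L) ((1 : L) ⊗ₜ[k] w) = (g.baseChange L) ((1 : L) ⊗ₜ[k] w) :=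
        congrArg (fun T : Module.End L (L ⊗[k] W₀) => T ((1 : L) ⊗ₜ[k] w)) hfg
      rwa [LinearMap.baseChange_tmul, LinearMap.baseChange_tmul] at h2
    exact Module.FaithfullyFlat.tensorProduct_mk_injective (A := k) (B := L) W₀ h1
  have hρLc₀ : ρL c₀ ≠ 1 := by
    intro h
    apply hρc₀
    apply hbcinj
    rw [map_one]; exact h
  -- weights of Z
  let f : ↥Z → Module.End L (L ⊗[k] W₀) := fun a => ρL a
  have hZL : (Nat.card Z : L) ≠ 0 := hcast _ hZk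
  have hss : ∀ z : ↥Z, (ρL z).IsSemisimple := by
    intro g
    have hsq : Squarefree (Polynomial.X ^ Nat.card Z - Polynomial.C (1 : L)) :=
      (Polynomial.separable_X_pow_sub_C (1 : L) hZL one_ne_zero).squarefree
    apply Module.End.isSemisimple_of_squarefree_aeval_eq_zero hsq
    have h1 : ρL (g : Γ) ^ Nat.card Z = 1 := by
      rw [← map_pow]
      have h2 : (g : Γ) ^ Nat.card Z = 1 := by
        have h3 : g ^ Nat.card Z = 1 := pow_card_eq_one'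
        have h4 := congrArg Subtype.val h3
        rwa [Subgroup.coe_pow, Subgroup.coe_one] at h4
      rw [h2, map_one]
    simp [h1]
  have hcommZ : ∀ a ∈ Z, ∀ b ∈ Z, ρL a * ρL b = ρL b * ρL a := by
    intro a ha b hb
    rw [← map_mul, ← map_mul, hZc b hb a (hZQ ha)]
  have hcomm' : Pairwise fun i j : ↥Z => Commute (f i) (f j) := fun i j _ => hcommZ i i.2 j j.2
  let Wt : (↥Z → L) → Submodule L (L ⊗[k] W₀) := fun χ => ⨅ a : ↥Z, (f a).eigenspace (χ a)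
  have hmemWt : ∀ (χ : ↥Z → L) (v : L ⊗[k] W₀), v ∈ Wt χ ↔ ∀ a : ↥Z, ρL a v = χ a • v := by
    intro χ v
    simp only [Wt, Submodule.mem_iInf, Module.End.mem_eigenspace_iff, f]
  have hgen : ∀ (a : ↥Z) (μ : L), (f a).maxGenEigenspace μ = (f a).eigenspace μ := fun a μ =>
    (hss a).isFinitelySemisimple.maxGenEigenspace_eq_eigenspace μ
  have htop : ⨆ χ : ↥Z → L, Wt χ = ⊤ := by
    have := Module.End.iSup_iInf_maxGenEigenspace_eq_top_of_iSup_maxGenEigenspace_eq_top_of_commute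
      f hcomm' (fun a => Module.End.iSup_maxGenEigenspace_eq_top (f a))
    simpa only [hgen] using this
  have hex : ∃ χ : ↥Z → L, Wt χ ≠ ⊥ ∧ χ ⟨c₀, hc₀⟩ ≠ 1 := by
    by_contra hno
    push Not at hno
    apply hρLc₀
    have h1 : (⊤ : Submodule L (L ⊗[k] W₀)) ≤ LinearMap.ker (ρL c₀ - 1) := by
      rw [← htop]
      apply iSup_le
      intro χ v hv
      by_cases hχ : Wt χ = ⊥
      · rw [hχ, Submodule.mem_bot] at hv
        rw [hv]; exact Submodule.zero_mem _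
      · have h2 := hno χ hχ
        rw [LinearMap.mem_ker, LinearMap.sub_apply, (hmemWt χ v).mp hv ⟨c₀, hc₀⟩, h2]
        simp
    apply LinearMap.ext
    intro v
    have h3 := h1 (Submodule.mem_top (x := v))
    rw [LinearMap.mem_ker, LinearMap.sub_apply, sub_eq_zero] at h3
    exact h3
  obtain ⟨χ, hχ0, hχc⟩ := hex
  let lam : Γ → L := fun g => if h : g ∈ Z then χ ⟨g, h⟩ else 0
  have hlam : ∀ (z : Γ) (hz : z ∈ Z), lam z = χ ⟨z, hz⟩ := fun z hz => dif_pos hz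
  have hW : ∀ w, w ∈ Wt χ ↔ ∀ z ∈ Z, ρL z w = lam z • w := by
    intro w
    rw [hmemWt]
    constructor
    · intro h z hz; rw [hlam z hz]; exact h ⟨z, hz⟩
    · intro h z; rw [← hlam z z.2]; exact h z z.2
  obtain ⟨w₀, hw₀, hw₀0⟩ := (Submodule.ne_bot_iff _).mp hχ0
  have hlam_mul : ∀ z ∈ Z, ∀ z' ∈ Z, lam (z * z') = lam z * lam z' := by
    intro z hz z' hz'
    have h1 := (hW w₀).mp hw₀ (z * z') (Z.mul_mem hz hz')
    have h2 : ρL (z * z') w₀ = (lam z * lam z') • w₀ := by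
      rw [map_mul, Module.End.mul_apply, (hW w₀).mp hw₀ z' hz', map_smul, (hW w₀).mp hw₀ z hz,
        smul_smul, mul_comm]
    rw [h2] at h1
    exact (smul_left_injective L hw₀0 h1).symm
  have hlam_one : lam 1 = 1 := by
    have h1 := (hW w₀).mp hw₀ 1 Z.one_mem
    rw [map_one, Module.End.one_apply] at h1
    have h2 : (1 : L) • w₀ = lam 1 • w₀ := by rw [one_smul]; exact h1
    exact (smul_left_injective L hw₀0 h2).symm
  let N : Subgroup Γ :=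
    { carrier := {z | z ∈ Z ∧ lam z = 1}
      mul_mem' := by
        rintro a b ⟨ha, ha'⟩ ⟨hb, hb'⟩
        exact ⟨Z.mul_mem ha hb, by rw [hlam_mul a ha b hb, ha', hb', mul_one]⟩
      one_mem' := ⟨Z.one_mem, hlam_one⟩
      inv_mem' := by
        rintro a ⟨ha, ha'⟩
        refine ⟨Z.inv_mem ha, ?_⟩
        have h1 := hlam_mul a ha a⁻¹ (Z.inv_mem ha)
        rw [mul_inv_cancel, hlam_one, ha', one_mul] at h1
        exact h1.symm }
  have hNZ : N ≤ Z := fun z hz => hz.1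
  have hc₀N : c₀ ∉ N := by
    rintro ⟨_, h⟩
    rw [hlam c₀ hc₀] at h
    exact hχc h
  have hnd : ∀ a ∈ Q, a ∉ Z → ∃ b ∈ Q, lam (a * b * a⁻¹ * b⁻¹) ≠ 1 := by
    intro a ha haZ
    by_contra hno
    push Not at hno
    exact haZ (hU N hNZ hc₀N a ha (fun b hb => ⟨hcomm a ha b hb, hno b hb⟩))
  exact hh_weight ρL Q Z hZQ x r hr hxr (hcast _ hrk) hxQ hxZ hZc hcomm hfpf lam (Wt χ) hW hχ0 hnd
    hQZ (fun w _ hw => hfixL w hw)

end field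

section ext

theorem hh_ext_aux {Γ : Type*} [Group Γ] {V : Type*} [CommGroup V] [Finite V] (ψ : Γ →* MulAut V)
    (p : ℕ) [hp : Fact p.Prime] [Module (ZMod p) (Additive V)]
    (Q Z : Subgroup Γ) [Finite Q] (hZQ : Z ≤ Q) (x : Γ) (r : ℕ) (hr : r.Prime) (hxr : x ^ r = 1)
    (hpr : p ≠ r) (hpZ : ¬ p ∣ Nat.card Z)
    (hxQ : ∀ a, a ∈ Q ↔ x * a * x⁻¹ ∈ Q)
    (hxZ : ∀ z ∈ Z, x * z = z * x)
    (hZc : ∀ z ∈ Z, ∀ a ∈ Q, a * z = z * a)
    (hcomm : ∀ a ∈ Q, ∀ b ∈ Q, a * b * a⁻¹ * b⁻¹ ∈ Z)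
    (hfpf : ∀ a ∈ Q, x * a * x⁻¹ * a⁻¹ ∈ Z → a ∈ Z)
    (c₀ : Γ) (hc₀ : c₀ ∈ Z) (hψc₀ : ψ c₀ ≠ 1)
    (hU : ∀ N : Subgroup Γ, N ≤ Z → c₀ ∉ N → ∀ a ∈ Q, (∀ b ∈ Q, a * b * a⁻¹ * b⁻¹ ∈ N) → a ∈ Z)
    (hQZ : ∃ a ∈ Q, a ∉ Z)
    (hfix : ∀ v : V, ψ x v = v → v = 1) :
    Nat.card Q = (r - 1) ^ 2 * Nat.card Z := by
  classical
  let ρ : Γ →* Module.End (ZMod p) (Additive V) :=
    { toFun := fun g =>
        AddMonoidHom.toZModLinearMap p (MonoidHom.toAdditive ((ψ g : V ≃* V) : V →* V))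
      map_one' := by
        apply LinearMap.ext; intro x
        simp
      map_mul' := by
        intro a b
        apply LinearMap.ext; intro x
        simp }
  have hρ : ∀ (g : Γ) (v : Additive V), ρ g v = Additive.ofMul (ψ g (Additive.toMul v)) :=
    fun g v => rfl
  apply hh_field ρ Q Z hZQ x r hr hxr ?_ ?_ hxQ hxZ hZc hcomm hfpf c₀ hc₀ ?_ hU hQZ ?_
  · rw [Ne, ZMod.natCast_eq_zero_iff]
    intro h
    exact hpr ((Nat.prime_dvd_prime_iff_eq hp.out hr).mp h)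
  · rw [Ne, ZMod.natCast_eq_zero_iff]; exact hpZ
  · intro h
    apply hψc₀
    apply MulEquiv.ext
    intro v
    have h1 := congrArg (fun T : Module.End (ZMod p) (Additive V) => T (Additive.ofMul v)) h
    exact congrArg Additive.toMul h1
  · intro w hw
    have h1 := hfix (Additive.toMul w) (congrArg Additive.toMul hw)
    exact congrArg Additive.ofMul h1

/-- **Hall–Higman type theorem for a group acting on an elementary abelian group.** -/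
theorem hh_ext {Γ : Type*} [Group Γ] {V : Type*} [Group V] [Finite V] (ψ : Γ →* MulAut V)
    (p : ℕ) [hp : Fact p.Prime] (hVc : ∀ a b : V, a * b = b * a) (hVp : ∀ a : V, a ^ p = 1)
    (Q Z : Subgroup Γ) [Finite Q] (hZQ : Z ≤ Q) (x : Γ) (r : ℕ) (hr : r.Prime) (hxr : x ^ r = 1)
    (hpr : p ≠ r) (hpZ : ¬ p ∣ Nat.card Z)
    (hxQ : ∀ a, a ∈ Q ↔ x * a * x⁻¹ ∈ Q)
    (hxZ : ∀ z ∈ Z, x * z = z * x)
    (hZc : ∀ z ∈ Z, ∀ a ∈ Q, a * z = z * a)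
    (hcomm : ∀ a ∈ Q, ∀ b ∈ Q, a * b * a⁻¹ * b⁻¹ ∈ Z)
    (hfpf : ∀ a ∈ Q, x * a * x⁻¹ * a⁻¹ ∈ Z → a ∈ Z)
    (c₀ : Γ) (hc₀ : c₀ ∈ Z) (hψc₀ : ψ c₀ ≠ 1)
    (hU : ∀ N : Subgroup Γ, N ≤ Z → c₀ ∉ N → ∀ a ∈ Q, (∀ b ∈ Q, a * b * a⁻¹ * b⁻¹ ∈ N) → a ∈ Z)
    (hQZ : ∃ a ∈ Q, a ∉ Z)
    (hfix : ∀ v : V, ψ x v = v → v = 1) :
    Nat.card Q = (r - 1) ^ 2 * Nat.card Z := by
  letI : CommGroup V := { (inferInstance : Group V) with mul_comm := hVc }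
  letI : Module (ZMod p) (Additive V) := AddCommGroup.zmodModule (by
    intro x
    show Additive.ofMul (Additive.toMul x ^ p) = 0
    rw [hVp]; rfl)
  exact hh_ext_aux ψ p Q Z hZQ x r hr hxr hpr hpZ hxQ hxZ hZc hcomm hfpf c₀ hc₀ hψc₀ hU hQZ hfix

end ext

end Cfsg.Agent.Lib.Helper59.HHLin
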