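import Mathlib
import Cfsg.Agent.Lib.Helper59.HTStmt
import Cfsg.Agent.S3381
import Cfsg.Agent.S3224
import Cfsg.Agent.Lib.Helper54.CyclicNormal
import Cfsg.Agent.Lib.Helper54.UniqueSubgroup
import Cfsg.Agent.Lib.Helper54.Quaternion
import Cfsg.Agent.Lib.Helper24.PGroupBasic

/-!
# S3371: assembly of the pieces of `HTStmt`.
-/

set_option autoImplicit false

namespace Cfsg.Agent.Lib.Helper59.HTAsm

open Cfsg Cfsg.Agent.Lib.Helper59.HTStmt

universe u v

/-- a normal abelian non-cyclic subgroup of a `p`-group contains a normal `C_p × C_p`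
(the argument of `Cfsg.Agent.S3380.result`) -/
theorem exists_normal_sq {G : Type v} [Group G] [Finite G] {p : ℕ} [Fact p.Prime]
    (hG : IsPGroup p G) (A : Subgroup G) (hAn : A.Normal) (hAc : IsMulCommutative A)
    (hAnc : ¬ IsCyclic A) :
    ∃ E : Subgroup G, E.Normal ∧ Nat.card E = p ^ 2 ∧ ∀ e ∈ E, e ^ p = 1 := by
  have hpr : p.Prime := Fact.out
  have hAcomm : ∀ a ∈ A, ∀ b ∈ A, a * b = b * a := by
    intro a ha b hb
    have := mul_comm' (⟨a, ha⟩ : A) ⟨b, hb⟩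
    exact congrArg Subtype.val this
  let Ω : Subgroup G :=
    { carrier := {a | a ∈ A ∧ a ^ p = 1}
      mul_mem' := by
        rintro a b ⟨ha, ha'⟩ ⟨hb, hb'⟩
        refine ⟨A.mul_mem ha hb, ?_⟩
        rw [(show Commute a b from hAcomm a ha b hb).mul_pow, ha', hb', mul_one]
      one_mem' := ⟨A.one_mem, one_pow _⟩
      inv_mem' := by
        rintro a ⟨ha, ha'⟩
        exact ⟨A.inv_mem ha, by rw [inv_pow, ha', inv_one]⟩ }
  have hΩn : Ω.Normal := ⟨fun a ha g => ⟨hAn.conj_mem a ha.1 g, by rw [conj_pow, ha.2]; simp⟩⟩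
  have hUI : ¬ Cfsg.Agent.Lib.Helper54.UniqueSubgroup.UI p A := fun h =>
    hAnc (Cfsg.Agent.Lib.Helper54.UniqueSubgroup.isCyclic_of_comm (hG.to_subgroup A) h
      (fun x y => mul_comm' x y))
  unfold Cfsg.Agent.Lib.Helper54.UniqueSubgroup.UI at hUI
  push Not at hUI
  obtain ⟨g, h, hg, hh, hg1, hhg⟩ := hUI
  have hgΩ : (g : G) ∈ Ω := ⟨g.2, by exact_mod_cast congrArg Subtype.val hg⟩
  have hhΩ : (h : G) ∈ Ω := ⟨h.2, by exact_mod_cast congrArg Subtype.val hh⟩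
  have hg1' : (g : G) ≠ 1 := fun h0 => hg1 (Subtype.ext h0)
  have hΩcard : p ^ 2 ≤ Nat.card Ω := by
    obtain ⟨n, hn⟩ := IsPGroup.iff_card.1 (hG.to_subgroup Ω)
    have hcz : Nat.card (Subgroup.zpowers (g : G)) = p := by
      rw [Nat.card_zpowers]; exact orderOf_eq_prime hgΩ.2 hg1'
    have hzle : Subgroup.zpowers (g : G) ≤ Ω := (Subgroup.zpowers_le).2 hgΩ
    have hn2 : 2 ≤ n := by
      by_contra hcon
      have hn1 : n ≤ 1 := by omega
      have hle' : Nat.card Ω ≤ p := by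
        rw [hn]; calc p ^ n ≤ p ^ 1 := Nat.pow_le_pow_right hpr.pos hn1
          _ = p := pow_one p
      have h1 : Subgroup.zpowers (g : G) = Ω :=
        Subgroup.eq_of_le_of_card_ge hzle (by rw [hcz]; exact hle')
      have h2 : (h : G) ∈ Subgroup.zpowers (g : G) := h1 ▸ hhΩ
      obtain ⟨i, hi⟩ := Subgroup.mem_zpowers_iff.1 h2
      exact hhg (Subgroup.mem_zpowers_iff.2 ⟨i, Subtype.ext (by simpa using hi)⟩)
    rw [hn]; exact Nat.pow_le_pow_right hpr.pos hn2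
  obtain ⟨E, hEn, hEΩ, hE2⟩ := Cfsg.Agent.Lib.Helper24.PGroupBasic.exists_normal_le_card hG Ω
    (fun a ha => ha.2) 2 hΩcard
  exact ⟨E, hEn, hE2, fun e he => (hEΩ he).2⟩

/-- a non-trivial `2`-group has a central involution -/
theorem exists_central_involution {G : Type v} [Group G] [Finite G] [Nontrivial G]
    (hG : IsPGroup 2 G) : ∃ z : G, z ∈ Subgroup.center G ∧ orderOf z = 2 := by
  have : Fact (Nat.Prime 2) := ⟨Nat.prime_two⟩
  have hnt := hG.center_nontrivial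
  obtain ⟨c, hc⟩ := exists_ne (1 : Subgroup.center G)
  have hc1 : (c : G) ≠ 1 := fun h => hc (Subtype.ext h)
  obtain ⟨m, hm1, hm2⟩ := Cfsg.Agent.Lib.Helper54.UniqueSubgroup.exists_pow_prime hG hc1
  exact ⟨(c : G) ^ m, Subgroup.pow_mem _ c.2 m, orderOf_eq_prime hm2 hm1⟩

/-- `r ≥ 1` when `|V| = q ^ (2 r)` and `V` is non-trivial -/
theorem r_pos {V : Type u} [Finite V] [Nontrivial V] {q r : ℕ}
    (hV : Nat.card V = q ^ (2 * r)) : 0 < r := by
  by_contra h
  have hr : r = 0 := by omega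
  subst hr
  have h1 : 1 < Nat.card V := Finite.one_lt_card
  rw [hV] at h1
  simp at h1

section caseA

variable (hScal : ScalarOn.{u, v}) (hAStab : AStab.{u, v}) (hANC : ANotCentral.{u, v})
  (hAInv1 : AInv1.{u, v}) (hAIdx : AIdx.{v}) (hAH : AH.{u, v}) (hNT2 : NT2)
  (hABasis : ABasis.{u, v}) (hDiag : Diag) (hAUnits : AUnits) (hACoord : ACoord.{u, v})

include hScal hAStab hANC hAInv1 hAIdx hAH hNT2 hABasis hDiag hAUnits hACoord in
theorem caseA2 (q : ℕ) [Fact q.Prime] {V : Type u} [AddCommGroup V] [Module (ZMod q) V]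
    [Finite V] [Nontrivial V] {G : Type v} [Group G] [Finite G] (hG : IsPGroup 2 G)
    (hq2 : q ≠ 2) (ρ : G →* (V ≃ₗ[ZMod q] V)) (hρ : Function.Injective ρ) (hES : EqStab ρ)
    (hZ : ZFpf ρ) (a z : G) (hF : Four a z) :
    (Nat.card V = q ^ 2 ∧ (∃ m : ℕ, q = 2 ^ m + 1) ∧
      ∃ e : V ≃ₗ[ZMod q] (Fin 2 → ZMod q),
        ∀ f : (Fin 2 → ZMod q) ≃ₗ[ZMod q] (Fin 2 → ZMod q),
        (∃ g : G, f = e.symm.trans ((ρ g).trans e)) ↔
        ∃ a s : ZMod q, a ≠ 0 ∧ (s = 1 ∨ s = -1) ∧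
          ((∀ v, f v = ![a * v 0, s * a⁻¹ * v 1]) ∨ (∀ v, f v = ![s * a⁻¹ * v 1, a * v 0]))) ∨
    (Nat.card V = 81 ∧ q = 3) := by
  have hqp : q.Prime := Fact.out
  have h2p : Fact (Nat.Prime 2) := ⟨Nat.prime_two⟩
  have hS2 : Stab2 ρ := hAStab hScal q V G ρ hq2 hρ hES hZ a z hF
  have hz2 : orderOf z = 2 := orderOf_eq_prime (by rw [pow_two]; exact hF.zz) hF.z1
  obtain ⟨r, hV, hcnt⟩ := Cfsg.Agent.S3381.result q ρ hρ hS2 z hz2 hF.zc
  have hr : 0 < r := r_pos hV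
  have hanc := hANC q V G ρ hρ hZ a z hF
  have h1 := hAInv1 hANC q V G ρ hq2 hρ hS2 hZ a z hF
  obtain ⟨h2, h3⟩ := hAIdx G a z hF hanc
  have h4 := hAH hANC q V G ρ hq2 hρ hS2 hZ a z hF r hV
  obtain ⟨T, hT⟩ : ∃ T, T = Nat.card {t : G // t * t = 1 ∧ t * a * t⁻¹ = a * z} := ⟨_, rfl⟩
  obtain ⟨H, hH⟩ : ∃ H, H = Nat.card (Subgroup.centralizer ({a} : Set G)) := ⟨_, rfl⟩
  rw [← hT] at h1 h3
  rw [← hH] at h2 h3 h4
  rw [hcnt] at h1
  -- `q ^ r ≥ 3`
  have hq3 : 3 ≤ q := by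
    have := hqp.two_le
    omega
  have hqr : 3 ≤ q ^ r := le_trans hq3 (Nat.le_self_pow (by omega) q)
  have hTeq : T = q ^ r - 1 := by omega
  have hHeq : H = 2 * (q ^ r - 1) := by
    have hpos : 0 < 2 * (q ^ r - 1) := by omega
    have hle := Nat.le_of_dvd hpos h4
    omega
  obtain ⟨j, hj⟩ := IsPGroup.iff_card.1 hG
  have hGcard : 2 ^ j = 4 * (q ^ r - 1) := by rw [← hj, h2, hHeq]; ring
  have hj2 : 2 ≤ j := by
    by_contra hcon
    have hj1 : j ≤ 1 := by omega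
    have : 2 ^ j ≤ 2 ^ 1 := Nat.pow_le_pow_right (by norm_num) hj1
    omega
  obtain ⟨k, rfl⟩ : ∃ k, j = k + 2 := ⟨j - 2, by omega⟩
  have hqk : q ^ r = 2 ^ k + 1 := by
    have : 2 ^ (k + 2) = 4 * 2 ^ k := by ring
    omega
  rcases hNT2 q r k hqp hq2 hr hqk with h | ⟨h, h'⟩
  · subst h
    left
    have hV2 : Nat.card V = q ^ 2 := by simpa using hV
    have hq1 : q = 2 ^ k + 1 := by simpa using hqk
    refine ⟨hV2, ⟨k, hq1⟩, ?_⟩
    refine hACoord hABasis hDiag hAUnits q V G ρ hq2 hρ hZ a z hF hanc hV2 ?_ ?_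
    · rw [← hH, hHeq, pow_one]
    · rw [← hT, hTeq, pow_one]
  · subst h h'
    right
    exact ⟨by rw [hV]; norm_num, rfl⟩

end caseA

section main

variable (hPEq : PEq.{u, v}) (hOrb : Orb.{u, v}) (hZF : ZF.{u, v}) (hQuat : QuatPow.{v})
  (hStab2B : Stab2B.{u, v}) (hDihCnt : DihCnt.{v}) (hSdCnt : SdCnt.{v}) (hNT1 : NT1)
  (hNT2 : NT2) (hAOdd : AOdd.{u, v}) (hFourEx : FourEx.{v})
  (hScal : ScalarOn.{u, v}) (hAStab : AStab.{u, v}) (hANC : ANotCentral.{u, v})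
  (hAInv1 : AInv1.{u, v}) (hAIdx : AIdx.{v}) (hAH : AH.{u, v})
  (hABasis : ABasis.{u, v}) (hDiag : Diag) (hAUnits : AUnits) (hACoord : ACoord.{u, v})

include hPEq hOrb hZF hQuat hStab2B hDihCnt hSdCnt hNT1 hNT2 hAOdd hFourEx hScal hAStab hANC
  hAInv1 hAIdx hAH hABasis hDiag hAUnits hACoord in
theorem thm_of (q : ℕ) [Fact q.Prime] {V : Type u} [AddCommGroup V] [Module (ZMod q) V]
    [Finite V] [Nontrivial V]
    {G : Type v} [Group G] [Finite G] (p : ℕ) [Fact p.Prime] (hG : IsPGroup p G)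
    (ρ : G →* (V ≃ₗ[ZMod q] V)) (hρ : Function.Injective ρ)
    (hhalf : ∀ v w : V, v ≠ 0 → w ≠ 0 →
      Nat.card {u : V | ∃ g : G, ρ g v = u} = Nat.card {u : V | ∃ g : G, ρ g w = u}) :
    ((IsCyclic G ∨ ∃ n : ℕ, Nonempty (G ≃* QuaternionGroup n)) ∧
      ∀ v : V, v ≠ 0 → ∀ g : G, ρ g v = v → g = 1) ∨
    (Nat.card V = q ^ 2 ∧ ∃ m : ℕ, q = 2 ^ m - 1 ∧
      (Nonempty (G ≃* DihedralGroup (2 ^ m)) ∨
        (Cfsg.IsQuasiDihedral G ∧ Nat.card G = 2 ^ (m + 2)))) ∨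
    (Nat.card V = q ^ 2 ∧ (∃ m : ℕ, q = 2 ^ m + 1) ∧
      ∃ e : V ≃ₗ[ZMod q] (Fin 2 → ZMod q),
        ∀ f : (Fin 2 → ZMod q) ≃ₗ[ZMod q] (Fin 2 → ZMod q),
        (∃ g : G, f = e.symm.trans ((ρ g).trans e)) ↔
        ∃ a s : ZMod q, a ≠ 0 ∧ (s = 1 ∨ s = -1) ∧
          ((∀ v, f v = ![a * v 0, s * a⁻¹ * v 1]) ∨ (∀ v, f v = ![s * a⁻¹ * v 1, a * v 0]))) ∨
    (Nat.card V = 81 ∧ q = 3 ∧ p = 2) := by
  have hqp : q.Prime := Fact.out
  by_cases hpq : p = q
  · subst hpq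
    have h1 := hPEq p V G hG ρ hρ hhalf
    left
    refine ⟨Or.inl ?_, fun v _ g _ => h1 g⟩
    have : Subsingleton G := ⟨fun a b => by rw [h1 a, h1 b]⟩
    exact isCyclic_of_subsingleton
  have hES : EqStab ρ := hOrb q V G ρ hhalf
  have hZ : ZFpf ρ := hZF q V G p hG hpq ρ hρ hES
  by_cases hex : ∃ A : Subgroup G, A.Normal ∧ IsMulCommutative A ∧ ¬ IsCyclic A
  · obtain ⟨A, hAn, hAc, hAnc⟩ := hex
    obtain ⟨E, hEn, hE2, hEp⟩ := exists_normal_sq hG A hAn hAc hAnc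
    by_cases hp2 : p = 2
    · subst hp2
      have hq2 : q ≠ 2 := fun h => hpq h.symm
      obtain ⟨a, z, hF⟩ := hFourEx G hG E hEn (by rw [hE2]; norm_num) hEp
      rcases caseA2 hScal hAStab hANC hAInv1 hAIdx hAH hNT2 hABasis hDiag hAUnits hACoord
        q hG hq2 ρ hρ hES hZ a z hF with h | ⟨h1, h2⟩
      · right; right; left; exact h
      · right; right; right; exact ⟨h1, h2, rfl⟩
    · exact (hAOdd q V G p hG hpq hp2 ρ hρ hES hZ E hEn hE2 hEp).elim
  · push Not at hex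
    rcases Cfsg.Agent.Lib.Helper54.CyclicNormal.cyclic_or_two hG hex with
      h | ⟨rfl, a, x, n, hn1, ha, hN, hC, hcard, hx, hcases⟩
    · -- cyclic
      left
      refine ⟨Or.inl h, ?_⟩
      intro v hv g hg
      by_contra hg1
      have hgc : g ∈ Subgroup.center G := by
        rw [Subgroup.mem_center_iff]
        intro y
        obtain ⟨c, hc⟩ := h.exists_generator
        obtain ⟨i, rfl⟩ := Subgroup.mem_zpowers_iff.1 (hc g)
        obtain ⟨k, rfl⟩ := Subgroup.mem_zpowers_iff.1 (hc y)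
        rw [← zpow_add, ← zpow_add, add_comm]
      exact hZ g hgc hg1 v hv hg
    · have hq2 : q ≠ 2 := fun h => hpq h.symm
      have hnt : Nontrivial G := ⟨⟨x, 1, fun h => hx (h ▸ one_mem _)⟩⟩
      obtain ⟨z, hzc, hz2⟩ := exists_central_involution hG
      rcases hcases with ⟨h1, h2 | h2⟩ | ⟨hn2, h1, h2⟩
      · -- dihedral
        right; left
        have hS2 : Stab2 ρ := hStab2B q V G ρ hρ hES hZ a x n ha hcard hx h2
          (by rw [h1]; exact inv_mem (Subgroup.mem_zpowers a))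
        obtain ⟨r, hV, hcnt⟩ := Cfsg.Agent.S3381.result q ρ hρ hS2 z hz2 hzc
        have hr : 0 < r := r_pos hV
        have hc := hDihCnt G a x n hn1 ha hcard hx h1 h2
        rw [hcnt] at hc
        have hr1 : r = 1 := hNT1 q r (n + 1) hqp hq2 hr hc
        subst hr1
        refine ⟨by simpa using hV, n + 1, ?_, Or.inl ?_⟩
        · rw [pow_one] at hc
          omega
        · exact Cfsg.Agent.S3224.dihedral_iso a x (2 ^ (n + 1)) ha (by positivity)
            (by rw [hcard, pow_succ']) h2 hx h1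
      · -- quaternion
        left
        obtain ⟨hzc', hpow⟩ := hQuat G a x n ha hcard hx h1 h2
        refine ⟨Or.inr ⟨2 ^ n, Cfsg.Agent.Lib.Helper54.Quaternion.quaternion_iso a x (2 ^ n)
          (by rw [ha, pow_succ']) (by positivity) (by rw [hcard]; ring) h2 hx h1⟩, ?_⟩
        intro v hv g hg
        by_contra hg1
        obtain ⟨m, hm⟩ := hpow g hg1
        have hz1 : a ^ 2 ^ n ≠ 1 := by
          intro h0
          have hdvd := orderOf_dvd_of_pow_eq_one h0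
          rw [ha] at hdvd
          have hle := Nat.le_of_dvd (by positivity) hdvd
          have : 2 ^ n < 2 ^ (n + 1) := Nat.pow_lt_pow_right (by norm_num) (by omega)
          omega
        have hfix : ρ (a ^ 2 ^ n) v = v := by
          rw [← hm, map_pow]
          have : ∀ k : ℕ, ((ρ g) ^ k) v = v := by
            intro k
            induction k with
            | zero => simp
            | succ k ih => rw [pow_succ, LinearEquiv.mul_apply, hg, ih]
          exact this m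
        exact hZ _ hzc' hz1 v hv hfix
      · -- semidihedral
        right; left
        have hmem : x * a * x⁻¹ ∈ Subgroup.zpowers a := by
          rw [h1]
          exact Subgroup.mul_mem _ (inv_mem (Subgroup.mem_zpowers a))
            (pow_mem (Subgroup.mem_zpowers a) _)
        have hS2 : Stab2 ρ := hStab2B q V G ρ hρ hES hZ a x n ha hcard hx h2 hmem
        obtain ⟨r, hV, hcnt⟩ := Cfsg.Agent.S3381.result q ρ hρ hS2 z hz2 hzc
        have hr : 0 < r := r_pos hV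
        have hc := hSdCnt G a x n hn2 ha hcard hx h1 h2
        rw [hcnt] at hc
        have hr1 : r = 1 := hNT1 q r n hqp hq2 hr hc
        subst hr1
        refine ⟨by simpa using hV, n, ?_, Or.inr ⟨?_, hcard⟩⟩
        · rw [pow_one] at hc
          omega
        · have : Fact (Nat.Prime 2) := ⟨Nat.prime_two⟩
          refine ⟨n + 1, by omega, hcard, a, x, ha, ?_, ?_⟩
          · exact orderOf_eq_prime (by rw [pow_two]; exact h2) (fun h => hx (h ▸ one_mem _))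
          · rw [h1, Nat.add_sub_cancel, inv_mul_eq_iff_eq_mul, ← pow_succ']
            congr 1
            have : 1 ≤ 2 ^ n := Nat.one_le_two_pow
            omega

end main

end Cfsg.Agent.Lib.Helper59.HTAsm
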