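import Mathlib
import Cfsg.Agent.Lib.Helper17.Sylow
import Cfsg.Agent.Lib.Helper17.Sylow2
import Cfsg.Agent.Lib.Helper17.FixedPoints
import Cfsg.Agent.Lib.Helper17.Commuting

set_option autoImplicit false

namespace Cfsg.Agent.Lib.Helper59.O5880

open Subgroup MulAction
open Cfsg.Agent.Lib.Helper17.Sylow Cfsg.Agent.Lib.Helper17.FixedPoints
open Cfsg.Agent.Lib.Helper17.Commuting

variable {G : Type*} [Group G] [Finite G]

/-- If two Sylow `p`-subgroups meet trivially, there are at least `|P|` Sylow `p`-subgroups. -/
theorem card_le_card_sylow_of_inf_eq_bot {p : ℕ} [Fact p.Prime] (P Q : Sylow p G)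
    (hbot : (P : Subgroup G) ⊓ (Q : Subgroup G) = ⊥) :
    Nat.card (P : Subgroup G) ≤ Nat.card (Sylow p G) := by
  have hinj : Function.Injective (fun x : (P : Subgroup G) => (x : G) • Q) := by
    intro x y hxy
    simp only at hxy
    have h1 : ((y : G)⁻¹ * (x : G)) • Q = Q := by
      rw [mul_smul, hxy, inv_smul_smul]
    have h2 : (y : G)⁻¹ * (x : G) ∈ normalizer ((Q : Subgroup G) : Set G) :=
      Sylow.smul_eq_iff_mem_normalizer.mp h1
    have h3 : (y : G)⁻¹ * (x : G) ∈ (P : Subgroup G) ⊓ normalizer ((Q : Subgroup G) : Set G) :=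
      ⟨(P : Subgroup G).mul_mem ((P : Subgroup G).inv_mem y.2) x.2, h2⟩
    have h4 : (P : Subgroup G) ⊓ normalizer ((Q : Subgroup G) : Set G)
        = (P : Subgroup G) ⊓ (Q : Subgroup G) := P.isPGroup'.inf_normalizer_sylow Q
    rw [h4, hbot, mem_bot] at h3
    exact Subtype.ext (inv_mul_eq_one.mp h3).symm
  exact Nat.card_le_card_of_injective _ hinj

omit [Finite G] in
theorem card_filter_mem [Fintype G] (H : Subgroup G) [DecidablePred (· ∈ H)] :
    (Finset.univ.filter (· ∈ H)).card = Nat.card H := by
  rw [Nat.card_eq_fintype_card, Fintype.card_subtype]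

theorem key1 : ∀ n ∈ Nat.divisors 120, n % 7 = 1 → n ≠ 1 → n = 8 ∨ n = 15 ∨ n = 120 := by
  decide +kernel

theorem case15 [IsSimpleGroup G] (h : Nat.card G = 5880)
    (hn : Nat.card (Sylow 7 G) = 15) : False := by
  classical
  have : Fact (Nat.Prime 7) := ⟨by norm_num⟩
  have h7 : 7 ∣ Nat.card G := by rw [h]; norm_num
  have hP : ∀ Q : Sylow 7 G, Nat.card (Q : Subgroup G) = 49 := fun Q => by
    simpa using card_sylow_subgroup (k := 2) (m := 120) (h.trans (by norm_num)) (by norm_num) Q
  have : Fintype G := Fintype.ofFinite G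
  have : Fintype (Sylow 7 G) := Fintype.ofFinite _
  have hcardS : (Finset.univ : Finset (Sylow 7 G)).card = 15 := by
    rw [Finset.card_univ, ← Nat.card_eq_fintype_card, hn]
  -- Step A: distinct Sylows meet in a subgroup of order 7
  have hA : ∀ P Q : Sylow 7 G, P ≠ Q → Nat.card ↥((P : Subgroup G) ⊓ (Q : Subgroup G)) = 7 := by
    intro P Q hPQ
    have hdvd : Nat.card ↥((P : Subgroup G) ⊓ (Q : Subgroup G)) ∣ 49 := by
      rw [← hP P]; exact Subgroup.card_dvd_of_le inf_le_left
    have h1 : Nat.card ↥((P : Subgroup G) ⊓ (Q : Subgroup G)) ≠ 1 := by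
      intro h1
      have := card_le_card_sylow_of_inf_eq_bot P Q (Subgroup.card_eq_one.mp h1)
      rw [hP, hn] at this
      omega
    have h49 : Nat.card ↥((P : Subgroup G) ⊓ (Q : Subgroup G)) ≠ 49 := by
      intro h49
      have e1 : (P : Subgroup G) ⊓ (Q : Subgroup G) = (P : Subgroup G) :=
        Subgroup.eq_of_le_of_card_ge inf_le_left (by rw [h49, hP])
      have hle : (P : Subgroup G) ≤ (Q : Subgroup G) := by rw [← e1]; exact inf_le_right
      exact hPQ (Sylow.ext (Subgroup.eq_of_le_of_card_ge hle (by rw [hP, hP])))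
    obtain ⟨k, hk, hk2⟩ := (Nat.dvd_prime_pow (by norm_num : Nat.Prime 7)).mp
      (show Nat.card ↥((P : Subgroup G) ⊓ (Q : Subgroup G)) ∣ 7 ^ 2 by simpa using hdvd)
    interval_cases k <;> simp_all
  -- the number of Sylows containing x
  set f : G → ℕ := fun x => (Finset.univ.filter (fun Q : Sylow 7 G => x ∈ (Q : Subgroup G))).card
    with hf
  have hf1 : f 1 = 15 := by
    have h0 : Finset.univ.filter (fun Q : Sylow 7 G => (1 : G) ∈ (Q : Subgroup G)) = Finset.univ :=
      Finset.filter_true_of_mem (fun Q _ => (Q : Subgroup G).one_mem)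
    simp only [hf]
    rw [h0, hcardS]
  -- the action on Sylows is faithful
  have hfaith : ∀ x : G, (∀ Q : Sylow 7 G, x • Q = Q) → x = 1 := by
    intro x hx
    have hker : (MulAction.toPermHom G (Sylow 7 G)).ker = ⊥ := by
      rcases (MonoidHom.normal_ker (MulAction.toPermHom G (Sylow 7 G))).eq_bot_or_eq_top
        with h0 | h0
      · exact h0
      · exfalso
        have hall : ∀ (g : G) (Q : Sylow 7 G), g • Q = Q := fun g Q => by
          have hg : g ∈ (MulAction.toPermHom G (Sylow 7 G)).ker := by rw [h0]; trivial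
          rw [MonoidHom.mem_ker] at hg
          have := congrArg (fun σ : Equiv.Perm (Sylow 7 G) => σ Q) hg
          simpa using this
        have hsub : Subsingleton (Sylow 7 G) := ⟨fun P Q => by
          obtain ⟨g, hg⟩ := MulAction.exists_smul_eq G P Q
          rw [← hg, hall]⟩
        have := Finite.card_le_one_iff_subsingleton.mpr hsub
        omega
    have hxk : x ∈ (MulAction.toPermHom G (Sylow 7 G)).ker := by
      rw [MonoidHom.mem_ker]
      refine Equiv.ext (fun Q => ?_)
      rw [MulAction.toPermHom_apply, MulAction.toPerm_apply]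
      simpa using hx Q
    rw [hker, mem_bot] at hxk
    exact hxk
  -- Step B: values of f on nonidentity 7-elements
  have hB : ∀ (P : Sylow 7 G) (x : G), x ∈ (P : Subgroup G) → x ≠ 1 → f x = 1 ∨ f x = 8 := by
    intro P x hx hx1
    have hpz : IsPGroup 7 (zpowers x) := P.isPGroup'.to_le (zpowers_le.mpr hx)
    have hxpow : x ^ (7 ^ 2) = 1 := by
      have h1 : (⟨x, hx⟩ : (P : Subgroup G)) ^ Nat.card (P : Subgroup G) = 1 := pow_card_eq_one'
      rw [hP] at h1
      have := congrArg Subtype.val h1
      simpa using this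
    have hmod := card_modEq_card_fixedBy (X := Sylow 7 G) (p := 7) (n := 2) x hxpow
    have hfix : Nat.card (fixedBy (Sylow 7 G) x) = f x := by
      simp only [hf]
      rw [Nat.card_eq_fintype_card, Fintype.card_subtype]
      congr 1
      ext Q
      simp only [Finset.mem_filter, Finset.mem_univ, true_and, mem_fixedBy]
      constructor
      · intro hQ
        exact mem_sylow_of_mem_normalizer Q x (Sylow.smul_eq_iff_mem_normalizer.mp hQ) hpz
      · intro hQ
        exact Sylow.smul_eq_iff_mem_normalizer.mpr (le_normalizer hQ)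
    rw [hfix, hn] at hmod
    have hle : f x ≤ 15 := by
      simp only [hf]
      rw [← hcardS]
      exact Finset.card_filter_le _ _
    have hne : f x ≠ 15 := by
      intro h15
      apply hx1
      apply hfaith
      intro Q
      have hall : Finset.univ.filter (fun Q : Sylow 7 G => x ∈ (Q : Subgroup G)) = Finset.univ := by
        apply Finset.eq_of_subset_of_card_le (Finset.filter_subset _ _)
        rw [hcardS]
        exact le_of_eq h15.symm
      have hQ : Q ∈ Finset.univ.filter (fun Q : Sylow 7 G => x ∈ (Q : Subgroup G)) := by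
        rw [hall]; exact Finset.mem_univ Q
      exact Sylow.smul_eq_iff_mem_normalizer.mpr (le_normalizer (Finset.mem_filter.mp hQ).2)
    have hmod' : f x % 7 = 1 := by
      have := hmod
      unfold Nat.ModEq at this
      omega
    omega
  -- Step C/D: each Sylow contains exactly 12 elements lying in 8 Sylows
  set T : Finset G := Finset.univ.filter (fun x : G => f x = 8) with hT
  have hD : ∀ P : Sylow 7 G, (T.filter (fun x => x ∈ (P : Subgroup G))).card = 12 := by
    intro P
    set s : Finset G := Finset.univ.filter (fun x : G => x ∈ (P : Subgroup G)) with hs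
    have hscard : s.card = 49 := by rw [hs, card_filter_mem, hP]
    have h1s : (1 : G) ∈ s := by simp [hs, (P : Subgroup G).one_mem]
    -- double counting
    have hdc : ∑ x ∈ s, f x = ∑ Q : Sylow 7 G, Nat.card ↥((P : Subgroup G) ⊓ (Q : Subgroup G)) := by
      have := Finset.sum_card_bipartiteAbove_eq_sum_card_bipartiteBelow (s := s)
        (t := (Finset.univ : Finset (Sylow 7 G))) (fun (x : G) (Q : Sylow 7 G) => x ∈ (Q : Subgroup G))
      simp only [Finset.bipartiteAbove, Finset.bipartiteBelow] at this
      rw [hf]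
      simp only
      rw [this]
      apply Finset.sum_congr rfl
      intro Q _
      rw [← card_filter_mem, hs, Finset.filter_filter]
      congr 1
      ext a
      simp [Subgroup.mem_inf]
    have hsum : ∑ Q : Sylow 7 G, Nat.card ↥((P : Subgroup G) ⊓ (Q : Subgroup G)) = 147 := by
      rw [← Finset.add_sum_erase Finset.univ _ (Finset.mem_univ P)]
      have h2 : ∀ Q ∈ (Finset.univ : Finset (Sylow 7 G)).erase P,
          Nat.card ↥((P : Subgroup G) ⊓ (Q : Subgroup G)) = 7 := by
        intro Q hQ
        exact hA P Q (Finset.ne_of_mem_erase hQ).symm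
      rw [Finset.sum_congr rfl h2, Finset.sum_const, Finset.card_erase_of_mem (Finset.mem_univ P),
        hcardS, inf_idem, hP]
      rfl
    have hsplit : ∑ x ∈ s, f x = 15 + ∑ x ∈ s.erase 1, f x := by
      rw [← Finset.add_sum_erase s _ h1s, hf1]
    have hrest : ∑ x ∈ s.erase 1, f x
        = 48 + 7 * ((s.erase 1).filter (fun x => f x = 8)).card := by
      have h3 : ∀ x ∈ s.erase 1, f x = 1 + 7 * (if f x = 8 then 1 else 0) := by
        intro x hx
        have hx1 : x ≠ 1 := Finset.ne_of_mem_erase hx
        have hxP : x ∈ (P : Subgroup G) := by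
          have := Finset.mem_of_mem_erase hx
          rw [hs] at this
          exact (Finset.mem_filter.mp this).2
        rcases hB P x hxP hx1 with h | h <;> rw [h] <;> simp
      rw [Finset.sum_congr rfl h3, Finset.sum_add_distrib, Finset.sum_const, ← Finset.mul_sum,
        Finset.sum_boole, Finset.card_erase_of_mem h1s, hscard]
      simp
    have hfilt : (s.erase 1).filter (fun x => f x = 8) = T.filter (fun x => x ∈ (P : Subgroup G)) := by
      ext x
      simp only [hs, hT, Finset.mem_filter, Finset.mem_erase, Finset.mem_univ, true_and]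
      constructor
      · rintro ⟨⟨_, hxP⟩, h8⟩
        exact ⟨h8, hxP⟩
      · rintro ⟨h8, hxP⟩
        refine ⟨⟨?_, hxP⟩, h8⟩
        rintro rfl
        rw [hf1] at h8
        omega
    rw [← hfilt]
    rw [hdc, hsum, hrest] at hsplit
    omega
  -- Step E: double count
  have hE : ∑ P : Sylow 7 G, (T.filter (fun x => x ∈ (P : Subgroup G))).card = ∑ x ∈ T, f x := by
    have := Finset.sum_card_bipartiteAbove_eq_sum_card_bipartiteBelow (s := T)
      (t := (Finset.univ : Finset (Sylow 7 G))) (fun (x : G) (Q : Sylow 7 G) => x ∈ (Q : Subgroup G))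
    simp only [Finset.bipartiteAbove, Finset.bipartiteBelow] at this
    rw [hf]
    simp only
    rw [this]
  have hE1 : ∑ P : Sylow 7 G, (T.filter (fun x => x ∈ (P : Subgroup G))).card = 180 := by
    rw [Finset.sum_congr rfl (fun P _ => hD P), Finset.sum_const, hcardS]
    rfl
  have hE2 : ∑ x ∈ T, f x = 8 * T.card := by
    have h4 : ∀ x ∈ T, f x = 8 := by
      intro x hx
      rw [hT] at hx
      exact (Finset.mem_filter.mp hx).2
    rw [Finset.sum_congr rfl h4, Finset.sum_const, smul_eq_mul, mul_comm]
  rw [hE1, hE2] at hE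
  omega

/-- No finite simple group has order 5880 = 2^3 * 3 * 5 * 7^2. -/
theorem no_simple {G : Type*} [Group G] [Finite G] [IsSimpleGroup G] : Nat.card G ≠ 5880 := by
  intro h
  have hG : ¬ IsMulCommutative G := not_comm_of_not_prime (by rw [h]; norm_num)
  have : Fact (Nat.Prime 7) := ⟨by norm_num⟩
  have h7 : 7 ∣ Nat.card G := by rw [h]; norm_num
  have hd : Nat.card (Sylow 7 G) ∣ 120 :=
    card_sylow_dvd (k := 2) (h.trans (by norm_num)) (by norm_num)
  have hm := card_sylow_mod (G := G) 7
  have hne := card_sylow_ne_one hG h7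
  have hfac := two_mul_card_dvd_factorial_card_sylow hG h7
  obtain ⟨P⟩ : Nonempty (Sylow 7 G) := inferInstance
  have hP : Nat.card (P : Subgroup G) = 49 := by
    simpa using card_sylow_subgroup (k := 2) (m := 120) (h.trans (by norm_num)) (by norm_num) P
  have hNn := card_normalizer_mul_card_sylow P
  rw [h] at hNn
  rcases key1 _ (Nat.mem_divisors.mpr ⟨hd, by norm_num⟩) hm hne with hn | hn | hn
  · rw [hn, h] at hfac
    revert hfac
    decide
  · exact case15 h hn
  · rw [hn] at hNn
    have hN : Nat.card (normalizer ((P : Subgroup G) : Set G)) = 49 := by omega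
    have heq : (P : Subgroup G) = normalizer ((P : Subgroup G) : Set G) :=
      Subgroup.eq_of_le_of_card_ge le_normalizer (by rw [hN, hP])
    apply not_normalizer_le_centralizer hG h7 P
    intro x hx
    rw [← heq] at hx
    rw [mem_centralizer_iff]
    intro y hy
    have hcomm := IsPGroup.isMulCommutative_of_card_eq_prime_sq (p := 7) (G := (P : Subgroup G))
      (by rw [hP]; norm_num)
    have := (isMulCommutative_iff.mp hcomm) ⟨y, hy⟩ ⟨x, hx⟩
    exact congrArg Subtype.val this

end Cfsg.Agent.Lib.Helper59.O5880
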