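import Mathlib
import Cfsg.Agent.Lib.Helper17.Sylow
import Cfsg.Agent.Lib.Helper17.Sylow2
import Cfsg.Agent.Lib.Helper17.FixedPoints
import Cfsg.Agent.Lib.Helper17.Commuting
import Cfsg.Agent.Lib.Helper17.Orbits
import Cfsg.Agent.Lib.Helper59.O5880

set_option autoImplicit false

namespace Cfsg.Agent.Lib.Helper59.O5400

open Subgroup MulAction
open Cfsg.Agent.Lib.Helper17.Sylow Cfsg.Agent.Lib.Helper17.FixedPoints
open Cfsg.Agent.Lib.Helper17.Commuting
open Cfsg.Agent.Lib.Helper59.O5880

variable {G : Type*} [Group G] [Finite G]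

/-- A Sylow `p`-subgroup acts freely on the Sylow `p`-subgroups meeting it trivially. -/
theorem card_dvd_card_disjoint {p : ℕ} [Fact p.Prime] (P : Sylow p G) :
    Nat.card (P : Subgroup G) ∣
      Nat.card {Q : Sylow p G // (P : Subgroup G) ⊓ (Q : Subgroup G) = ⊥} := by
  classical
  let S : SubMulAction (P : Subgroup G) (Sylow p G) :=
    { carrier := {Q | (P : Subgroup G) ⊓ (Q : Subgroup G) = ⊥}
      smul_mem' := by
        intro c Q hQ
        change (P : Subgroup G) ⊓ (Q : Subgroup G) = ⊥ at hQ
        change (P : Subgroup G) ⊓ ((c • Q : Sylow p G) : Subgroup G) = ⊥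
        rw [eq_bot_iff]
        intro y hy
        rw [mem_bot]
        have hy1 : y ∈ (P : Subgroup G) := hy.1
        have hy2 : y ∈ ((c • Q : Sylow p G) : Subgroup G) := hy.2
        rw [Subgroup.smul_def, Sylow.coe_subgroup_smul,
          Subgroup.mem_pointwise_smul_iff_inv_smul_mem] at hy2
        have h3 : (c : G)⁻¹ * y * (c : G) ∈ (P : Subgroup G) ⊓ (Q : Subgroup G) := by
          refine ⟨(P : Subgroup G).mul_mem ((P : Subgroup G).mul_mem
            ((P : Subgroup G).inv_mem c.2) hy1) c.2, ?_⟩
          have h5 := hy2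
          simp only [MulAut.smul_def, MulAut.conj_inv_apply] at h5
          exact h5
        rw [hQ, mem_bot] at h3
        have : y = (c : G) * ((c : G)⁻¹ * y * (c : G)) * (c : G)⁻¹ := by group
        rw [this, h3]
        group }
  have key : Nat.card (P : Subgroup G) ∣ Nat.card S := by
    apply Cfsg.Agent.Lib.Helper17.Orbits.dvd_card_of_forall_dvd_card_orbit
      (H := (P : Subgroup G)) (X := S)
    intro q
    have h1 := index_stabilizer (P : Subgroup G) q
    have h2 : stabilizer (P : Subgroup G) q = ⊥ := by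
      rw [eq_bot_iff]
      intro c hc
      rw [mem_bot]
      rw [mem_stabilizer_iff] at hc
      have hc' : (c : G) • (q : Sylow p G) = (q : Sylow p G) := by
        have := congrArg (fun s : S => (s : Sylow p G)) hc
        simpa [Subgroup.smul_def] using this
      have h3 : (c : G) ∈ (P : Subgroup G) ⊓ normalizer (((q : Sylow p G) : Subgroup G) : Set G) :=
        ⟨c.2, Sylow.smul_eq_iff_mem_normalizer.mp hc'⟩
      have h4 : (P : Subgroup G) ⊓ normalizer (((q : Sylow p G) : Subgroup G) : Set G)
          = (P : Subgroup G) ⊓ ((q : Sylow p G) : Subgroup G) :=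
        P.isPGroup'.inf_normalizer_sylow (q : Sylow p G)
      have hq : (P : Subgroup G) ⊓ ((q : Sylow p G) : Subgroup G) = ⊥ := q.2
      rw [h4, hq, mem_bot] at h3
      exact Subtype.ext h3
    rw [h2, Subgroup.index_bot] at h1
    rw [Nat.card_coe_set_eq, ← h1]
  exact key

/-- A group of order `2 * odd` has a subgroup of index two. -/
theorem exists_index_two_of_two_mul_odd {H : Type*} [Group H] [Finite H] (k : ℕ) (hk : Odd k)
    (hH : Nat.card H = 2 * k) : ∃ K : Subgroup H, K.index = 2 := by
  have : Fact (Nat.Prime 2) := ⟨Nat.prime_two⟩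
  obtain ⟨P⟩ : Nonempty (Sylow 2 H) := inferInstance
  have hP : Nat.card (P : Subgroup H) = 2 := by
    simpa using card_sylow_subgroup (k := 1) (m := k) (by simpa using hH)
      (by rw [Nat.two_dvd_ne_zero]; exact Nat.odd_iff.mp hk) P
  have hNC : normalizer ((P : Subgroup H) : Set H) ≤ centralizer ((P : Subgroup H) : Set H) := by
    intro n hn
    rw [mem_centralizer_iff]
    intro y hy
    by_cases hy1 : y = 1
    · subst hy1; simp
    · have h1 : n * y * n⁻¹ ∈ (P : Subgroup H) := (mem_normalizer_iff.mp hn y).mp hy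
      obtain ⟨w, hw, hwu⟩ := (Nat.card_eq_two_iff' (1 : (P : Subgroup H))).mp hP
      have h2 : ∀ z ∈ (P : Subgroup H), z ≠ 1 → z = (w : H) := by
        intro z hz hz1
        have := hwu ⟨z, hz⟩ (by intro h; exact hz1 (congrArg Subtype.val h))
        exact congrArg Subtype.val this
      have h3 : n * y * n⁻¹ ≠ 1 := by
        intro h
        apply hy1
        have : y = n⁻¹ * (n * y * n⁻¹) * n := by group
        rw [this, h]; group
      have h4 : n * y * n⁻¹ = y := by rw [h2 _ h1 h3, h2 _ hy hy1]
      calc y * n = (n * y * n⁻¹) * n := by rw [h4]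
        _ = n * y := by group
  have hc := MonoidHom.ker_transferSylow_isComplement' P hNC
  refine ⟨(MonoidHom.transferSylow P hNC).ker, ?_⟩
  have h1 := hc.card_mul_card
  have h2 := (MonoidHom.transferSylow P hNC).ker.card_mul_index
  rw [hP] at h1
  have hpos : 0 < Nat.card (MonoidHom.transferSylow P hNC).ker := Nat.card_pos
  rw [← h1] at h2
  exact Nat.eq_of_mul_eq_mul_left hpos h2

/-- If all Sylow subgroups in a finset lie in `H`, there are at most `n_p(H)` of them. -/
theorem card_le_card_sylow_subgroup {p : ℕ} [Fact p.Prime] (H : Subgroup G)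
    (s : Finset (Sylow p G)) (hs : ∀ Q ∈ s, (Q : Subgroup G) ≤ H) :
    s.card ≤ Nat.card (Sylow p ↥H) := by
  have h1 : s.card = Nat.card ↥s := by simp
  rw [h1]
  refine Nat.card_le_card_of_injective (fun Q : ↥s => (Q : Sylow p G).subtype (hs Q.1 Q.2)) ?_
  intro Q R hQR
  exact Subtype.ext (Sylow.subtype_injective hQR)

theorem key216 : ∀ n ∈ Nat.divisors 216, n % 5 = 1 → n ≠ 1 → n = 6 ∨ n = 36 ∨ n = 216 := by
  decide +kernel

theorem keyidx : ∀ d ∈ Nat.divisors 216, d < 12 → ¬ (10800 ∣ d.factorial) := by
  decide +kernel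

theorem keyn : ∀ c ∈ Nat.divisors 216, c ≤ 18 → ∀ n ∈ Nat.divisors c, n % 5 = 1 →
    n = 1 ∨ (n = 6 ∧ (c = 6 ∨ c = 12 ∨ c = 18)) := by
  decide +kernel

/-- Sylow 5-subgroups through a nonidentity element: at most one, or at most six with
centralizer of order 300. -/
theorem bad_data [IsSimpleGroup G] (hG : ¬ IsMulCommutative G) (h : Nat.card G = 5400)
    (x : G) (hx1 : x ≠ 1) (s : Finset (Sylow 5 G)) (hs : ∀ Q ∈ s, x ∈ (Q : Subgroup G))
    (hne : s.Nonempty) :
    s.card ≤ 1 ∨ (s.card ≤ 6 ∧ Nat.card (centralizer ({x} : Set G)) = 300) := by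
  have : Fact (Nat.Prime 5) := ⟨by norm_num⟩
  have hP : ∀ Q : Sylow 5 G, Nat.card (Q : Subgroup G) = 25 := fun Q => by
    simpa using card_sylow_subgroup (k := 2) (m := 216) (h.trans (by norm_num)) (by norm_num) Q
  have hcommQ : ∀ Q : Sylow 5 G, ∀ a ∈ (Q : Subgroup G), ∀ b ∈ (Q : Subgroup G), a * b = b * a := by
    intro Q a ha b hb
    have hcomm := IsPGroup.isMulCommutative_of_card_eq_prime_sq (p := 5) (G := (Q : Subgroup G))
      (by rw [hP]; norm_num)
    have := (isMulCommutative_iff.mp hcomm) ⟨a, ha⟩ ⟨b, hb⟩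
    exact congrArg Subtype.val this
  set C : Subgroup G := centralizer ({x} : Set G) with hC
  have hQC : ∀ Q ∈ s, (Q : Subgroup G) ≤ C := by
    intro Q hQ q hq
    rw [hC, mem_centralizer_iff]
    intro y hy
    rw [Set.mem_singleton_iff] at hy
    subst hy
    exact hcommQ Q y (hs Q hQ) q hq
  have hCtop : C ≠ ⊤ := by
    intro htop
    have hxc : x ∈ center G := by
      rw [mem_center_iff]
      intro g
      have hg : g ∈ C := by rw [htop]; trivial
      rw [hC, mem_centralizer_iff] at hg
      exact (hg x rfl).symm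
    rcases (inferInstance : (center G).Normal).eq_bot_or_eq_top with h0 | h0
    · rw [h0, mem_bot] at hxc
      exact hx1 hxc
    · apply hG
      rw [isMulCommutative_iff]
      intro a b
      have : a ∈ center G := by rw [h0]; trivial
      exact ((mem_center_iff.mp this) b).symm
  have hfac := Cfsg.Agent.Lib.Helper17.Embed.two_mul_card_dvd_factorial hG C hCtop
  rw [h] at hfac
  have hidx := C.card_mul_index
  rw [h] at hidx
  obtain ⟨Q₀, hQ₀⟩ := hne
  obtain ⟨c, hc⟩ : 25 ∣ Nat.card C := by
    rw [← hP Q₀]; exact Subgroup.card_dvd_of_le (hQC Q₀ hQ₀)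
  rw [hc] at hidx
  have hci : c * C.index = 216 := by
    have : 25 * (c * C.index) = 25 * 216 := by rw [← mul_assoc, hidx]
    exact Nat.eq_of_mul_eq_mul_left (by norm_num) this
  have hidvd : C.index ∈ Nat.divisors 216 :=
    Nat.mem_divisors.mpr ⟨Dvd.intro_left c hci, by norm_num⟩
  have hcdvd : c ∈ Nat.divisors 216 :=
    Nat.mem_divisors.mpr ⟨Dvd.intro _ hci, by norm_num⟩
  have hi12 : 12 ≤ C.index := by
    by_contra hlt
    push Not at hlt
    exact keyidx _ hidvd hlt (by simpa using hfac)
  have hc18 : c ≤ 18 := by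
    by_contra hlt
    push Not at hlt
    have : 19 * 12 ≤ c * C.index := Nat.mul_le_mul hlt hi12
    omega
  have h5c : ¬ 5 ∣ c := by
    intro h5
    have : 5 ∣ 216 := by rw [← hci]; exact Dvd.dvd.mul_right h5 _
    omega
  have hnd : Nat.card (Sylow 5 ↥C) ∣ c :=
    card_sylow_dvd (k := 2) (hc.trans (by norm_num)) h5c
  have hnm := card_sylow_mod (G := ↥C) 5
  have hle := card_le_card_sylow_subgroup C s hQC
  have hc0 : c ≠ 0 := by rintro rfl; simp at hci
  rcases keyn c hcdvd hc18 _ (Nat.mem_divisors.mpr ⟨hnd, hc0⟩) hnm with h1 | ⟨h6, hcc⟩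
  · left; omega
  · rcases hcc with rfl | rfl | rfl
    · -- |C| = 150
      left
      obtain ⟨K, hK⟩ := exists_index_two_of_two_mul_odd (H := ↥C) 75 (by decide) (by rw [hc])
      have hKc : Nat.card K = 75 := by
        have := K.card_mul_index
        rw [hK, hc] at this
        omega
      have hQK : ∀ Q ∈ s, (Q : Subgroup G) ≤ K.map C.subtype := by
        intro Q hQ q hq
        have hqC : q ∈ C := hQC Q hQ hq
        have hq25 : q ^ 25 = 1 := by
          have h1 : (⟨q, hq⟩ : (Q : Subgroup G)) ^ Nat.card (Q : Subgroup G) = 1 := pow_card_eq_one'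
          rw [hP] at h1
          have := congrArg Subtype.val h1
          simpa using this
        have hsq : (⟨q, hqC⟩ : ↥C) ^ 2 ∈ K := Subgroup.sq_mem_of_index_two hK _
        have h13 : (⟨q, hqC⟩ : ↥C) = ((⟨q, hqC⟩ : ↥C) ^ 2) ^ 13 := by
          apply Subtype.ext
          simp only [SubgroupClass.coe_pow]
          rw [← pow_mul, show 2 * 13 = 25 + 1 by norm_num, pow_succ, hq25, one_mul]
        have hmem : (⟨q, hqC⟩ : ↥C) ∈ K := by rw [h13]; exact K.pow_mem hsq 13
        exact ⟨⟨q, hqC⟩, hmem, rfl⟩
      have hK'c : Nat.card (K.map C.subtype) = 75 := by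
        rw [Subgroup.card_map_of_injective (Subgroup.subtype_injective C), hKc]
      have hnd' : Nat.card (Sylow 5 ↥(K.map C.subtype)) ∣ 3 :=
        card_sylow_dvd (k := 2) (hK'c.trans (by norm_num)) (by norm_num)
      have hnm' := card_sylow_mod (G := ↥(K.map C.subtype)) 5
      have hle' := card_le_card_sylow_subgroup (K.map C.subtype) s hQK
      have : Nat.card (Sylow 5 ↥(K.map C.subtype)) ≤ 3 := Nat.le_of_dvd (by norm_num) hnd'
      omega
    · right; exact ⟨by omega, by rw [hc]⟩
    · -- |C| = 450
      left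
      obtain ⟨K, hK⟩ := exists_index_two_of_two_mul_odd (H := ↥C) 225 (by decide) (by rw [hc])
      have hKc : Nat.card K = 225 := by
        have := K.card_mul_index
        rw [hK, hc] at this
        omega
      have hQK : ∀ Q ∈ s, (Q : Subgroup G) ≤ K.map C.subtype := by
        intro Q hQ q hq
        have hqC : q ∈ C := hQC Q hQ hq
        have hq25 : q ^ 25 = 1 := by
          have h1 : (⟨q, hq⟩ : (Q : Subgroup G)) ^ Nat.card (Q : Subgroup G) = 1 := pow_card_eq_one'
          rw [hP] at h1
          have := congrArg Subtype.val h1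
          simpa using this
        have hsq : (⟨q, hqC⟩ : ↥C) ^ 2 ∈ K := Subgroup.sq_mem_of_index_two hK _
        have h13 : (⟨q, hqC⟩ : ↥C) = ((⟨q, hqC⟩ : ↥C) ^ 2) ^ 13 := by
          apply Subtype.ext
          simp only [SubgroupClass.coe_pow]
          rw [← pow_mul, show 2 * 13 = 25 + 1 by norm_num, pow_succ, hq25, one_mul]
        have hmem : (⟨q, hqC⟩ : ↥C) ∈ K := by rw [h13]; exact K.pow_mem hsq 13
        exact ⟨⟨q, hqC⟩, hmem, rfl⟩
      have hK'c : Nat.card (K.map C.subtype) = 225 := by
        rw [Subgroup.card_map_of_injective (Subgroup.subtype_injective C), hKc]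
      have hnd' : Nat.card (Sylow 5 ↥(K.map C.subtype)) ∣ 9 :=
        card_sylow_dvd (k := 2) (hK'c.trans (by norm_num)) (by norm_num)
      have hnm' := card_sylow_mod (G := ↥(K.map C.subtype)) 5
      have hle' := card_le_card_sylow_subgroup (K.map C.subtype) s hQK
      have h9 : Nat.card (Sylow 5 ↥(K.map C.subtype)) ≤ 9 := Nat.le_of_dvd (by norm_num) hnd'
      have : Nat.card (Sylow 5 ↥(K.map C.subtype)) ≠ 6 := by
        intro h6'
        rw [h6'] at hnd'
        omega
      omega

theorem case36 [IsSimpleGroup G] (hG : ¬ IsMulCommutative G) (h : Nat.card G = 5400)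
    (hn : Nat.card (Sylow 5 G) = 36) : False := by
  classical
  have : Fact (Nat.Prime 5) := ⟨by norm_num⟩
  have hP : ∀ Q : Sylow 5 G, Nat.card (Q : Subgroup G) = 25 := fun Q => by
    simpa using card_sylow_subgroup (k := 2) (m := 216) (h.trans (by norm_num)) (by norm_num) Q
  have : Fintype G := Fintype.ofFinite G
  have : Fintype (Sylow 5 G) := Fintype.ofFinite _
  have hcardS : (Finset.univ : Finset (Sylow 5 G)).card = 36 := by
    rw [Finset.card_univ, ← Nat.card_eq_fintype_card, hn]
  -- Step A: distinct Sylows meet in a subgroup of order 1 or 5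
  have hA : ∀ P Q : Sylow 5 G, P ≠ Q →
      Nat.card ↥((P : Subgroup G) ⊓ (Q : Subgroup G))
        + 4 * (if (P : Subgroup G) ⊓ (Q : Subgroup G) = ⊥ then 1 else 0) = 5 := by
    intro P Q hPQ
    have hdvd : Nat.card ↥((P : Subgroup G) ⊓ (Q : Subgroup G)) ∣ 25 := by
      rw [← hP P]; exact Subgroup.card_dvd_of_le inf_le_left
    have h25 : Nat.card ↥((P : Subgroup G) ⊓ (Q : Subgroup G)) ≠ 25 := by
      intro h25
      have e1 : (P : Subgroup G) ⊓ (Q : Subgroup G) = (P : Subgroup G) :=
        Subgroup.eq_of_le_of_card_ge inf_le_left (by rw [h25, hP])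
      have hle : (P : Subgroup G) ≤ (Q : Subgroup G) := by rw [← e1]; exact inf_le_right
      exact hPQ (Sylow.ext (Subgroup.eq_of_le_of_card_ge hle (by rw [hP, hP])))
    obtain ⟨k, hk, hk2⟩ := (Nat.dvd_prime_pow (by norm_num : Nat.Prime 5)).mp
      (show Nat.card ↥((P : Subgroup G) ⊓ (Q : Subgroup G)) ∣ 5 ^ 2 by simpa using hdvd)
    by_cases hb : (P : Subgroup G) ⊓ (Q : Subgroup G) = ⊥
    · rw [if_pos hb, hb, Subgroup.card_bot]
    · rw [if_neg hb]
      have h1 : Nat.card ↥((P : Subgroup G) ⊓ (Q : Subgroup G)) ≠ 1 := fun h1 =>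
        hb (Subgroup.card_eq_one.mp h1)
      interval_cases k <;> simp_all
  -- the number of Sylows containing x
  set f : G → ℕ := fun x => (Finset.univ.filter (fun Q : Sylow 5 G => x ∈ (Q : Subgroup G))).card
    with hf
  have hf1 : f 1 = 36 := by
    have h0 : Finset.univ.filter (fun Q : Sylow 5 G => (1 : G) ∈ (Q : Subgroup G)) = Finset.univ :=
      Finset.filter_true_of_mem (fun Q _ => (Q : Subgroup G).one_mem)
    simp only [hf]
    rw [h0, hcardS]
  -- Step B: values of f on nonidentity 5-elements
  have hB : ∀ (P : Sylow 5 G) (x : G), x ∈ (P : Subgroup G) → x ≠ 1 →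
      f x = 1 ∨ (f x = 6 ∧ Nat.card (centralizer ({x} : Set G)) = 300) := by
    intro P x hx hx1
    have hpz : IsPGroup 5 (zpowers x) := P.isPGroup'.to_le (zpowers_le.mpr hx)
    have hxpow : x ^ (5 ^ 2) = 1 := by
      have h1 : (⟨x, hx⟩ : (P : Subgroup G)) ^ Nat.card (P : Subgroup G) = 1 := pow_card_eq_one'
      rw [hP] at h1
      have := congrArg Subtype.val h1
      simpa using this
    have hmod := card_modEq_card_fixedBy (X := Sylow 5 G) (p := 5) (n := 2) x hxpow
    have hfix : Nat.card (fixedBy (Sylow 5 G) x) = f x := by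
      simp only [hf]
      rw [Nat.card_eq_fintype_card, Fintype.card_subtype]
      congr 1
      ext Q
      simp only [Finset.mem_filter, Finset.mem_univ, true_and, mem_fixedBy]
      constructor
      · intro hQ
        exact mem_sylow_of_mem_normalizer Q x (Sylow.smul_eq_iff_mem_normalizer.mp hQ) hpz
      · intro hQ
        exact Sylow.smul_eq_iff_mem_normalizer.mpr (le_normalizer hQ)
    rw [hfix, hn] at hmod
    have hmod' : f x % 5 = 1 := by
      have := hmod
      unfold Nat.ModEq at this
      omega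
    have hbd := bad_data hG h x hx1 (Finset.univ.filter (fun Q : Sylow 5 G => x ∈ (Q : Subgroup G)))
      (fun Q hQ => (Finset.mem_filter.mp hQ).2) ⟨P, Finset.mem_filter.mpr ⟨Finset.mem_univ P, hx⟩⟩
    have hfx : f x = (Finset.univ.filter (fun Q : Sylow 5 G => x ∈ (Q : Subgroup G))).card := rfl
    rw [← hfx] at hbd
    rcases hbd with h1 | ⟨h6, hc⟩
    · left; omega
    · by_cases h1 : f x = 1
      · left; exact h1
      · right; exact ⟨by omega, hc⟩
  -- f is invariant under conjugation
  have hfconj : ∀ g x : G, f (g * x * g⁻¹) = f x := by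
    intro g x
    simp only [hf]
    apply Finset.card_bij (fun (Q : Sylow 5 G) _ => g⁻¹ • Q)
    · intro Q hQ
      rw [Finset.mem_filter] at hQ ⊢
      refine ⟨Finset.mem_univ _, ?_⟩
      rw [Sylow.coe_subgroup_smul, Subgroup.mem_pointwise_smul_iff_inv_smul_mem]
      have := hQ.2
      simpa [MulAut.smul_def, mul_assoc] using this
    · intro Q _ R _ hQR
      exact smul_left_cancel _ hQR
    · intro R hR
      rw [Finset.mem_filter] at hR
      refine ⟨g • R, ?_, by rw [inv_smul_smul]⟩
      rw [Finset.mem_filter]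
      refine ⟨Finset.mem_univ _, ?_⟩
      rw [Sylow.coe_subgroup_smul, Subgroup.mem_pointwise_smul_iff_inv_smul_mem]
      have := hR.2
      simpa [MulAut.smul_def, mul_assoc] using this
  -- Step C/D: each Sylow contains exactly 8 elements lying in 6 Sylows
  set T : Finset G := Finset.univ.filter (fun x : G => f x = 6) with hT
  have hD : ∀ P : Sylow 5 G, (T.filter (fun x => x ∈ (P : Subgroup G))).card = 8 := by
    intro P
    set s : Finset G := Finset.univ.filter (fun x : G => x ∈ (P : Subgroup G)) with hs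
    have hscard : s.card = 25 := by rw [hs, card_filter_mem, hP]
    have h1s : (1 : G) ∈ s := by simp [hs, (P : Subgroup G).one_mem]
    have hdc : ∑ x ∈ s, f x = ∑ Q : Sylow 5 G, Nat.card ↥((P : Subgroup G) ⊓ (Q : Subgroup G)) := by
      have := Finset.sum_card_bipartiteAbove_eq_sum_card_bipartiteBelow (s := s)
        (t := (Finset.univ : Finset (Sylow 5 G))) (fun (x : G) (Q : Sylow 5 G) => x ∈ (Q : Subgroup G))
      simp only [Finset.bipartiteAbove, Finset.bipartiteBelow] at this
      rw [hf]
      simp only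
      rw [this]
      apply Finset.sum_congr rfl
      intro Q _
      rw [← card_filter_mem, hs, Finset.filter_filter]
      congr 1
      ext a
      simp [Subgroup.mem_inf]
    -- the Sylows meeting P trivially
    set d : ℕ := (Finset.univ.filter
      (fun Q : Sylow 5 G => (P : Subgroup G) ⊓ (Q : Subgroup G) = ⊥)).card with hd
    have hd25 : 25 ∣ d := by
      have := card_dvd_card_disjoint P
      rw [hP, Nat.card_eq_fintype_card, Fintype.card_subtype] at this
      exact this
    have hPbot : (P : Subgroup G) ⊓ (P : Subgroup G) ≠ ⊥ := by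
      rw [inf_idem]
      intro hb
      have := hP P
      rw [hb, Subgroup.card_bot] at this
      omega
    have hderase : ((Finset.univ.erase P).filter
        (fun Q : Sylow 5 G => (P : Subgroup G) ⊓ (Q : Subgroup G) = ⊥)).card = d := by
      rw [hd]
      congr 1
      ext Q
      simp only [Finset.mem_filter, Finset.mem_erase, Finset.mem_univ, and_true, true_and]
      constructor
      · exact fun hQ => hQ.2
      · intro hQ
        refine ⟨?_, hQ⟩
        rintro rfl
        exact hPbot hQ
    have hd35 : d ≤ 35 := by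
      rw [← hderase]
      refine le_trans (Finset.card_filter_le _ _) ?_
      rw [Finset.card_erase_of_mem (Finset.mem_univ P), hcardS]
    have hsum : ∑ Q : Sylow 5 G, Nat.card ↥((P : Subgroup G) ⊓ (Q : Subgroup G)) + 4 * d = 200 := by
      rw [← Finset.add_sum_erase Finset.univ _ (Finset.mem_univ P)]
      have h2 : ∑ Q ∈ (Finset.univ : Finset (Sylow 5 G)).erase P,
          (Nat.card ↥((P : Subgroup G) ⊓ (Q : Subgroup G))
            + 4 * (if (P : Subgroup G) ⊓ (Q : Subgroup G) = ⊥ then 1 else 0)) = 175 := by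
        rw [Finset.sum_congr rfl (fun Q hQ => hA P Q (Finset.ne_of_mem_erase hQ).symm),
          Finset.sum_const, Finset.card_erase_of_mem (Finset.mem_univ P), hcardS]
        rfl
      rw [Finset.sum_add_distrib, ← Finset.mul_sum, Finset.sum_boole, hderase] at h2
      rw [inf_idem, hP]
      simp only [Nat.cast_id] at h2
      omega
    have hsplit : ∑ x ∈ s, f x = 36 + ∑ x ∈ s.erase 1, f x := by
      rw [← Finset.add_sum_erase s _ h1s, hf1]
    have hrest : ∑ x ∈ s.erase 1, f x
        = 24 + 5 * ((s.erase 1).filter (fun x => f x = 6)).card := by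
      have h3 : ∀ x ∈ s.erase 1, f x = 1 + 5 * (if f x = 6 then 1 else 0) := by
        intro x hx
        have hx1 : x ≠ 1 := Finset.ne_of_mem_erase hx
        have hxP : x ∈ (P : Subgroup G) := by
          have := Finset.mem_of_mem_erase hx
          rw [hs] at this
          exact (Finset.mem_filter.mp this).2
        rcases hB P x hxP hx1 with h | ⟨h, _⟩ <;> rw [h] <;> simp
      rw [Finset.sum_congr rfl h3, Finset.sum_add_distrib, Finset.sum_const, ← Finset.mul_sum,
        Finset.sum_boole, Finset.card_erase_of_mem h1s, hscard]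
      simp
    have hm24 : ((s.erase 1).filter (fun x => f x = 6)).card ≤ 24 := by
      refine le_trans (Finset.card_filter_le _ _) ?_
      rw [Finset.card_erase_of_mem h1s, hscard]
    have hfilt : (s.erase 1).filter (fun x => f x = 6) = T.filter (fun x => x ∈ (P : Subgroup G)) := by
      ext x
      simp only [hs, hT, Finset.mem_filter, Finset.mem_erase, Finset.mem_univ, true_and]
      constructor
      · rintro ⟨⟨_, hxP⟩, h8⟩
        exact ⟨h8, hxP⟩
      · rintro ⟨h8, hxP⟩
        refine ⟨⟨?_, hxP⟩, h8⟩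
        rintro rfl
        rw [hf1] at h8
        omega
    rw [← hfilt]
    rw [hdc, hrest] at hsplit
    obtain ⟨e, he⟩ := hd25
    omega
  -- Step E: double count
  have hE : ∑ P : Sylow 5 G, (T.filter (fun x => x ∈ (P : Subgroup G))).card = ∑ x ∈ T, f x := by
    have := Finset.sum_card_bipartiteAbove_eq_sum_card_bipartiteBelow (s := T)
      (t := (Finset.univ : Finset (Sylow 5 G))) (fun (x : G) (Q : Sylow 5 G) => x ∈ (Q : Subgroup G))
    simp only [Finset.bipartiteAbove, Finset.bipartiteBelow] at this
    rw [hf]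
    simp only
    rw [this]
  have hE1 : ∑ P : Sylow 5 G, (T.filter (fun x => x ∈ (P : Subgroup G))).card = 288 := by
    rw [Finset.sum_congr rfl (fun P _ => hD P), Finset.sum_const, hcardS]
    rfl
  have hE2 : ∑ x ∈ T, f x = 6 * T.card := by
    have h4 : ∀ x ∈ T, f x = 6 := by
      intro x hx
      rw [hT] at hx
      exact (Finset.mem_filter.mp hx).2
    rw [Finset.sum_congr rfl h4, Finset.sum_const, smul_eq_mul, mul_comm]
  -- Step F: T is a union of conjugacy classes of size 18
  have hcent : ∀ x ∈ T, Nat.card (centralizer ({x} : Set G)) = 300 := by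
    intro x hx
    rw [hT] at hx
    have h6 : f x = 6 := (Finset.mem_filter.mp hx).2
    have hx1 : x ≠ 1 := by
      rintro rfl
      rw [hf1] at h6
      omega
    have hne : (Finset.univ.filter (fun Q : Sylow 5 G => x ∈ (Q : Subgroup G))).Nonempty := by
      rw [← Finset.card_pos]
      have : f x = (Finset.univ.filter (fun Q : Sylow 5 G => x ∈ (Q : Subgroup G))).card := rfl
      omega
    obtain ⟨P, hPm⟩ := hne
    rcases hB P x (Finset.mem_filter.mp hPm).2 hx1 with h1 | ⟨_, hc⟩
    · omega
    · exact hc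
  have hF : T.card = 18 * (T.image ConjClasses.mk).card := by
    rw [Finset.card_eq_sum_card_fiberwise (f := ConjClasses.mk) (t := T.image ConjClasses.mk)
      (fun x hx => Finset.mem_image_of_mem _ hx)]
    have hfib : ∀ b ∈ T.image ConjClasses.mk,
        (T.filter (fun x => ConjClasses.mk x = b)).card = 18 := by
      intro b hb
      obtain ⟨x₀, hx₀, rfl⟩ := Finset.mem_image.mp hb
      have h1 : T.filter (fun x => ConjClasses.mk x = ConjClasses.mk x₀)
          = (ConjClasses.mk x₀).carrier.toFinset := by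
        ext y
        simp only [Finset.mem_filter, Set.mem_toFinset, ConjClasses.mem_carrier_iff_mk_eq]
        constructor
        · exact fun hy => hy.2
        · intro hy
          refine ⟨?_, hy⟩
          rw [ConjClasses.mk_eq_mk_iff_isConj, isConj_comm, isConj_iff] at hy
          obtain ⟨c, rfl⟩ := hy
          rw [hT, Finset.mem_filter] at hx₀ ⊢
          exact ⟨Finset.mem_univ _, by rw [hfconj]; exact hx₀.2⟩
      rw [h1, Set.toFinset_card, ConjClasses.card_carrier, ← Nat.card_eq_fintype_card,
        ← Nat.card_eq_fintype_card, ← Subgroup.nat_card_centralizer_nat_card_stabilizer,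
        hcent x₀ hx₀, h]
    rw [Finset.sum_congr rfl hfib, Finset.sum_const, smul_eq_mul, mul_comm]
  rw [hE1, hE2] at hE
  omega

/-- No finite simple group has order 5400 = 2^3 * 3^3 * 5^2. -/
theorem no_simple {G : Type*} [Group G] [Finite G] [IsSimpleGroup G] : Nat.card G ≠ 5400 := by
  intro h
  have hG : ¬ IsMulCommutative G := not_comm_of_not_prime (by rw [h]; norm_num)
  have : Fact (Nat.Prime 5) := ⟨by norm_num⟩
  have h5 : 5 ∣ Nat.card G := by rw [h]; norm_num
  have hd : Nat.card (Sylow 5 G) ∣ 216 :=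
    card_sylow_dvd (k := 2) (h.trans (by norm_num)) (by norm_num)
  have hm := card_sylow_mod (G := G) 5
  have hne := card_sylow_ne_one hG h5
  have hfac := two_mul_card_dvd_factorial_card_sylow hG h5
  obtain ⟨P⟩ : Nonempty (Sylow 5 G) := inferInstance
  have hP : Nat.card (P : Subgroup G) = 25 := by
    simpa using card_sylow_subgroup (k := 2) (m := 216) (h.trans (by norm_num)) (by norm_num) P
  have hNn := card_normalizer_mul_card_sylow P
  rw [h] at hNn
  rcases key216 _ (Nat.mem_divisors.mpr ⟨hd, by norm_num⟩) hm hne with hn | hn | hn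
  · rw [hn, h] at hfac
    revert hfac
    decide
  · exact case36 hG h hn
  · rw [hn] at hNn
    have hN : Nat.card (normalizer ((P : Subgroup G) : Set G)) = 25 := by omega
    have heq : (P : Subgroup G) = normalizer ((P : Subgroup G) : Set G) :=
      Subgroup.eq_of_le_of_card_ge le_normalizer (by rw [hN, hP])
    apply not_normalizer_le_centralizer hG h5 P
    intro x hx
    rw [← heq] at hx
    rw [mem_centralizer_iff]
    intro y hy
    have hcomm := IsPGroup.isMulCommutative_of_card_eq_prime_sq (p := 5) (G := (P : Subgroup G))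
      (by rw [hP]; norm_num)
    have := (isMulCommutative_iff.mp hcomm) ⟨y, hy⟩ ⟨x, hx⟩
    exact congrArg Subtype.val this

end Cfsg.Agent.Lib.Helper59.O5400
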