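import Mathlib

/-!
# An element of order 4 from two "transvections" on a rank two group

`core`: `z`, `b` commuting, `z` of odd prime order `p`, `b ^ p = 1`; `x` centralizes `z` and
`x b x⁻¹ = b z^i`; `y` centralizes `b` and `y z y⁻¹ = z b^j` (`p ∤ i, j`).  Then
`w = x^a y^c x^a` (for suitable `a`, `c`) satisfies `w z w⁻¹ = b⁻¹`, `w b w⁻¹ = z`, so `w²`
inverts `z`, `4 ∣ orderOf w` and the group has an element of order 4.
(The image of `⟨x, y⟩` in `Aut ⟨z, b⟩` is `SL₂(p)`.)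
-/

set_option autoImplicit false

namespace Cfsg.Agent.Lib.Helper59.Ord4Core

variable {G : Type*} [Group G]

theorem conj_pow_fix (x z : G) (h : x * z * x⁻¹ = z) (n : ℕ) : x ^ n * z * (x ^ n)⁻¹ = z := by
  induction n with
  | zero => simp
  | succ n ih =>
    calc x ^ (n + 1) * z * (x ^ (n + 1))⁻¹ = x * (x ^ n * z * (x ^ n)⁻¹) * x⁻¹ := by
          rw [pow_succ']; group
      _ = z := by rw [ih, h]

theorem conj_pow_shear (x z b : G) (i : ℕ) (h1 : x * z * x⁻¹ = z) (h2 : x * b * x⁻¹ = b * z ^ i)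
    (n : ℕ) : x ^ n * b * (x ^ n)⁻¹ = b * z ^ (n * i) := by
  induction n with
  | zero => simp
  | succ n ih =>
    have h3 : x * z ^ (n * i) * x⁻¹ = z ^ (n * i) := by
      rw [← conj_pow, h1]
    calc x ^ (n + 1) * b * (x ^ (n + 1))⁻¹ = x * (x ^ n * b * (x ^ n)⁻¹) * x⁻¹ := by
          rw [pow_succ']; group
      _ = (x * b * x⁻¹) * (x * z ^ (n * i) * x⁻¹) := by rw [ih]; group
      _ = b * z ^ ((n + 1) * i) := by
          rw [h2, h3, mul_assoc, ← pow_add]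
          congr 2
          ring

/-- the four-step computation -/
theorem order_four [Finite G] (z b x y : G) (hzb : z * b = b * z) (hz : z ≠ z⁻¹)
    (hx1 : x * z * x⁻¹ = z) (hx2 : x * b * x⁻¹ = b * z)
    (hy1 : y * b * y⁻¹ = b) (hy2 : y * z * y⁻¹ = z * b⁻¹) : ∃ w : G, orderOf w = 4 := by
  obtain ⟨w, hw⟩ : ∃ w : G, w = x * y * x := ⟨_, rfl⟩
  have hxb' : x * b⁻¹ * x⁻¹ = (b * z)⁻¹ := by
    rw [← hx2, conj_inv]
  have hwz : w * z * w⁻¹ = b⁻¹ := by
    calc w * z * w⁻¹ = x * (y * (x * z * x⁻¹) * y⁻¹) * x⁻¹ := by rw [hw]; group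
      _ = x * (z * b⁻¹) * x⁻¹ := by rw [hx1, hy2]
      _ = (x * z * x⁻¹) * (x * b⁻¹ * x⁻¹) := by group
      _ = z * (b * z)⁻¹ := by rw [hx1, hxb']
      _ = b⁻¹ := by rw [mul_inv_rev, ← mul_assoc, mul_inv_cancel, one_mul]
  have hbzb : b * (z * b⁻¹) = z := by
    rw [← mul_assoc, ← hzb, mul_assoc, mul_inv_cancel, mul_one]
  have hwb : w * b * w⁻¹ = z := by
    calc w * b * w⁻¹ = x * (y * (x * b * x⁻¹) * y⁻¹) * x⁻¹ := by rw [hw]; group
      _ = x * ((y * b * y⁻¹) * (y * z * y⁻¹)) * x⁻¹ := by rw [hx2]; group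
      _ = x * (b * (z * b⁻¹)) * x⁻¹ := by rw [hy1, hy2]
      _ = x * z * x⁻¹ := by rw [hbzb]
      _ = z := hx1
  have hw2 : (w * w) * z * (w * w)⁻¹ = z⁻¹ := by
    calc (w * w) * z * (w * w)⁻¹ = w * (w * z * w⁻¹) * w⁻¹ := by group
      _ = (w * b * w⁻¹)⁻¹ := by rw [hwz, conj_inv]
      _ = z⁻¹ := by rw [hwb]
  have hw2' : (w * w) * z⁻¹ * (w * w)⁻¹ = z := by
    calc (w * w) * z⁻¹ * (w * w)⁻¹ = ((w * w) * z * (w * w)⁻¹)⁻¹ := by rw [conj_inv]
      _ = z := by rw [hw2, inv_inv]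
  have hpow : ∀ m : ℕ, (w * w) ^ m * z * ((w * w) ^ m)⁻¹ = if Even m then z else z⁻¹ := by
    intro m
    induction m with
    | zero => simp
    | succ m ih =>
      have h1 : (w * w) ^ (m + 1) * z * ((w * w) ^ (m + 1))⁻¹
          = (w * w) * ((w * w) ^ m * z * ((w * w) ^ m)⁻¹) * (w * w)⁻¹ := by
        rw [pow_succ', mul_inv_rev]
        simp only [mul_assoc]
      rw [h1, ih]
      by_cases hm : Even m
      · rw [if_pos hm, if_neg (by rw [Nat.even_add_one]; exact not_not.mpr hm), hw2]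
      · rw [if_neg hm, if_pos (by rw [Nat.even_add_one]; exact hm), hw2']
  have hn : 0 < orderOf w := orderOf_pos w
  have h4 : 4 ∣ orderOf w := by
    have h1 : (w * w) ^ orderOf w = 1 := by
      rw [← pow_two, ← pow_mul, mul_comm, pow_mul, pow_orderOf_eq_one, one_pow]
    have h2 := hpow (orderOf w)
    rw [h1] at h2
    have he : Even (orderOf w) := by
      by_contra hne
      rw [if_neg hne] at h2
      apply hz
      simpa using h2
    obtain ⟨m, hm⟩ := he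
    have h3 : (w * w) ^ m = 1 := by
      rw [← pow_two, ← pow_mul, two_mul, ← hm, pow_orderOf_eq_one]
    have h5 := hpow m
    rw [h3] at h5
    have he' : Even m := by
      by_contra hne
      rw [if_neg hne] at h5
      apply hz
      simpa using h5
    obtain ⟨k, hk⟩ := he'
    exact ⟨k, by rw [hm, hk]; ring⟩
  obtain ⟨k, hk⟩ := h4
  refine ⟨w ^ k, ?_⟩
  have hk0 : k ≠ 0 := by
    rintro rfl
    rw [mul_zero] at hk
    omega
  rw [orderOf_pow_of_dvd hk0 ⟨4, by rw [hk]; ring⟩, hk]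
  exact Nat.mul_div_cancel 4 (Nat.pos_of_ne_zero hk0)

/-- the general form: `x b x⁻¹ = b z^i`, `y z y⁻¹ = z b^j`, `p ∤ i, j` -/
theorem core [Finite G] (p : ℕ) (hp : p.Prime) (hp2 : p ≠ 2) (z b x y : G)
    (hz : orderOf z = p) (hb : b ^ p = 1) (hzb : z * b = b * z) (i j : ℕ)
    (hi : ¬ p ∣ i) (hj : ¬ p ∣ j)
    (hx1 : x * z * x⁻¹ = z) (hx2 : x * b * x⁻¹ = b * z ^ i)
    (hy1 : y * b * y⁻¹ = b) (hy2 : y * z * y⁻¹ = z * b ^ j) : ∃ w : G, orderOf w = 4 := by
  have hzp : z ^ p = 1 := by rw [← hz]; exact pow_orderOf_eq_one z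
  have hz' : z ≠ z⁻¹ := by
    intro h
    have h1 : z ^ 2 = 1 := by
      rw [pow_two]
      nth_rewrite 2 [h]
      exact mul_inv_cancel z
    have h2 : p ∣ 2 := hz ▸ orderOf_dvd_of_pow_eq_one h1
    have h3 := (Nat.prime_dvd_prime_iff_eq hp Nat.prime_two).mp h2
    exact hp2 h3
  -- `a i ≡ 1`, `c j ≡ -1 (mod p)`
  obtain ⟨a, -, ha⟩ := Nat.exists_mul_mod_eq_one_of_coprime
    ((Nat.Prime.coprime_iff_not_dvd hp).mpr hi).symm hp.one_lt
  obtain ⟨c', -, hc'⟩ := Nat.exists_mul_mod_eq_one_of_coprime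
    ((Nat.Prime.coprime_iff_not_dvd hp).mpr hj).symm hp.one_lt
  have hza : z ^ (a * i) = z := by
    have h1 : a * i = p * (a * i / p) + 1 := by
      have := Nat.div_add_mod (i * a) p
      rw [ha] at this
      rw [mul_comm a i]
      omega
    rw [h1, pow_succ, pow_mul, hzp, one_pow, one_mul]
  have hbc : b ^ ((p - 1) * c' * j) = b⁻¹ := by
    obtain ⟨t, ht⟩ : ∃ t, c' * j = p * t + 1 := by
      refine ⟨c' * j / p, ?_⟩
      have := Nat.div_add_mod (j * c') p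
      rw [hc'] at this
      rw [mul_comm c' j]
      omega
    have h2 : (p - 1) * c' * j = p * ((p - 1) * t) + (p - 1) := by
      rw [mul_assoc, ht]
      ring
    rw [h2, pow_add, pow_mul, hb, one_pow, one_mul]
    have h3 : b ^ (p - 1) * b = 1 := by
      rw [← pow_succ, Nat.sub_add_cancel hp.pos, hb]
    exact eq_inv_of_mul_eq_one_left h3
  have hx1' := conj_pow_fix x z hx1 a
  have hx2' := conj_pow_shear x z b i hx1 hx2 a
  rw [hza] at hx2'
  have hy1' := conj_pow_fix y b hy1 ((p - 1) * c')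
  have hy2' := conj_pow_shear y b z j hy1 hy2 ((p - 1) * c')
  rw [hbc] at hy2'
  exact order_four z b (x ^ a) (y ^ ((p - 1) * c')) hzb hz' hx1' hx2' hy1' hy2'

end Cfsg.Agent.Lib.Helper59.Ord4Core
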