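import Mathlib
import Cfsg.Agent.Lib.Helper75.OTStmt

/-! Piece [AR2] of S4889: equal degrees and `k(B) = |D|` force one simple module and
decomposition numbers 1. -/

set_option autoImplicit false

namespace Cfsg.Agent.Lib.Helper59.OtAR2

open Cfsg Cfsg.Agent.Lib.Helper77.LocalRing Cfsg.Agent.Lib.CT.Wedderburn
open Cfsg.Agent.Lib.Helper75.OTStmt

universe u

/-- `p^a ∣ n * m` gives `p^(a - ν_p(n)) ∣ m`. -/
theorem pow_dvd_of_mul {p : ℕ} (hp : p.Prime) {a n m : ℕ} (hn : 0 < n) (hm : 0 < m)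
    (h : p ^ a ∣ n * m) : p ^ (a - n.factorization p) ∣ m := by
  have h1 : a ≤ (n * m).factorization p :=
    (hp.pow_dvd_iff_le_factorization (Nat.mul_ne_zero hn.ne' hm.ne')).mp h
  rw [Nat.factorization_mul hn.ne' hm.ne'] at h1
  have h2 : a - n.factorization p ≤ m.factorization p := by
    simp only [Finsupp.coe_add, Pi.add_apply] at h1
    omega
  exact (hp.pow_dvd_iff_le_factorization hm.ne').mpr h2

theorem main : Cfsg.Agent.Lib.Helper75.OTStmt.AR2.{u} := by
  intro G _ _ p _ M hM B hB D hD L f d J hdec n hn hk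
  classical
  haveI : Finite (IrrCharacter G) := finite_irrCharacter G
  haveI : Fintype (IrrCharacter G) := Fintype.ofFinite _
  obtain ⟨hf, hdegf, hBJ, hnBJ, huni, hproj, hrank⟩ := hdec
  have hp : p.Prime := Fact.out
  have hMp := isPrime_of_isPModular hM
  obtain ⟨χ₀, hχ₀⟩ := Cfsg.Agent.Lib.Helper16.ZR.isPBlock_nonempty hMp hB
  have hn0 : 0 < n := by
    rw [← hn χ₀ hχ₀]
    exact irr_charDegree_pos χ₀.2
  have hcardD : Nat.card D = p ^ ((Nat.card G).factorization p - n.factorization p) := by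
    rw [Cfsg.Agent.Lib.Helper16.Defect.card_defectGroup p hM B hB D hD]
    unfold blockDefect
    have himg : (fun χ : IrrCharacter G => (charDegree (χ : G → ℂ)).factorization p) '' B
        = {n.factorization p} := by
      ext x
      constructor
      · rintro ⟨χ, hχ, rfl⟩
        simp only [hn χ hχ]
        rfl
      · intro hx
        rw [Set.mem_singleton_iff] at hx
        exact ⟨χ₀, hχ₀, by simp only [hn χ₀ hχ₀]; exact hx.symm⟩
    rw [himg, csInf_singleton]
  obtain ⟨Bf, hmemBf⟩ : ∃ Bf : Finset (IrrCharacter G), ∀ χ, χ ∈ Bf ↔ χ ∈ B :=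
    ⟨Finset.univ.filter (fun χ => χ ∈ B), fun χ => by simp⟩
  have hcardB : Nat.card B = Bf.card := by
    rw [← Nat.card_eq_finsetCard Bf]
    exact Nat.card_congr (Equiv.subtypeEquivRight (fun χ => (hmemBf χ).symm))
  have hk0 : 0 < Bf.card := Finset.card_pos.mpr ⟨χ₀, (hmemBf χ₀).mpr hχ₀⟩
  obtain ⟨m, hm⟩ : ∃ m : Fin L → ℕ, ∀ i, m i = ∑ χ ∈ Bf, d χ i := ⟨_, fun _ => rfl⟩
  -- (A) `n ∣ f i` and `m i > 0` for `i ∈ J`
  have hA : ∀ i ∈ J, (∃ t : ℤ, (f i : ℤ) = n * t) ∧ 0 < m i := by
    intro i hi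
    obtain ⟨z, hz⟩ := huni i
    have hz' : ∀ i', ∑ χ ∈ Bf, z χ * (d χ i' : ℤ)
        = if i' ∈ J then (if i = i' then 1 else 0) else 0 := by
      intro i'
      by_cases hi' : i' ∈ J
      · rw [if_pos hi', ← hz i', finsum_eq_sum_of_fintype]
        apply Finset.sum_subset (Finset.subset_univ _)
        intro χ _ hχ
        rw [hnBJ χ i' (fun h => hχ ((hmemBf χ).mpr h)) hi']
        simp
      · rw [if_neg hi']
        apply Finset.sum_eq_zero
        intro χ hχ
        rw [hBJ χ i' ((hmemBf χ).mp hχ) hi']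
        simp
    refine ⟨⟨∑ χ ∈ Bf, z χ, ?_⟩, ?_⟩
    · have h1 : (n : ℤ) * ∑ χ ∈ Bf, z χ
          = ∑ χ ∈ Bf, z χ * (charDegree (χ : G → ℂ) : ℤ) := by
        rw [Finset.mul_sum]
        apply Finset.sum_congr rfl
        intro χ hχ
        rw [hn χ ((hmemBf χ).mp hχ)]
        ring
      rw [h1]
      have h2 : ∑ χ ∈ Bf, z χ * (charDegree (χ : G → ℂ) : ℤ)
          = ∑ i', (f i' : ℤ) * ∑ χ ∈ Bf, z χ * (d χ i' : ℤ) := by
        have h3 : ∀ χ ∈ Bf, z χ * (charDegree (χ : G → ℂ) : ℤ)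
            = ∑ i', (f i' : ℤ) * (z χ * (d χ i' : ℤ)) := by
          intro χ _
          rw [hdegf χ]
          push_cast
          rw [Finset.mul_sum]
          apply Finset.sum_congr rfl
          intro i' _
          ring
        rw [Finset.sum_congr rfl h3, Finset.sum_comm]
        apply Finset.sum_congr rfl
        intro i' _
        rw [Finset.mul_sum]
      rw [h2, Finset.sum_eq_single i]
      · rw [hz' i, if_pos hi, if_pos rfl, mul_one]
      · intro i' _ hne
        rw [hz' i']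
        by_cases hi' : i' ∈ J
        · rw [if_pos hi', if_neg (Ne.symm hne), mul_zero]
        · rw [if_neg hi', mul_zero]
      · intro h
        exact absurd (Finset.mem_univ _) h
    · by_contra h0
      have h0' : ∑ χ ∈ Bf, d χ i = 0 := by
        rw [← hm i]
        omega
      have h3 : ∀ χ ∈ Bf, d χ i = 0 := Finset.sum_eq_zero_iff.mp h0'
      have h4 := hz' i
      rw [if_pos hi, if_pos rfl] at h4
      rw [Finset.sum_eq_zero (fun χ hχ => by rw [h3 χ hχ]; simp)] at h4
      exact zero_ne_one h4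
  -- (B) `n ≤ f i`
  have hB' : ∀ i ∈ J, n ≤ f i := by
    intro i hi
    obtain ⟨⟨t, ht⟩, -⟩ := hA i hi
    have h1 : (n : ℤ) ∣ (f i : ℤ) := ⟨t, ht⟩
    have h2 : n ∣ f i := by exact_mod_cast h1
    exact Nat.le_of_dvd (hf i) h2
  -- (E) `k ≤ m i`
  have hE : ∀ i ∈ J, Bf.card ≤ m i := by
    intro i hi
    have hmi := (hA i hi).2
    have h1 := hproj i
    rw [finsum_eq_sum_of_fintype] at h1
    have h2 : ∑ χ : IrrCharacter G, d χ i * charDegree (χ : G → ℂ) = n * m i := by
      rw [hm i, Finset.mul_sum]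
      symm
      have h3 : ∑ χ ∈ Bf, n * d χ i = ∑ χ ∈ Bf, d χ i * charDegree (χ : G → ℂ) := by
        apply Finset.sum_congr rfl
        intro χ hχ
        rw [hn χ ((hmemBf χ).mp hχ)]
        ring
      rw [h3]
      apply Finset.sum_subset (Finset.subset_univ _)
      intro χ _ hχ
      rw [hnBJ χ i (fun h => hχ ((hmemBf χ).mpr h)) hi, zero_mul]
    rw [h2] at h1
    have h4 := pow_dvd_of_mul hp hn0 hmi h1
    rw [← hcardD, ← hk, hcardB] at h4
    exact Nat.le_of_dvd hmi h4
  -- (F) the sum of the squares of the degrees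
  have hF : ∑ i ∈ J, f i * n * m i = Bf.card * n * n := by
    have h1 : ∑ χ ∈ Bf, n * charDegree (χ : G → ℂ) = Bf.card * n * n := by
      rw [Finset.sum_congr rfl (fun χ hχ => by rw [hn χ ((hmemBf χ).mp hχ)]),
        Finset.sum_const, smul_eq_mul]
      ring
    rw [← h1]
    have h2 : ∀ χ ∈ Bf, n * charDegree (χ : G → ℂ) = ∑ i ∈ J, f i * n * d χ i := by
      intro χ hχ
      rw [hdegf χ, Finset.mul_sum]
      symm
      have h3 : ∑ i ∈ J, f i * n * d χ i = ∑ i ∈ J, n * (d χ i * f i) := by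
        apply Finset.sum_congr rfl
        intro i _
        ring
      rw [h3]
      apply Finset.sum_subset (Finset.subset_univ _)
      intro i _ hi
      rw [hBJ χ i ((hmemBf χ).mp hχ) hi, zero_mul, mul_zero]
    rw [Finset.sum_congr rfl h2, Finset.sum_comm]
    apply Finset.sum_congr rfl
    intro i _
    rw [hm i, Finset.mul_sum]
  -- `J` is nonempty
  have hJne : J.Nonempty := by
    by_contra hJ
    rw [Finset.not_nonempty_iff_eq_empty] at hJ
    have h1 := hdegf χ₀
    rw [hn χ₀ hχ₀] at h1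
    have h2 : ∑ i, d χ₀ i * f i = 0 := by
      apply Finset.sum_eq_zero
      intro i _
      rw [hBJ χ₀ i hχ₀ (by rw [hJ]; exact Finset.notMem_empty i), zero_mul]
    omega
  -- `J` has one element
  have hJcard : J.card ≤ 1 := by
    have h1 : ∑ i ∈ J, Bf.card * n * n ≤ ∑ i ∈ J, f i * n * m i := by
      apply Finset.sum_le_sum
      intro i hi
      have h2 := hB' i hi
      have h3 := hE i hi
      calc Bf.card * n * n ≤ m i * n * n :=
            Nat.mul_le_mul_right _ (Nat.mul_le_mul_right _ h3)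
        _ = n * n * m i := by ring
        _ ≤ f i * n * m i := Nat.mul_le_mul_right _ (Nat.mul_le_mul_right _ h2)
    rw [hF, Finset.sum_const, smul_eq_mul] at h1
    have h4 : 0 < Bf.card * n * n := Nat.mul_pos (Nat.mul_pos hk0 hn0) hn0
    by_contra hcon
    push Not at hcon
    have h5 : 2 * (Bf.card * n * n) ≤ J.card * (Bf.card * n * n) :=
      Nat.mul_le_mul_right _ hcon
    omega
  have hJ1 : J.card = 1 := le_antisymm hJcard (Finset.card_pos.mpr hJne)
  obtain ⟨i₀, hi₀⟩ := Finset.card_eq_one.mp hJ1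
  refine ⟨i₀, hi₀, ?_⟩
  have hi₀J : i₀ ∈ J := by rw [hi₀]; exact Finset.mem_singleton_self i₀
  -- `f i₀ = n`
  have hfn : f i₀ = n := by
    have h1 := hF
    rw [hi₀, Finset.sum_singleton] at h1
    have h2 := hB' i₀ hi₀J
    have h3 := hE i₀ hi₀J
    by_contra hne
    have h4 : n + 1 ≤ f i₀ := by omega
    have h5 : (n + 1) * n * Bf.card ≤ f i₀ * n * m i₀ :=
      Nat.mul_le_mul (Nat.mul_le_mul_right _ h4) h3
    rw [h1] at h5
    have h6 : (n + 1) * n * Bf.card = Bf.card * n * n + n * Bf.card := by ring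
    have h7 : 0 < n * Bf.card := Nat.mul_pos hn0 hk0
    omega
  intro χ hχ
  have h1 := hdegf χ
  rw [hn χ hχ] at h1
  have h2 : ∑ i, d χ i * f i = d χ i₀ * f i₀ := by
    rw [Finset.sum_eq_single i₀]
    · intro i _ hne
      rw [hBJ χ i hχ (by rw [hi₀, Finset.mem_singleton]; exact hne), zero_mul]
    · intro h
      exact absurd (Finset.mem_univ _) h
  rw [h2, hfn] at h1
  have h3 : d χ i₀ * n = 1 * n := by omega
  exact Nat.eq_of_mul_eq_mul_right hn0 h3

end Cfsg.Agent.Lib.Helper59.OtAR2
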