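import Mathlib
import Cfsg.Agent.Lib.Helper75.OTStmt

/-! Piece [TF] of S4889: the trace formula. -/

set_option autoImplicit false

namespace Cfsg.Agent.Lib.Helper59.OtTF

open Cfsg Cfsg.Agent.Lib.CT.Wedderburn Cfsg.Agent.Lib.CT.Orth
open Cfsg.Agent.Lib.Helper77.CentralChar Cfsg.Agent.Lib.Helper77.ClassSum
open Cfsg.Agent.Lib.Helper77.BlockIdem
open Cfsg.Agent.Lib.Helper75.OTStmt
open scoped ComplexConjugate

universe u

/-- An idempotent endomorphism of trace `1` (or `0`) satisfies `P Y P = tr(P Y) P`. -/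
theorem idem_sandwich {V : Type*} [AddCommGroup V] [Module ℂ V] [FiniteDimensional ℂ V]
    (P : V →ₗ[ℂ] V) (hP : P * P = P)
    (ht : LinearMap.trace ℂ V P = 1 ∨ LinearMap.trace ℂ V P = 0) (Y : V →ₗ[ℂ] V) :
    P * Y * P = LinearMap.trace ℂ V (P * Y) • P := by
  have hidem : IsIdempotentElem P := hP
  rcases ht with ht | ht
  · have h1 := (LinearMap.IsIdempotentElem.isProj_range P hidem).trace
    rw [ht] at h1
    have hfr : Module.finrank ℂ (LinearMap.range P) = 1 := by exact_mod_cast h1.symm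
    obtain ⟨v, hv0, hv⟩ := finrank_eq_one_iff'.mp hfr
    obtain ⟨lam, hlam⟩ := hv ⟨P (Y v), LinearMap.mem_range_self P _⟩
    have hlam' : P (Y (v : V)) = lam • (v : V) := by
      have := congrArg Subtype.val hlam
      simpa using this.symm
    have hkey : P * Y * P = lam • P := by
      ext u
      obtain ⟨c, hc⟩ := hv ⟨P u, LinearMap.mem_range_self P _⟩
      have hc' : P u = c • (v : V) := by
        have := congrArg Subtype.val hc
        simpa using this.symm
      simp only [Module.End.mul_apply, LinearMap.smul_apply]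
      rw [hc', map_smul, map_smul, hlam', smul_smul, smul_smul, mul_comm]
    have htr : LinearMap.trace ℂ V (P * Y) = lam := by
      have h2 : LinearMap.trace ℂ V (P * Y * P) = LinearMap.trace ℂ V (P * Y) := by
        rw [LinearMap.trace_mul_comm, ← mul_assoc, hP]
      rw [← h2, hkey, map_smul, ht, smul_eq_mul, mul_one]
    rw [htr, hkey]
  · have h0 : P = 0 := (LinearMap.IsIdempotentElem.trace_eq_zero_iff hidem).mp ht
    rw [h0]
    simp

/-- Fourier inversion for arbitrary elements of the group algebra. -/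
theorem coeff_eq_sum_pair {G : Type u} [Group G] [Fintype G] [Fintype (IrrCharacter G)]
    (w : MonoidAlgebra ℂ G) (h : G) :
    w.coeff h = (Nat.card G : ℂ)⁻¹ * ∑ ψ : IrrCharacter G,
      (ψ : G → ℂ) 1 * pair (ψ : G → ℂ) (w * MonoidAlgebra.single h⁻¹ 1) := by
  classical
  have hne : (Nat.card G : ℂ) ≠ 0 := Nat.cast_ne_zero.mpr Nat.card_pos.ne'
  induction w using MonoidAlgebra.induction_on with
  | of g =>
    rw [MonoidAlgebra.of_apply, MonoidAlgebra.single_mul_single, mul_one]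
    simp only [pair_single, one_mul]
    by_cases hgh : g = h
    · subst hgh
      rw [mul_inv_cancel]
      have h1 : ∑ ψ : IrrCharacter G, (ψ : G → ℂ) 1 * (ψ : G → ℂ) 1 = (Nat.card G : ℂ) := by
        rw [← sum_apply_one_sq_sum]
        exact Finset.sum_congr rfl fun ψ _ => by rw [sq]
      rw [h1, inv_mul_cancel₀ hne]
      simp
    · have h1 : g * h⁻¹ ≠ 1 := fun h2 => hgh (mul_inv_eq_one.mp h2)
      rw [sum_apply_one_mul_of_ne_sum _ h1, mul_zero]
      simp [hgh]
  | add x y hx hy =>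
    rw [MonoidAlgebra.coeff_add, Finsupp.add_apply, hx, hy, ← mul_add, ← Finset.sum_add_distrib]
    congr 1
    apply Finset.sum_congr rfl
    intro ψ _
    rw [add_mul, pair_add, mul_add]
  | smul r x hx =>
    rw [MonoidAlgebra.coeff_smul, Finsupp.smul_apply, hx, smul_eq_mul, Finset.mul_sum,
      Finset.mul_sum, Finset.mul_sum]
    apply Finset.sum_congr rfl
    intro ψ _
    rw [smul_mul_assoc, pair_smul]
    ring

theorem main : Cfsg.Agent.Lib.Helper75.OTStmt.TF.{u} := by
  intro G _ _ B ε hε hB1 hB0 m a c hsum x h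
  classical
  haveI := Fintype.ofFinite G
  haveI := finite_irrCharacter G
  haveI := Fintype.ofFinite (IrrCharacter G)
  obtain ⟨T, hT⟩ : ∃ T : MonoidAlgebra ℂ G,
      T = ∑ s, ∑ s', a s' * ε * c s * x * a s * ε * c s' := ⟨_, rfl⟩
  rw [← hT]
  have hkey : ∀ (ψ : IrrCharacter G) (y : MonoidAlgebra ℂ G),
      pair (ψ : G → ℂ) (T * y)
        = (if ψ ∈ B then pair (ψ : G → ℂ) x else 0) * pair (ψ : G → ℂ) y := by
    intro ψ y
    obtain ⟨n, ρ, hρ, hψ⟩ := ψ.2
    haveI := hρ
    have htr : ∀ z : MonoidAlgebra ℂ G,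
        LinearMap.trace ℂ (Fin n → ℂ) (ρ.asAlgebraHom z) = pair (ψ : G → ℂ) z := by
      intro z
      rw [trace_asAlgebraHom ρ z, hψ]
    obtain ⟨P, hPdef⟩ : ∃ P : (Fin n → ℂ) →ₗ[ℂ] (Fin n → ℂ), P = ρ.asAlgebraHom ε := ⟨_, rfl⟩
    have hP : P * P = P := by rw [hPdef, ← map_mul, hε]
    have hPt : LinearMap.trace ℂ (Fin n → ℂ) P = 1 ∨ LinearMap.trace ℂ (Fin n → ℂ) P = 0 := by
      rw [hPdef, htr]
      by_cases hψB : ψ ∈ B
      · exact Or.inl (hB1 ψ hψB)
      · exact Or.inr (hB0 ψ hψB)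
    have hsand := idem_sandwich P hP hPt
    obtain ⟨ω, hω⟩ : ∃ ω : ℂ, ω = if ψ ∈ B then 1 else 0 := ⟨_, rfl⟩
    have hblock : ρ.asAlgebraHom (blockIdem B) = ω • (1 : Module.End ℂ (Fin n → ℂ)) := by
      rw [asAlgebraHom_center ρ _ (blockIdem_mem_center B), hψ, omega_blockIdem, hω]
      rfl
    have hsumA : ∑ s, ρ.asAlgebraHom (a s) * P * ρ.asAlgebraHom (c s)
        = ω • (1 : Module.End ℂ (Fin n → ℂ)) := by
      rw [← hblock, ← hsum, map_sum]
      apply Finset.sum_congr rfl
      intro s _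
      rw [map_mul, map_mul, hPdef]
    have hterm : ∀ s s', ρ.asAlgebraHom (a s' * ε * c s * x * a s * ε * c s')
        = LinearMap.trace ℂ (Fin n → ℂ)
            (ρ.asAlgebraHom (a s) * P * ρ.asAlgebraHom (c s) * ρ.asAlgebraHom x)
          • (ρ.asAlgebraHom (a s') * P * ρ.asAlgebraHom (c s')) := by
      intro s s'
      have h1 := hsand (ρ.asAlgebraHom (c s) * ρ.asAlgebraHom x * ρ.asAlgebraHom (a s))
      have h2 : LinearMap.trace ℂ (Fin n → ℂ)
          (P * (ρ.asAlgebraHom (c s) * ρ.asAlgebraHom x * ρ.asAlgebraHom (a s)))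
          = LinearMap.trace ℂ (Fin n → ℂ)
            (ρ.asAlgebraHom (a s) * P * ρ.asAlgebraHom (c s) * ρ.asAlgebraHom x) := by
        rw [← mul_assoc, ← mul_assoc, LinearMap.trace_mul_comm]
        simp only [mul_assoc]
      rw [h2] at h1
      simp only [map_mul]
      rw [← hPdef]
      calc ρ.asAlgebraHom (a s') * P * ρ.asAlgebraHom (c s) * ρ.asAlgebraHom x
            * ρ.asAlgebraHom (a s) * P * ρ.asAlgebraHom (c s')
          = ρ.asAlgebraHom (a s') * (P * (ρ.asAlgebraHom (c s) * ρ.asAlgebraHom x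
              * ρ.asAlgebraHom (a s)) * P) * ρ.asAlgebraHom (c s') := by
            simp only [mul_assoc]
        _ = _ := by
            rw [h1, mul_smul_comm, smul_mul_assoc, mul_assoc]
    have hAT : ρ.asAlgebraHom T = (ω * pair (ψ : G → ℂ) x * ω)
        • (1 : Module.End ℂ (Fin n → ℂ)) := by
      rw [hT, map_sum]
      have h1 : ∀ s, ρ.asAlgebraHom (∑ s', a s' * ε * c s * x * a s * ε * c s')
          = (LinearMap.trace ℂ (Fin n → ℂ)
            (ρ.asAlgebraHom (a s) * P * ρ.asAlgebraHom (c s) * ρ.asAlgebraHom x) * ω)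
            • (1 : Module.End ℂ (Fin n → ℂ)) := by
        intro s
        rw [map_sum, Finset.sum_congr rfl (fun s' _ => hterm s s'), ← Finset.smul_sum, hsumA,
          smul_smul]
      rw [Finset.sum_congr rfl (fun s _ => h1 s), ← Finset.sum_smul, ← Finset.sum_mul]
      congr 2
      rw [← map_sum, ← Finset.sum_mul, hsumA, smul_mul_assoc, one_mul, map_smul, htr,
        smul_eq_mul]
    have hω2 : ω * pair (ψ : G → ℂ) x * ω = if ψ ∈ B then pair (ψ : G → ℂ) x else 0 := by
      rw [hω]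
      by_cases hψB : ψ ∈ B
      · rw [if_pos hψB, if_pos hψB]; ring
      · rw [if_neg hψB, if_neg hψB]; ring
    rw [← htr (T * y), map_mul, hAT, hω2, smul_mul_assoc, one_mul, map_smul, htr, smul_eq_mul]
  rw [coeff_eq_sum_pair T h]
  congr 1
  rw [finsum_mem_def, finsum_eq_sum_of_fintype]
  apply Finset.sum_congr rfl
  intro ψ _
  rw [hkey ψ, pair_single, one_mul, char_apply_inv (isCharacter_of_irr ψ.2)]
  by_cases hψB : ψ ∈ B
  · rw [if_pos hψB, Set.indicator_of_mem hψB]
    ring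
  · rw [if_neg hψB, Set.indicator_of_notMem hψB]
    ring

end Cfsg.Agent.Lib.Helper59.OtTF
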