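import Mathlib
import Cfsg.Agent.Lib.Helper87.PCStmt

/-! Piece [FRAT] of S5243: the Frattini property relative to a family `ℋ`. -/

set_option autoImplicit false

namespace Cfsg.Agent.Lib.Helper59.PCFRAT

open Cfsg Cfsg.FusionSystem Cfsg.Agent.H85 Cfsg.Agent.Lib.Helper87.PCStmt

universe u

theorem main : Cfsg.Agent.Lib.Helper87.PCStmt.Frat.{u} := by
  intro Ω _ S _ p _ hS F hF E' hE'F hT hinv ℋ h h2
  obtain ⟨𝒢, h𝒢⟩ : ∃ 𝒢 : FusionSystem S, 𝒢 = goodSys E' F hT hinv := ⟨_, rfl⟩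
  rw [← h𝒢]
  have h𝒢mem : ∀ {P : Subgroup Ω} (φ : P →* Ω), φ ∈ 𝒢.Hom P ↔ φ ∈ F.Hom P ∧
      ∀ (R : Subgroup Ω) (hRP : R ≤ P), R ≤ S → Good E' F (φ.comp (Subgroup.inclusion hRP)) := by
    intro P φ; rw [h𝒢]; exact Iff.rfl
  have hE'𝒢 : ∀ P, E'.Hom P ⊆ 𝒢.Hom P := fun P φ hφ =>
    (h𝒢mem φ).mpr ⟨hE'F P hφ, fun R hRP _ => Good.of_mem (restrict_mem E' hφ hRP)⟩
  refine Cfsg.Agent.Lib.Helper87.FSAlperin.alperin_induction hS F hF 𝒢 ?_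
  intro Y hfa hrec IH α hα hr
  have hY : Y ≤ S := hfa.1
  have : Finite Y := finite_of_le hY
  by_cases hc : F.IsCentric Y
  swap
  · obtain ⟨R, hYR, hlt, α', hα', hext⟩ :=
      Cfsg.Agent.Lib.Helper88.AlpCentric.extends_of_not_centric F hrec hα hr hc
    exact hom_congr 𝒢 (restrict_mem 𝒢 (IH R hlt hα') hYR) (fun x => (hext x).symm)
  by_cases hYℋ : Y ∈ ℋ
  swap
  · obtain ⟨B, hB, hBle, hBn, g, hgS, hgN, hgY, hgB⟩ := h2 Y hc hYℋ hfa hrec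
    exact Cfsg.Agent.Lib.Helper87.FSLocal.aut_mem_of_normal_pSubgroup F 𝒢 hfa hrec IH B hB hBle hBn
      hgS hgN hgY hgB α hα hr
  by_cases hSY : S ≤ Y
  · refine (h𝒢mem α).mpr ⟨hα, fun R hRY hRT => ?_⟩
    have hαT := restrict_mem F hα hSY
    have hrT : (α.comp (Subgroup.inclusion hSY)).range = S := by
      apply Subgroup.eq_of_le_of_card_ge
      · rintro _ ⟨x, rfl⟩; exact hT.2 S le_rfl _ hαT x
      · exact (Nat.card_congr (MonoidHom.ofInjective (F.injective_of_mem hαT)).toEquiv).le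
    exact ⟨isoOf F hαT hrT, (mem_autGroup_iff F le_rfl _).mpr (isIso_isoOf F hαT hrT), R.subtype,
      subtype_mem E' hRT, fun x hx => rfl⟩
  · obtain ⟨g, hgS, hgN, hgY⟩ := Cfsg.Agent.Lib.Helper87.FSLocal.exists_mem_normalizer_of_not_le hS hY
      (le_refl S) (hY.trans Subgroup.le_normalizer) hSY
    obtain ⟨N, hNdef⟩ : ∃ N : Subgroup (MulAut Y),
      N = (ppGen p (F.autGroup Y)).map (F.autGroup Y).subtype := ⟨_, rfl⟩
    have hNA : N ≤ F.autGroup Y := by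
      rw [hNdef]
      rintro _ ⟨b, -, rfl⟩
      exact b.2
    have hnorm : ∀ a ∈ F.autGroup Y, ∀ n ∈ N, a * n * a⁻¹ ∈ N := by
      intro a ha n hn
      rw [hNdef] at hn ⊢
      obtain ⟨b, hb, rfl⟩ := hn
      exact ⟨⟨a, ha⟩ * b * ⟨a, ha⟩⁻¹, ppGen_conj_mem p ⟨a, ha⟩ hb, rfl⟩
    have hN𝒢 : N ≤ 𝒢.autGroup Y := by
      rw [hNdef]
      intro b hb
      have h1 := h Y hYℋ hb
      exact (mem_autGroup_iff 𝒢 hY b).mpr (hE'𝒢 Y ((mem_autGroup_iff E' hY b).mp h1))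
    obtain ⟨n, hn, ν, hν, hαnν, hνd⟩ :=
      Cfsg.Agent.Lib.Helper87.ChainStab.frattini_decomp (F.autGroup Y) N
      (autInducedBy S Y) hNA hnorm (isPGroup_autInducedBy hS Y)
      (fun K hK hKp => Cfsg.Agent.Lib.Helper87.FSSat.exists_conj_le_autS F hfa K hKp hK)
      (Cfsg.Agent.Lib.Helper87.FSBasic.autOfMap α (F.injective_of_mem hα) hr)
      (Cfsg.Agent.Lib.Helper87.FSBasic.autOfMap_mem F hα hr)
    have hcS : Y.normalizerMonoidHom ⟨g, hgN⟩ ∈ autInducedBy S Y :=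
      (mem_autInducedBy_iff S Y _).mpr ⟨g, hgS, fun x => rfl⟩
    have hcg : Y.normalizerMonoidHom ⟨g, hgN⟩ ∈ autInducedBy S Y ⊓ N := by
      refine ⟨hcS, ?_⟩
      rw [hNdef]
      obtain ⟨k, hk⟩ := (IsPGroup.iff_orderOf.mp (isPGroup_autInducedBy hS Y)) ⟨_, hcS⟩
      refine ⟨⟨_, autInducedBy_le_autGroup F hY hcS⟩, Subgroup.subset_closure ⟨k, ?_⟩, rfl⟩
      rw [← hk, ← Subgroup.orderOf_coe, ← Subgroup.orderOf_coe]
    have hconj := (hνd _ hcg).1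
    have hν𝒢 := Cfsg.Agent.Lib.Helper87.FSLocal.aut_mem_of_extends F 𝒢 hrec IH hν hgS hgN hgY hconj
    have hmul : n * ν ∈ 𝒢.autGroup Y :=
      Subgroup.mul_mem _ (hN𝒢 hn) ((mem_autGroup_iff 𝒢 hY ν).mpr hν𝒢)
    rw [← hαnν] at hmul
    have := (mem_autGroup_iff 𝒢 hY _).mp hmul
    exact hom_congr 𝒢 this (fun x => rfl)

end Cfsg.Agent.Lib.Helper59.PCFRAT
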