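import Mathlib
import Cfsg.Agent.Lib.Helper1.PDStmt
import Cfsg.Agent.Lib.Helper59.Ord4Core

/-!
# S4020 / WORD (spare seat; call by helper1)

`main : Word`: wrapper of `Ord4Core.core` (written before the call was posted).
-/

set_option autoImplicit false

universe u

namespace Cfsg.Agent.Lib.Helper59.PDWORD

open Cfsg.Agent.Lib.Helper1.PDStmt

theorem main : Word.{u} := by
  intro X _ _ p hp hp2 z b x y a c hz1 hzp hbp hzb hxz hxb hyb hyz ha hc
  have hz : orderOf z = p := orderOf_eq_prime hzp hz1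
  have hx1 : x * z * x⁻¹ = z := by rw [hxz, mul_assoc, mul_inv_cancel, mul_one]
  have hy1 : y * b * y⁻¹ = b := by rw [hyb, mul_assoc, mul_inv_cancel, mul_one]
  exact Cfsg.Agent.Lib.Helper59.Ord4Core.core p hp.out hp2 z b x y hz hbp hzb a c ha hc hx1 hxb
    hy1 hyz

end Cfsg.Agent.Lib.Helper59.PDWORD
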