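import Cfsg.Agent.Lib.Helper79.SNStmt

set_option autoImplicit false

namespace Cfsg.Agent.Lib.Helper59.SNBURN

open Cfsg

universe u

theorem main : Cfsg.Agent.Lib.Helper79.SNStmt.Burn.{u} := by
  intro X _ _ p _ P M hMn hPM hab hself
  let PM : Sylow p ↥M := P.subtype hPM
  have hPMcoe : (PM : Subgroup ↥M) = (P : Subgroup X).subgroupOf M := Sylow.coe_subtype P hPM
  have hmemPM : ∀ y : ↥M, y ∈ (PM : Subgroup ↥M) ↔ (y : X) ∈ (P : Subgroup X) := by
    intro y
    rw [hPMcoe, Subgroup.mem_subgroupOf]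
  have hP' : Subgroup.normalizer ((PM : Subgroup ↥M) : Set ↥M)
      ≤ Subgroup.centralizer ((PM : Subgroup ↥M) : Set ↥M) := by
    intro n hn
    have hnP : (n : X) ∈ (P : Subgroup X) := by
      apply hself
      refine ⟨n.2, ?_⟩
      show (n : X) ∈ Subgroup.normalizer ((P : Subgroup X) : Set X)
      rw [Subgroup.mem_normalizer_iff]
      intro h
      constructor
      · intro hh
        have h1 : (⟨h, hPM hh⟩ : ↥M) ∈ (PM : Subgroup ↥M) := (hmemPM _).2 hh
        have h2 := (Subgroup.mem_normalizer_iff.1 hn _).1 h1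
        exact (hmemPM _).1 h2
      · intro hh
        have hhM : h ∈ M := by
          have h3 : (n : X)⁻¹ * ((n : X) * h * (n : X)⁻¹) * (n : X) ∈ M :=
            M.mul_mem (M.mul_mem (M.inv_mem n.2) (hPM hh)) n.2
          have h4 : (n : X)⁻¹ * ((n : X) * h * (n : X)⁻¹) * (n : X) = h := by group
          rwa [h4] at h3
        have h2 := (Subgroup.mem_normalizer_iff.1 hn ⟨h, hhM⟩).2 ((hmemPM _).2 hh)
        exact (hmemPM _).1 h2
    rw [Subgroup.mem_centralizer_iff]
    intro h hh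
    apply Subtype.ext
    have := hab (h : X) ((hmemPM h).1 hh) (n : X) hnP
    simpa using this
  let τ := MonoidHom.transferSylow PM hP'
  have hcomp : Subgroup.IsComplement' τ.ker (PM : Subgroup ↥M) :=
    MonoidHom.ker_transferSylow_isComplement' PM hP'
  have hnd : ¬ p ∣ Nat.card τ.ker := MonoidHom.not_dvd_card_ker_transferSylow PM hP'
  refine ⟨τ.ker.map M.subtype, ?_, ?_, ?_, ?_⟩
  · constructor
    intro q hq x
    obtain ⟨q0, hq0, rfl⟩ := Subgroup.mem_map.1 hq
    have hyM : x * (q0 : X) * x⁻¹ ∈ M := hMn.conj_mem _ q0.2 x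
    refine Subgroup.mem_map.2 ⟨⟨_, hyM⟩, ?_, rfl⟩
    rw [MonoidHom.mem_ker]
    set y : ↥M := ⟨_, hyM⟩ with hy
    have h1 : orderOf (τ y) ∣ orderOf y := orderOf_map_dvd τ y
    have h2 : orderOf y = orderOf q0 := by
      rw [← Subgroup.orderOf_coe y, ← Subgroup.orderOf_coe q0]
      show orderOf (x * (q0 : X) * x⁻¹) = orderOf (q0 : X)
      exact orderOf_injective (MulAut.conj x).toMonoidHom (MulAut.conj x).injective (q0 : X)
    have h3 : orderOf q0 ∣ Nat.card τ.ker := by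
      have := orderOf_dvd_natCard (⟨q0, hq0⟩ : τ.ker)
      rwa [Subgroup.orderOf_mk] at this
    have h4 : orderOf (τ y) ∣ Nat.card (PM : Subgroup ↥M) := orderOf_dvd_natCard (τ y)
    obtain ⟨k, hk⟩ := (IsPGroup.iff_card).1 PM.isPGroup'
    rw [hk] at h4
    have hcop : Nat.Coprime (p ^ k) (Nat.card τ.ker) :=
      Nat.Coprime.pow_left k ((Nat.Prime.coprime_iff_not_dvd (Fact.out)).2 hnd)
    have h5 : orderOf (τ y) ∣ 1 := by
      have := Nat.dvd_gcd h4 ((h1.trans (h2 ▸ dvd_rfl)).trans h3)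
      rwa [hcop] at this
    exact orderOf_eq_one_iff.1 (Nat.dvd_one.1 h5)
  · exact Subgroup.map_subtype_le _
  · rw [eq_bot_iff]
    intro x hx
    obtain ⟨hx1, hx2⟩ := hx
    obtain ⟨y, hy, rfl⟩ := Subgroup.mem_map.1 hx1
    have hyP : y ∈ (PM : Subgroup ↥M) := (hmemPM y).2 hx2
    have hd := hcomp.disjoint
    have hy1 : y = 1 := by
      have := (Subgroup.disjoint_def.1 hd) hy hyP
      exact this
    rw [hy1]
    exact Subgroup.mem_bot.2 rfl
  · apply le_antisymm
    · exact sup_le (Subgroup.map_subtype_le _) hPM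
    · intro m hm
      have hsup : τ.ker ⊔ (PM : Subgroup ↥M) = ⊤ := hcomp.sup_eq_top
      have hm' : (⟨m, hm⟩ : ↥M) ∈ τ.ker ⊔ (PM : Subgroup ↥M) := by rw [hsup]; trivial
      have hmap : (τ.ker ⊔ (PM : Subgroup ↥M)).map M.subtype
          ≤ τ.ker.map M.subtype ⊔ (P : Subgroup X) := by
        rw [Subgroup.map_sup]
        apply sup_le le_sup_left
        refine le_trans ?_ le_sup_right
        intro z hz
        obtain ⟨w, hw, rfl⟩ := Subgroup.mem_map.1 hz
        exact (hmemPM w).1 hw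
      exact hmap (Subgroup.mem_map.2 ⟨⟨m, hm⟩, hm', rfl⟩)

end Cfsg.Agent.Lib.Helper59.SNBURN
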