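import Mathlib

/-!
# Burnside–Schur: primitive groups containing a regular cyclic subgroup of composite order

Elementary proof (Wielandt, Theorem 25.4 style). `A` is a finite additive commutative group on which
`G` acts, every translation of `A` being realised by an element of `G`. If for a prime `p` the
subgroup `{x | p • x = 0}` has order exactly `p` and is proper, then a primitive `G` is
2-transitive.
-/

namespace Cfsg.Agent.Lib.Helper59.Schur

open Finset
open scoped Pointwise

section Alg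
variable {A : Type*} [AddCommGroup A] {p : ℕ}

/-- the group-algebra element of a finset -/
noncomputable def gel (p : ℕ) (Δ : Finset A) : AddMonoidAlgebra (ZMod p) A :=
  ∑ d ∈ Δ, AddMonoidAlgebra.single d 1

lemma coeff_gel_mul (Δ : Finset A) (φ : AddMonoidAlgebra (ZMod p) A) (z : A) :
    (gel p Δ * φ).coeff z = ∑ d ∈ Δ, φ.coeff (z - d) := by
  unfold gel
  rw [Finset.sum_mul, AddMonoidAlgebra.coeff_sum, Finsupp.finsetSum_apply]
  refine Finset.sum_congr rfl fun d _ => ?_
  rw [AddMonoidAlgebra.coeff_single_mul_apply, one_mul]; congr 1; abel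

lemma charP_alg [Fact p.Prime] : CharP (AddMonoidAlgebra (ZMod p) A) p := by
  refine charP_of_injective_algebraMap (R := ZMod p) ?_ p
  intro a b h
  rw [AddMonoidAlgebra.coe_algebraMap] at h
  simpa using h

lemma gel_pow_p [Fact p.Prime] (Δ : Finset A) :
    gel p Δ ^ p = ∑ d ∈ Δ, AddMonoidAlgebra.single (p • d) (1 : ZMod p) := by
  have := charP_alg (A := A) (p := p)
  unfold gel
  rw [sum_pow_char]
  simp [AddMonoidAlgebra.single_pow]

lemma coeff_gel_pow_p [Fact p.Prime] [DecidableEq A] (Δ : Finset A) (k : A) :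
    (gel p Δ ^ p).coeff k = ((Δ.filter (fun d => p • d = k)).card : ZMod p) := by
  rw [gel_pow_p, AddMonoidAlgebra.coeff_sum, Finsupp.finsetSum_apply]
  simp [Finsupp.single_apply, Finset.sum_boole]

lemma coeff_gel [DecidableEq A] (Δ : Finset A) (k : A) :
    (gel p Δ).coeff k = if k ∈ Δ then 1 else 0 := by
  unfold gel
  rw [AddMonoidAlgebra.coeff_sum, Finsupp.finsetSum_apply]
  simp [Finsupp.single_apply]

lemma coeff_gel_sq [DecidableEq A] (Δ : Finset A) (k : A) :
    (gel p Δ ^ 2).coeff k = ((Δ.filter (fun a => k - a ∈ Δ)).card : ZMod p) := by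
  rw [pow_two, coeff_gel_mul]
  simp [coeff_gel, Finset.sum_boole]

end Alg

section Core

variable {G A : Type*} [Group G] [AddCommGroup A] [MulAction G A]

/-- images of sums: `g • (x + d) = g • x + h • d` with `h` fixing `0`, depending on `g, x` only. -/
lemma diff (hT : ∀ a : A, ∃ g : G, ∀ x : A, g • x = x + a) (g : G) (x : A) :
    ∃ h : G, h • (0:A) = 0 ∧ ∀ d : A, g • (x + d) = g • x + h • d := by
  obtain ⟨t, ht⟩ := hT x
  obtain ⟨u, hu⟩ := hT (g • x)
  refine ⟨u⁻¹ * g * t, ?_, fun d => ?_⟩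
  · rw [mul_smul, mul_smul, ht, zero_add, inv_smul_eq_iff, hu, zero_add]
  · have : u • ((u⁻¹ * g * t) • d) = g • (x + d) := by
      rw [mul_smul, mul_smul, smul_inv_smul, ht, add_comm]
    rw [← this, hu, add_comm]

lemma mem_of_diff (hT : ∀ a : A, ∃ g : G, ∀ x : A, g • x = x + a) (Δ : Finset A)
    (hΔ : ∀ h : G, h • (0:A) = 0 → ∀ d ∈ Δ, h • d ∈ Δ)
    (g : G) (x y : A) (h : y - x ∈ Δ) : g • y - g • x ∈ Δ := by
  obtain ⟨h', h0, hd⟩ := diff hT g x
  have := hd (y - x)
  rw [add_sub_cancel] at this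
  rw [this, add_sub_cancel_left]
  exact hΔ h' h0 _ h

lemma coeff_pow_invariant {p : ℕ} (hT : ∀ a : A, ∃ g : G, ∀ x : A, g • x = x + a) (Δ : Finset A)
    (hΔ : ∀ h : G, h • (0:A) = 0 → ∀ d ∈ Δ, h • d ∈ Δ) (j : ℕ) :
    ∀ (g : G) (x y : A),
      (gel p Δ ^ j).coeff (g • y - g • x) = (gel p Δ ^ j).coeff (y - x) := by
  induction j with
  | zero =>
    intro g x y
    classical
    rw [pow_zero, AddMonoidAlgebra.one_def, AddMonoidAlgebra.coeff_single, Finsupp.single_apply,
      Finsupp.single_apply]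
    have : (0 = g • y - g • x) ↔ (0 = y - x) := by
      constructor
      · intro h
        have h1 := sub_eq_zero.mp h.symm
        have h2 := MulAction.injective g h1
        rw [h2, sub_self]
      · intro h
        have h1 := sub_eq_zero.mp h.symm
        rw [h1, sub_self]
    simp only [this]
  | succ j ih =>
    intro g x y
    rw [pow_succ', coeff_gel_mul, coeff_gel_mul]
    obtain ⟨h, h0, hd⟩ := diff hT g x
    have hinv : h⁻¹ • (0:A) = 0 := by rw [inv_smul_eq_iff, h0]
    symm
    refine Finset.sum_bij' (fun d _ => h • d) (fun d _ => h⁻¹ • d) (fun d hd' => hΔ h h0 d hd')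
      (fun d hd' => hΔ h⁻¹ hinv d hd') (fun d _ => inv_smul_smul h d)
      (fun d _ => smul_inv_smul h d) ?_
    intro d _
    have e1 : y - x - d = y - (x + d) := by abel
    have e2 : g • y - g • x - h • d = g • y - g • (x + d) := by rw [hd]; abel
    rw [e1, e2, ih]

lemma coeff_pow_fix {p : ℕ} (hT : ∀ a : A, ∃ g : G, ∀ x : A, g • x = x + a) (Δ : Finset A)
    (hΔ : ∀ h : G, h • (0:A) = 0 → ∀ d ∈ Δ, h • d ∈ Δ) (j : ℕ) (h : G) (h0 : h • (0:A) = 0)
    (k : A) : (gel p Δ ^ j).coeff (h • k) = (gel p Δ ^ j).coeff k := by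
  have := coeff_pow_invariant (p := p) hT Δ hΔ j h 0 k
  rwa [h0, sub_zero, sub_zero] at this

/-- a subgroup whose cosets are permuted by `G` is trivial when `G` is primitive. -/
lemma block_trivial (hprim : MulAction.IsPreprimitive G A) (B : AddSubgroup A)
    (hB : ∀ g : G, ∀ x y : A, y - x ∈ B → g • y - g • x ∈ B) : B = ⊥ ∨ B = ⊤ := by
  have key : ∀ g : G, g • (B : Set A) = {y | y - g • (0:A) ∈ B} := by
    intro g
    ext y
    constructor
    · rintro ⟨b, hb, rfl⟩
      exact hB g 0 b (by simpa using hb)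
    · intro hy
      refine ⟨g⁻¹ • y, ?_, smul_inv_smul g y⟩
      have := hB g⁻¹ (g • 0) y hy
      rwa [inv_smul_smul, sub_zero] at this
  have hblock : MulAction.IsBlock G (B : Set A) := by
    rw [MulAction.isBlock_iff_smul_eq_or_disjoint]
    intro g
    by_cases h0 : g • (0:A) ∈ B
    · left
      rw [key]; ext y; simp only [Set.mem_ofPred_eq, SetLike.mem_coe]
      constructor
      · intro hy; have := B.add_mem hy h0; rwa [sub_add_cancel] at this
      · intro hy; exact B.sub_mem hy h0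
    · right
      rw [key, Set.disjoint_left]
      intro y hy hy'
      apply h0
      have := B.sub_mem hy' hy
      rwa [sub_sub_cancel] at this
  rcases hprim.isTrivialBlock_of_isBlock hblock with h | h
  · left
    rw [eq_bot_iff]; intro b hb
    have := h hb B.zero_mem
    simpa using this
  · right
    exact SetLike.coe_injective (by rw [h]; rfl)

lemma closure_trivial (hT : ∀ a : A, ∃ g : G, ∀ x : A, g • x = x + a)
    (hprim : MulAction.IsPreprimitive G A) (S : Set A)
    (hS : ∀ h : G, h • (0:A) = 0 → ∀ d ∈ S, h • d ∈ S) :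
    AddSubgroup.closure S = ⊥ ∨ AddSubgroup.closure S = ⊤ := by
  apply block_trivial hprim
  intro g x y hxy
  have key : ∀ b ∈ AddSubgroup.closure S, ∀ x : A,
      g • (x + b) - g • x ∈ AddSubgroup.closure S := by
    intro b hb
    induction hb using AddSubgroup.closure_induction with
    | mem s hs =>
      intro x
      obtain ⟨h, h0, hd⟩ := diff hT g x
      rw [hd, add_sub_cancel_left]
      exact AddSubgroup.subset_closure (hS h h0 s hs)
    | zero => intro x; simp
    | add a b _ _ iha ihb =>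
      intro x
      have := (AddSubgroup.closure S).add_mem (ihb (x + a)) (iha x)
      rwa [sub_add_sub_cancel, add_assoc] at this
    | neg a _ iha =>
      intro x
      have := (AddSubgroup.closure S).neg_mem (iha (x + -a))
      rwa [neg_sub, neg_add_cancel_right] at this
  have := key (y - x) hxy x
  rwa [add_sub_cancel] at this

/-- the translation stabiliser of `Δ` -/
def rad (Δ : Finset A) : AddSubgroup A where
  carrier := {b | ∀ x, x ∈ Δ ↔ x + b ∈ Δ}
  zero_mem' := by intro x; simp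
  add_mem' := by
    intro a b ha hb x
    rw [ha x, hb (x + a), add_assoc]
  neg_mem' := by
    intro a ha x
    rw [ha (x + -a), neg_add_cancel_right]

lemma mem_rad (Δ : Finset A) (b : A) : b ∈ rad Δ ↔ ∀ x, x ∈ Δ ↔ x + b ∈ Δ := Iff.rfl

lemma rad_trivial (hT : ∀ a : A, ∃ g : G, ∀ x : A, g • x = x + a)
    (hprim : MulAction.IsPreprimitive G A) (Δ : Finset A)
    (hΔ : ∀ h : G, h • (0:A) = 0 → ∀ d ∈ Δ, h • d ∈ Δ) : rad Δ = ⊥ ∨ rad Δ = ⊤ := by
  apply block_trivial hprim
  intro g x y hxy
  rw [mem_rad] at hxy ⊢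
  intro w
  have inv : ∀ u v : A, g • u - g • v ∈ Δ ↔ u - v ∈ Δ := by
    intro u v
    constructor
    · intro h
      have := mem_of_diff hT Δ hΔ g⁻¹ (g • v) (g • u) h
      rwa [inv_smul_smul, inv_smul_smul] at this
    · exact mem_of_diff hT Δ hΔ g v u
  set z := g⁻¹ • (g • x - w) with hz
  have hgz : g • z = g • x - w := by rw [hz, smul_inv_smul]
  have e1 : w = g • x - g • z := by rw [hgz]; abel
  have e2 : w + (g • y - g • x) = g • y - g • z := by rw [hgz]; abel
  rw [e2, e1, inv, inv, hxy (x - z)]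
  have : x - z + (y - x) = y - z := by abel
  rw [this]

end Core

section Count

variable {G A : Type*} [Group G] [AddCommGroup A] [MulAction G A] [Fintype A] [DecidableEq A]

/-- the `p`-torsion as a finset -/
def Kf (A : Type*) [AddCommGroup A] [Fintype A] [DecidableEq A] (p : ℕ) : Finset A :=
  univ.filter (fun x : A => p • x = 0)

lemma mem_Kf {p : ℕ} {x : A} : x ∈ Kf A p ↔ p • x = 0 := by simp [Kf]

/-- a set stable under translation by the `p`-torsion has size divisible by `p` -/
lemma dvd_card_of_stable {p : ℕ} (hK : (Kf A p).card = p) (X : Finset A)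
    (hX : ∀ a ∈ X, ∀ κ : A, p • κ = 0 → a + κ ∈ X) : p ∣ X.card := by
  rw [Finset.card_eq_sum_card_image (fun a => p • a) X]
  apply Finset.dvd_sum
  intro c hc
  obtain ⟨a₀, ha₀, rfl⟩ := Finset.mem_image.mp hc
  have : X.filter (fun a => p • a = p • a₀) = (Kf A p).image (fun κ => a₀ + κ) := by
    ext a
    simp only [Finset.mem_filter, Finset.mem_image, mem_Kf]
    constructor
    · rintro ⟨_, h⟩
      refine ⟨a - a₀, ?_, by abel⟩
      rw [smul_sub, h, sub_self]
    · rintro ⟨κ, hκ, rfl⟩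
      exact ⟨hX a₀ ha₀ κ hκ, by rw [smul_add, hκ, add_zero]⟩
  rw [this, Finset.card_image_of_injective _ (add_right_injective a₀), hK]

lemma exists_torsion_ne_zero {p : ℕ} (hp : p.Prime) (hK : (Kf A p).card = p) :
    ∃ κ : A, κ ≠ 0 ∧ p • κ = 0 := by
  have h1 : 1 < (Kf A p).card := by rw [hK]; exact hp.one_lt
  obtain ⟨a, ha, b, hb, hab⟩ := Finset.one_lt_card.mp h1
  by_cases h : a = 0
  · exact ⟨b, fun hb0 => hab (by rw [h, hb0]), mem_Kf.mp hb⟩
  · exact ⟨a, h, mem_Kf.mp ha⟩

variable {p : ℕ} [Fact p.Prime]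

/-- Step A: the fibres of `d ↦ p • d` on `Δ` over nonzero points have size `≡ 0 mod p`. -/
lemma fibre_card_zero (hT : ∀ a : A, ∃ g : G, ∀ x : A, g • x = x + a)
    (hprim : MulAction.IsPreprimitive G A) (hK : (Kf A p).card = p) (Δ : Finset A)
    (hΔ : ∀ h : G, h • (0:A) = 0 → ∀ d ∈ Δ, h • d ∈ Δ) (k : A) (hk : k ≠ 0) :
    ((Δ.filter (fun d => p • d = k)).card : ZMod p) = 0 := by
  have hp : p.Prime := Fact.out
  by_contra hne
  set S : Set A := {k | ((Δ.filter (fun d => p • d = k)).card : ZMod p) ≠ 0} with hS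
  have hSinv : ∀ h : G, h • (0:A) = 0 → ∀ d ∈ S, h • d ∈ S := by
    intro h h0 d hd
    rw [hS, Set.mem_ofPred_eq] at hd ⊢
    rw [← coeff_gel_pow_p, coeff_pow_fix hT Δ hΔ p h h0 d, coeff_gel_pow_p]
    exact hd
  have hle : AddSubgroup.closure S ≤ (nsmulAddMonoidHom p : A →+ A).range := by
    rw [AddSubgroup.closure_le]
    intro k' hk'
    rw [hS, Set.mem_ofPred_eq] at hk'
    have : (Δ.filter (fun d => p • d = k')).Nonempty := by
      rw [Finset.nonempty_iff_ne_empty]
      intro h
      rw [h] at hk'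
      simp at hk'
    obtain ⟨d, hd⟩ := this
    exact ⟨d, (Finset.mem_filter.mp hd).2⟩
  have hrange : (nsmulAddMonoidHom p : A →+ A).range ≠ ⊤ := by
    intro h
    have hsurj : Function.Surjective (nsmulAddMonoidHom p : A →+ A) :=
      AddMonoidHom.range_eq_top.mp h
    have hinj := Finite.injective_iff_surjective.mpr hsurj
    obtain ⟨κ, hκ0, hκ⟩ := exists_torsion_ne_zero hp hK
    apply hκ0
    apply hinj
    simp [hκ]
  rcases closure_trivial hT hprim S hSinv with h | h
  · have : k ∈ AddSubgroup.closure S := AddSubgroup.subset_closure hne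
    rw [h, AddSubgroup.mem_bot] at this
    exact hk this
  · rw [h] at hle
    exact hrange (top_le_iff.mp hle)

/-- Step A': outside the torsion, `Δ` is a union of torsion cosets. -/
lemma add_torsion_mem (hT : ∀ a : A, ∃ g : G, ∀ x : A, g • x = x + a)
    (hprim : MulAction.IsPreprimitive G A) (hK : (Kf A p).card = p) (Δ : Finset A)
    (hΔ : ∀ h : G, h • (0:A) = 0 → ∀ d ∈ Δ, h • d ∈ Δ) (d : A) (hd : d ∈ Δ) (hpd : p • d ≠ 0)
    (κ : A) (hκ : p • κ = 0) : d + κ ∈ Δ := by
  have hp : p.Prime := Fact.out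
  set F := Δ.filter (fun d' => p • d' = p • d) with hF
  set C := (Kf A p).image (fun κ => d + κ) with hC
  have hFC : F ⊆ C := by
    intro d' hd'
    rw [hF, Finset.mem_filter] at hd'
    rw [hC, Finset.mem_image]
    refine ⟨d' - d, mem_Kf.mpr ?_, by abel⟩
    rw [smul_sub, hd'.2, sub_self]
  have hCcard : C.card = p := by
    rw [hC, Finset.card_image_of_injective _ (add_right_injective d), hK]
  have h0 := fibre_card_zero hT hprim hK Δ hΔ (p • d) hpd
  have hdvd : p ∣ F.card := (ZMod.natCast_eq_zero_iff _ _).mp h0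
  have hpos : 0 < F.card := Finset.card_pos.mpr ⟨d, by rw [hF, Finset.mem_filter]; exact ⟨hd, rfl⟩⟩
  have hle : C.card ≤ F.card := by rw [hCcard]; exact Nat.le_of_dvd hpos hdvd
  have hEq : F = C := Finset.eq_of_subset_of_card_le hFC hle
  have : d + κ ∈ C := by
    rw [hC, Finset.mem_image]; exact ⟨κ, mem_Kf.mpr hκ, rfl⟩
  rw [← hEq, hF, Finset.mem_filter] at this
  exact this.1

/-- Step B: a nontrivial invariant set meets the torsion. -/
lemma exists_mem_torsion (hT : ∀ a : A, ∃ g : G, ∀ x : A, g • x = x + a)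
    (hprim : MulAction.IsPreprimitive G A) (hK : (Kf A p).card = p) (Δ : Finset A)
    (hΔ : ∀ h : G, h • (0:A) = 0 → ∀ d ∈ Δ, h • d ∈ Δ) (hne : Δ.Nonempty) (h0 : (0:A) ∉ Δ) :
    ∃ k ∈ Δ, p • k = 0 := by
  have hp : p.Prime := Fact.out
  by_contra hcon
  push Not at hcon
  obtain ⟨κ, hκ0, hκ⟩ := exists_torsion_ne_zero hp hK
  have hκrad : κ ∈ rad Δ := by
    rw [mem_rad]
    intro x
    constructor
    · intro hx
      exact add_torsion_mem hT hprim hK Δ hΔ x hx (hcon x hx) κ hκ
    · intro hx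
      have := add_torsion_mem hT hprim hK Δ hΔ (x + κ) hx (hcon _ hx) (-κ)
        (by rw [smul_neg, hκ, neg_zero])
      rwa [add_neg_cancel_right] at this
  rcases rad_trivial hT hprim Δ hΔ with h | h
  · rw [h, AddSubgroup.mem_bot] at hκrad
    exact hκ0 hκrad
  · obtain ⟨d₀, hd₀⟩ := hne
    have : -d₀ ∈ rad Δ := by rw [h]; exact AddSubgroup.mem_top _
    rw [mem_rad] at this
    have := (this d₀).mp hd₀
    rw [add_neg_cancel] at this
    exact h0 this

/-- Step B': a nontrivial invariant set is not contained in the torsion. -/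
lemma exists_notMem_torsion (hT : ∀ a : A, ∃ g : G, ∀ x : A, g • x = x + a)
    (hprim : MulAction.IsPreprimitive G A) (hnt : ∃ x : A, p • x ≠ 0) (Δ : Finset A)
    (hΔ : ∀ h : G, h • (0:A) = 0 → ∀ d ∈ Δ, h • d ∈ Δ) (hne : Δ.Nonempty) (h0 : (0:A) ∉ Δ) :
    ∃ k ∈ Δ, p • k ≠ 0 := by
  by_contra hcon
  push Not at hcon
  have hle : AddSubgroup.closure (Δ : Set A) ≤ (nsmulAddMonoidHom p : A →+ A).ker := by
    rw [AddSubgroup.closure_le]
    intro d hd
    rw [SetLike.mem_coe, AddMonoidHom.mem_ker]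
    simpa using hcon d (by simpa using hd)
  have hker : (nsmulAddMonoidHom p : A →+ A).ker ≠ ⊤ := by
    intro h
    obtain ⟨x, hx⟩ := hnt
    have : x ∈ (nsmulAddMonoidHom p : A →+ A).ker := by rw [h]; exact AddSubgroup.mem_top _
    rw [AddMonoidHom.mem_ker] at this
    exact hx (by simpa using this)
  rcases closure_trivial hT hprim (Δ : Set A) (fun h h0' d hd => by
      simpa using hΔ h h0' d (by simpa using hd)) with h | h
  · obtain ⟨d₀, hd₀⟩ := hne
    have : d₀ ∈ AddSubgroup.closure (Δ : Set A) := AddSubgroup.subset_closure (by simpa using hd₀)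
    rw [h, AddSubgroup.mem_bot] at this
    rw [this] at hd₀
    exact h0 hd₀
  · rw [h] at hle
    exact hker (top_le_iff.mp hle)

/-- Step C: a nontrivial orbit of the stabiliser of `0` contains at least half of the torsion. -/
lemma two_mul_card_ge (hT : ∀ a : A, ∃ g : G, ∀ x : A, g • x = x + a)
    (hprim : MulAction.IsPreprimitive G A) (hK : (Kf A p).card = p) (hnt : ∃ x : A, p • x ≠ 0)
    (Δ : Finset A) (hΔ : ∀ h : G, h • (0:A) = 0 → ∀ d ∈ Δ, h • d ∈ Δ)
    (htr : ∀ k ∈ Δ, ∀ k' ∈ Δ, ∃ h : G, h • (0:A) = 0 ∧ h • k = k')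
    (hne : Δ.Nonempty) (h0 : (0:A) ∉ Δ) :
    p ≤ 2 * (Δ.filter (fun d => p • d = 0)).card := by
  have hp : p.Prime := Fact.out
  obtain ⟨k, hkΔ, hk⟩ := exists_mem_torsion hT hprim hK Δ hΔ hne h0
  obtain ⟨k', hk'Δ, hk'⟩ := exists_notMem_torsion hT hprim hnt Δ hΔ hne h0
  obtain ⟨h, hh0, hhk⟩ := htr k hkΔ k' hk'Δ
  have hadd := add_torsion_mem hT hprim hK Δ hΔ
  have hN : (((Δ.filter (fun a => k - a ∈ Δ)).card : ℕ) : ZMod p)
      = ((Δ.filter (fun a => k' - a ∈ Δ)).card : ZMod p) := by
    rw [← coeff_gel_sq, ← coeff_gel_sq, ← hhk, coeff_pow_fix hT Δ hΔ 2 h hh0 k]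
  have hspos : 0 < (Δ.filter (fun d => p • d = 0)).card :=
    Finset.card_pos.mpr ⟨k, Finset.mem_filter.mpr ⟨hkΔ, hk⟩⟩
  -- decomposition for k
  have hXcard := (Finset.card_filter_add_card_filter_not (s := Δ.filter (fun a => k - a ∈ Δ))
    (fun a => p • a = 0)).symm
  have hX₁le : ((Δ.filter (fun a => k - a ∈ Δ)).filter (fun a => p • a = 0)).card
      ≤ (Δ.filter (fun d => p • d = 0)).card := by
    apply Finset.card_le_card
    intro a ha
    rw [Finset.mem_filter, Finset.mem_filter] at ha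
    exact Finset.mem_filter.mpr ⟨ha.1.1, ha.2⟩
  have hX₂dvd : p ∣ ((Δ.filter (fun a => k - a ∈ Δ)).filter (fun a => ¬ p • a = 0)).card := by
    apply dvd_card_of_stable hK
    intro a ha κ hκ
    rw [Finset.mem_filter, Finset.mem_filter] at ha ⊢
    obtain ⟨⟨haΔ, hka⟩, hpa⟩ := ha
    refine ⟨⟨hadd a haΔ hpa κ hκ, ?_⟩, ?_⟩
    · have hpka : p • (k - a) ≠ 0 := by
        rw [smul_sub, hk, zero_sub, neg_ne_zero]; exact hpa
      have := hadd (k - a) hka hpka (-κ) (by rw [smul_neg, hκ, neg_zero])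
      have e : k - (a + κ) = k - a + -κ := by abel
      rw [e]; exact this
    · rw [smul_add, hκ, add_zero]; exact hpa
  -- decomposition for k'
  have hYcard := (Finset.card_filter_add_card_filter_not (s := Δ.filter (fun a => k' - a ∈ Δ))
    (fun a => p • a = 0)).symm
  have hY₂card := (Finset.card_filter_add_card_filter_not
    (s := (Δ.filter (fun a => k' - a ∈ Δ)).filter (fun a => ¬ p • a = 0))
    (fun a => p • (k' - a) = 0)).symm
  have hY₁ : (Δ.filter (fun a => k' - a ∈ Δ)).filter (fun a => p • a = 0)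
      = Δ.filter (fun d => p • d = 0) := by
    ext a
    rw [Finset.mem_filter, Finset.mem_filter, Finset.mem_filter]
    constructor
    · rintro ⟨⟨ha, _⟩, hpa⟩; exact ⟨ha, hpa⟩
    · rintro ⟨ha, hpa⟩
      refine ⟨⟨ha, ?_⟩, hpa⟩
      have := hadd k' hk'Δ hk' (-a) (by rw [smul_neg, hpa, neg_zero])
      rwa [← sub_eq_add_neg] at this
  have hY₃ : ((Δ.filter (fun a => k' - a ∈ Δ)).filter (fun a => ¬ p • a = 0)).filter
      (fun a => p • (k' - a) = 0) = (Δ.filter (fun d => p • d = 0)).image (fun b => k' - b) := by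
    ext a
    rw [Finset.mem_filter, Finset.mem_filter, Finset.mem_filter, Finset.mem_image]
    constructor
    · rintro ⟨⟨⟨ha, hka⟩, hpa⟩, hpka⟩
      exact ⟨k' - a, Finset.mem_filter.mpr ⟨hka, hpka⟩, by abel⟩
    · rintro ⟨b, hb, rfl⟩
      rw [Finset.mem_filter] at hb
      obtain ⟨hbΔ, hpb⟩ := hb
      have h1 : k' - b ∈ Δ := by
        have := hadd k' hk'Δ hk' (-b) (by rw [smul_neg, hpb, neg_zero])
        rwa [← sub_eq_add_neg] at this
      have h2 : k' - (k' - b) = b := by abel
      refine ⟨⟨⟨h1, by rw [h2]; exact hbΔ⟩, ?_⟩, by rw [h2]; exact hpb⟩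
      rw [smul_sub, hpb, sub_zero]; exact hk'
  have hY₃card : (((Δ.filter (fun a => k' - a ∈ Δ)).filter (fun a => ¬ p • a = 0)).filter
      (fun a => p • (k' - a) = 0)).card = (Δ.filter (fun d => p • d = 0)).card := by
    rw [hY₃, Finset.card_image_of_injective _ sub_right_injective]
  have hY₄dvd : p ∣ (((Δ.filter (fun a => k' - a ∈ Δ)).filter (fun a => ¬ p • a = 0)).filter
      (fun a => ¬ p • (k' - a) = 0)).card := by
    apply dvd_card_of_stable hK
    intro a ha κ hκ
    rw [Finset.mem_filter, Finset.mem_filter, Finset.mem_filter] at ha ⊢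
    obtain ⟨⟨⟨haΔ, hka⟩, hpa⟩, hpka⟩ := ha
    have e : k' - (a + κ) = k' - a + -κ := by abel
    refine ⟨⟨⟨hadd a haΔ hpa κ hκ, ?_⟩, ?_⟩, ?_⟩
    · rw [e]; exact hadd (k' - a) hka hpka (-κ) (by rw [smul_neg, hκ, neg_zero])
    · rw [smul_add, hκ, add_zero]; exact hpa
    · rw [e, smul_add, smul_neg, hκ, neg_zero, add_zero]; exact hpka
  -- combine
  have h1 : ((((Δ.filter (fun a => k - a ∈ Δ)).filter (fun a => ¬ p • a = 0)).card : ℕ) : ZMod p)
      = 0 := (ZMod.natCast_eq_zero_iff _ _).mpr hX₂dvd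
  have h2 : (((((Δ.filter (fun a => k' - a ∈ Δ)).filter (fun a => ¬ p • a = 0)).filter
      (fun a => ¬ p • (k' - a) = 0)).card : ℕ) : ZMod p) = 0 :=
    (ZMod.natCast_eq_zero_iff _ _).mpr hY₄dvd
  rw [hXcard, hYcard, hY₂card, hY₁, hY₃card] at hN
  push_cast at hN
  rw [h1, h2, add_zero, add_zero] at hN
  have hN' : ((((Δ.filter (fun a => k - a ∈ Δ)).filter (fun a => p • a = 0)).card : ℕ) : ZMod p)
      = ((2 * (Δ.filter (fun d => p • d = 0)).card : ℕ) : ZMod p) := by
    push_cast; rw [hN]; ring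
  rw [ZMod.natCast_eq_natCast_iff] at hN'
  have hle : ((Δ.filter (fun a => k - a ∈ Δ)).filter (fun a => p • a = 0)).card
      ≤ 2 * (Δ.filter (fun d => p • d = 0)).card := by omega
  have hdvd := (Nat.modEq_iff_dvd' hle).mp hN'
  have := Nat.le_of_dvd (by omega) hdvd
  omega

omit [Fintype A] [DecidableEq A] [Fact p.Prime] in
/-- **Burnside–Schur (core)**: the stabiliser of `0` is transitive on the nonzero elements. -/
theorem stabilizer_transitive [Finite A] (hT : ∀ a : A, ∃ g : G, ∀ x : A, g • x = x + a)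
    (hp : p.Prime) (hK : Nat.card {x : A // p • x = 0} = p) (hnt : ∃ x : A, p • x ≠ 0)
    (hprim : MulAction.IsPreprimitive G A) (x y : A) (hx : x ≠ 0) (hy : y ≠ 0) :
    ∃ g : G, g • (0:A) = 0 ∧ g • x = y := by
  classical
  have := Fintype.ofFinite A
  have : Fact p.Prime := ⟨hp⟩
  have hK' : (Kf A p).card = p := by
    have h1 : (Kf A p).card = Nat.card {x : A // p • x = 0} := by
      rw [Nat.card_eq_fintype_card, Fintype.card_subtype]; rfl
    rw [h1, hK]
  by_contra hcon
  push Not at hcon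
  -- orbits
  have orb : ∀ z : A, z ≠ 0 →
      p ≤ 2 * ((univ.filter (fun d : A => ∃ h : G, h • (0:A) = 0 ∧ h • z = d)).filter
        (fun d => p • d = 0)).card := by
    intro z hz
    apply two_mul_card_ge hT hprim hK' hnt
    · intro h h0 d hd
      rw [Finset.mem_filter] at hd ⊢
      obtain ⟨h', h'0, rfl⟩ := hd.2
      exact ⟨Finset.mem_univ _, h * h', by rw [mul_smul, h'0, h0], mul_smul _ _ _⟩
    · intro k hk k' hk'
      rw [Finset.mem_filter] at hk hk'
      obtain ⟨h1, h10, rfl⟩ := hk.2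
      obtain ⟨h2, h20, rfl⟩ := hk'.2
      refine ⟨h2 * h1⁻¹, ?_, ?_⟩
      · rw [mul_smul, inv_smul_eq_iff.mpr h10.symm, h20]
      · rw [mul_smul, inv_smul_smul]
    · exact ⟨z, Finset.mem_filter.mpr ⟨Finset.mem_univ _, 1, one_smul _ _, one_smul _ _⟩⟩
    · intro hmem
      rw [Finset.mem_filter] at hmem
      obtain ⟨h', h'0, h'z⟩ := hmem.2
      apply hz
      rw [← h'0] at h'z
      exact MulAction.injective h' h'z
  have h1 := orb x hx
  have h2 := orb y hy
  set S₁ := (univ.filter (fun d : A => ∃ h : G, h • (0:A) = 0 ∧ h • x = d)).filter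
        (fun d => p • d = 0) with hS₁
  set S₂ := (univ.filter (fun d : A => ∃ h : G, h • (0:A) = 0 ∧ h • y = d)).filter
        (fun d => p • d = 0) with hS₂
  have hdisj : Disjoint S₁ S₂ := by
    rw [Finset.disjoint_left]
    intro d hd1 hd2
    rw [hS₁, Finset.mem_filter, Finset.mem_filter] at hd1
    rw [hS₂, Finset.mem_filter, Finset.mem_filter] at hd2
    obtain ⟨a, ha0, had⟩ := hd1.1.2
    obtain ⟨b, hb0, hbd⟩ := hd2.1.2
    apply hcon (b⁻¹ * a)
    · rw [mul_smul, ha0, inv_smul_eq_iff, hb0]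
    · rw [mul_smul, had, ← hbd, inv_smul_smul]
  have hsub : S₁ ∪ S₂ ⊆ (Kf A p).erase 0 := by
    intro d hd
    rw [Finset.mem_erase, mem_Kf]
    rcases Finset.mem_union.mp hd with hd | hd
    · rw [hS₁, Finset.mem_filter, Finset.mem_filter] at hd
      obtain ⟨a, ha0, had⟩ := hd.1.2
      refine ⟨?_, hd.2⟩
      rintro rfl
      apply hx
      rw [← ha0] at had
      exact MulAction.injective a had
    · rw [hS₂, Finset.mem_filter, Finset.mem_filter] at hd
      obtain ⟨a, ha0, had⟩ := hd.1.2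
      refine ⟨?_, hd.2⟩
      rintro rfl
      apply hy
      rw [← ha0] at had
      exact MulAction.injective a had
  have hcard := Finset.card_le_card hsub
  rw [Finset.card_union_of_disjoint hdisj, Finset.card_erase_of_mem (mem_Kf.mpr (smul_zero p)),
    hK'] at hcard
  have := hp.two_le
  omega

end Count

section Apply

/-- transport of an action along an equivalence -/
@[reducible] def transport {G Ω A : Type*} [Group G] [MulAction G Ω] (e : A ≃ Ω) :
    MulAction G A where
  smul g x := e.symm (g • e x)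
  one_smul x := by change e.symm ((1:G) • e x) = x; simp
  mul_smul g h x := by
    change e.symm ((g * h) • e x) = e.symm (g • e (e.symm (h • e x))); simp [mul_smul]

/-- **Burnside–Schur (core, 2-transitive form)**. -/
theorem two_transitive_of_core {G A : Type*} [Group G] [AddCommGroup A] [MulAction G A] [Finite A]
    {p : ℕ} (hT : ∀ a : A, ∃ g : G, ∀ x : A, g • x = x + a)
    (hp : p.Prime) (hK : Nat.card {x : A // p • x = 0} = p) (hnt : ∃ x : A, p • x ≠ 0)
    (hprim : MulAction.IsPreprimitive G A) :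
    ∀ a b c d : A, a ≠ b → c ≠ d → ∃ g : G, g • a = c ∧ g • b = d := by
  intro a b c d hab hcd
  obtain ⟨u, hu⟩ := hT (-a)
  obtain ⟨v, hv⟩ := hT (-c)
  obtain ⟨h, h0, h1⟩ := stabilizer_transitive hT hp hK hnt hprim (b - a) (d - c)
    (sub_ne_zero.mpr hab.symm) (sub_ne_zero.mpr hcd.symm)
  refine ⟨v⁻¹ * h * u, ?_, ?_⟩
  · rw [mul_smul, mul_smul, hu, add_neg_cancel, h0, inv_smul_eq_iff, hv, add_neg_cancel]
  · rw [mul_smul, mul_smul, hu, ← sub_eq_add_neg, h1, inv_smul_eq_iff, hv, sub_eq_add_neg]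

lemma card_torsion_zmod (m p : ℕ) [NeZero m] (hp : p.Prime) (hpm : p ∣ m) :
    Nat.card {x : ZMod m // p • x = 0} = p := by
  classical
  rw [Nat.card_eq_fintype_card, Fintype.card_subtype]
  apply le_antisymm
  · exact IsAddCyclic.card_nsmul_eq_zero_le hp.pos
  · obtain ⟨q, hq⟩ := hpm
    have hmpos : 0 < m := Nat.pos_of_ne_zero (NeZero.ne m)
    have hqpos : 0 < q := by
      rcases Nat.eq_zero_or_pos q with h | h
      · rw [h, mul_zero] at hq; omega
      · exact h
    have hsub : (Finset.range p).image (fun i : ℕ => ((q * i : ℕ) : ZMod m))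
        ⊆ univ.filter (fun x : ZMod m => p • x = 0) := by
      intro x hx
      obtain ⟨i, hi, rfl⟩ := Finset.mem_image.mp hx
      rw [Finset.mem_filter]
      refine ⟨Finset.mem_univ _, ?_⟩
      rw [nsmul_eq_mul, ← Nat.cast_mul, ZMod.natCast_eq_zero_iff]
      exact ⟨i, by rw [hq]; ring⟩
    have hinj : Set.InjOn (fun i : ℕ => ((q * i : ℕ) : ZMod m)) (Finset.range p : Set ℕ) := by
      intro i hi j hj hij
      simp only [Finset.coe_range, Set.mem_Iio] at hi hj
      have h := (ZMod.natCast_eq_natCast_iff' _ _ _).mp hij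
      have h1 : q * i < m := by
        rw [hq, mul_comm p q]; exact Nat.mul_lt_mul_of_pos_left hi hqpos
      have h2 : q * j < m := by
        rw [hq, mul_comm p q]; exact Nat.mul_lt_mul_of_pos_left hj hqpos
      rw [Nat.mod_eq_of_lt h1, Nat.mod_eq_of_lt h2] at h
      exact Nat.eq_of_mul_eq_mul_left hqpos h
    calc p = (Finset.range p).card := (Finset.card_range p).symm
      _ = ((Finset.range p).image (fun i : ℕ => ((q * i : ℕ) : ZMod m))).card :=
          (Finset.card_image_of_injOn hinj).symm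
      _ ≤ _ := Finset.card_le_card hsub

/-- **Schur's theorem** (cyclic `B`-groups): a primitive group containing an element whose powers
act transitively is 2-transitive, provided the degree is composite. -/
theorem schur_cyclic {G Ω : Type*} [Group G] [MulAction G Ω] [Finite Ω]
    (hprim : MulAction.IsPreprimitive G Ω) (c : G) (hc : ∀ x y : Ω, ∃ k : ℕ, c ^ k • x = y)
    (hn : ¬ (Nat.card Ω).Prime) (hn2 : 2 ≤ Nat.card Ω) :
    MulAction.IsMultiplyPretransitive G Ω 2 := by
  classical
  have hne : Nonempty Ω := by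
    rw [← Finite.card_pos_iff]
    omega
  obtain ⟨ω₀⟩ := hne
  set m := Function.minimalPeriod (c • · : Ω → Ω) ω₀ with hm
  have hmpos : 0 < m := by
    obtain ⟨k, hk⟩ := hc (c • ω₀) ω₀
    have h1 : c ^ (k + 1) • ω₀ = ω₀ := by rw [pow_succ, mul_smul]; exact hk
    have hdvd := MulAction.pow_smul_eq_iff_minimalPeriod_dvd.mp h1
    exact Nat.pos_of_dvd_of_pos hdvd (Nat.succ_pos k)
  have : NeZero m := ⟨hmpos.ne'⟩
  have hmod : ∀ k : ℕ, c ^ (k % m) • ω₀ = c ^ k • ω₀ :=
    fun k => MulAction.pow_smul_mod_minimalPeriod c ω₀ k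
  let f : ZMod m → Ω := fun x => c ^ x.val • ω₀
  have hfinj : Function.Injective f := by
    have key : ∀ x y : ZMod m, x.val ≤ y.val → f x = f y → x.val = y.val := by
      intro x y hle hxy
      have h1 : c ^ y.val = c ^ x.val * c ^ (y.val - x.val) := by
        rw [← pow_add]; congr 1; omega
      have h2 : c ^ (y.val - x.val) • ω₀ = ω₀ := by
        simp only [f] at hxy
        rw [h1, mul_smul] at hxy
        exact (MulAction.injective (c ^ x.val) hxy).symm
      have hdvd := MulAction.pow_smul_eq_iff_minimalPeriod_dvd.mp h2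
      have hlt : y.val - x.val < m := lt_of_le_of_lt (Nat.sub_le _ _) (ZMod.val_lt y)
      have := Nat.eq_zero_of_dvd_of_lt hdvd hlt
      omega
    intro x y hxy
    apply ZMod.val_injective m
    rcases le_total x.val y.val with hle | hle
    · exact key x y hle hxy
    · exact (key y x hle hxy.symm).symm
  have hfsurj : Function.Surjective f := by
    intro y
    obtain ⟨k, hk⟩ := hc ω₀ y
    refine ⟨(k : ZMod m), ?_⟩
    simp only [f]
    rw [ZMod.val_natCast, hmod, hk]
  let e : ZMod m ≃ Ω := Equiv.ofBijective f ⟨hfinj, hfsurj⟩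
  have hcard : Nat.card Ω = m := by
    rw [← Nat.card_congr e, Nat.card_eq_fintype_card, ZMod.card]
  have he : ∀ (a x : ZMod m), c ^ a.val • e x = e (x + a) := by
    intro a x
    change c ^ a.val • (c ^ x.val • ω₀) = c ^ (x + a).val • ω₀
    rw [← mul_smul, ← pow_add, ZMod.val_add, hmod, add_comm]
  letI : MulAction G (ZMod m) := transport e
  have hsmul : ∀ (g : G) (x : ZMod m), g • x = e.symm (g • e x) := fun _ _ => rfl
  have hT : ∀ a : ZMod m, ∃ g : G, ∀ x : ZMod m, g • x = x + a := by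
    intro a
    refine ⟨c ^ a.val, fun x => ?_⟩
    rw [hsmul, he, Equiv.symm_apply_apply]
  have hprim' : MulAction.IsPreprimitive G (ZMod m) := by
    let F : ZMod m →ₑ[(id : G → G)] Ω :=
      ⟨e, fun g x => by rw [hsmul, Equiv.apply_symm_apply]; rfl⟩
    exact (MulAction.isPreprimitive_congr (f := F) Function.surjective_id e.bijective).mpr hprim
  have hm2 : 2 ≤ m := by omega
  have hp : (m.minFac).Prime := Nat.minFac_prime (by omega)
  have hpm : m.minFac ∣ m := Nat.minFac_dvd m
  have hpne : m.minFac ≠ m := by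
    intro h; apply hn; rw [hcard, ← h]; exact hp
  have hK := card_torsion_zmod m m.minFac hp hpm
  have hnt : ∃ x : ZMod m, m.minFac • x ≠ 0 := by
    refine ⟨1, ?_⟩
    rw [nsmul_eq_mul, mul_one]
    intro h
    have := (ZMod.natCast_eq_zero_iff m.minFac m).mp h
    exact hpne (Nat.dvd_antisymm hpm this)
  have key := two_transitive_of_core hT hp hK hnt hprim'
  rw [MulAction.is_two_pretransitive_iff]
  intro a b c' d hab hcd
  obtain ⟨g, hg1, hg2⟩ := key (e.symm a) (e.symm b) (e.symm c') (e.symm d)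
    (by simpa using hab) (by simpa using hcd)
  refine ⟨g, ?_, ?_⟩
  · rw [hsmul, Equiv.apply_symm_apply] at hg1; exact e.symm.injective hg1
  · rw [hsmul, Equiv.apply_symm_apply] at hg2; exact e.symm.injective hg2

/-- an element with a point of full minimal period acts transitively through its powers -/
theorem trans_of_minimalPeriod {G Ω : Type*} [Group G] [MulAction G Ω] [Finite Ω] (c : G) (ω : Ω)
    (h : Function.minimalPeriod (c • · : Ω → Ω) ω = Nat.card Ω) :
    ∀ x y : Ω, ∃ k : ℕ, c ^ k • x = y := by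
  have hmpos : 0 < Nat.card Ω := Nat.card_pos_iff.mpr ⟨⟨ω⟩, inferInstance⟩
  have hcm : c ^ (Nat.card Ω) • ω = ω :=
    MulAction.pow_smul_eq_iff_minimalPeriod_dvd.mpr (by rw [h])
  let f : Fin (Nat.card Ω) → Ω := fun i => c ^ (i : ℕ) • ω
  have hfinj : Function.Injective f := by
    have key : ∀ x y : Fin (Nat.card Ω), (x : ℕ) ≤ y → f x = f y → (x : ℕ) = y := by
      intro x y hle hxy
      have h1 : c ^ (y : ℕ) = c ^ (x : ℕ) * c ^ ((y : ℕ) - x) := by
        rw [← pow_add]; congr 1; omega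
      have h2 : c ^ ((y : ℕ) - x) • ω = ω := by
        simp only [f] at hxy
        rw [h1, mul_smul] at hxy
        exact (MulAction.injective (c ^ (x : ℕ)) hxy).symm
      have hdvd := MulAction.pow_smul_eq_iff_minimalPeriod_dvd.mp h2
      rw [h] at hdvd
      have hlt : (y : ℕ) - x < Nat.card Ω := lt_of_le_of_lt (Nat.sub_le _ _) y.2
      have := Nat.eq_zero_of_dvd_of_lt hdvd hlt
      omega
    intro x y hxy
    apply Fin.ext
    rcases le_total (x : ℕ) y with hle | hle
    · exact key x y hle hxy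
    · exact (key y x hle hxy.symm).symm
  have hfbij : Function.Bijective f :=
    (Nat.bijective_iff_injective_and_card f).mpr ⟨hfinj, by simp⟩
  intro x y
  obtain ⟨i, rfl⟩ := hfbij.2 x
  obtain ⟨j, rfl⟩ := hfbij.2 y
  refine ⟨(j : ℕ) + (Nat.card Ω - i), ?_⟩
  simp only [f]
  rw [← mul_smul, ← pow_add]
  have e : (j : ℕ) + (Nat.card Ω - i) + i = j + Nat.card Ω := by
    have := i.2; omega
  rw [e, pow_add, mul_smul, hcm]

/-- if `G` is imprimitive and contains an element `g` of `p`-power order whose powers act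
transitively, the normal closure of `g ^ (p ^ (m - 1))` is intransitive. -/
theorem not_transitive_normalClosure {G Ω : Type*} [Group G] [MulAction G Ω]
    (g : G) (p m : ℕ) (hp : p.Prime) (hm : 1 ≤ m) (hg : g ^ (p ^ m) = 1)
    (hc : ∀ x y : Ω, ∃ k : ℕ, g ^ k • x = y)
    (B : Set Ω) (hB : MulAction.IsBlock G B) (hBt : ¬ MulAction.IsTrivialBlock B) :
    ¬ MulAction.IsPretransitive (Subgroup.normalClosure ({g ^ (p ^ (m - 1))} : Set G)) Ω := by
  have h1 : ¬ B.Subsingleton := fun h => hBt (Or.inl h)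
  have h2 : B ≠ Set.univ := fun h => hBt (Or.inr h)
  rw [Set.not_subsingleton_iff] at h1
  obtain ⟨x, hx, y, hy, hxy⟩ := h1
  obtain ⟨w, hw⟩ := (Set.ne_univ_iff_exists_notMem B).mp h2
  have hz : ∀ h : G, (g ^ (p ^ (m - 1))) • (h • B) = h • B := by
    intro h
    have hB' : MulAction.IsBlock G (h • B) := hB.translate h
    obtain ⟨k, hk⟩ := hc (h • x) (h • y)
    have hk' : g ^ (k % p ^ m) • (h • x) = h • y := by
      rw [← hk]; congr 1
      conv_rhs => rw [← Nat.mod_add_div k (p ^ m)]
      rw [pow_add, pow_mul, hg, one_pow, mul_one]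
    have hk'lt : k % p ^ m < p ^ m := Nat.mod_lt _ (pow_pos hp.pos m)
    have hk'0 : k % p ^ m ≠ 0 := by
      intro h0
      rw [h0, pow_zero, one_smul] at hk'
      exact hxy (MulAction.injective h hk')
    have hfix : g ^ (k % p ^ m) • (h • B) = h • B := by
      rcases (MulAction.isBlock_iff_smul_eq_or_disjoint.mp hB') (g ^ (k % p ^ m)) with h3 | h3
      · exact h3
      · exfalso
        rw [Set.disjoint_left] at h3
        apply h3 (a := h • y)
        · rw [← hk']; exact Set.smul_mem_smul_set (Set.smul_mem_smul_set hx)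
        · exact Set.smul_mem_smul_set hy
    have hkS : g ^ (k % p ^ m) ∈ MulAction.stabilizer G (h • B) := hfix
    have hgcd : g ^ (Nat.gcd (k % p ^ m) (p ^ m)) ∈ MulAction.stabilizer G (h • B) := by
      have hbez := Nat.gcd_eq_gcd_ab (k % p ^ m) (p ^ m)
      have e : g ^ (Nat.gcd (k % p ^ m) (p ^ m))
          = (g ^ (k % p ^ m)) ^ (Nat.gcdA (k % p ^ m) (p ^ m))
            * (g ^ (p ^ m)) ^ (Nat.gcdB (k % p ^ m) (p ^ m)) := by
        rw [← zpow_natCast g (Nat.gcd (k % p ^ m) (p ^ m)), hbez, zpow_add, zpow_mul, zpow_mul,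
          zpow_natCast, zpow_natCast]
      rw [e, hg, one_zpow, mul_one]
      exact (MulAction.stabilizer G (h • B)).zpow_mem hkS _
    obtain ⟨i, hi, hgi⟩ := (Nat.dvd_prime_pow hp).mp (Nat.gcd_dvd_right (k % p ^ m) (p ^ m))
    have hi' : i ≤ m - 1 := by
      by_contra hcon
      have him : i = m := by omega
      rw [him] at hgi
      have h4 : p ^ m ∣ k % p ^ m := by
        have h5 := Nat.gcd_dvd_left (k % p ^ m) (p ^ m)
        rw [hgi] at h5; exact h5
      have := Nat.le_of_dvd (Nat.pos_of_ne_zero hk'0) h4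
      omega
    have hzS : g ^ (p ^ (m - 1)) ∈ MulAction.stabilizer G (h • B) := by
      have e : p ^ (m - 1) = p ^ i * p ^ (m - 1 - i) := by rw [← pow_add]; congr 1; omega
      rw [e, pow_mul, ← hgi]
      exact (MulAction.stabilizer G (h • B)).pow_mem hgcd _
    exact hzS
  let T : Subgroup G :=
    { carrier := {n | ∀ h : G, n • (h • B) = h • B}
      mul_mem' := by intro a b ha hb h; rw [mul_smul, hb h, ha h]
      one_mem' := by intro h; rw [one_smul]
      inv_mem' := by intro a ha h; rw [inv_smul_eq_iff, ha h] }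
  have hTn : T.Normal := by
    constructor
    intro n hn a h
    change (a * n * a⁻¹) • (h • B) = h • B
    have := hn (a⁻¹ * h)
    rw [mul_smul, mul_smul, ← mul_smul a⁻¹ h B, this, ← mul_smul, mul_inv_cancel_left]
  have hle : Subgroup.normalClosure ({g ^ (p ^ (m - 1))} : Set G) ≤ T :=
    Subgroup.normalClosure_le_normal (by
      intro n hn; rw [Set.mem_singleton_iff] at hn; rw [hn]; exact hz)
  intro htr
  obtain ⟨⟨n, hn⟩, hnx⟩ := htr.exists_smul_eq x w
  have hnB : n • B = B := by have := hle hn (1 : G); rwa [one_smul] at this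
  apply hw
  rw [← hnB]
  have h5 : n • x = w := hnx
  rw [← h5]
  exact Set.smul_mem_smul_set hx

end Apply

end Cfsg.Agent.Lib.Helper59.Schur
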