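import Mathlib
import Cfsg.Agent.Lib.Helper44.TPStmt
import Cfsg.Agent.Lib.Helper59.GenMULT2

/-!
# S5973 / MULTELT (call by helper44)

`main : OddOmega → MultElt`: the plus-form case of `GenMULT2.core`.
-/

set_option autoImplicit false

namespace Cfsg.Agent.Lib.Helper59.TPMULTELT

open Cfsg.Agent.Lib.Helper44.TPStmt

universe u

theorem main : OddOmega.{u} → MultElt.{u} := by
  intro hOdd F _ _ p _ _ d hd r _ hr2 hrp hev u hu1 hut hlt
  have hr : r.Prime := Fact.out
  have hrodd : Odd r := hr.odd_of_ne_two hr2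
  have hcard : Fintype.card (J d) = 2 * d := by
    simp [J]
    omega
  obtain ⟨x, hiso, hxr, -, hfix, hR⟩ := Cfsg.Agent.Lib.Helper59.GenMULT2.core F p
    (Cfsg.Agent.Lib.Helper44.NegPairs.plusQ d F) (Cfsg.Agent.Lib.Helper44.NegPairs.sep_plusQ d)
    r hr2 hrp hev u hu1 hut (by rw [hcard]; exact hlt)
  refine ⟨x, hOdd F d hd r hrodd x hiso hxr, hxr, ?_, ?_⟩
  · rw [hcard] at hfix
    exact hfix
  · intro R hStab hRfix hRts
    exact hR R hStab hRfix hRts

end Cfsg.Agent.Lib.Helper59.TPMULTELT
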