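import Mathlib
import Cfsg.Agent.Lib.Helper44.TSStmt
import Cfsg.Agent.Lib.Helper59.HypDERELT
import Cfsg.Agent.Lib.Helper38.HypBFE

set_option autoImplicit false

namespace Cfsg.Agent.Lib.Helper59.TSMULTELT

open Polynomial UniqueFactorizationMonoid Matrix QuadraticMap
open Cfsg.Agent.Lib.Helper40.RecipPoly Cfsg.Agent.Lib.Helper44.OCls2 Cfsg.Agent.Lib.Helper44.OCls3
open Cfsg.Agent.Lib.Helper37.HypStmt Cfsg.Agent.Lib.Helper37.HypStmt2 Cfsg.Agent.Lib.Helper44.TSStmt
open Cfsg.Agent.Lib.Helper37.HypCyc Cfsg.Agent.Lib.Helper44.QSpace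

universe u

section abstract

variable {F : Type*} [Field F] {V : Type*} [AddCommGroup V] [Module F V]

theorem aeval_restrict_coe (φ : Module.End F V) (E : Submodule F V) (hE : E ∈ φ.invtSubmodule)
    (f : F[X]) (v : E) :
    ((aeval (φ.restrict hE) f v : E) : V) = aeval φ f (v : V) := by
  induction f using Polynomial.induction_on' with
  | add a b ha hb =>
    rw [map_add, map_add, LinearMap.add_apply, LinearMap.add_apply, Submodule.coe_add, ha, hb]
  | monomial n a =>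
    rw [aeval_monomial, aeval_monomial, Module.End.mul_apply, Module.End.mul_apply,
      Module.algebraMap_end_apply, Module.algebraMap_end_apply, Submodule.coe_smul]
    congr 1
    induction n generalizing v with
    | zero => simp
    | succ n ih =>
      have e1 : ((φ.restrict hE) ^ (n + 1)) v = ((φ.restrict hE) ^ n) ((φ.restrict hE) v) := by
        rw [pow_succ, Module.End.mul_apply]
      have e2 : (φ ^ (n + 1)) (v : V) = (φ ^ n) (φ (v : V)) := by
        rw [pow_succ, Module.End.mul_apply]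
      rw [e1, e2, ih]
      rfl

theorem ker_aeval_invt (φ : Module.End F V) (f : F[X]) :
    LinearMap.ker (aeval φ f) ∈ φ.invtSubmodule := by
  rw [Module.End.mem_invtSubmodule]
  intro v hv
  rw [Submodule.mem_comap, LinearMap.mem_ker]
  rw [LinearMap.mem_ker] at hv
  have h1 : aeval φ (f * X) v = aeval φ f (φ v) := by
    rw [map_mul, aeval_X, Module.End.mul_apply]
  have h2 : aeval φ (X * f) v = φ (aeval φ f v) := by
    rw [map_mul, aeval_X, Module.End.mul_apply]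
  rw [← h1, mul_comm, h2, hv, map_zero]

theorem finrank_ker_le [FiniteDimensional F V] (φ : Module.End F V) (P ν : F[X])
    (hP : Irreducible P) (hcop : IsCoprime P ν) (hann : aeval φ (P * ν) = 0)
    (hsq : ¬ P * P ∣ φ.charpoly) :
    Module.finrank F (LinearMap.ker (aeval φ P)) ≤ P.natDegree := by
  obtain ⟨E, hEdef⟩ : ∃ E, E = LinearMap.ker (aeval φ P) := ⟨_, rfl⟩
  obtain ⟨E', hE'def⟩ : ∃ E', E' = LinearMap.ker (aeval φ ν) := ⟨_, rfl⟩
  have hE : E ∈ φ.invtSubmodule := hEdef ▸ ker_aeval_invt φ P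
  have hE' : E' ∈ φ.invtSubmodule := hE'def ▸ ker_aeval_invt φ ν
  have hc : IsCompl E E' := by
    constructor
    · rw [hEdef, hE'def]
      exact disjoint_ker_aeval_of_isCoprime φ hcop
    · rw [codisjoint_iff, hEdef, hE'def, sup_ker_aeval_eq_ker_aeval_mul_of_coprime φ hcop, hann,
        LinearMap.ker_zero]
  have hchar := Cfsg.Agent.Lib.Helper40.SSConj.charpoly_eq_mul φ E E' hE hE' hc
  obtain ⟨ψ, hψ⟩ : ∃ ψ : Module.End F E, ψ = φ.restrict hE := ⟨_, rfl⟩
  have hψP : ∀ v : E, aeval ψ P v = 0 := by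
    intro v
    apply Subtype.ext
    rw [hψ, aeval_restrict_coe]
    have h3 : ∀ z : V, z ∈ E → aeval φ P z = 0 := by
      intro z hz
      rw [hEdef] at hz
      exact LinearMap.mem_ker.mp hz
    exact h3 v v.2
  have hfac : ∀ Q : F[X], Irreducible Q → Q ∣ ψ.charpoly → P ∣ Q := by
    intro Q hQ hdvd
    obtain ⟨v, hv0, hv⟩ := Cfsg.Agent.Lib.Helper40.SSConj.exists_ker_of_dvd_charpoly ψ Q hQ hdvd
    by_contra hPQ
    obtain ⟨a, b, hab⟩ := (hP.coprime_iff_not_dvd).mpr hPQ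
    apply hv0
    have h3 : aeval ψ (a * P + b * Q) v = v := by rw [hab, map_one, Module.End.one_apply]
    rw [map_add, LinearMap.add_apply, map_mul, map_mul, Module.End.mul_apply,
      Module.End.mul_apply, hψP, hv, map_zero, map_zero, add_zero] at h3
    exact h3.symm
  have hdeg : ψ.charpoly.natDegree = Module.finrank F E := LinearMap.charpoly_natDegree ψ
  rw [← hEdef, ← hdeg]
  by_contra hlt
  push Not at hlt
  have hpos : 0 < ψ.charpoly.natDegree := by omega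
  obtain ⟨Q, hQ, hQd⟩ := exists_irreducible_of_natDegree_pos hpos
  obtain ⟨Q₁, hQ₁⟩ := (hfac Q hQ hQd).trans hQd
  have hQ₁0 : Q₁ ≠ 0 := by
    rintro rfl
    rw [mul_zero] at hQ₁
    exact (LinearMap.charpoly_monic ψ).ne_zero hQ₁
  have hpos1 : 0 < Q₁.natDegree := by
    rw [hQ₁, natDegree_mul hP.ne_zero hQ₁0] at hlt
    omega
  obtain ⟨Q', hQ', hQ'd⟩ := exists_irreducible_of_natDegree_pos hpos1
  have h4 : P ∣ Q₁ := (hfac Q' hQ' (hQ'd.trans ⟨P, by rw [hQ₁, mul_comm]⟩)).trans hQ'd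
  apply hsq
  rw [hchar, ← hψ, hQ₁]
  exact (mul_dvd_mul_left P h4).trans (dvd_mul_right _ _)

theorem no_ts [FiniteDimensional F V] (Q : QuadraticForm F V) (hS : Sep Q)
    (φ φ' : Module.End F V) (h1 : φ * φ' = 1) (h2 : φ' * φ = 1) (hφQ : ∀ v, Q (φ v) = Q v)
    (P ν : F[X]) (hP : Irreducible P) (a₀ : F) (ha₀ : a₀ ≠ 0)
    (hrev : P.reverse = C a₀ * P) (hcop : IsCoprime P ν) (hann : aeval φ (P * ν) = 0)
    (hsq : ¬ P * P ∣ φ.charpoly) (R : Submodule F V) (hR : ∀ v ∈ R, φ v ∈ R)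
    (hts : ∀ v ∈ R, Q v = 0) (w : V) (hwR : w ∈ R) (hw0 : w ≠ 0) (hPw : aeval φ P w = 0)
    (hdim : P.natDegree ≤ Module.finrank F (cyc φ w)) : False := by
  have hKE : cyc φ w ≤ LinearMap.ker (aeval φ P) :=
    fun v hv => LinearMap.mem_ker.mpr (cyc_ker φ P hPw hv)
  have hEle := finrank_ker_le φ P ν hP hcop hann hsq
  have hEq : cyc φ w = LinearMap.ker (aeval φ P) :=
    Submodule.eq_of_le_of_finrank_le hKE (hEle.trans hdim)
  have hER : LinearMap.ker (aeval φ P) ≤ R := hEq ▸ cyc_le φ R hR hwR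
  apply hw0
  apply hS
  intro y
  have hy : y ∈ LinearMap.ker (aeval φ P) ⊔ LinearMap.ker (aeval φ ν) := by
    rw [sup_ker_aeval_eq_ker_aeval_mul_of_coprime φ hcop, hann, LinearMap.ker_zero]
    trivial
  obtain ⟨y₁, hy₁, y₂, hy₂, rfl⟩ := Submodule.mem_sup.mp hy
  rw [polar_add_right]
  have e1 : polar Q w y₁ = 0 := by
    unfold polar
    rw [hts _ (R.add_mem hwR (hER hy₁)), hts _ hwR, hts _ (hER hy₁)]
    simp
  have e2 : polar Q w y₂ = 0 :=
    Cfsg.Agent.Lib.Helper38.HypBFE.orth Q φ φ' h1 h2 hφQ P ν a₀ ha₀ hrev hcop w y₂ hPw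
      (LinearMap.mem_ker.mp hy₂)
  rw [e1, e2, add_zero]

end abstract

theorem main : MultElt.{u} := by
  classical
  intro F _ _ p _ _ hodd d hd r _ hr2 hrp hev u hu1 hut hiu
  have hr : r.Prime := Fact.out
  have hp : p.Prime := Fact.out
  have hrodd : Odd r := hr.odd_of_ne_two hr2
  obtain ⟨i, hi⟩ : ∃ i, i = orderOf ((Fintype.card F : ℕ) : ZMod r) := ⟨_, rfl⟩
  rw [← hi] at hev hut hiu ⊢
  obtain ⟨hipos, hidvd⟩ := Cfsg.Agent.Lib.Helper59.HypDERELT.order_facts F p r hr hrp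
  rw [← hi] at hipos hidvd
  obtain ⟨t, ht'⟩ := hidvd
  have ht : t * i = r - 1 := by rw [ht', mul_comm]
  have hut' : u ≤ t := by
    have h3 : (r - 1) / i = t := by
      rw [← ht]
      exact Nat.mul_div_cancel t hipos
    rwa [h3] at hut
  have hr0 : (r : F) ≠ 0 := by
    rw [Ne, CharP.cast_eq_zero_iff F p]
    intro h
    exact hrp ((Nat.prime_dvd_prime_iff_eq hp hr).mp h).symm
  obtain ⟨S0, hS0card, hLS0, hS0p, hS0dvd⟩ :=
    Cfsg.Agent.S2568.cyclo_facts (F := F) (p := p) r i t hr hrp hi ht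
  obtain ⟨T, hTS, hTcard⟩ := Finset.exists_subset_card_eq (hS0card.symm ▸ hut' : u ≤ S0.card)
  have hXr0 : (X ^ r - C (1 : F)).coeff 0 ≠ 0 := by
    rw [coeff_sub, coeff_X_pow, coeff_C_zero, if_neg hr.ne_zero.symm, zero_sub]
    exact neg_ne_zero.mpr one_ne_zero
  have hTprop : ∀ P ∈ T.val, P ∈ S0 := fun P hP => hTS (Finset.mem_val.mp hP)
  have hPdvd : ∀ P ∈ S0, P ∣ X ^ r - C (1 : F) := fun P hP =>
    (hS0dvd P (hS0p P hP).1 (hS0p P hP).2.1).mpr (Or.inr hP)
  have hS' : ∀ P ∈ S0, Irreducible P ∧ P.Monic ∧ P.natDegree = i ∧ P.coeff 0 ≠ 0 := by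
    intro P hP
    obtain ⟨h1, h2, h3⟩ := hS0p P hP
    exact ⟨h1, h2, h3, coeff0_of_dvd (hPdvd P hP) hXr0⟩
  have hPne : ∀ P ∈ S0, P ≠ X - C 1 := fun P hP h => hLS0 (h ▸ hP)
  have hPstar : ∀ P ∈ S0, rstar (RingHom.id F) P = P := fun P hP =>
    Cfsg.Agent.Lib.Helper5.SPSELFREC.main F p r hr hrp P (hS0p P hP).1 (hS0p P hP).2.1
      (hPdvd P hP) (hPne P hP) ((hS0p P hP).2.2 ▸ hev)
  obtain ⟨c, hc⟩ : ∃ c : F[X], c = T.val.prod := ⟨_, rfl⟩
  obtain ⟨hcm, hcdeg, hc0, hcL⟩ := prod_facts S0 i hS' hLS0 T.val hTprop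
  rw [← hc] at hcm hcdeg hc0 hcL
  have hcdeg' : c.natDegree = i * u := by
    rw [hcdeg, ← Finset.card_def, hTcard]
  have hreal : Real r c := by
    rw [hc]
    have key : ∀ v : Multiset F[X], (∀ P ∈ v, P ∈ S0) → Real r v.prod := by
      intro v
      induction v using Multiset.induction_on with
      | empty =>
        intro _
        rw [Multiset.prod_zero]
        exact real_one r
      | cons P v ih =>
        intro hv
        rw [Multiset.prod_cons]
        have hPS := hv P (Multiset.mem_cons_self P v)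
        exact real_mul (real_irr p r hr hr2 hr0 P (hS0p P hPS).1 (hS0p P hPS).2.1 (hPne P hPS)
          (hPdvd P hPS) (hPstar P hPS)) (ih (fun P' hP' => hv P' (Multiset.mem_cons_of_mem hP')))
    exact key T.val hTprop
  obtain ⟨ι, _, _, s, N, hsc, hsr, hsN, hNdet⟩ := hreal
  have hcard : Fintype.card ι = i * u := by
    have h1 := Matrix.charpoly_natDegree_eq_dim s
    rw [hsc, hcdeg'] at h1
    exact h1.symm
  have hcardI : Fintype.card (I d) = 2 * d + 1 := by
    simp [I]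
    omega
  have h2 : (2 : F) ≠ 0 := Cfsg.Agent.Lib.Helper44.FinSq.two_ne_zero_of_odd_card hodd
  have hSQ : Sep (Cfsg.Agent.Lib.Helper44.NegPairs.oddQ d F) :=
    Cfsg.Agent.Lib.Helper44.NegPairs.sep_oddQ h2 d
  have hSN : Sep (Cfsg.Agent.Lib.Helper44.OExt.qN N) :=
    Cfsg.Agent.Lib.Helper44.OExt.sep_qN hNdet
  obtain ⟨k, hk⟩ : Even (i * u) := hev.mul_right u
  obtain ⟨j, hj⟩ := Cfsg.Agent.Lib.Helper44.OEmb.exists_embedding (F := F) k (ι → F)
    (Cfsg.Agent.Lib.Helper44.OExt.qN N) (I d → F) (Cfsg.Agent.Lib.Helper44.NegPairs.oddQ d F)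
    (by rw [Module.finrank_fintype_fun_eq_card, hcard]; omega)
    (by rw [Module.finrank_fintype_fun_eq_card, Module.finrank_fintype_fun_eq_card, hcard,
          hcardI]; omega) hSN hSQ
  obtain ⟨g, hgiso, hgcp, hgr⟩ := Cfsg.Agent.Lib.Helper44.OExt.exists_ext
    (Cfsg.Agent.Lib.Helper44.NegPairs.oddQ d F) N s hNdet hsN r hr.pos hsr j hj
    (by rw [hcard, hcardI]; omega)
  have hgrM : (g : Matrix (I d) (I d) F) ^ r = 1 := by
    rw [← Units.val_pow_eq_pow_val, hgr]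
    rfl
  have hLp : Prime (X - C (1 : F)) := (irreducible_X_sub_C 1).prime
  have hcne : c ≠ 0 := hcm.ne_zero
  have hgcp' : (g : Matrix (I d) (I d) F).charpoly = (X - C 1) ^ (2 * d + 1 - i * u) * c := by
    rw [hgcp, hsc, hcard, hcardI]
  have hfix : Module.finrank F ↥(Fx (g : Matrix (I d) (I d) F)) = 2 * d + 1 - i * u := by
    rw [Cfsg.Agent.Lib.Helper59.HypDERELT.finrank_Fx _ r hr0 hgrM, hgcp']
    have hne : (X - C (1 : F)) ^ (2 * d + 1 - i * u) * c ≠ 0 :=
      mul_ne_zero (pow_ne_zero _ (X_sub_C_ne_zero 1)) hcne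
    rw [rootMultiplicity_mul hne, rootMultiplicity_X_sub_C_pow]
    have h3 : rootMultiplicity 1 c = 0 := by
      apply rootMultiplicity_eq_zero
      intro hroot
      exact hcL (dvd_iff_isRoot.mpr hroot)
    rw [h3, add_zero]
  have hiu1 : 1 ≤ i * u := Nat.mul_pos hipos hu1
  have hg1 : g ≠ 1 := by
    intro h
    rw [h] at hfix
    have h3 : Fx ((1 : Matrix.GeneralLinearGroup (I d) F) : Matrix (I d) (I d) F) = ⊤ := by
      rw [eq_top_iff]
      intro v _
      rw [mem_Fx]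
      simp
    rw [h3, finrank_top, Module.finrank_fintype_fun_eq_card, hcardI] at hfix
    omega
  have hΩ : g ∈ Cfsg.Geo.omegaGL (Cfsg.quadFormOdd d F) := by
    obtain ⟨a, ha⟩ := hrodd
    obtain ⟨g', hg'⟩ : ∃ g' : ↥(Cfsg.isometryGroup F ⇑(Cfsg.Agent.Lib.Helper44.NegPairs.oddQ d F)),
        g' = ⟨g, hgiso⟩ := ⟨_, rfl⟩
    have hg'r : g' ^ r = 1 := by
      apply Subtype.ext
      rw [Subgroup.coe_pow, hg']
      exact hgr
    have hsq : g' = g' ^ (a + 1) * g' ^ (a + 1) := by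
      rw [← pow_add]
      have h3 : a + 1 + (a + 1) = r + 1 := by omega
      rw [h3, pow_succ, hg'r, one_mul]
    have hmem : g' ∈ Cfsg.Omega F ⇑(Cfsg.Agent.Lib.Helper44.NegPairs.oddQ d F) := by
      rw [hsq]
      exact Cfsg.Agent.Lib.Helper14.OrthIndex.sq_mem_omega h2
        (Cfsg.Agent.Lib.Helper44.NegPairs.oddQ d F) hSQ (by rw [hcardI]; omega) _
    exact Subgroup.mem_map.mpr ⟨g', hmem, by rw [hg']; rfl⟩
  refine ⟨g, hΩ, orderOf_eq_prime hgr hg1, hfix, ?_⟩
  intro R hStab hRfix hRts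
  by_contra hRne
  obtain ⟨v, hvR, hv0⟩ := Submodule.exists_mem_ne_zero_of_ne_bot hRne
  obtain ⟨φ, hφ⟩ : ∃ φ : Module.End F (I d → F),
      φ = Matrix.toLin' (g : Matrix (I d) (I d) F) := ⟨_, rfl⟩
  obtain ⟨φ', hφ'⟩ : ∃ φ' : Module.End F (I d → F),
      φ' = Matrix.toLin' ((g⁻¹ : Matrix.GeneralLinearGroup (I d) F) : Matrix (I d) (I d) F) :=
    ⟨_, rfl⟩
  have hi1 : φ * φ' = 1 := by
    rw [hφ, hφ', Module.End.mul_eq_comp, ← Matrix.toLin'_mul, Units.mul_inv, Matrix.toLin'_one]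
    rfl
  have hi2 : φ' * φ = 1 := by
    rw [hφ, hφ', Module.End.mul_eq_comp, ← Matrix.toLin'_mul, Units.inv_mul, Matrix.toLin'_one]
    rfl
  have hφR : ∀ y ∈ R, φ y ∈ R := by
    intro y hy
    rw [hφ]
    exact hStab (Submodule.mem_map_of_mem hy)
  have hφQ : ∀ y, (Cfsg.Agent.Lib.Helper44.NegPairs.oddQ d F) (φ y)
      = (Cfsg.Agent.Lib.Helper44.NegPairs.oddQ d F) y := by
    intro y
    rw [hφ, Matrix.toLin'_apply]
    exact hgiso y y
  have hφr : φ ^ r = 1 := by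
    have h3 : φ = Matrix.toLinAlgEquiv' (g : Matrix (I d) (I d) F) := hφ
    rw [h3, ← map_pow, hgrM, map_one]
  have hφcp : φ.charpoly = (X - C 1) ^ (2 * d + 1 - i * u) * c := by
    rw [hφ, Matrix.charpoly_toLin', hgcp']
  have hfree : ∀ y ∈ R, φ y = y → y = 0 := by
    intro y hy hfy
    have h3 : y ∈ R ⊓ Fx (g : Matrix (I d) (I d) F) := by
      refine ⟨hy, (mem_Fx _ _).mpr ?_⟩
      rw [← Matrix.toLin'_apply, ← hφ]
      exact hfy
    rw [hRfix] at h3
    exact (Submodule.mem_bot F).mp h3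
  have hkill : ∀ y ∈ R, aeval φ c y = 0 := by
    intro y hy
    have hCH : aeval φ φ.charpoly = 0 := LinearMap.aeval_self_charpoly φ
    have hpow : ∀ (a : ℕ) (z : I d → F), z ∈ R →
        aeval φ ((X - C (1 : F)) ^ a) z = 0 → z = 0 := by
      intro a
      induction a with
      | zero =>
        intro z _ hz
        rwa [pow_zero, map_one, Module.End.one_apply] at hz
      | succ a ih =>
        intro z hzR hz
        rw [pow_succ, map_mul, Module.End.mul_apply] at hz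
        have hz1 : aeval φ (X - C (1 : F)) z ∈ R := aeval_mem φ R hφR _ hzR
        have hz2 := ih _ hz1 hz
        rw [map_sub, aeval_X, aeval_C, map_one, LinearMap.sub_apply, Module.End.one_apply,
          sub_eq_zero] at hz2
        exact hfree z hzR hz2
    apply hpow (2 * d + 1 - i * u) _ (aeval_mem φ R hφR c hy)
    rw [← Module.End.mul_apply, ← map_mul, ← hφcp, hCH]
    rfl
  obtain ⟨P, hPT, g', hg'0, hg'P⟩ := exists_factor φ T.val v hv0 (hc ▸ hkill v hvR)
  obtain ⟨w, hw⟩ : ∃ w, w = aeval φ g' v := ⟨_, rfl⟩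
  rw [← hw] at hg'0 hg'P
  have hwR : w ∈ R := hw ▸ aeval_mem φ R hφR g' hvR
  have hPS0 := hTprop P hPT
  obtain ⟨hPirr, hPm, hPdeg⟩ := hS0p P hPS0
  have hdim : P.natDegree ≤ Module.finrank F (cyc φ w) := by
    rw [hPdeg]
    have hpos : 0 < Module.finrank F ↥(cyc φ w) :=
      Module.finrank_pos_iff_exists_ne_zero.mpr
        ⟨⟨w, self_mem_cyc φ w⟩, fun h => hg'0 (congrArg Subtype.val h)⟩
    have hStabK : Stab (g : Matrix (I d) (I d) F) (cyc φ w) := by
      rintro _ ⟨y, hy, rfl⟩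
      show Matrix.toLin' (g : Matrix (I d) (I d) F) y ∈ cyc φ w
      rw [← hφ]
      exact cyc_map φ w hy
    have hKfix : cyc φ w ⊓ Fx (g : Matrix (I d) (I d) F) = ⊥ :=
      eq_bot_iff.mpr (le_trans (inf_le_inf_right _ (cyc_le φ R hφR hwR)) (le_of_eq hRfix))
    have hdvd := Cfsg.Agent.Lib.Helper82.HypINVDIM.main F p d r hrp g hgr _ hStabK hKfix
    rw [← hi] at hdvd
    exact Nat.le_of_dvd hpos hdvd
  obtain ⟨ν, hν⟩ := hPdvd P hPS0
  have hsqf : Squarefree (X ^ r - C (1 : F)) :=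
    (separable_X_pow_sub_C (1 : F) hr0 one_ne_zero).squarefree
  have hcop : IsCoprime P ν := by
    rw [hPirr.coprime_iff_not_dvd]
    intro hdvd
    have h3 : P * P ∣ X ^ r - C (1 : F) := by
      rw [hν]
      exact mul_dvd_mul_left P hdvd
    exact hPirr.not_isUnit (hsqf P h3)
  have hann : aeval φ (P * ν) = 0 := by
    rw [← hν, map_sub, map_pow, aeval_X, aeval_C, map_one, hφr, sub_self]
  have hsq : ¬ P * P ∣ φ.charpoly := by
    rw [hφcp]
    intro hdvd
    have h0 : IsCoprime P (X - C (1 : F)) := by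
      rw [hPirr.coprime_iff_not_dvd]
      intro h
      exact hPne P hPS0 (eq_of_monic_of_associated hPm (monic_X_sub_C 1)
        (hPirr.associated_of_dvd (irreducible_X_sub_C 1) h))
    have hcopL : IsCoprime (P * P) ((X - C (1 : F)) ^ (2 * d + 1 - i * u)) :=
      (h0.mul_left h0).pow_right
    have h5 : P * P ∣ c := hcopL.dvd_of_dvd_mul_left hdvd
    rw [hc, ← Multiset.cons_erase hPT, Multiset.prod_cons] at h5
    have h6 : P ∣ (T.val.erase P).prod := (mul_dvd_mul_iff_left hPirr.ne_zero).mp h5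
    obtain ⟨P', hP', hPP'⟩ := hPirr.prime.exists_mem_multiset_dvd h6
    have hP'S := hTprop P' (Multiset.mem_of_mem_erase hP')
    have h7 : P = P' := eq_of_monic_of_associated hPm (hS0p P' hP'S).2.1
      (hPirr.associated_of_dvd (hS0p P' hP'S).1 hPP')
    rw [← h7] at hP'
    exact ((Multiset.Nodup.mem_erase_iff T.nodup).mp hP').1 rfl
  have hstar' : C (P.coeff 0)⁻¹ * P.reverse = P := by
    have h3 := hPstar P hPS0
    unfold rstar at h3
    rw [Polynomial.map_id, RingHom.id_apply] at h3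
    exact h3
  have ha0 : P.coeff 0 ≠ 0 := (hS' P hPS0).2.2.2
  have hrev : P.reverse = C (P.coeff 0) * P := by
    calc P.reverse = C (P.coeff 0) * (C (P.coeff 0)⁻¹ * P.reverse) := by
          rw [← mul_assoc, ← C_mul, mul_inv_cancel₀ ha0, C_1, one_mul]
      _ = C (P.coeff 0) * P := by rw [hstar']
  exact no_ts (Cfsg.Agent.Lib.Helper44.NegPairs.oddQ d F) hSQ φ φ' hi1 hi2 hφQ P ν hPirr
    (P.coeff 0) ha0 hrev hcop hann hsq R hφR (fun y hy => hRts y hy) w hwR hg'0 hg'P hdim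

end Cfsg.Agent.Lib.Helper59.TSMULTELT
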